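import Cfsg.Agent.FT
import Cfsg.Agent.H25.ClassSize
import Cfsg.Agent.H26.ClassSize
import Cfsg.Agent.H11.Three
import Cfsg.Agent.H11.Count
import Cfsg.Agent.H4.Frobenius

/-!
# Groups with no class size divisible by four are solvable
-/

set_option autoImplicit false

namespace Cfsg.Agent.H26

open Subgroup

universe u

/-- an involution has a fixed point in an action of degree not divisible by four, if there is no subgroup of index two -/
theorem exists_fixed_of_not_four_dvd {G : Type*} [Group G] [Finite G] (hno : ∀ H : Subgroup G, H.index ≠ 2)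
    {t : G} (ht : orderOf t = 2) (H : Subgroup G) (h4 : ¬ 4 ∣ H.index) : ∃ g : G, g⁻¹ * t * g ∈ H := by
  by_contra hc
  push Not at hc
  have hfree : ∀ a : G ⧸ H, t • a ≠ a := by
    intro a ha
    obtain ⟨g, rfl⟩ := QuotientGroup.mk_surjective a
    rw [MulAction.Quotient.smul_mk, eq_comm, QuotientGroup.eq] at ha
    exact hc g (by simpa [mul_assoc] using ha)
  have heven : 2 ∣ H.index := by
    by_contra h2
    have hP : IsPGroup 2 (zpowers t) := IsPGroup.of_card (n := 1) (by rw [Nat.card_zpowers, ht]; rfl)
    obtain ⟨a, ha⟩ := hP.nonempty_fixed_point_of_prime_not_dvd_card (G ⧸ H) h2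
    exact hfree a (ha ⟨t, mem_zpowers t⟩)
  obtain ⟨K, hK, -⟩ := H11.exists_index_two_of_fixed_point_free (α := G ⧸ H) (u := t)
    (by rw [← pow_two, ← ht, pow_orderOf_eq_one]) hfree (by
      change H.index % 4 = 2
      omega)
  exact hno K hK

theorem isSolvable_of_not_four_dvd (G : Type u) [Group G] [Finite G]
    (h : ∀ x : G, ¬ 4 ∣ (centralizer ({x} : Set G)).index) : Group.IsSolvable G := by
  refine H25.isSolvable_of_class (fun G _ => ∀ x : G, ¬ 4 ∣ (centralizer ({x} : Set G)).index) ?_ ?_ ?_ G h
  · intro G _ _ h N _ x hx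
    exact h x (hx.trans (H25.index_centralizer_normal_dvd N x))
  · intro G _ _ h N _ x hx
    obtain ⟨x, rfl⟩ := QuotientGroup.mk'_surjective N x
    exact h x (hx.trans (H25.index_centralizer_map_dvd _ (QuotientGroup.mk'_surjective N) x))
  · intro G _ _ h hs
    by_contra hns
    have hna : ¬ IsMulCommutative G := fun hc => hns (Group.isSolvable_of_comm fun a b => hc.is_comm.comm a b)
    obtain ⟨t, ht⟩ := exists_prime_orderOf_dvd_card' (G := G) 2 (FT.even_of_not_solvable hns).two_dvd
    have hno := H11.no_index_two_of_simple' hna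
    have : centralizer ({t} : Set G) = ⊤ := by
      apply H4.eq_top_of_forall_exists_conj_mem
      intro x
      obtain ⟨g, hg⟩ := exists_fixed_of_not_four_dvd hno ht _ (h x)
      refine ⟨g, ?_⟩
      rw [mem_cent] at hg ⊢
      calc g * x * g⁻¹ * t = g * (x * (g⁻¹ * t * g)) * g⁻¹ := by group
        _ = _ := by rw [← hg]; group
    have h1 := cent_eq_top_iff.1 this
    rw [H11.center_eq_bot_of_simple hna, mem_bot] at h1
    rw [h1, orderOf_one] at ht
    omega

end Cfsg.Agent.H26
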