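import Mathlib
import Cfsg.Agent.H26.DB12
import Cfsg.Agent.H1.Coprime
import Cfsg.Agent.H1.Frobenius

/-! Coprime bases of size two, XIII: solvable groups acting coprimely on arbitrary finite groups. -/

set_option autoImplicit false
set_option linter.unusedSectionVars false

namespace Cfsg.Agent.H26.DB

open Subgroup MulAction BT H1
open scoped Pointwise commutatorElement IsMulCommutative

theorem pgrp {A P : Type*} [Group A] [Finite A] [Group P] [Finite P] {r : ℕ} [hr : Fact r.Prime] (hP : IsPGroup r P)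
    (hs : Group.IsSolvable A) (ho : ¬ r ∣ Nat.card A) (φ : A →* MulAut P) :
    ∃ x y : P, ∀ a, φ a x = x → φ a y = y → φ a = 1 := by
  obtain ⟨d, hd⟩ := (hP.to_quotient (frattini P)).exists_card_eq
  obtain ⟨b, hb⟩ := (hP.to_subgroup (frattini P)).exists_card_eq
  have : IsMulCommutative (P ⧸ frattini P) := Normal.quotient_commutative_iff_commutator_le.2
    (have := hP.isNilpotent; H1.commutator_le_frattini)
  let _ : DistribMulAction A (Additive (P ⧸ frattini P)) :=
    { smul := fun a v => Additive.ofMul (quotAut (frattini P) (φ a) v.toMul)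
      one_smul := fun v => by change Additive.ofMul (quotAut _ (φ 1) _) = _; simp
      mul_smul := fun a b v => by change Additive.ofMul (quotAut _ (φ (a * b)) _) = _; rw [map_mul, map_mul]; rfl
      smul_zero := fun a => congrArg Additive.ofMul (map_one (quotAut (frattini P) (φ a)))
      smul_add := fun a v w => congrArg Additive.ofMul (map_mul (quotAut (frattini P) (φ a)) v.toMul w.toMul) }
  obtain ⟨v, w, h⟩ := base_cop (G := A) (V := Additive (P ⧸ frattini P)) hr.out hs ho fun v =>
    QuotientGroup.induction_on (C := fun v => v ^ r = 1) v.toMul fun x =>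
      (QuotientGroup.eq_one_iff (x ^ r)).2 (H1.pow_mem_frattini hP x)
  obtain ⟨x, hx⟩ := QuotientGroup.mk_surjective v.toMul
  obtain ⟨y, hy⟩ := QuotientGroup.mk_surjective w.toMul
  refine ⟨x, y, fun a h1 h2 => ?_⟩
  have k : φ a ∈ (quotAut (frattini P)).ker := MulEquiv.ext fun z => h a
    (by change Additive.ofMul (quotAut _ (φ a) v.toMul) = v; rw [← hx, quotAut_mk, h1, hx]; rfl)
    (by change Additive.ofMul (quotAut _ (φ a) w.toMul) = w; rw [← hy, quotAut_mk, h2, hy]; rfl) (Additive.ofMul z)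
  have k1 := (orderOf_dvd_natCard (⟨_, k⟩ : (quotAut (frattini P)).ker)).trans
    (card_dvd_of_frattini hP hd _ fun a ha => (mem_ker_quotAut _).1 ha)
  rw [orderOf_mk, hb, ← pow_mul] at k1
  exact orderOf_eq_one_iff.1 (Nat.eq_one_of_dvd_coprimes (((Nat.Prime.coprime_iff_not_dvd hr.out).2 ho).pow_left _) k1
    ((orderOf_map_dvd φ a).trans (orderOf_dvd_natCard a)))

theorem card_ge {α X : Type*} [PartialOrder α] [Fintype α] [DecidableLT α] [Finite X] (f : X → α) (D : α) :
    Nat.card {x // D ≤ f x} = Nat.card {x // f x = D} + ∑ E with D < E, Nat.card {x // f x = E} := by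
  classical
  have := Fintype.ofFinite X
  simp only [Nat.card_eq_fintype_card, Fintype.card_subtype]
  rw [← Finset.card_biUnion fun a _ b _ e => by
    simp only [Function.onFun, Finset.disjoint_filter]; exact fun x _ h h' => e (h.symm.trans h'),
    ← Finset.card_union_of_disjoint]
  · congr 1; ext x; simp [le_iff_eq_or_lt, eq_comm]
  · simp only [Finset.disjoint_left, Finset.mem_filter, Finset.mem_biUnion]
    rintro x ⟨-, rfl⟩ ⟨_, ⟨-, h⟩, -, rfl⟩
    exact h.false

theorem marks {α X Y : Type*} [PartialOrder α] [Finite α] [Finite X] [Finite Y] (f : X → α) (g : Y → α)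
    (h : ∀ D, Nat.card {x // D ≤ f x} = Nat.card {y // D ≤ g y}) (y : Y) : ∃ x, f x = g y := by
  classical
  have := Fintype.ofFinite α
  have k : ∀ D, Nat.card {x // f x = D} = Nat.card {y // g y = D} := fun D => by
    induction D using WellFoundedGT.induction with
    | _ D ih =>
    have := h D
    rw [card_ge f, card_ge g, Finset.sum_congr rfl fun E hE => ih E (Finset.mem_filter.1 hE).2] at this
    exact Nat.add_right_cancel this
  have : Nonempty {z // g z = g y} := ⟨⟨y, rfl⟩⟩
  obtain ⟨x, hx⟩ := (Nat.card_pos_iff.1 (Nat.card_pos.trans_eq (k (g y)).symm)).1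
  exact ⟨x, hx⟩

variable {G : Type*} [Group G] [Finite G]

theorem prod_syl {K L : Subgroup G} (hL : L ≤ K) (Q : (Nat.card K).primeFactors → Subgroup G)
    (hQ : ∀ r, IsSylowIn r.1 (Q r) L) : ∏ r, Nat.card (Q r) = Nat.card L := by
  rw [Finset.prod_congr rfl fun r _ => (have := Fact.mk (Nat.prime_of_mem_primeFactors r.2); (hQ r).card_eq_pow),
    Finset.prod_coe_sort _ fun r => r ^ (Nat.card L).factorization r,
    ← Finsupp.prod_of_support_subset _ (Nat.primeFactors_mono (card_dvd_of_le hL) Nat.card_pos.ne') _ fun _ _ => pow_zero _]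
  exact Nat.prod_factorization_pow_eq_self Nat.card_pos.ne'

theorem two_pts {A K : Subgroup G} (hAK : A ≤ normalizer (K : Set G)) (hcop : (Nat.card A).Coprime (Nat.card K))
    (hs : Group.IsSolvable A) : ∃ x ∈ K, ∃ y ∈ K, ∀ a ∈ A, x * a = a * x → y * a = a * y → a ∈ centralizer (K : Set G) := by
  have hp : ∀ r : (Nat.card K).primeFactors, Fact r.1.Prime := fun r => ⟨Nat.prime_of_mem_primeFactors r.2⟩
  choose P h1 h2 using fun r : (Nat.card K).primeFactors => exists_invariant_isSylowIn r hAK hcop (.inl hs)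
  have k : ∀ D ≤ A, ∏ r, Nat.card (P r ⊓ centralizer (D : Set G) :) = Nat.card (K ⊓ centralizer (D : Set G) :) :=
    fun D hD => prod_syl inf_le_left (fun r => P r ⊓ centralizer (D : Set G)) fun r => isSylowIn_inf_centralizer (hD.trans hAK)
      (hcop.coprime_dvd_left (card_dvd_of_le hD)) (.inl (solvable_of_solvable_injective (inclusion_injective hD)))
      (h1 r) (hD.trans (h2 r))
  choose x y hxy using fun r => pgrp (h1 r).isPGroup hs (fun d => (hp r).out.one_lt.ne' (Nat.eq_one_of_dvd_coprimes hcop d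
    (Nat.dvd_of_mem_primeFactors r.2))) (conjHom (h2 r))
  have m := marks (fun x : K => A ⊓ centralizer {x.1}) (fun y : ∀ r, P r => A ⊓ ⨅ r, centralizer {(y r).1}) fun D => by
    by_cases hD : D ≤ A
    · rw [← Nat.card_congr (β := {x : K // D ≤ A ⊓ centralizer {x.1}}) (α := (K ⊓ centralizer (D : Set G) :))
        ⟨fun x => ⟨⟨x, x.2.1⟩, le_inf hD fun d hd => mem_centralizer_singleton_iff.2 (x.2.2 d hd)⟩,
         fun x => ⟨x.1, x.1.2, fun d hd => mem_centralizer_singleton_iff.1 (x.2 hd).2⟩, fun _ => rfl, fun _ => rfl⟩,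
        ← k D hD, ← Nat.card_pi]
      exact Nat.card_congr
        ⟨fun x => ⟨fun r => ⟨x r, (x r).2.1⟩, le_inf hD (le_iInf fun r d hd => mem_centralizer_singleton_iff.2 ((x r).2.2 d hd))⟩,
         fun x r => ⟨x.1 r, (x.1 r).2, fun d hd => mem_centralizer_singleton_iff.1 (mem_iInf.1 (x.2 hd).2 r)⟩,
         fun _ => rfl, fun _ => rfl⟩
    · rw [Nat.card_eq_zero.2 (.inl ⟨fun x => hD (x.2.trans inf_le_left)⟩),
        Nat.card_eq_zero.2 (.inl ⟨fun x => hD (x.2.trans inf_le_left)⟩)]
  obtain ⟨u, hu⟩ := m x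
  obtain ⟨v, hv⟩ := m y
  refine ⟨u, u.2, v, v.2, fun a ha h3 h4 => ?_⟩
  have e : ∀ r, P r ⊓ centralizer (zpowers a : Set G) = P r := fun r => inf_eq_left.2 (le_centralizer_iff.1 (zpowers_le.2
    fun z hz => (conjHom_eq_self_iff (h2 r) ⟨a, ha⟩ ⟨z, hz⟩).1 (by
      rw [hxy r ⟨a, ha⟩ ((conjHom_eq_self_iff _ _ _).2 (mem_centralizer_singleton_iff.1
        (mem_iInf.1 (hu.le ⟨ha, mem_centralizer_singleton_iff.2 h3.symm⟩).2 r)).symm) ((conjHom_eq_self_iff _ _ _).2
        (mem_centralizer_singleton_iff.1 (mem_iInf.1 (hv.le ⟨ha, mem_centralizer_singleton_iff.2 h4.symm⟩).2 r)).symm)]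
      rfl)))
  have k1 := k _ (zpowers_le.2 ha)
  rw [Finset.prod_congr rfl fun r _ => congrArg (fun X : Subgroup G => Nat.card X) (e r), prod_syl le_rfl P h1] at k1
  exact zpowers_le.1 (le_centralizer_iff.1 (inf_eq_left.1 (eq_of_le_of_card_ge inf_le_left k1.le)))

end Cfsg.Agent.H26.DB
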