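import Mathlib
import Cfsg.Agent.H12.MaxU
import Cfsg.Agent.H26.MD1

/-! Orbits of the Heisenberg group of an isotropic point in a unitary or symplectic group. -/

set_option autoImplicit false
set_option linter.unusedSectionVars false

namespace Cfsg.Agent.H26.MU

open Module H12 MD
open scoped Pointwise

section Orb
variable {G X U : Type*} [Group G] [MulAction G X] [Group U]

def RM (D : Subgroup U) (r : U → G) : Prop := ∀ a ∈ D, ∀ b ∈ D, r (a * b) = r a * r b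

def orm (D : Subgroup U) (r : U → G) (ω : X) : Set X := {y | ∃ w ∈ D, r w • ω = y}

variable {D : Subgroup U} {r : U → G}

def RM.hom (h : RM D r) : D →* G := MonoidHom.mk' (fun a => r a) fun a b => h _ a.2 _ b.2

theorem RM.one (h : RM D r) : r 1 = 1 := h.hom.map_one
theorem RM.inv (h : RM D r) {a : U} (ha : a ∈ D) : r a⁻¹ = (r a)⁻¹ := h.hom.map_inv ⟨a, ha⟩

def RM.St (h : RM D r) (ω : X) : Subgroup U where
  carrier := {w | w ∈ D ∧ r w • ω = ω}
  one_mem' := ⟨D.one_mem, by rw [h.one, one_smul]⟩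
  mul_mem' := fun {a b} ha hb => ⟨D.mul_mem ha.1 hb.1, by rw [h a ha.1 b hb.1, mul_smul, hb.2, ha.2]⟩
  inv_mem' := fun {a} ha => ⟨D.inv_mem ha.1, by rw [h.inv ha.1, inv_smul_eq_iff, ha.2]⟩

theorem RM.self_mem (h : RM D r) (ω : X) : ω ∈ orm D r ω := ⟨1, D.one_mem, by rw [h.one, one_smul]⟩

theorem RM.orb_eq (h : RM D r) {ω y : X} (hy : y ∈ orm D r ω) : orm D r y = orm D r ω := by
  obtain ⟨a, ha, rfl⟩ := hy
  ext z
  constructor
  · rintro ⟨b, hb, rfl⟩
    exact ⟨b * a, D.mul_mem hb ha, by rw [h b hb a ha, mul_smul]⟩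
  · rintro ⟨b, hb, rfl⟩
    exact ⟨b * a⁻¹, D.mul_mem hb (D.inv_mem ha), by
      rw [h b hb _ (D.inv_mem ha), h.inv ha, mul_smul, inv_smul_smul]⟩

theorem RM.ncard_orb (h : RM D r) (ω : X) : (orm D r ω).ncard * Nat.card (h.St ω) = Nat.card D := by
  let := MulAction.compHom X h.hom
  have h1 : MulAction.orbit D ω = orm D r ω := by
    ext y
    exact ⟨fun ⟨a, e⟩ => ⟨_, a.2, e⟩, fun ⟨a, ha, e⟩ => ⟨⟨a, ha⟩, e⟩⟩
  have h2 : Nat.card (MulAction.stabilizer D ω) = Nat.card (h.St ω) :=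
    Nat.card_congr ⟨fun a => ⟨a.1.1, a.1.2, a.2⟩, fun a => ⟨⟨a.1, a.2.1⟩, a.2.2⟩, fun _ => rfl, fun _ => rfl⟩
  rw [← h1, ← h2, ← MulAction.index_stabilizer, Subgroup.index_mul_card]

theorem RM.sum_le [Finite X] (h : RM D r) (S : Finset (Set X)) (hS : ∀ O ∈ S, ∃ ω, orm D r ω = O) :
    ∑ O ∈ S, O.ncard ≤ Nat.card X := by
  classical
  have := Fintype.ofFinite X
  simp only [Set.ncard_eq_toFinset_card']
  rw [← Finset.card_biUnion, Nat.card_eq_fintype_card]
  · exact Finset.card_le_univ _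
  · intro O hO O' hO' hne
    obtain ⟨ω, rfl⟩ := hS O hO
    obtain ⟨ω', rfl⟩ := hS O' hO'
    exact Set.disjoint_toFinset.2 (Set.disjoint_left.2 fun z h1 h2 =>
      hne ((h.orb_eq h1).symm.trans (h.orb_eq h2)))

end Orb

class UC {F V : Type*} [Field F] [AddCommGroup V] [Module F V] {σ : F →+* F}
    (B : V →ₛₗ[σ] V →ₗ[F] F) : Prop where
  sd : SD B
  tr : ∃ d, d + σ d ≠ 0
  wt : σ = RingHom.id F ∨ 5 ≤ finrank F V
  four : 4 ≤ finrank F V

variable {F V : Type*} [Field F] [Finite F] [AddCommGroup V] [Module F V] [FiniteDimensional F V]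
  [Finite V] {σ : F →+* F} {B : V →ₛₗ[σ] V →ₗ[F] F} [hC : UC B]

local notation "Q" => Nat.card F
local notation "n" => finrank F V

abbrev KF (σ : F →+* F) : Subfield F := σ.eqLocusField (RingHom.id F)

theorem kf (c : KF σ) : σ c = c := c.2
theorem card_KF : Nat.card (KF σ) = q0 σ := rfl

variable (B) in
@[ext] structure Hb where
  u : V
  c : F
  h : c - σ c = B u u

instance : Group (Hb B) where
  mul a b := ⟨a.u + b.u, a.c + b.c + B a.u b.u, by
    simp only [map_add, LinearMap.add_apply, ← a.h, ← b.h, hC.sd.σ_map]; ring⟩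
  one := ⟨0, 0, by simp⟩
  inv a := ⟨-a.u, -σ a.c, by simp [hC.sd.invol, ← a.h]; ring⟩
  mul_assoc a b c := Hb.ext (add_assoc _ _ _) (by
    change a.c + b.c + B a.u b.u + c.c + B (a.u + b.u) c.u = a.c + (b.c + c.c + B b.u c.u) + B a.u (b.u + c.u)
    simp; ring)
  one_mul a := Hb.ext (zero_add _) (by change 0 + a.c + B 0 a.u = a.c; simp)
  mul_one a := Hb.ext (add_zero _) (by change a.c + 0 + B a.u 0 = a.c; simp)
  inv_mul_cancel a := Hb.ext (neg_add_cancel _) (by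
    change -σ a.c + a.c + B (-a.u) a.u = 0; simp [← a.h])

instance : Finite (Hb B) := Finite.of_injective (fun a => (a.u, a.c)) fun _ _ h =>
  Hb.ext (congrArg Prod.fst h) (congrArg Prod.snd h)

variable (B) in
def zz (c : KF σ) : Hb B := ⟨0, c, by simp [kf]⟩

def pr (T : Subgroup (Hb B)) : AddSubgroup V where
  carrier := {u | ∃ a ∈ T, a.u = u}
  zero_mem' := ⟨1, T.one_mem, rfl⟩
  add_mem' := by rintro _ _ ⟨a, ha, rfl⟩ ⟨b, hb, rfl⟩; exact ⟨a * b, T.mul_mem ha hb, rfl⟩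
  neg_mem' := by rintro _ ⟨a, ha, rfl⟩; exact ⟨a⁻¹, T.inv_mem ha, rfl⟩

def zc (T : Subgroup (Hb B)) : AddSubgroup (KF σ) where
  carrier := {c | zz B c ∈ T}
  zero_mem' := T.one_mem
  add_mem' := fun {a b} ha hb => by
    have : zz B (a + b) = zz B a * zz B b := Hb.ext (add_zero 0).symm (by
      change a.1 + b.1 = a + b + B 0 0; simp)
    show zz B _ ∈ T
    rw [this]; exact T.mul_mem ha hb
  neg_mem' := fun {a} ha => by
    have : zz B (-a) = (zz B a)⁻¹ := Hb.ext neg_zero.symm (congrArg Neg.neg (kf a).symm)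
    show zz B _ ∈ T
    rw [this]; exact T.inv_mem ha

theorem card_T (T : Subgroup (Hb B)) : Nat.card T = Nat.card (pr T) * Nat.card (zc T) := by
  let φ : T →* Multiplicative V := MonoidHom.mk' (fun a => Multiplicative.ofAdd a.1.u) fun _ _ => rfl
  rw [card_eq_card_range_mul_card_ker φ]
  congr 1
  · exact Nat.card_congr (Equiv.subtypeEquiv Multiplicative.toAdd fun x =>
      ⟨fun ⟨a, e⟩ => ⟨a.1, a.2, e⟩, fun ⟨a, ha, e⟩ => ⟨⟨a, ha⟩, e⟩⟩)
  · symm
    refine Nat.card_congr (Equiv.ofBijective (fun c => ⟨⟨zz B c.1, c.2⟩, rfl⟩) ⟨fun a b e => ?_, fun a => ?_⟩)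
    · exact Subtype.ext (Subtype.ext (congrArg (fun x : φ.ker => x.1.1.c) e))
    · have h : a.1.1.u = 0 := a.2
      have h' : σ a.1.1.c = a.1.1.c := by have := a.1.1.h; rw [h] at this; simp at this; linear_combination -this
      have e : zz B ⟨a.1.1.c, h'⟩ = a.1.1 := Hb.ext h.symm rfl
      exact ⟨⟨⟨_, h'⟩, show zz B _ ∈ T by rw [e]; exact a.1.2⟩, Subtype.ext (Subtype.ext e)⟩

variable (B) in
def HD (D : Submodule F V) : Subgroup (Hb B) where
  carrier := {a | a.u ∈ D}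
  one_mem' := D.zero_mem
  mul_mem' := D.add_mem
  inv_mem' := D.neg_mem

theorem card_sub (W : Submodule F V) : Nat.card W = Q ^ finrank F W := Module.natCard_eq_pow_finrank

theorem card_HD (D : Submodule F V) : Nat.card (HD B D) = Q ^ finrank F D * q0 σ := by
  rw [card_T, ← card_sub, ← card_KF, ← AddSubgroup.card_top (G := KF σ)]
  congr 1
  · refine Nat.card_congr (Equiv.subtypeEquivRight fun x => ⟨?_, fun h => ?_⟩)
    · rintro ⟨a, ha, rfl⟩; exact ha
    · obtain ⟨d, hd⟩ := hC.sd.trace x; exact ⟨⟨x, d, hd⟩, h, rfl⟩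
  · exact Nat.card_congr (Equiv.subtypeEquivRight fun x => iff_of_true D.zero_mem trivial)

variable (B) in
noncomputable def rh (e : V) (a : Hb B) : SUG B := hC.sd.rhoS e a.u a.c

variable (B) in
noncomputable def tt (e : V) (c : KF σ) : SUG B := rh B e (zz B c)

theorem g_def (g : SUG B) (x : V) : g • x = g.1.1 x := rfl
@[simp] theorem Bg (g : SUG B) (x y : V) : B (g • x) (g • y) = B x y := UG_map _ _ _
theorem g_smul (g : SUG B) (c : F) (x : V) : g • c • x = c • g • x := map_smul g.1.1 c x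
theorem Bg_left (g : SUG B) (x y : V) : B (g • x) y = B x (g⁻¹ • y) := by
  rw [← Bg g x, smul_inv_smul]
theorem g_ne (g : SUG B) {x : V} (hx : x ≠ 0) : g • x ≠ 0 := fun h => hx ((smul_eq_zero_iff_eq g).1 h)
theorem g_notMem (g : SUG B) {p x : V} (hx : x ∉ F ∙ p) : g • x ∉ F ∙ (g • p) := fun h => by
  obtain ⟨c, hc⟩ := Submodule.mem_span_singleton.1 h
  exact hx (Submodule.mem_span_singleton.2 ⟨c, by rwa [← g_smul, smul_left_cancel_iff] at hc⟩)
theorem c0 {x y : V} (h : B x y = 0) : B y x = 0 := hC.sd.comm0 h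
theorem n0 {x y : V} (h : B x y ≠ 0) : B y x ≠ 0 := hC.sd.ne0 h

theorem rh_apply {e : V} {a : Hb B} (he : B e e = 0) (h : B e a.u = 0) (x : V) :
    rh B e a • x = x + B e x • a.u + (a.c * B e x + B a.u x) • e := rho_apply hC.sd ⟨he, h, a.h⟩ x
theorem rh_perp {e x : V} {a : Hb B} (he : B e e = 0) (h : B e a.u = 0) (hx : B e x = 0) :
    rh B e a • x = x + B a.u x • e := by simp [rh_apply he h, hx]
theorem rh_fix {e x : V} {a : Hb B} (hx : B e x = 0) (hx' : B a.u x = 0) : rh B e a • x = x :=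
  rho_apply_of_perp hC.sd _ hx hx'
theorem rh_self (e : V) (a : Hb B) : rh B e a • e = e := rho_apply_self hC.sd _ _ _
theorem tt_apply {e : V} (he : B e e = 0) (c : KF σ) (x : V) : tt B e c • x = x + (c * B e x) • e :=
  tv_apply hC.sd he (kf c) x
theorem tt_fix {e x : V} (c : KF σ) (hx : B e x = 0) : tt B e c • x = x := rh_fix hx (by simp [zz])

noncomputable def gH (g : SUG B) (a : Hb B) : Hb B := ⟨g • a.u, a.c, by simp [a.h]⟩
def sH (t : F) (a : Hb B) : Hb B := ⟨t • a.u, a.c * (t * σ t), by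
  simp [hC.sd.invol, ← a.h]; ring⟩
variable (σ) in
def nm (h : ∀ a, σ (σ a) = a) (t : F) : KF σ := ⟨t * σ t, by simp [h, mul_comm]⟩

theorem conj_rh (g : SUG B) (e : V) (a : Hb B) : g * rh B e a * g⁻¹ = rh B (g • e) (gH g a) :=
  Subtype.ext (conj_rho hC.sd g.1 _ _ _)
theorem conj_tt (g : SUG B) (e : V) (c : KF σ) : g * tt B e c * g⁻¹ = tt B (g • e) c :=
  Subtype.ext (conj_tv hC.sd g.1 _ _)
theorem rh_smul {e : V} {a : Hb B} (he : B e e = 0) (h : B e a.u = 0) (t : F) :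
    rh B (t • e) a = rh B e (sH (σ t) a) := Subtype.ext (by
  simpa [rh, sH, hC.sd.invol, mul_comm] using rho_smul hC.sd ⟨he, h, a.h⟩ t)
theorem tt_smul {e : V} (he : B e e = 0) (t : F) (c : KF σ) :
    tt B (t • e) c = tt B e (c * nm σ hC.sd.invol t) := Subtype.ext (tv_smul hC.sd he (kf c) t)
theorem rh_mul {e : V} {a b : Hb B} (ha : B e a.u = 0) (hb : B e b.u = 0) :
    rh B e (a * b) = rh B e a * rh B e b := Subtype.ext (by
  by_cases he : B e e = 0
  · exact (rho_mul hC.sd ⟨he, ha, a.h⟩ ⟨he, hb, b.h⟩).symm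
  · simp [rh, rho_of_not fun h : Adm B e _ _ => he h.ee])

theorem rm (e : V) {D : Submodule F V} (h : ∀ w ∈ D, B e w = 0) : RM (HD B D) (rh B e) :=
  fun _ ha _ hb => rh_mul (h _ ha) (h _ hb)

variable (B) in
abbrev P1 (e : V) : Submodule F V := sperp B (F ∙ e)

variable (B) in
theorem rm1 (e : V) : RM (HD B (P1 B e)) (rh B e) := rm e fun _ => mem_sperp_singleton.1

variable (B) in
def tr : V →ₗ[KF σ] V →ₗ[KF σ] KF σ :=
  LinearMap.mk₂ _ (fun u v => ⟨B u v + σ (B u v), by simp [hC.sd.invol, add_comm]⟩)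
    (fun _ _ _ => Subtype.ext (by simp; ring))
    (fun c _ _ => Subtype.ext (by simp [Subfield.smul_def, kf]; ring))
    (fun _ _ _ => Subtype.ext (by simp; ring))
    (fun c _ _ => Subtype.ext (by simp [Subfield.smul_def, kf]; ring))

theorem tr_coe (u v : V) : (tr B u v : F) = B u v + σ (B u v) := rfl

variable (B) in
include hC in
theorem eq_zero_of_tr {b : F} (h : ∀ t, t * b + σ (t * b) = 0) : b = 0 := by
  by_contra hb
  obtain ⟨d, hd⟩ := hC.tr
  exact hd (by simpa [hb] using h (d / b))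

theorem htr (w : V) (h : ∀ x, tr B x w = 0) : w = 0 := hC.sd.sep w fun y => c0 <|
  eq_zero_of_tr B fun t => by
    simpa [tr_coe, hC.sd.invol, map_mul] using congrArg Subtype.val (h (σ t • y))

theorem comm_mem {T : Subgroup (Hb B)} {u v : V} (hu : u ∈ pr T) (hv : v ∈ pr T) : tr B u v ∈ zc T := by
  obtain ⟨a, ha, rfl⟩ := hu
  obtain ⟨b, hb, rfl⟩ := hv
  have : zz B (tr B a.u b.u) = a * b * (b * a)⁻¹ := by
    rw [eq_mul_inv_iff_mul_eq]
    refine Hb.ext (by change 0 + (b.u + a.u) = a.u + b.u; abel) ?_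
    change B a.u b.u + σ (B a.u b.u) + (b.c + a.c + B b.u a.u) + B 0 _ = a.c + b.c + B a.u b.u
    simp [hC.sd.σ_map]; ring
  show zz B _ ∈ T
  rw [this]; exact T.mul_mem (T.mul_mem ha hb) (T.inv_mem (T.mul_mem hb ha))

theorem iso_card {T : AddSubgroup V} {c : KF σ} (hc : c ≠ 0)
    (h : ∀ a ∈ T, ∀ b ∈ T, psi _ (c * tr B a b) = 1) : Nat.card T * Nat.card T ≤ Q ^ n := by
  rw [← Module.natCard_eq_pow_finrank, ← card_Ann (htr (B := B)) T]
  refine Nat.mul_le_mul_right _ (Nat.card_le_card_of_injective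
    (fun a => ⟨c • a.1, fun b hb => by simpa using h a a.2 b hb⟩) fun a b e => ?_)
  exact Subtype.ext (smul_right_injective V hc (congrArg Subtype.val e))

variable {X : Type*} [MulAction (SUG B) X] [Finite X]

variable (B) in
abbrev ob (e : V) (ω : X) : Set X := orm (HD B (P1 B e)) (rh B e) ω
variable (B) in
noncomputable def SS (e : V) (ω : X) : AddSubgroup V := pr ((rm1 B e).St ω)
variable (B) in
noncomputable def ZZ (e : V) (ω : X) : AddSubgroup (KF σ) := zc ((rm1 B e).St ω)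
variable (B) in
noncomputable def GG (e : V) (ω : X) : AddSubgroup (KF σ) := Ann (LinearMap.mul _ _) (ZZ B e ω)

theorem mem_SS {e u : V} {ω : X} : u ∈ SS B e ω ↔ B e u = 0 ∧ ∃ a : Hb B, a.u = u ∧ rh B e a • ω = ω :=
  ⟨by rintro ⟨a, ha, rfl⟩; exact ⟨mem_sperp_singleton.1 ha.1, a, rfl, ha.2⟩,
    by rintro ⟨h, a, rfl, h'⟩; exact ⟨a, ⟨mem_sperp_singleton.2 h, h'⟩, rfl⟩⟩
theorem mem_ZZ {e : V} {c : KF σ} {ω : X} : c ∈ ZZ B e ω ↔ tt B e c • ω = ω :=
  and_iff_right (P1 B e).zero_mem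
theorem mem_GG {e : V} {a : KF σ} {ω : X} : a ∈ GG B e ω ↔ ∀ c ∈ ZZ B e ω, psi _ (a * c) = 1 := Iff.rfl

theorem card_GG (e : V) (ω : X) : Nat.card (GG B e ω) * Nat.card (ZZ B e ω) = q0 σ :=
  card_Ann (fun w h => by simpa using h 1) _

theorem finrank_P1 {e : V} (he : e ≠ 0) : finrank F (P1 B e) = n - 1 := by
  have := hC.sd.finrank_sperp (F ∙ e)
  rw [finrank_span_singleton he] at this
  exact Nat.eq_sub_of_add_eq this

theorem card_ob {e : V} (he : e ≠ 0) (ω : X) :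
    (ob B e ω).ncard * Nat.card (SS B e ω) = Q ^ (n - 1) * Nat.card (GG B e ω) := by
  have := (rm1 B e).ncard_orb ω
  rw [card_T, card_HD, finrank_P1 he, ← card_GG (B := B) e ω, ← mul_assoc, ← mul_assoc] at this
  exact Nat.eq_of_mul_eq_mul_right Nat.card_pos this

theorem iso_SS {e : V} {ω : X} {a : KF σ} (ha : a ∈ GG B e ω) {u v : V} (hu : u ∈ SS B e ω)
    (hv : v ∈ SS B e ω) : psi _ (a * tr B u v) = 1 := ha _ (comm_mem hu hv)

theorem card_SS {e : V} {ω : X} {a : KF σ} (ha : a ∈ GG B e ω) (h0 : a ≠ 0) :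
    Nat.card (SS B e ω) * Nat.card (SS B e ω) ≤ Q ^ n := iso_card h0 fun _ hu _ hv => iso_SS ha hu hv

theorem g_mem_SS (g : SUG B) {e u : V} {ω : X} : g • u ∈ SS B (g • e) (g • ω) ↔ u ∈ SS B e ω := by
  have : ∀ (g : SUG B) {e u : V} {ω : X}, u ∈ SS B e ω → g • u ∈ SS B (g • e) (g • ω) := by
    intro g e u ω h
    obtain ⟨h1, a, rfl, h2⟩ := mem_SS.1 h
    exact mem_SS.2 ⟨by simpa, gH g a, rfl, by simp [← conj_rh, mul_smul, h2]⟩
  exact ⟨fun h => by simpa using this g⁻¹ h, this g⟩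

theorem ZZ_g (g : SUG B) (e : V) (ω : X) : ZZ B (g • e) (g • ω) = ZZ B e ω := by
  ext c; simp [mem_ZZ, ← conj_tt, mul_smul]
theorem GG_g (g : SUG B) (e : V) (ω : X) : GG B (g • e) (g • ω) = GG B e ω := by rw [GG, ZZ_g, GG]

theorem card_SS_g (g : SUG B) (e : V) (ω : X) :
    Nat.card (SS B (g • e) (g • ω)) = Nat.card (SS B e ω) :=
  (Nat.card_congr ((MulAction.toPerm g).subtypeEquiv fun _ => (g_mem_SS g).symm)).symm

theorem self_mem_SS {e : V} (he : B e e = 0) (ω : X) (t : F) : t • e ∈ SS B e ω :=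
  mem_SS.2 ⟨by simp [he], ⟨t • e, -(t + σ t), by simp [he, hC.sd.invol]; ring⟩, rfl, by
    have := rho_add_smul hC.sd (adm_zero he (c := -(t + σ t)) (by simp [hC.sd.invol, add_comm])) t
    rw [zero_add, neg_add_cancel, rho_zero hC.sd] at this
    exact (congrArg (· • ω) (Subtype.ext this : _ = (1 : SUG B))).trans (one_smul _ _)⟩

theorem smul_mem_SS {e u : V} {ω : X} (he : B e e = 0) {t : F} (ht : t ≠ 0) :
    u ∈ SS B (t • e) ω ↔ σ t • u ∈ SS B e ω := by
  have : ∀ {e u : V} {t : F}, B e e = 0 → t ≠ 0 → u ∈ SS B (t • e) ω → σ t • u ∈ SS B e ω := by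
    intro e u t he ht h
    obtain ⟨h1, a, rfl, h2⟩ := mem_SS.1 h
    have h3 : B e a.u = 0 := by simpa [ht] using h1
    exact mem_SS.2 ⟨by simp [h3], sH (σ t) a, rfl, by rwa [← rh_smul he h3]⟩
  refine ⟨this he ht, fun h => ?_⟩
  simpa [(map_ne_zero σ).2 ht] using this (e := t • e) (t := t⁻¹) (u := σ t • u) (by simp [he])
    (inv_ne_zero ht) (by simpa [ht] using h)

theorem nm_ne {t : F} (ht : t ≠ 0) : nm σ hC.sd.invol t ≠ 0 := fun h => by
  simpa [nm, ht] using congrArg Subtype.val h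

theorem smul_mem_GG {e : V} {ω : X} (he : B e e = 0) {t : F} (ht : t ≠ 0) {a : KF σ} :
    nm σ hC.sd.invol t * a ∈ GG B (t • e) ω ↔ a ∈ GG B e ω := by
  simp only [mem_GG, mem_ZZ, tt_smul he]
  refine ⟨fun h c hc => ?_, fun h c hc => by rw [← h _ hc]; congr 1; ring⟩
  have := nm_ne (B := B) ht
  rw [← h (c / nm σ hC.sd.invol t) (by simpa [this] using hc)]; congr 1; field_simp

theorem ob_g (g : SUG B) (e : V) (ω : X) : ob B (g • e) (g • ω) = g • ob B e ω := by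
  have : ∀ (g : SUG B) (e : V) (ω : X), g • ob B e ω ⊆ ob B (g • e) (g • ω) := by
    rintro g e ω _ ⟨_, ⟨a, ha, rfl⟩, rfl⟩
    exact ⟨gH g a, mem_sperp_singleton.2 (by simpa [gH] using mem_sperp_singleton.1 ha), by
      simp [← conj_rh, mul_smul]⟩
  refine (this g e ω).antisymm' fun y hy => Set.mem_smul_set_iff_inv_smul_mem.2 ?_
  simpa using this g⁻¹ _ _ (Set.smul_mem_smul_set hy)

theorem ob_smul {e : V} (he : B e e = 0) {t : F} (ht : t ≠ 0) (ω : X) : ob B (t • e) ω = ob B e ω := by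
  have : ∀ {e : V} {t : F}, B e e = 0 → t ≠ 0 → ob B (t • e) ω ⊆ ob B e ω := by
    rintro e t he ht _ ⟨a, ha, rfl⟩
    have h3 : B e a.u = 0 := by simpa [ht] using mem_sperp_singleton.1 ha
    exact ⟨sH (σ t) a, mem_sperp_singleton.2 (by simp [sH, h3]), by rw [rh_smul he h3]⟩
  exact (this he ht).antisymm (by
    simpa [ht] using this (e := t • e) (t := t⁻¹) (by simp [he]) (inv_ne_zero ht))

theorem of_ob {e : V} (he : B e e = 0) {ω y : X} (h : ob B e y = ob B e ω) :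
    SS B e y = SS B e ω ∧ ZZ B e y = ZZ B e ω ∧ GG B e y = GG B e ω := by
  have key : ∀ {ω y : X}, ob B e y = ob B e ω → SS B e ω ≤ SS B e y := by
    intro ω y h u hu
    obtain ⟨a, ha, rfl⟩ := h.le ((rm1 B e).self_mem y)
    have := (g_mem_SS (rh B e a)).2 hu
    rw [rh_self, rh_perp he (mem_sperp_singleton.1 ha) (mem_SS.1 hu).1] at this
    simpa using sub_mem this (self_mem_SS he _ (B a.u u))
  obtain ⟨a, -, rfl⟩ := h.le ((rm1 B e).self_mem y)
  have h1 := ZZ_g (rh B e a) e ω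
  have h2 := GG_g (rh B e a) e ω
  rw [rh_self] at h1 h2
  exact ⟨le_antisymm (key h.symm) (key h), h1, h2⟩

end Cfsg.Agent.H26.MU
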