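import Mathlib
import Cfsg.Agent.H26.MU1

/-! Orbits of the unipotent radical of a point stabiliser in a symplectic group. -/

set_option autoImplicit false
set_option linter.unusedSectionVars false

namespace Cfsg.Agent.H26.MS

open Module H12 MD
open MU (RM orm)
open scoped Pointwise

class SC {F V : Type*} [Field F] [AddCommGroup V] [Module F V]
    (B : V →ₛₗ[RingHom.id F] V →ₗ[F] F) : Prop where
  sd : SD B
  four : 4 ≤ finrank F V

variable {F V : Type*} [Field F] [Finite F] [AddCommGroup V] [Module F V] [FiniteDimensional F V]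
  [Finite V] {B : V →ₛₗ[RingHom.id F] V →ₗ[F] F} [hC : SC B]

local notation "q" => Nat.card F
local notation "n" => finrank F V

@[simp] theorem Bss (x : V) : B x x = 0 := hC.sd.self_eq_zero rfl x
theorem Bc (x y : V) : B y x = -B x y := by simpa using hC.sd.σ_map y x
theorem c0 {x y : V} (h : B x y = 0) : B y x = 0 := hC.sd.comm0 h
theorem n0 {x y : V} (h : B x y ≠ 0) : B y x ≠ 0 := hC.sd.ne0 h
theorem adm {e u : V} (h : B e u = 0) (c : F) : Adm B e u c := ⟨Bss e, h, by simp⟩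
theorem two_le_q : 2 ≤ q := Finite.one_lt_card

@[ext] structure Hb (B : V →ₛₗ[RingHom.id F] V →ₗ[F] F) where
  u : V
  c : F

instance : Group (Hb B) where
  mul a b := ⟨a.u + b.u, a.c + b.c + B a.u b.u⟩
  one := ⟨0, 0⟩
  inv a := ⟨-a.u, -a.c⟩
  mul_assoc a b c := Hb.ext (add_assoc _ _ _) (by
    change a.c + b.c + B a.u b.u + c.c + B (a.u + b.u) c.u = a.c + (b.c + c.c + B b.u c.u) + B a.u (b.u + c.u)
    simp; ring)
  one_mul a := Hb.ext (zero_add _) (by change 0 + a.c + B 0 a.u = a.c; simp)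
  mul_one a := Hb.ext (add_zero _) (by change a.c + 0 + B a.u 0 = a.c; simp)
  inv_mul_cancel a := Hb.ext (neg_add_cancel _) (by change -a.c + a.c + B (-a.u) a.u = 0; simp)

instance : Finite (Hb B) := Finite.of_injective (fun a => (a.u, a.c)) fun _ _ h =>
  Hb.ext (congrArg Prod.fst h) (congrArg Prod.snd h)

instance : Finite (UG B) := Finite.of_injective (fun g : UG B => (g.1 : V → V))
  fun _ _ h => UG_ext (congrFun h)

def pr (T : Subgroup (Hb B)) : AddSubgroup V where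
  carrier := {u | ∃ a ∈ T, a.u = u}
  zero_mem' := ⟨1, T.one_mem, rfl⟩
  add_mem' := by rintro _ _ ⟨a, ha, rfl⟩ ⟨b, hb, rfl⟩; exact ⟨a * b, T.mul_mem ha hb, rfl⟩
  neg_mem' := by rintro _ ⟨a, ha, rfl⟩; exact ⟨a⁻¹, T.inv_mem ha, rfl⟩

def zc (T : Subgroup (Hb B)) : AddSubgroup F where
  carrier := {c | (⟨0, c⟩ : Hb B) ∈ T}
  zero_mem' := T.one_mem
  add_mem' := fun {a b} ha hb => by
    have : (⟨0, a + b⟩ : Hb B) = ⟨0, a⟩ * ⟨0, b⟩ := Hb.ext (add_zero 0).symm (by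
      change a + b = a + b + B 0 0; simp)
    show (⟨0, _⟩ : Hb B) ∈ T
    rw [this]; exact T.mul_mem ha hb
  neg_mem' := fun {a} ha => by
    have : (⟨0, -a⟩ : Hb B) = (⟨0, a⟩ : Hb B)⁻¹ := Hb.ext neg_zero.symm rfl
    show (⟨0, _⟩ : Hb B) ∈ T
    rw [this]; exact T.inv_mem ha

theorem card_T (T : Subgroup (Hb B)) : Nat.card T = Nat.card (pr T) * Nat.card (zc T) := by
  let φ : T →* Multiplicative V := MonoidHom.mk' (fun a => Multiplicative.ofAdd a.1.u) fun _ _ => rfl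
  rw [card_eq_card_range_mul_card_ker φ]
  congr 1
  · exact Nat.card_congr (Equiv.subtypeEquiv Multiplicative.toAdd fun x =>
      ⟨fun ⟨a, e⟩ => ⟨a.1, a.2, e⟩, fun ⟨a, ha, e⟩ => ⟨⟨a, ha⟩, e⟩⟩)
  · symm
    refine Nat.card_congr (Equiv.ofBijective (fun c => ⟨⟨⟨0, c.1⟩, c.2⟩, rfl⟩) ⟨fun a b e => ?_, fun a => ?_⟩)
    · exact Subtype.ext (congrArg (fun x : φ.ker => x.1.1.c) e)
    · have h : a.1.1.u = 0 := a.2
      have e : (⟨0, a.1.1.c⟩ : Hb B) = a.1.1 := Hb.ext h.symm rfl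
      exact ⟨⟨_, show (⟨0, _⟩ : Hb B) ∈ T by rw [e]; exact a.1.2⟩, Subtype.ext (Subtype.ext e)⟩

variable (B) in
def HD (D : Submodule F V) : Subgroup (Hb B) where
  carrier := {a | a.u ∈ D}
  one_mem' := D.zero_mem
  mul_mem' := D.add_mem
  inv_mem' := D.neg_mem

theorem card_sub (W : Submodule F V) : Nat.card W = q ^ finrank F W := Module.natCard_eq_pow_finrank

theorem card_HD (D : Submodule F V) : Nat.card (HD B D) = q ^ finrank F D * q := by
  rw [card_T, ← card_sub, ← AddSubgroup.card_top (G := F)]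
  congr 1
  · exact Nat.card_congr (Equiv.subtypeEquivRight fun x =>
      ⟨by rintro ⟨a, ha, rfl⟩; exact ha, fun h => ⟨⟨x, 0⟩, h, rfl⟩⟩)
  · exact Nat.card_congr (Equiv.subtypeEquivRight fun x => iff_of_true D.zero_mem trivial)

variable (B) in
noncomputable def rh (e : V) (a : Hb B) : UG B := rho B e a.u a.c

theorem g_def (g : UG B) (x : V) : g • x = g.1 x := rfl
@[simp] theorem Bg (g : UG B) (x y : V) : B (g • x) (g • y) = B x y := UG_map _ _ _
theorem g_smul (g : UG B) (c : F) (x : V) : g • c • x = c • g • x := map_smul g.1 c x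
theorem Bg_left (g : UG B) (x y : V) : B (g • x) y = B x (g⁻¹ • y) := by rw [← Bg g x, smul_inv_smul]
theorem g_ne (g : UG B) {x : V} (hx : x ≠ 0) : g • x ≠ 0 := fun h => hx ((smul_eq_zero_iff_eq g).1 h)
theorem g_notMem (g : UG B) {p x : V} (hx : x ∉ F ∙ p) : g • x ∉ F ∙ (g • p) := fun h => by
  obtain ⟨c, hc⟩ := Submodule.mem_span_singleton.1 h
  exact hx (Submodule.mem_span_singleton.2 ⟨c, by rwa [← g_smul, smul_left_cancel_iff] at hc⟩)
theorem smem (c : F) (x : V) : c • x ∈ F ∙ x := Submodule.mem_span_singleton.2 ⟨c, rfl⟩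

theorem R_apply {e u : V} (h : B e u = 0) (c : F) (x : V) :
    rho B e u c • x = x + B e x • u + (c * B e x + B u x) • e := rho_apply hC.sd (adm h c) x
theorem R_perp {e u x : V} (h : B e u = 0) (c : F) (hx : B e x = 0) :
    rho B e u c • x = x + B u x • e := by simp [R_apply h, hx]
theorem R_fix {e u x : V} (c : F) (hx : B e x = 0) (hx' : B u x = 0) : rho B e u c • x = x :=
  rho_apply_of_perp hC.sd _ hx hx'
theorem R_self (e u : V) (c : F) : rho B e u c • e = e := rho_apply_self hC.sd _ _ _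
theorem t_apply (e : V) (c : F) (x : V) : tv B e c • x = x + (c * B e x) • e := tv_apply hC.sd (Bss e) rfl x
theorem t_fix {e x : V} (c : F) (hx : B e x = 0) : tv B e c • x = x := by simp [t_apply, hx]
theorem t_def (e : V) (c : F) : tv B e c = rho B e 0 c := rfl
theorem conj_R (g : UG B) (e u : V) (c : F) : g * rho B e u c * g⁻¹ = rho B (g • e) (g • u) c :=
  conj_rho hC.sd g _ _ _
theorem conj_t (g : UG B) (e : V) (c : F) : g * tv B e c * g⁻¹ = tv B (g • e) c := conj_tv hC.sd g _ _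
theorem R_smul {e u : V} (h : B e u = 0) (c t : F) : rho B (t • e) u c = rho B e (t • u) (c * (t * t)) :=
  rho_smul hC.sd (adm h c) t
theorem t_smul (e : V) (t c : F) : tv B (t • e) c = tv B e (c * (t * t)) := tv_smul hC.sd (Bss e) rfl t
theorem R_mul {e u v : V} (hu : B e u = 0) (hv : B e v = 0) (c d : F) :
    rho B e u c * rho B e v d = rho B e (u + v) (c + d + B u v) := rho_mul hC.sd (adm hu c) (adm hv d)
theorem t_mul (e : V) (c d : F) : tv B e c * tv B e d = tv B e (c + d) := tv_mul hC.sd (Bss e) rfl rfl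
theorem t_R {e u : V} (hu : B e u = 0) (c d : F) : tv B e c * rho B e u d = rho B e u (c + d) := by
  simpa [t_def] using R_mul (map_zero (B e)) hu c d
theorem R_t {e u : V} (hu : B e u = 0) (c d : F) : rho B e u c * tv B e d = rho B e u (c + d) := by
  simpa [t_def] using R_mul hu (map_zero (B e)) c d
theorem R_add {e u : V} (hu : B e u = 0) (c t : F) : rho B e (u + t • e) c = rho B e u (c + (t + t)) :=
  rho_add_smul hC.sd (adm hu c) t
theorem R_swap {e u : V} (hu : B e u = 0) : rho B u e 0 = rho B e u 0 := UG_ext fun x => by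
  change rho B u e 0 • x = rho B e u 0 • x
  rw [R_apply hu, R_apply (c0 hu)]; module

theorem rm (e : V) {D : Submodule F V} (h : ∀ w ∈ D, B e w = 0) : RM (HD B D) (rh B e) :=
  fun _ ha _ hb => (R_mul (h _ ha) (h _ hb) _ _).symm

variable (B) in
abbrev P1 (e : V) : Submodule F V := sperp B (F ∙ e)
theorem mem_P1 {e x : V} : x ∈ P1 B e ↔ B e x = 0 := mem_sperp_singleton

variable (B) in
theorem rm1 (e : V) : RM (HD B (P1 B e)) (rh B e) := rm e fun _ => mem_P1.1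

theorem hβ (w : V) (h : ∀ x, B x w = 0) : w = 0 := hC.sd.sep w fun y => c0 (h y)

theorem finrank_P1 {e : V} (he : e ≠ 0) : finrank F (P1 B e) = n - 1 := by
  have := hC.sd.finrank_sperp (F ∙ e)
  rw [finrank_span_singleton he] at this
  exact Nat.eq_sub_of_add_eq this

theorem li_pair {x y : V} (hx : x ≠ 0) (hy : y ∉ F ∙ x) : LinearIndependent F ![x, y] := by
  rw [LinearIndependent.pair_iff' hx]
  exact fun a h => hy (Submodule.mem_span_singleton.2 ⟨a, h⟩)

theorem trans2 {x y x' y' : V} (hx : x ≠ 0) (hy : y ∉ F ∙ x) (hx' : x' ≠ 0) (hy' : y' ∉ F ∙ x')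
    (h : B x' y' = B x y) : ∃ g : UG B, g • x = x' ∧ g • y = y' := by
  obtain ⟨g, hg⟩ := hC.sd.witt (li_pair hx hy) (li_pair hx' hy') fun i j => by
    fin_cases i <;> fin_cases j <;> simp [h, Bc x y, Bc x' y']
  exact ⟨g, hg 0, hg 1⟩

theorem trans1 {x y : V} (hx : x ≠ 0) (hy : y ≠ 0) : ∃ g : UG B, g • x = y :=
  hC.sd.witt_one hx hy (by simp)

theorem notMem_of_B {e x y : V} (hp : B x e = 0) (h : B x y ≠ 0) : y ∉ F ∙ e := fun hy => by
  obtain ⟨c, rfl⟩ := Submodule.mem_span_singleton.1 hy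
  simp [hp] at h

theorem finrank_spp {e x : V} (he : e ≠ 0) (hx : x ∉ F ∙ e) : finrank F (spp B e x) = n - 2 := by
  have := hC.sd.finrank_sperp (Submodule.span F {e, x})
  have h2 := finrank_span_eq_card (li_pair he hx)
  rw [Matrix.range_cons_cons_empty] at h2
  rw [h2] at this
  exact Nat.eq_sub_of_add_eq this

variable {X : Type*} [MulAction (UG B) X] [Finite X]

variable (B) in
abbrev ob (e : V) (ω : X) : Set X := orm (HD B (P1 B e)) (rh B e) ω
variable (B) in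
noncomputable def SS (e : V) (ω : X) : AddSubgroup V := pr ((rm1 B e).St ω)
variable (B) in
noncomputable def ZZ (e : V) (ω : X) : AddSubgroup F := zc ((rm1 B e).St ω)
variable (B) in
noncomputable def GG (e : V) (ω : X) : AddSubgroup F := Ann (LinearMap.mul _ _) (ZZ B e ω)

theorem mem_ob {e : V} {ω y : X} : y ∈ ob B e ω ↔ ∃ u c, B e u = 0 ∧ rho B e u c • ω = y :=
  ⟨fun ⟨a, ha, h⟩ => ⟨a.u, a.c, mem_P1.1 ha, h⟩, fun ⟨u, c, h, h'⟩ => ⟨⟨u, c⟩, mem_P1.2 h, h'⟩⟩
theorem mem_SS {e u : V} {ω : X} : u ∈ SS B e ω ↔ B e u = 0 ∧ ∃ c, rho B e u c • ω = ω :=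
  ⟨by rintro ⟨a, ha, rfl⟩; exact ⟨mem_P1.1 ha.1, a.c, ha.2⟩,
    fun ⟨h, c, h'⟩ => ⟨⟨u, c⟩, ⟨mem_P1.2 h, h'⟩, rfl⟩⟩
theorem mem_ZZ {e : V} {c : F} {ω : X} : c ∈ ZZ B e ω ↔ tv B e c • ω = ω :=
  and_iff_right (P1 B e).zero_mem
theorem mem_GG {e : V} {a : F} {ω : X} : a ∈ GG B e ω ↔ ∀ c ∈ ZZ B e ω, psi _ (a * c) = 1 := Iff.rfl

theorem card_GG (e : V) (ω : X) : Nat.card (GG B e ω) * Nat.card (ZZ B e ω) = q :=
  card_Ann (fun w h => by simpa using h 1) _

theorem card_ob {e : V} (he : e ≠ 0) (ω : X) :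
    (ob B e ω).ncard * Nat.card (SS B e ω) = q ^ (n - 1) * Nat.card (GG B e ω) := by
  have := (rm1 B e).ncard_orb ω
  rw [card_T, card_HD, finrank_P1 he, ← mul_assoc] at this
  rw [← card_GG (B := B) e ω, ← mul_assoc, card_GG] at this
  exact Nat.eq_of_mul_eq_mul_right Nat.card_pos this

theorem comm_ZZ {e u v : V} {ω : X} (hu : u ∈ SS B e ω) (hv : v ∈ SS B e ω) :
    B u v + B u v ∈ ZZ B e ω := by
  obtain ⟨u1, c, hc⟩ := mem_SS.1 hu
  obtain ⟨v1, d, hd⟩ := mem_SS.1 hv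
  have : tv B e (B u v + B u v) * (rho B e v d * rho B e u c) = rho B e u c * rho B e v d := by
    rw [R_mul u1 v1, R_mul v1 u1, t_R (by simp [u1, v1]), add_comm v, Bc u v]; congr 1; ring
  simpa [mul_smul, hc, hd, mem_ZZ] using congrArg (· • ω) this

theorem g_mem_SS (g : UG B) {e u : V} {ω : X} : g • u ∈ SS B (g • e) (g • ω) ↔ u ∈ SS B e ω := by
  simp [mem_SS, ← conj_R, mul_smul]

theorem ZZ_g (g : UG B) (e : V) (ω : X) : ZZ B (g • e) (g • ω) = ZZ B e ω := by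
  ext c; simp [mem_ZZ, ← conj_t, mul_smul]
theorem GG_g (g : UG B) (e : V) (ω : X) : GG B (g • e) (g • ω) = GG B e ω := by rw [GG, ZZ_g, GG]

theorem card_SS_g (g : UG B) (e : V) (ω : X) :
    Nat.card (SS B (g • e) (g • ω)) = Nat.card (SS B e ω) :=
  (Nat.card_congr ((MulAction.toPerm g).subtypeEquiv fun _ => (g_mem_SS g).symm)).symm

theorem self_mem_SS (e : V) (ω : X) (t : F) : t • e ∈ SS B e ω :=
  mem_SS.2 ⟨by simp, -(t + t), by
    rw [← zero_add (t • e), R_add (by simp), neg_add_cancel, rho_zero hC.sd, one_smul]⟩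

theorem SS_smul (e : V) (ω : X) {t : F} (ht : t ≠ 0) {u : V} : u ∈ SS B (t • e) ω ↔ t • u ∈ SS B e ω := by
  simp only [mem_SS, map_smul, LinearMap.smul_apply, smul_eq_mul, mul_eq_zero, ht, false_or]
  refine and_congr_right fun h => ⟨fun ⟨c, hc⟩ => ⟨_, by rwa [← R_smul h]⟩, fun ⟨c, hc⟩ =>
    ⟨c / (t * t), by rwa [R_smul h, div_mul_cancel₀ _ (mul_ne_zero ht ht)]⟩⟩

theorem GG_smul (e : V) (ω : X) {t : F} (ht : t ≠ 0) {a : F} :
    t * t * a ∈ GG B (t • e) ω ↔ a ∈ GG B e ω := by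
  simp only [mem_GG, mem_ZZ, t_smul]
  refine ⟨fun h c hc => ?_, fun h c hc => by rw [← h _ hc]; congr 1; ring⟩
  rw [← h (c / (t * t)) (by simpa [ht] using hc)]; congr 1; field_simp

theorem ob_g (g : UG B) (e : V) (ω : X) : ob B (g • e) (g • ω) = g • ob B e ω := by
  ext y
  simp only [mem_ob, Set.mem_smul_set_iff_inv_smul_mem]
  exact ⟨fun ⟨u, c, h, h'⟩ => ⟨g⁻¹ • u, c, by rwa [← Bg_left], by
      rw [← h', ← smul_inv_smul g u, ← conj_R]; simp [mul_smul]⟩,
    fun ⟨u, c, h, h'⟩ => ⟨g • u, c, by simpa, by simp [← conj_R, mul_smul, h']⟩⟩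

theorem ob_smul (e : V) {t : F} (ht : t ≠ 0) (ω : X) : ob B (t • e) ω = ob B e ω := by
  ext y
  simp only [mem_ob, map_smul, LinearMap.smul_apply, smul_eq_mul, mul_eq_zero, ht, false_or]
  exact ⟨fun ⟨u, c, h, h'⟩ => ⟨t • u, _, by simp [h], by rwa [← R_smul h]⟩, fun ⟨u, c, h, h'⟩ =>
    ⟨t⁻¹ • u, c / (t * t), by simp [h], by rw [R_smul (by simp [h])]; simpa [ht]⟩⟩

theorem of_ob {e : V} {ω y : X} (h : ob B e y = ob B e ω) :
    SS B e y = SS B e ω ∧ ZZ B e y = ZZ B e ω ∧ GG B e y = GG B e ω := by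
  obtain ⟨a, c, ha, rfl⟩ := mem_ob.1 (h.le ((rm1 B e).self_mem y))
  have h1 := ZZ_g (rho B e a c) e ω
  have h2 := GG_g (rho B e a c) e ω
  have h3 := fun u => g_mem_SS (rho B e a c) (e := e) (u := u) (ω := ω)
  rw [R_self] at h1 h2 h3
  refine ⟨AddSubgroup.ext fun u => ?_, h1, h2⟩
  by_cases hu : B e u = 0
  · rw [← h3, R_perp ha c hu, add_mem_cancel_right (self_mem_SS _ _ _)]
  · simp [mem_SS, hu]

variable (B X) in
noncomputable def MP (e : V) (P : AddSubgroup V → AddSubgroup F → Prop) : Finset (Set X) :=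
  (Set.toFinite {O | ∃ ω, ob B e ω = O ∧ P (SS B e ω) (GG B e ω)}).toFinset

variable {P P' : AddSubgroup V → AddSubgroup F → Prop}

theorem mem_MP {e : V} {O : Set X} : O ∈ MP B X e P ↔ ∃ ω, ob B e ω = O ∧ P (SS B e ω) (GG B e ω) := by
  simp [MP]

theorem ob_mem_MP {e : V} {ω : X} : ob B e ω ∈ MP B X e P ↔ P (SS B e ω) (GG B e ω) := by
  refine mem_MP.trans ⟨fun ⟨ω', h, h'⟩ => ?_, fun h => ⟨ω, rfl, h⟩⟩
  obtain ⟨h1, -, h2⟩ := of_ob h
  rwa [← h1, ← h2]

theorem g_mem_MP (g : UG B) {e : V} {t : F} (ht : t ≠ 0) (hg : g • e = t • e)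
    (h : ∀ ω : X, P (SS B e ω) (GG B e ω) → P' (SS B e (g • ω)) (GG B e (g • ω))) {O : Set X}
    (hO : O ∈ MP B X e P) : g • O ∈ MP B X e P' := by
  obtain ⟨ω, rfl, h1⟩ := mem_MP.1 hO
  rw [← ob_g, hg, ob_smul e ht]
  exact ob_mem_MP.2 (h ω h1)

theorem card_MP_le (g : UG B) {e : V} {t : F} (ht : t ≠ 0) (hg : g • e = t • e)
    (h : ∀ ω : X, P (SS B e ω) (GG B e ω) → P' (SS B e (g • ω)) (GG B e (g • ω))) :
    (MP B X e P).card ≤ (MP B X e P').card :=
  Finset.card_le_card_of_injOn (g • ·) (fun _ hO => g_mem_MP g ht hg h hO) (MulAction.injective g).injOn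

theorem MP_mono {e : V} (h : ∀ ω : X, P (SS B e ω) (GG B e ω) → P' (SS B e ω) (GG B e ω)) :
    MP B X e P ⊆ MP B X e P' := fun _ hO => by
  obtain ⟨ω, rfl, h1⟩ := mem_MP.1 hO
  exact ob_mem_MP.2 (h ω h1)

theorem sum_MP {ι : Type*} [Fintype ι] (e : V) (R : ι → AddSubgroup V → AddSubgroup F → Prop) (k : Set X → ℕ)
    (hk : ∀ ω : X, P (SS B e ω) (GG B e ω) → Nat.card {i // R i (SS B e ω) (GG B e ω)} = k (ob B e ω)) :
    ∑ i, (MP B X e fun S G => P S G ∧ R i S G).card = ∑ O ∈ MP B X e P, k O := by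
  classical
  have : ∀ i, (MP B X e fun S G => P S G ∧ R i S G) =
      (MP B X e P).filter fun O => O ∈ MP B X e fun S G => P S G ∧ R i S G := fun i => by
    rw [Finset.filter_mem_eq_inter, Finset.inter_eq_right.2 (MP_mono fun _ h => h.1)]
  rw [Finset.sum_congr rfl fun i _ => congrArg Finset.card (this i)]
  simp only [Finset.card_filter]
  rw [Finset.sum_comm]
  refine Finset.sum_congr rfl fun O hO => ?_
  obtain ⟨ω, rfl, h⟩ := mem_MP.1 hO
  rw [← hk ω h, ← Finset.card_filter, Nat.card_eq_fintype_card, Fintype.card_subtype]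
  simp [ob_mem_MP, h]

theorem sum_le (e : V) : ∑ O ∈ MP B X e P, O.ncard ≤ Nat.card X :=
  (rm1 B e).sum_le _ fun _ h => (mem_MP.1 h).imp fun _ h => h.1

theorem countA [Fintype F] {e : V} (h0 : e ≠ 0) {s : ℕ} (hP : ∀ S G, P S G → Nat.card S = s) :
    (∑ a, (MP B X e fun S G => P S G ∧ a ∈ G).card) * q ^ (n - 1) ≤ Nat.card X * s := by
  refine le_trans (le_of_eq ?_) (Nat.mul_le_mul_right s (sum_le (B := B) (P := P) e))
  rw [sum_MP e (fun a _ G => a ∈ G) (fun O => O.ncard * s / q ^ (n - 1)) fun ω h => by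
    rw [← hP _ _ h, card_ob h0, Nat.mul_div_cancel_left _ (pow_pos Nat.card_pos _)],
    Finset.sum_mul, Finset.sum_mul]
  refine Finset.sum_congr rfl fun O hO => ?_
  obtain ⟨ω, rfl, h⟩ := mem_MP.1 hO
  rw [← hP _ _ h, card_ob h0, Nat.mul_div_cancel_left _ (pow_pos Nat.card_pos _), mul_comm]

theorem card_line {e : V} (h0 : e ≠ 0) : Nat.card (F ∙ e) = q := by
  rw [card_sub, finrank_span_singleton h0, pow_one]

theorem card_diff {e : V} (h0 : e ≠ 0) (A : AddSubgroup V) (h : ∀ t : F, t • e ∈ A) :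
    Nat.card {y // y ∈ A ∧ y ∉ F ∙ e} = Nat.card A - q := by
  rw [← card_line (F := F) h0]
  exact Set.ncard_diff (s := ((F ∙ e : Submodule F V) : Set V)) (t := (A : Set V)) fun y hy => by
    obtain ⟨c, rfl⟩ := Submodule.mem_span_singleton.1 hy; exact h c

theorem countS {e : V} (h0 : e ≠ 0) (f : AddSubgroup V → AddSubgroup V) {t : ℕ}
    (hP : ∀ g : UG B, g • e = e → ∀ ω : X, P (SS B e ω) (GG B e ω) → P (SS B e (g • ω)) (GG B e (g • ω)))
    (hf : ∀ g : UG B, g • e = e → ∀ (ω : X) y, y ∈ f (SS B e ω) → g • y ∈ f (SS B e (g • ω)))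
    (h1 : ∀ (ω : X) (c : F), c • e ∈ f (SS B e ω)) (h2 : ∀ (ω : X), ∀ y ∈ f (SS B e ω), B e y = 0)
    (ht : ∀ S G, P S G → Nat.card (f S) = t) {y : V} (hy : B e y = 0) (hy' : y ∉ F ∙ e) :
    (MP B X e fun S G => P S G ∧ y ∈ f S).card * (q ^ (n - 1) - q) = (MP B X e P).card * (t - q) := by
  have := Fintype.ofFinite {y // y ∈ (P1 B e).toAddSubgroup ∧ y ∉ F ∙ e}
  have key : ∀ y y', B e y = 0 → y ∉ F ∙ e → B e y' = 0 → y' ∉ F ∙ e →
      (MP B X e fun S G => P S G ∧ y ∈ f S).card ≤ (MP B X e fun S G => P S G ∧ y' ∈ f S).card := by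
    intro y y' a b c d
    obtain ⟨g, g1, rfl⟩ := trans2 (B := B) h0 b h0 d (c.trans a.symm)
    exact card_MP_le g one_ne_zero (by simpa) fun ω h => ⟨hP g g1 ω h.1, hf g g1 ω y h.2⟩
  have h3 := sum_MP (B := B) (X := X) (P := P) e
    (fun (i : {y // y ∈ (P1 B e).toAddSubgroup ∧ y ∉ F ∙ e}) S _ => i.1 ∈ f S) (fun _ => t - q) fun ω h => by
      rw [← ht _ _ h, ← card_diff h0 _ (h1 ω)]
      exact Nat.card_congr ⟨fun a => ⟨a.1.1, a.2, a.1.2.2⟩, fun a => ⟨⟨a.1, mem_P1.2 (h2 ω _ a.2.1), a.2.2⟩,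
        a.2.1⟩, fun _ => rfl, fun _ => rfl⟩
  rw [Finset.sum_congr rfl fun i _ => le_antisymm (key i.1 y (mem_P1.1 i.2.1) i.2.2 hy hy')
    (key y i.1 hy hy' (mem_P1.1 i.2.1) i.2.2), Finset.sum_const, Finset.sum_const, Finset.card_univ,
    ← Nat.card_eq_fintype_card, card_diff h0 _ fun c => mem_P1.2 (by simp)] at h3
  rw [← finrank_P1 (B := B) h0, ← card_sub, mul_comm]; exact h3

variable (B) in
noncomputable abbrev AA (e : V) (ω : X) : AddSubgroup V := Ann B (SS B e ω)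

theorem card_AA (S : AddSubgroup V) : Nat.card (Ann B S) * Nat.card S = q ^ n := by
  rw [← Module.natCard_eq_pow_finrank]; exact card_Ann hβ _

theorem g_mem_AA (g : UG B) {e x : V} {ω : X} (h : x ∈ AA B e ω) : g • x ∈ AA B (g • e) (g • ω) :=
  fun w hw => by rw [Bg_left]; exact h _ ((g_mem_SS g).1 (by simpa using hw))

theorem self_mem_AA (e : V) (ω : X) (c : F) : c • e ∈ AA B e ω :=
  mem_Ann_of fun w hw => by simp [(mem_SS.1 hw).1]

theorem perp_of_AA {e x : V} {ω : X} (h : x ∈ AA B e ω) : B e x = 0 :=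
  c0 (eq_zero_of_mem_Ann h (self_mem_SS e ω))

section
variable {g : UG B} {e : V} (hg : g • e = e)
include hg
theorem card_SS_f (ω : X) : Nat.card (SS B e (g • ω)) = Nat.card (SS B e ω) := by
  simpa [hg] using card_SS_g g e ω
theorem GG_f (ω : X) : GG B e (g • ω) = GG B e ω := by simpa [hg] using GG_g g e ω
theorem ZZ_f (ω : X) : ZZ B e (g • ω) = ZZ B e ω := by simpa [hg] using ZZ_g g e ω
theorem mem_SS_f {u : V} {ω : X} : g • u ∈ SS B e (g • ω) ↔ u ∈ SS B e ω := by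
  simpa [hg] using g_mem_SS g (e := e)
theorem mem_AA_f {u : V} {ω : X} (h : u ∈ AA B e ω) : g • u ∈ AA B e (g • ω) := by
  simpa [hg] using g_mem_AA g h
end

variable (B) in
/-- all transvections along `x` fix `ω` -/
def TT (ω : X) (x : V) : Prop := ∀ c, tv B x c • ω = ω

theorem TT.zero (ω : X) : TT B ω 0 := fun c => by rw [tv_zero_left hC.sd, one_smul]
theorem TT.map {ω : X} {x : V} (h : TT B ω x) (g : UG B) : TT B (g • ω) (g • x) := fun c => by
  simp [← conj_t, mul_smul, h c]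
theorem TT.map' {ω : X} {x : V} (h : TT B ω x) {g : UG B} (hg : g • ω = ω) : TT B ω (g • x) :=
  hg ▸ h.map g
theorem TT.smul {ω : X} {x : V} (h : TT B ω x) (t : F) : TT B ω (t • x) := fun c => by rw [t_smul, h]
theorem TT.add {ω : X} {x y : V} (hx : TT B ω x) (hy : TT B ω y) (h : B x y ≠ 0) : TT B ω (x + y) := by
  simpa [t_apply, n0 h] using hx.map' (hy (B y x)⁻¹)

theorem exists_GG {ω : X} {e : V} (h : ¬ TT B ω e) : ∃ a ∈ GG B e ω, a ≠ 0 := by
  by_contra! h'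
  exact h fun c => mem_ZZ.1 (mem_of_Ann (β := LinearMap.mul F F) (fun w h => by simpa using h 1)
    fun a ha => by simp [h' a ha])

theorem TT.of_GG {ω : X} {e : V} (h : TT B ω e) {a : F} (ha : a ∈ GG B e ω) : a = 0 :=
  eq_zero_of_psi fun c => mul_comm a c ▸ ha c (mem_ZZ.2 (h c))

theorem all_of_TT {ω : X} (h : ∀ x, TT B ω x) (g : UG B) : g • ω = ω :=
  (Subgroup.closure_le (MulAction.stabilizer (UG B) ω)).2 (by rintro _ ⟨v, c, rfl⟩; exact h v c)
    (show g ∈ TG B by rw [hC.sd.TG_eq_top rfl]; trivial)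

end Cfsg.Agent.H26.MS
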