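import Cfsg.Agent.H9.PSolv
import Cfsg.Agent.H9.PCons
import Cfsg.Agent.H2.Frattini
import Cfsg.Agent.H3.PNil
import Cfsg.Agent.H25.ClassSize
import Cfsg.Agent.H26.PElt
import Cfsg.Agent.H26.SylCount

/-! Groups whose maximal subgroups are `p`-nilpotent or have prime index. -/

set_option autoImplicit false

namespace Cfsg.Agent.H26

open Subgroup

variable {G : Type*} [Group G] [Finite G] {p : ℕ} [hp : Fact p.Prime]

theorem le_pCore_of_commutator_le_frattini (hG : IsPSolvable p G) (h0 : pPrimeCore p G = ⊥) {U : Subgroup G}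
    (h : ⁅pCore p G, U⁆ ≤ frattini G) : U ≤ pCore p G := by
  have hF : fittingSubgroup G = pCore p G := H1.fittingSubgroup_eq_pCore h0
  have hΦ : frattini G ≤ pCore p G := hF ▸ H2.frattini_le_fitting
  have hs := QuotientGroup.mk'_surjective (frattini G)
  have h1 : pPrimeCore p (G ⧸ frattini G) = ⊥ := by
    by_contra h1
    set Y := (pPrimeCore p (G ⧸ frattini G)).comap (QuotientGroup.mk' (frattini G)) with hY
    have hΦY : frattini G ≤ Y := fun x hx => by
      rw [hY, mem_comap, QuotientGroup.mk'_apply, (QuotientGroup.eq_one_iff x).2 hx]; exact one_mem _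
    have hi : (frattini G).relIndex Y = Nat.card (pPrimeCore p (G ⧸ frattini G)) := by
      rw [H9.relIndex_eq_card_map_mk', hY, map_comap_eq_self_of_surjective hs]
    obtain ⟨D, hD1, hD2, -, hD4⟩ := H1.exists_complement_le hΦY (H2.le_normalizer_of_normal' _ _) (by
      rw [hi]
      exact H1.coprime_card_of_isPGroup ((H1.isPGroup_pCore p G).to_le hΦ) (H1.not_dvd_card_pPrimeCore p _))
    have hcop : (Nat.card D).Coprime (Nat.card (frattini G)) := by
      rw [hD4, hi]
      exact (H1.coprime_card_of_isPGroup ((H1.isPGroup_pCore p G).to_le hΦ) (H1.not_dvd_card_pPrimeCore p _)).symm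
    have h2 := H1.normalizer_map_mk'_eq hcop (Or.inr (H1.isSolvable_of_isPGroup ((H1.isPGroup_pCore p G).to_le hΦ)))
    have h3 : D.map (QuotientGroup.mk' (frattini G)) = pPrimeCore p (G ⧸ frattini G) := by
      rw [← map_comap_eq_self_of_surjective hs (pPrimeCore p _), ← hY, ← hD2, Subgroup.map_sup,
        QuotientGroup.map_mk'_self, bot_sup_eq]
    rw [h3, normalizer_eq_top (pPrimeCore p _)] at h2
    have h4 : normalizer (D : Set G) ⊔ frattini G = ⊤ := by
      have := congrArg (comap (QuotientGroup.mk' (frattini G))) h2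
      rwa [comap_top, comap_map_eq, QuotientGroup.ker_mk', eq_comm] at this
    haveI : D.Normal := normalizer_eq_top_iff.1 (H2.eq_top_of_sup_of_le_frattini le_rfl h4)
    have h5 : D ≤ pPrimeCore p G := H1.le_pPrimeCore (by rw [hD4, hi]; exact H1.coprime_card_pPrimeCore p _)
    rw [h0, le_bot_iff] at h5
    rw [h5, Subgroup.map_bot] at h3
    exact h1 h3.symm
  have h2 : pCore p (G ⧸ frattini G) = (pCore p G).map (QuotientGroup.mk' (frattini G)) := by
    rw [← H1.fittingSubgroup_eq_pCore h1, H2.fitting_quotient_of_le_frattini le_rfl, hF]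
  have h3 := H9.centralizer_pCore_le_of_isPSolvable (H9.isPSolvable_quotient hG (frattini G)) h1
  have h4 : U.map (QuotientGroup.mk' (frattini G)) ≤ pCore p (G ⧸ frattini G) := by
    refine le_trans ?_ h3
    rw [← le_centralizer_iff, ← commutator_eq_bot_iff_le_centralizer, h2, ← map_commutator, Subgroup.map_eq_bot_iff,
      QuotientGroup.ker_mk']
    exact h
  rw [h2, Subgroup.map_le_map_iff, QuotientGroup.ker_mk', sup_eq_left.2 hΦ] at h4
  exact h4

theorem npc_quotient_pCore (hG : IsPSolvable p G) (h0 : pPrimeCore p G = ⊥)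
    (hmax : ∀ M : Subgroup G, IsCoatom M → HasNormalPComplement p M ∨ M.index.Prime) :
    HasNormalPComplement p (G ⧸ pCore p G) := by
  set R := pCore p G with hR
  have hRp : IsPGroup p R := H1.isPGroup_pCore p G
  have hs := QuotientGroup.mk'_surjective R
  rw [H3.hasNormalPComplement_iff_mul]
  intro x y hx' hy'
  obtain ⟨x, hx, rfl⟩ := H25.exists_lift_coprime _ hs p hx'
  obtain ⟨y, hy, rfl⟩ := H25.exists_lift_coprime _ hs p hy'
  obtain ⟨k, m, hm, e⟩ := Nat.exists_eq_pow_mul_and_not_dvd (orderOf_pos (x * y)).ne' p hp.out.ne_one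
  have hm0 : m ≠ 0 := by rintro rfl; simp at hm
  have hu : orderOf ((x * y) ^ m) = p ^ k := by
    rw [orderOf_pow_of_dvd hm0 (Dvd.intro_left _ e.symm), e, Nat.mul_div_cancel _ (Nat.pos_of_ne_zero hm0)]
  have key : zpowers ((x * y) ^ m) ≤ R := by
    apply le_pCore_of_commutator_le_frattini hG h0
    rw [H1.le_frattini_iff]
    intro M hM
    by_cases hRM : R ≤ M
    · exact (commutator_le_left _ _).trans hRM
    have hRR : ⁅R, R⁆ ≤ R ⊓ M := le_inf (commutator_le_left _ _)
      ((H2.commutator_le_frattini_of_normal hRp.isNilpotent).trans (frattini_le_coatom hM))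
    have htop := H2.coatom_sup_eq_top hM hRM
    haveI : (R ⊓ M).Normal := H2.normal_of_sup_eq_top (H1.le_normalizer_inf (H2.le_normalizer_of_normal' _ _)
      le_normalizer) (H1.le_normalizer_of_commutator_le hRR inf_le_left) htop
    set f := QuotientGroup.mk' (R ⊓ M) with hf
    have hfs : Function.Surjective f := QuotientGroup.mk'_surjective _
    haveI : (R.map f).Normal := Normal.map inferInstance f hfs
    suffices h : ⁅R.map f, (zpowers ((x * y) ^ m)).map f⁆ = ⊥ by
      rw [← map_commutator, Subgroup.map_eq_bot_iff, QuotientGroup.ker_mk'] at h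
      exact h.trans inf_le_right
    rcases hmax M hM with h | h
    · set C := centralizer ((R.map f : Subgroup _) : Set (G ⧸ R ⊓ M)) with hC
      have hRC : R.map f ≤ C := by
        rw [hC, ← commutator_eq_bot_iff_le_centralizer, ← map_commutator, Subgroup.map_eq_bot_iff, QuotientGroup.ker_mk']
        exact hRR
      set g := (QuotientGroup.mk' C).comp f with hg
      have h1 : HasNormalPComplement p ((G ⧸ R ⊓ M) ⧸ C) := by
        refine H3.hasNormalPComplement_of_surjective (g.comp M.subtype) ?_ h
        intro z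
        obtain ⟨z, rfl⟩ := ((QuotientGroup.mk'_surjective C).comp hfs) z
        obtain ⟨a, ha, b, hb, rfl⟩ := (H1.mem_sup_of_le_normalizer_right (H2.le_normalizer_of_normal' R M)).1
          (htop ▸ mem_top z)
        refine ⟨⟨a, ha⟩, ?_⟩
        have : QuotientGroup.mk' C (f b) = 1 := (QuotientGroup.eq_one_iff _).2 (hRC ⟨b, hb, rfl⟩)
        simp only [hg, MonoidHom.comp_apply, coe_subtype, Function.comp_apply, map_mul, this, mul_one]
      have h2 := H3.hasNormalPComplement_iff_mul.1 h1 (g x) (g y) (hx.coprime_dvd_left (orderOf_map_dvd g x))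
        (hy.coprime_dvd_left (orderOf_map_dvd g y))
      rw [← map_mul] at h2
      have h3 : orderOf (g (x * y)) ∣ m := (h2.pow_right k).dvd_of_dvd_mul_left (e ▸ orderOf_map_dvd g (x * y))
      rw [orderOf_dvd_iff_pow_eq_one, ← map_pow] at h3
      rw [commutator_eq_bot_iff_le_centralizer, le_centralizer_iff, MonoidHom.map_zpowers, zpowers_le]
      exact (QuotientGroup.eq_one_iff _).1 h3
    · have h1 : Nat.card (R.map f) = M.index := by
        rw [← H9.relIndex_eq_card_map_mk', inf_relIndex_left, ← relIndex_sup_eq (H2.le_normalizer_of_normal' R M),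
          sup_comm, htop, relIndex_top_right]
      have h2 := H1.commutator_lt_of_isPGroup (hRp.map f) ((isPGroup_zpowers_of_orderOf hu).map f)
        (H2.le_normalizer_of_normal' _ _) (by
          intro h3
          rw [h3, card_bot] at h1
          exact h.one_lt.ne h1)
      have h3 := card_dvd_of_le h2.le
      rw [h1] at h3
      rcases (Nat.dvd_prime h).1 h3 with h4 | h4
      · exact card_eq_one.1 h4
      · exact absurd (h4.trans h1.symm) (H1.card_lt_of_lt h2).ne
  have h3 : orderOf (QuotientGroup.mk' R (x * y)) ∣ m := by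
    rw [orderOf_dvd_iff_pow_eq_one, ← map_pow]
    exact (QuotientGroup.eq_one_iff _).2 (key (mem_zpowers _))
  rw [← map_mul]
  exact ((Nat.Prime.coprime_iff_not_dvd hp.out).2 hm).symm.coprime_dvd_left h3

theorem exists_series_of_coatom (hG : IsPSolvable p G)
    (hmax : ∀ M : Subgroup G, IsCoatom M →
      (∃ K : Subgroup M, K.Normal ∧ ¬ p ∣ Nat.card K ∧ ∃ k : ℕ, K.index = p ^ k) ∨ M.index.Prime) :
    ∃ A B C : Subgroup G, A.Normal ∧ B.Normal ∧ C.Normal ∧ A ≤ B ∧ B ≤ C ∧ ¬ p ∣ Nat.card A ∧
      (∃ k : ℕ, A.relIndex B = p ^ k) ∧ ¬ p ∣ B.relIndex C ∧ ∃ k : ℕ, C.index = p ^ k := by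
  set A := pPrimeCore p G
  have hs := QuotientGroup.mk'_surjective A
  have h1 := npc_quotient_pCore (H9.isPSolvable_quotient hG A) (H1.pPrimeCore_quotient_pPrimeCore p) (by
    intro M hM
    rcases hmax _ (H2.isCoatom_comap_mk' hM) with ⟨K, hK, h1, k, h2⟩ | h
    · left
      have := H3.hasNormalPComplement_map (QuotientGroup.mk' A)
        (H3.hasNormalPComplement_of_normal K h1 (IsPGroup.of_card h2))
      rwa [map_comap_eq_self_of_surjective hs] at this
    · right
      rwa [index_comap_of_surjective _ hs] at h)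
  set R := pCore p (G ⧸ A)
  have hs2 := QuotientGroup.mk'_surjective R
  refine ⟨A, R.comap (QuotientGroup.mk' A), ((pResidual p _).comap (QuotientGroup.mk' R)).comap (QuotientGroup.mk' A),
    inferInstance, inferInstance, inferInstance, QuotientGroup.le_comap_mk' _ _,
    comap_mono (QuotientGroup.le_comap_mk' _ _), H1.not_dvd_card_pPrimeCore p G, ?_, ?_, ?_⟩
  · rw [H9.relIndex_eq_card_map_mk', map_comap_eq_self_of_surjective hs]
    exact IsPGroup.iff_card.1 (H1.isPGroup_pCore p _)
  · rw [relIndex_comap, map_comap_eq_self_of_surjective hs, H9.relIndex_eq_card_map_mk',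
      map_comap_eq_self_of_surjective hs2]
    exact H3.hasNormalPComplement_iff_not_dvd.1 h1
  · rw [index_comap_of_surjective _ hs, index_comap_of_surjective _ hs2]
    exact H3.exists_index_pResidual

end Cfsg.Agent.H26
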