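import Mathlib
import Cfsg.Agent.H4.Burnside

namespace Cfsg.Agent.H26.OT

open Subgroup
open scoped commutatorElement

/-- digit `i` of `c` in base 32 -/
def dig (c i : ℕ) : ℕ := (c >>> (5 * i)) % 32

def encF (f : ℕ → ℕ) : ℕ → ℕ
  | 0 => 0
  | k + 1 => encF f k + (f k) <<< (5 * k)

def comp (k a b : ℕ) : ℕ := encF (fun i => dig a (dig b i)) k

def idc (k : ℕ) : ℕ := encF (fun i => i) k

theorem dig_lt (c i : ℕ) : dig c i < 32 := Nat.mod_lt _ (by norm_num)

theorem encF_lt (f : ℕ → ℕ) (k : ℕ) (hf : ∀ i < k, f i < 32) : encF f k < 32 ^ k := by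
  induction k with
  | zero => simp [encF]
  | succ k ih =>
    have h1 := ih (fun i hi => hf i (by omega))
    have h2 := hf k (by omega)
    simp only [encF, Nat.shiftLeft_eq, pow_mul]
    have : (2 : ℕ) ^ 5 = 32 := by norm_num
    rw [this, pow_succ]
    nlinarith [Nat.pos_of_ne_zero (show (32 : ℕ) ^ k ≠ 0 by positivity)]

theorem dig_encF (f : ℕ → ℕ) (k : ℕ) (hf : ∀ i < k, f i < 32) (i : ℕ) (hi : i < k) :
    dig (encF f k) i = f i := by
  induction k with
  | zero => omega
  | succ k ih =>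
    have h32 : (2 : ℕ) ^ 5 = 32 := by norm_num
    have h1 := encF_lt f k (fun i hi => hf i (by omega))
    rcases Nat.lt_succ_iff_lt_or_eq.1 hi with h | h
    · have := ih (fun i hi => hf i (by omega)) h
      simp only [dig, encF, Nat.shiftLeft_eq, Nat.shiftRight_eq_div_pow, pow_mul, h32] at this ⊢
      obtain ⟨j, rfl⟩ : ∃ j, k = i + j + 1 := ⟨k - i - 1, by omega⟩
      have e : f (i + j + 1) * 32 ^ (i + j + 1) = 32 ^ i * (32 * (f (i + j + 1) * 32 ^ j)) := by ring
      rw [e, Nat.add_mul_div_left _ _ (by positivity), Nat.add_mul_mod_self_left, this]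
    · subst h
      simp only [dig, encF, Nat.shiftLeft_eq, Nat.shiftRight_eq_div_pow, pow_mul, h32]
      rw [Nat.add_mul_div_right _ _ (by positivity), Nat.div_eq_of_lt h1, zero_add,
        Nat.mod_eq_of_lt (hf i (by omega))]

theorem encF_congr (f g : ℕ → ℕ) (k : ℕ) (h : ∀ i < k, f i = g i) : encF f k = encF g k := by
  induction k with
  | zero => rfl
  | succ k ih => simp only [encF]; rw [ih (fun i hi => h i (by omega)), h k (by omega)]

def ext' {k : ℕ} (g : Equiv.Perm (Fin k)) (i : ℕ) : ℕ := if h : i < k then (g ⟨i, h⟩ : ℕ) else 0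

def enc {k : ℕ} (g : Equiv.Perm (Fin k)) : ℕ := encF (ext' g) k

variable {k : ℕ}

theorem dig_enc (hk : k ≤ 32) (g : Equiv.Perm (Fin k)) (i : Fin k) : dig (enc g) i = g i := by
  rw [enc, dig_encF _ _ _ _ i.2]
  · simp [ext']
  · intro j hj; simp only [ext', hj, dite_true]; exact lt_of_lt_of_le (g _).2 hk

theorem enc_inj (hk : k ≤ 32) : Function.Injective (enc (k := k)) := by
  intro g h e
  ext i
  rw [← dig_enc hk g, ← dig_enc hk h, e]

theorem enc_mul (hk : k ≤ 32) (g h : Equiv.Perm (Fin k)) : enc (g * h) = comp k (enc g) (enc h) := by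
  apply encF_congr
  intro i hi
  have := dig_enc hk h ⟨i, hi⟩
  simp only at this
  rw [this, dig_enc hk g]
  simp [ext', hi]

theorem enc_one : enc (1 : Equiv.Perm (Fin k)) = idc k := by
  apply encF_congr
  intro i hi
  simp [ext', hi]

/-- `c` codes a permutation -/
def valid (k c : ℕ) : Bool :=
  (List.range k).all (fun i => decide (dig c i < k) &&
    (List.range k).all (fun j => decide (dig c i = dig c j → i = j))) &&
    decide (c = encF (dig c) k)

theorem exists_of_valid {c : ℕ} (h : valid k c = true) : ∃ g : Equiv.Perm (Fin k), enc g = c := by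
  simp only [valid, Bool.and_eq_true, List.all_eq_true, List.mem_range, decide_eq_true_eq] at h
  obtain ⟨h1, h2⟩ := h
  let f : Fin k → Fin k := fun i => ⟨dig c i, (h1 i i.2).1⟩
  have hf : Function.Injective f := by
    intro i j e
    exact Fin.ext ((h1 i i.2).2 j j.2 (congrArg Fin.val e))
  refine ⟨Equiv.ofBijective f (Finite.injective_iff_bijective.1 hf), ?_⟩
  conv_rhs => rw [h2]
  apply encF_congr
  intro i hi
  simp [ext', hi, f]

def force {β : Type} (x : ℕ) (f : ℕ → β) : β :=
  match x with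
  | 0 => f 0
  | n + 1 => f (n + 1)

theorem force_eq {β : Type} (x : ℕ) (f : ℕ → β) : force x f = f x := by cases x <;> rfl

def mem (x : ℕ) : List ℕ → Bool
  | [] => false
  | y :: l => Nat.beq x y || mem x l

theorem mem_iff (x : ℕ) (l : List ℕ) : mem x l = true ↔ x ∈ l := by
  induction l with
  | nil => simp [mem]
  | cons y l ih => simp [mem, ih]

def nodup : List ℕ → Bool
  | [] => true
  | y :: l => !(mem y l) && nodup l

theorem nodup_iff (l : List ℕ) : nodup l = true ↔ l.Nodup := by
  induction l with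
  | nil => simp [nodup]
  | cons y l ih => simp [nodup, ih, ← mem_iff]

/-- each entry is the identity or a generator times a later entry -/
def reach (k : ℕ) (S : List ℕ) : List ℕ → List (ℕ × ℕ) → Bool
  | [], _ => true
  | [c], _ => Nat.beq c (idc k)
  | _ :: _ :: _, [] => false
  | c :: d :: l, (s, p) :: t =>
      mem s S && mem p (d :: l) && Nat.beq c (comp k s p) && reach k S (d :: l) t

def closed (k : ℕ) (S L : List ℕ) : Bool :=
  L.all (fun c => S.all (fun s => force (comp k s c) (fun y => mem y L)))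

def ordAux (k c e : ℕ) : ℕ → ℕ → Bool
  | 0, x => Nat.beq x e
  | n + 1, x => !(Nat.beq x e) && force (comp k c x) (fun y => ordAux k c e n y)

def ords (k e : ℕ) : List ℕ → List ℕ → Bool
  | [], [] => true
  | c :: l, (o + 1) :: t => ordAux k c e o c && ords k e l t
  | _, _ => false

theorem ordAux_spec (hk : k ≤ 32) (g : Equiv.Perm (Fin k)) (n m : ℕ)
    (h : ordAux k (enc g) (idc k) n (enc (g ^ m)) = true) :
    g ^ (m + n) = 1 ∧ ∀ j, m ≤ j → j < m + n → g ^ j ≠ 1 := by
  induction n generalizing m with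
  | zero =>
    simp only [ordAux, Nat.beq_eq] at h
    exact ⟨enc_inj hk (h.trans enc_one.symm), fun j h1 h2 => by omega⟩
  | succ n ih =>
    simp only [ordAux, force_eq, Bool.and_eq_true, Bool.not_eq_true'] at h
    obtain ⟨h1, h2⟩ := h
    rw [← enc_mul hk, ← pow_succ'] at h2
    obtain ⟨h3, h4⟩ := ih _ h2
    refine ⟨by rw [← h3]; congr 1; omega, fun j hj hj' => ?_⟩
    rcases eq_or_lt_of_le hj with rfl | hlt
    · intro e
      rw [e, enc_one] at h1
      simp at h1
    · exact h4 j hlt (by omega)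

theorem ords_spec (hk : k ≤ 32) (L O : List ℕ) (h : ords k (idc k) L O = true)
    (F : ℕ → ℕ) (hF : ∀ g : Equiv.Perm (Fin k), F (enc g) = orderOf g)
    (hL : ∀ c ∈ L, ∃ g : Equiv.Perm (Fin k), enc g = c) : L.map F = O := by
  induction L generalizing O with
  | nil => cases O with
    | nil => rfl
    | cons _ _ => simp [ords] at h
  | cons c l ih =>
    cases O with
    | nil => simp [ords] at h
    | cons o t =>
      cases o with
      | zero => simp [ords] at h
      | succ o =>
        simp only [ords, Bool.and_eq_true] at h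
        obtain ⟨g, rfl⟩ := hL c (by simp)
        have h1 := ordAux_spec hk g o 1 (by simpa using h.1)
        simp only [List.map_cons, hF, ih t h.2 (fun c hc => hL c (by simp [hc]))]
        congr 1
        rw [orderOf_eq_iff (by omega)]
        exact ⟨by rw [add_comm]; exact h1.1, fun m hm hm' => h1.2 m hm' (by omega)⟩

theorem reach_spec (hk : k ≤ 32) (S : List ℕ) (H : Subgroup (Equiv.Perm (Fin k)))
    (hS : ∀ s ∈ S, ∃ g ∈ H, enc g = s) (L : List ℕ) (T : List (ℕ × ℕ))
    (h : reach k S L T = true) : ∀ c ∈ L, ∃ g ∈ H, enc g = c := by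
  induction L generalizing T with
  | nil => simp
  | cons c l ih =>
    cases l with
    | nil =>
      simp only [reach, Nat.beq_eq] at h
      intro x hx
      simp only [List.mem_singleton] at hx
      exact ⟨1, H.one_mem, by rw [hx, h, enc_one]⟩
    | cons d l =>
      cases T with
      | nil => simp [reach] at h
      | cons sp t =>
        obtain ⟨s, p⟩ := sp
        simp only [reach, Bool.and_eq_true, mem_iff, Nat.beq_eq] at h
        obtain ⟨⟨⟨h1, h2⟩, h3⟩, h4⟩ := h
        have := ih t h4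
        intro x hx
        rcases List.mem_cons.1 hx with rfl | hx
        · obtain ⟨g, hg, rfl⟩ := hS s h1
          obtain ⟨g', hg', rfl⟩ := this p h2
          exact ⟨g * g', H.mul_mem hg hg', by rw [enc_mul hk, h3]⟩
        · exact this x hx

def cnt (O : List ℕ) (n : ℕ) : ℕ := O.countP (fun o => Nat.beq (n % o) 0)

def chk (k : ℕ) (S L : List ℕ) (T : List (ℕ × ℕ)) (O : List ℕ) : Bool :=
  Nat.ble k 32 && S.all (valid k) && mem (idc k) L && nodup L && reach k S L T && closed k S L &&
    force (idc k) (fun e => ords k e L O)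

theorem engine (S L : List ℕ) (T : List (ℕ × ℕ)) (O : List ℕ) (h : chk k S L T O = true) :
    k ≤ 32 ∧ ∃ H : Subgroup (Equiv.Perm (Fin k)), (∀ c ∈ L, ∃ g ∈ H, enc g = c) ∧
      ∀ n, Nat.card {x : H // x ^ n = 1} = cnt O n := by
  classical
  simp only [chk, Bool.and_eq_true, Nat.ble_eq, List.all_eq_true, mem_iff, nodup_iff,
    force_eq] at h
  obtain ⟨⟨⟨⟨⟨⟨hk, hv⟩, h1⟩, hnd⟩, hr⟩, hc⟩, ho⟩ := h
  refine ⟨hk, closure {g | enc g ∈ S}, ?_⟩
  set H : Subgroup (Equiv.Perm (Fin k)) := closure {g | enc g ∈ S} with hH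
  have hS : ∀ s ∈ S, ∃ g ∈ H, enc g = s := by
    intro s hs
    obtain ⟨g, rfl⟩ := exists_of_valid (hv s hs)
    exact ⟨g, subset_closure hs, rfl⟩
  have hL := reach_spec hk S H hS L T hr
  have hcl : ∀ s x : Equiv.Perm (Fin k), enc s ∈ S → enc x ∈ L → enc (s * x) ∈ L := by
    intro s x hs hx
    simp only [closed, List.all_eq_true, force_eq, mem_iff] at hc
    rw [enc_mul hk]
    exact hc _ hx _ hs
  have hpow : ∀ (s : Equiv.Perm (Fin k)) (n : ℕ) x, enc s ∈ S → enc x ∈ L → enc (s ^ n * x) ∈ L := by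
    intro s n x hs hx
    induction n with
    | zero => simpa using hx
    | succ n ih => rw [pow_succ', mul_assoc]; exact hcl _ _ hs ih
  have hH' : ∀ g ∈ H, enc g ∈ L := by
    intro g hg
    induction hg using Subgroup.closure_induction_left with
    | one => rwa [enc_one]
    | mul_left s hs x _ ih => exact hcl _ _ hs ih
    | inv_mul_cancel s hs x _ ih =>
      have : s⁻¹ = s ^ (orderOf s - 1) := by
        rw [inv_eq_iff_mul_eq_one, ← pow_succ', Nat.sub_add_cancel (orderOf_pos s),
          pow_orderOf_eq_one]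
      rw [this]; exact hpow _ _ _ hs ih
  refine ⟨hL, fun n => ?_⟩
  let F : ℕ → ℕ := fun c => if h : ∃ g : Equiv.Perm (Fin k), enc g = c then orderOf h.choose else 0
  have hF : ∀ g : Equiv.Perm (Fin k), F (enc g) = orderOf g := by
    intro g
    have h : ∃ g' : Equiv.Perm (Fin k), enc g' = enc g := ⟨g, rfl⟩
    simp only [F, h, dite_true]
    rw [enc_inj hk h.choose_spec]
  have hO := ords_spec hk L O ho F hF (fun c hc => (hL c hc).imp fun g hg => hg.2)
  rw [← hO, cnt, List.countP_map, List.countP_eq_length_filter,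
    ← List.toFinset_card_of_nodup (hnd.filter _), ← Nat.card_eq_finsetCard]
  refine Nat.card_congr (Equiv.ofBijective (fun x => ⟨enc (x.1 : Equiv.Perm (Fin k)), ?_⟩) ⟨?_, ?_⟩)
  · have hx : (x.1 : Equiv.Perm (Fin k)) ^ n = 1 := by
      have := congrArg Subtype.val x.2
      simpa using this
    simp only [List.mem_toFinset, List.mem_filter, Function.comp, Nat.beq_eq, hF]
    exact ⟨hH' _ x.1.2, Nat.eq_zero_of_dvd_of_lt (Nat.dvd_mod_iff dvd_rfl |>.2
      (orderOf_dvd_of_pow_eq_one hx)) (Nat.mod_lt _ (orderOf_pos _))⟩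
  · intro x y e
    exact Subtype.ext (Subtype.ext (enc_inj hk (congrArg Subtype.val e)))
  · rintro ⟨c, hc⟩
    simp only [List.mem_toFinset, List.mem_filter, Function.comp, Nat.beq_eq] at hc
    obtain ⟨g, hg, rfl⟩ := hL c hc.1
    rw [hF] at hc
    refine ⟨⟨⟨g, hg⟩, Subtype.ext ?_⟩, rfl⟩
    simpa using orderOf_dvd_iff_pow_eq_one.1 (Nat.dvd_of_mod_eq_zero hc.2)

/-- there is a finite group with property `P` and solution counts `e` -/
def Has (s : Option Bool) (e : ℕ → ℕ) : Prop :=
  ∃ (G : Type) (_ : Group G) (_ : Finite G), (s = some true → Group.IsSolvable G) ∧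
    (s = some false → ¬ Group.IsSolvable G) ∧ ∀ n, Nat.card {x : G // x ^ n = 1} = e n

theorem card_prod_pow {G H : Type} [Group G] [Group H] (n : ℕ) :
    Nat.card {x : G × H // x ^ n = 1} =
      Nat.card {x : G // x ^ n = 1} * Nat.card {x : H // x ^ n = 1} := by
  rw [← Nat.card_prod]
  refine Nat.card_congr ⟨fun x => (⟨x.1.1, congrArg Prod.fst x.2⟩, ⟨x.1.2, congrArg Prod.snd x.2⟩),
    fun y => ⟨(y.1.1, y.2.1), Prod.ext y.1.2 y.2.2⟩, fun _ => rfl, fun _ => rfl⟩

theorem Has.mul {s : Option Bool} {e e' : ℕ → ℕ} (h : Has s e) (h' : Has s e') :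
    Has s (fun n => e n * e' n) := by
  obtain ⟨G, _, _, h1, h2, h3⟩ := h
  obtain ⟨H, _, _, h1', h2', h3'⟩ := h'
  refine ⟨G × H, inferInstance, inferInstance, fun hs => ?_, fun hs hh => ?_, fun n => ?_⟩
  · have := h1 hs; have := h1' hs; infer_instance
  · exact h2 hs (Group.isSolvable_of_surjective (f := MonoidHom.fst G H) Prod.fst_surjective)
  · rw [card_prod_pow, h3, h3']

theorem Has.mul_none {e e' : ℕ → ℕ} (h : Has (some false) e) (h' : Has none e') :
    Has (some false) (fun n => e n * e' n) := by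
  obtain ⟨G, _, _, h1, h2, h3⟩ := h
  obtain ⟨H, _, _, h1', h2', h3'⟩ := h'
  refine ⟨G × H, inferInstance, inferInstance, fun hs => by simp at hs, fun hs hh => ?_, fun n => ?_⟩
  · exact h2 hs (Group.isSolvable_of_surjective (f := MonoidHom.fst G H) Prod.fst_surjective)
  · rw [card_prod_pow, h3, h3']

theorem Has.pow {s : Option Bool} {e : ℕ → ℕ} (h : Has s e) (m : ℕ) :
    Has s (fun n => e n ^ (m + 1)) := by
  induction m with
  | zero => simpa using h
  | succ m ih => simpa [pow_succ] using ih.mul h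

theorem final {e e' : ℕ → ℕ} (h : Has (some true) e) (h' : Has (some false) e')
    (he : ∀ n, e n = e' n) :
    ∃ (G : Type) (_ : Group G) (_ : Finite G) (H : Type) (_ : Group H) (_ : Finite H),
      Group.IsSolvable G ∧ ¬ Group.IsSolvable H ∧
      ∀ n : ℕ, Nat.card {g : G // orderOf g = n} = Nat.card {h : H // orderOf h = n} := by
  classical
  obtain ⟨G, _, _, h1, -, h3⟩ := h
  obtain ⟨H, _, _, -, h2', h3'⟩ := h'
  refine ⟨G, _, inferInstance, H, _, inferInstance, h1 rfl, h2' rfl, fun n => ?_⟩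
  have := Fintype.ofFinite G
  have := Fintype.ofFinite H
  have key : ∀ (K : Type) [Group K] [Fintype K] (n : ℕ), n ≠ 0 →
      Nat.card {x : K // x ^ n = 1} = ∑ d ∈ n.divisors, Nat.card {x : K // orderOf x = d} := by
    intro K _ _ n hn
    simp only [Nat.card_eq_fintype_card, Fintype.card_subtype]
    exact (sum_card_orderOf_eq_card_pow_eq_one hn).symm
  induction n using Nat.strong_induction_on with
  | _ n ih =>
    rcases Nat.eq_zero_or_pos n with rfl | hn
    · have e1 : IsEmpty {g : G // orderOf g = 0} := ⟨fun x => (orderOf_pos x.1).ne' x.2⟩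
      have e2 : IsEmpty {g : H // orderOf g = 0} := ⟨fun x => (orderOf_pos x.1).ne' x.2⟩
      rw [Nat.card_of_isEmpty, Nat.card_of_isEmpty]
    · have a := key G n hn.ne'
      have b := key H n hn.ne'
      rw [h3, he, ← h3', b, ← Nat.insert_self_properDivisors hn.ne',
        Finset.sum_insert Nat.self_notMem_properDivisors,
        Finset.sum_insert Nat.self_notMem_properDivisors,
        Finset.sum_congr rfl (fun d hd => (ih d (Nat.mem_properDivisors.1 hd).2).symm)] at a
      omega

theorem has_none (S L : List ℕ) (T : List (ℕ × ℕ)) (O : List ℕ) (h : chk k S L T O = true) :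
    Has none (cnt O) := by
  obtain ⟨-, H, -, h2⟩ := engine S L T O h
  exact ⟨H, inferInstance, inferInstance, by simp, by simp, h2⟩

theorem card_of_cnt {G : Type} [Group G] {e : ℕ → ℕ} (h : ∀ n, Nat.card {x : G // x ^ n = 1} = e n) :
    Nat.card G = e 0 := by
  rw [← h 0]
  exact (Nat.card_congr (Equiv.subtypeUnivEquiv (by simp))).symm

theorem has_two (S L : List ℕ) (T : List (ℕ × ℕ)) (O : List ℕ) (h : chk k S L T O = true)
    (p q a b : ℕ) (hp : p.Prime) (hq : q.Prime) (hO : cnt O 0 = p ^ a * q ^ b) :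
    Has (some true) (cnt O) := by
  obtain ⟨-, H, -, h2⟩ := engine S L T O h
  refine ⟨H, inferInstance, inferInstance, fun _ => ?_, by simp, h2⟩
  exact Cfsg.Agent.H4.burnside_pq hp hq ((card_of_cnt h2).trans hO)

theorem has_three (S L : List ℕ) (T : List (ℕ × ℕ)) (O : List ℕ) (h : chk k S L T O = true)
    (r c p q a b : ℕ) (hr : r.Prime) (hp : p.Prime) (hq : q.Prime)
    (hO : cnt O 0 = r ^ c * (p ^ a * q ^ b)) (hnd : ¬ r ∣ p ^ a * q ^ b)
    (hc : cnt O (r ^ c) = r ^ c) :
    Has (some true) (cnt O) := by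
  obtain ⟨-, H, -, h2⟩ := engine S L T O h
  refine ⟨H, inferInstance, inferInstance, fun _ => ?_, by simp, h2⟩
  have hcard := (card_of_cnt h2).trans hO
  have := Fact.mk hr
  obtain ⟨P⟩ : Nonempty (Sylow r H) := inferInstance
  have hP : Nat.card P = r ^ c := by
    rw [Sylow.card_eq_multiplicity, hcard, Nat.factorization_mul (pow_ne_zero _ hr.ne_zero)
      (mul_ne_zero (pow_ne_zero _ hp.ne_zero) (pow_ne_zero _ hq.ne_zero))]
    simp [Nat.factorization_eq_zero_of_not_dvd hnd, hr.factorization_self]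
  have hset : ((P : Subgroup H) : Set H) = {x : H | x ^ (r ^ c) = 1} := by
    apply Set.eq_of_subset_of_ncard_le
    · intro x hx
      have := pow_card_eq_one' (G := P) (x := ⟨x, hx⟩)
      rw [hP] at this
      exact congrArg Subtype.val this
    · have e1 : ({x : H | x ^ (r ^ c) = 1} : Set H).ncard = r ^ c := by
        rw [← Nat.card_coe_set_eq]; exact (h2 _).trans hc
      have e2 : ((P : Subgroup H) : Set H).ncard = r ^ c := by
        rw [← Nat.card_coe_set_eq]; exact hP
      omega
    · exact Set.toFinite _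
  have hN : (P : Subgroup H).Normal := ⟨fun x hx g => by
    have hx' : x ∈ ((P : Subgroup H) : Set H) := hx
    show g * x * g⁻¹ ∈ ((P : Subgroup H) : Set H)
    rw [hset] at hx' ⊢
    simp only [Set.mem_setOf_eq] at hx' ⊢
    rw [conj_pow, hx']; simp⟩
  have hQ : Nat.card (H ⧸ (P : Subgroup H)) = p ^ a * q ^ b := by
    have := Subgroup.card_eq_card_quotient_mul_card_subgroup (P : Subgroup H)
    rw [hcard, hP, mul_comm] at this
    exact (Nat.eq_of_mul_eq_mul_right (pow_pos hr.pos _) this).symm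
  have s1 := Cfsg.Agent.H4.burnside_pq hp hq hQ
  have s2 : Group.IsSolvable (P : Subgroup H) :=
    Cfsg.Agent.H4.burnside_pq (b := 0) hr hr (by simpa using hP)
  exact Group.isSolvable_of_ker_le_range (P : Subgroup H).subtype (QuotientGroup.mk' (P : Subgroup H)) (by simp)

theorem has_false (S L : List ℕ) (T : List (ℕ × ℕ)) (O : List ℕ) (h : chk k S L T O = true)
    (X : List ℕ) (hX : ∀ x ∈ X, x ∈ L) (x0 : ℕ) (hx0 : x0 ∈ X) (hne : x0 ≠ idc k)
    (hc : ∀ x ∈ X, ∃ y ∈ X, ∃ z ∈ X, comp k y z = comp k x (comp k z y)) :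
    Has (some false) (cnt O) := by
  obtain ⟨hk, H, h1, h2⟩ := engine S L T O h
  refine ⟨H, inferInstance, inferInstance, by simp, fun _ => ?_, h2⟩
  have key : ∀ n, ∀ g : H, enc (g : Equiv.Perm (Fin k)) ∈ X → g ∈ derivedSeries H n := by
    intro n
    induction n with
    | zero => intro g _; simp
    | succ n ih =>
      intro g hg
      obtain ⟨y, hy, z, hz, e⟩ := hc _ hg
      obtain ⟨y, hy', rfl⟩ := h1 y (hX y hy)
      obtain ⟨z, hz', rfl⟩ := h1 z (hX z hz)
      rw [← enc_mul hk, ← enc_mul hk, ← enc_mul hk] at e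
      have e' := enc_inj hk e
      have : g = ⁅(⟨y, hy'⟩ : H), (⟨z, hz'⟩ : H)⁆ := by
        apply Subtype.ext
        simp only [commutatorElement_def, Subgroup.coe_mul, Subgroup.coe_inv]
        rw [e']; group
      rw [this, derivedSeries_succ]
      exact commutator_mem_commutator (ih _ hy) (ih _ hz)
  obtain ⟨g, hg, rfl⟩ := h1 x0 (hX x0 hx0)
  refine not_isSolvable_of_mem_derivedSeries (g := (⟨g, hg⟩ : H)) ?_ (fun n => key n _ hx0)
  intro e
  apply hne
  rw [show g = 1 from congrArg Subtype.val e, enc_one]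

theorem cnt_gcd (O : List ℕ) (E n : ℕ) (h : O.all (fun o => Nat.beq (E % o) 0) = true) :
    cnt O n = cnt O (Nat.gcd n E) := by
  apply List.countP_congr
  intro o ho
  simp only [List.all_eq_true, Nat.beq_eq] at h
  have := Nat.dvd_of_mod_eq_zero (h o ho)
  simp only [Nat.beq_eq, ← Nat.dvd_iff_mod_eq_zero, Nat.dvd_gcd_iff, this, and_true]

end Cfsg.Agent.H26.OT
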