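import Mathlib
import Cfsg.Agent.H26.RD1

/-! Eigen-projections relative to a fixed singular vector. -/

set_option autoImplicit false
set_option linter.unusedSectionVars false

namespace Cfsg.Agent.H26.RD

open Module QuadraticMap H13 MD Finset
open scoped Pointwise Classical

variable {F V : Type*} [Field F] [Fintype F] [AddCommGroup V] [Module F V] [FiniteDimensional F V]
  [Fintype V] {Q : QuadraticForm F V} [hC : OC Q]
  {M : Type*} [AddCommGroup M] [Module ℂ M] [FiniteDimensional ℂ M] (ρ : Om Q →* End ℂ M)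

local notation "B" => polar Q
local notation "q" => Nat.card F
local notation "n" => finrank F V
local notation "ψ" => psi F
local notation "tr" => LinearMap.trace ℂ M

theorem mp_perp (g : Om Q) (a : V) : mp g (perp Q (F ∙ a)) = perp Q (F ∙ (g • a)) := by
  ext w; rw [mem_mp, mem_perp_singleton, mem_perp_singleton, Bg_left]
theorem mp_pp (g : Om Q) (a b : V) : mp g (pp Q a b) = pp Q (g • a) (g • b) := by
  ext w; rw [mem_mp, mem_perp_pair, mem_perp_pair, Bg_left, Bg_left]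

theorem notMem_swap {p a x : V} (ha : a ∉ F ∙ p) (hx : x ∉ Submodule.span F {p, a}) :
    a ∉ Submodule.span F {p, x} := fun h => by
  obtain ⟨s, t, rfl⟩ := Submodule.mem_span_pair.1 h
  by_cases ht : t = 0
  · exact ha (by simp [ht, Submodule.smul_mem, Submodule.mem_span_singleton_self])
  · exact hx (Submodule.mem_span_pair.2 ⟨-(s / t), t⁻¹, by match_scalars <;> field_simp <;> ring⟩)

theorem rho_sw {a x : V} (ha : Q a = 0) (hx : Q x = 0) (h : B a x = 0) (c : F) :
    rho Q a (c • x) = rho Q x (-c • a) := by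
  rw [← rho_smul_left ha h, rho_swap hx (by simp [Q_smul, ha]) (by simp [polar_comm Q x a, h]), neg_smul]

theorem sum_av' {Y S : Submodule F V} (h : perp Q Y ≤ S) (a z : V) :
    ∑ y ∈ fs Y, av ρ S a (z + y) = (#(fs (perp Q S)) : ℂ) • av ρ (perp Q Y) a z := by
  refine smul_right_injective _ (card_fs_ne S) ?_
  simp only
  rw [sum_av, inf_eq_right.2 h, smul_smul, ← Nat.cast_mul]
  simp only [card_fs, ← pow_add]
  rw [add_comm, hC.nd.finrank_perp, add_comm, hC.nd.finrank_perp]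

noncomputable def ee (p : V) : End ℂ M := av ρ (perp Q (F ∙ p)) p 0
noncomputable def pj (p a z : V) : End ℂ M := av ρ (pp Q p a) a z * ee ρ p

variable {ρ} {p a x z w : V}

theorem ee_conj (g : Om Q) (p : V) : ρ g * ee ρ p = ee ρ (g • p) * ρ g := by
  rw [ee, av_conj, mp_perp, smul_zero, ee]
theorem pj_conj (g : Om Q) (p a z : V) : ρ g * pj ρ p a z = pj ρ (g • p) (g • a) (g • z) * ρ g := by
  rw [pj, ← mul_assoc, av_conj, mul_assoc, ee_conj, mp_pp, pj, mul_assoc]
theorem rho_ee (h : B p w = 0) : ρ (rho Q p w) * ee ρ p = ee ρ p := by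
  rw [ee, mul_av (fun _ => mem_perp_singleton.1) (mem_perp_singleton.2 h)]; simp
theorem ee_rho (h : B p w = 0) : ee ρ p * ρ (rho Q p w) = ee ρ p := by
  rw [ee, av_mul (fun _ => mem_perp_singleton.1) (mem_perp_singleton.2 h)]; simp
theorem ee_idem : ee ρ p * ee ρ p = ee ρ p :=
  av_left fun w hw => by rw [rho_ee (mem_perp_singleton.1 hw)]; simp
theorem ee_zero : ee ρ 0 = 1 := by
  rw [← mul_one (ee ρ 0)]
  exact av_left fun w _ => by rw [show rho Q 0 w = 1 from Subtype.ext (sieg_zero_left w)]; simp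
theorem ee_smul (hp : Q p = 0) {c : F} (hc : c ≠ 0) : ee ρ (c • p) = ee ρ p := by
  rw [ee, Submodule.span_singleton_smul_eq hc.isUnit, ← smul_zero c,
    av_smul (fun _ => mem_perp_singleton.1) hp hc, ee]
theorem pj_zero (a z : V) : pj ρ 0 a z = av ρ (perp Q (F ∙ a)) a z := by
  rw [pj, ee_zero, mul_one]; congr 1; ext w; simp [mem_perp_pair, mem_perp_singleton]
theorem pj_smul_left (hp : Q p = 0) {c : F} (hc : c ≠ 0) : pj ρ (c • p) a z = pj ρ p a z := by
  rw [pj, ee_smul hp hc, pj]; congr 2; ext w; rw [mem_perp_pair, mem_perp_pair]; simp [hc]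
theorem pj_smul (ha : Q a = 0) {c : F} (hc : c ≠ 0) : pj ρ p (c • a) (c • z) = pj ρ p a z := by
  rw [pj, pj, show pp Q p (c • a) = pp Q p a by ext w; rw [mem_perp_pair, mem_perp_pair]; simp [hc],
    av_smul (fun _ h => (mem_perp_pair.1 h).2) ha hc]
theorem comm_ee {g : Om Q} (h : g • p = p) : Commute (ρ g) (ee ρ p) := by
  rw [Commute, SemiconjBy, ee_conj, h]
theorem pj_ee : pj ρ p a z * ee ρ p = pj ρ p a z := by rw [pj, mul_assoc, ee_idem]
theorem pj_congr {z' : V} (h : z - z' ∈ Submodule.span F {p, a}) : pj ρ p a z = pj ρ p a z' := by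
  rw [pj, pj, av_congr fun w hw => sub_eq_zero.1 (by rw [← polar_sub_left]; exact mem_perp.1 hw _ h)]
theorem rho_pj (h1 : B p w = 0) (h2 : B a w = 0) :
    ρ (rho Q a w) * pj ρ p a z = ψ (B z w) • pj ρ p a z := by
  rw [pj, ← mul_assoc, mul_av (fun _ h => (mem_perp_pair.1 h).2) (mem_perp_pair.2 ⟨h1, h2⟩), smul_mul_assoc]

theorem av_ee {S : Submodule F V} (h : B p a = 0) (hS : ∀ w ∈ S, B p w = 0) :
    Commute (ee ρ p) (av ρ S a z) :=
  commute_av fun w hw => (comm_ee (rho_fix (by rwa [polar_comm]) (by rw [polar_comm, hS w hw]))).symm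

section
variable (h : polar Q p a = 0)
include h
theorem pj_eq : pj ρ p a z = ee ρ p * av ρ (pp Q p a) a z :=
  (av_ee h fun _ h => (mem_perp_pair.1 h).1).eq.symm
theorem ee_pj : ee ρ p * pj ρ p a z = pj ρ p a z := by rw [pj_eq h, ← mul_assoc, ee_idem]
theorem pj_rho (h1 : B p w = 0) (h2 : B a w = 0) :
    pj ρ p a z * ρ (rho Q a w) = ψ (B z w) • pj ρ p a z := by
  rw [pj_eq h, mul_assoc, av_mul (fun _ h => (mem_perp_pair.1 h).2) (mem_perp_pair.2 ⟨h1, h2⟩),
    mul_smul_comm]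
theorem pj_left {T : End ℂ M} (h1 : ee ρ p * T = T)
    (h2 : ∀ w, B p w = 0 → B a w = 0 → ρ (rho Q a w) * T = ψ (B z w) • T) : pj ρ p a z * T = T := by
  rw [pj, mul_assoc, h1, av_left fun w hw => h2 w (mem_perp_pair.1 hw).1 (mem_perp_pair.1 hw).2]
theorem pj_idem : pj ρ p a z * pj ρ p a z = pj ρ p a z := pj_left h (ee_pj h) fun _ => rho_pj
theorem pj_orth {z' : V} (hz : z - z' ∉ Submodule.span F {p, a}) : pj ρ p a z * pj ρ p a z' = 0 := by
  obtain ⟨w, hw, e⟩ := hC.nd.exists_perp_polar_ne hz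
  obtain ⟨h1, h2⟩ := mem_perp_pair.1 hw
  refine zero_of_psi e fun c => ?_
  have e1 := mul_assoc (pj ρ p a z) (ρ (rho Q a (c • w))) (pj ρ p a z')
  rw [pj_rho h (by simp [h1]) (by simp [h2]), rho_pj (by simp [h1]) (by simp [h2]), smul_mul_assoc,
    mul_smul_comm] at e1
  refine smul_right_injective _ (AddChar.val_isUnit ψ (B z' (c • w))).ne_zero ?_
  simp only
  rw [← e1, smul_smul, ← AddChar.map_add_eq_mul]
  congr 2; simp; ring
theorem pj_zero1 (ha : Q a = 0) (hz : B a z ≠ 0) : pj ρ p a z = 0 :=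
  zero_of_psi hz fun c => by
    simpa [rho_smul_self ha, polar_comm Q z a] using
      rho_pj (ρ := ρ) (p := p) (a := a) (z := z) (w := c • a) (by simp [h]) (by simp [Bss ha])
theorem pj_zero2 (hp : Q p = 0) (ha : Q a = 0) (hz : B p z ≠ 0) : pj ρ p a z = 0 :=
  zero_of_psi hz fun c => by
    have := rho_pj (ρ := ρ) (p := p) (z := z) (w := c • p) (a := a) (by simp [Bss hp]) (by simp [polar_comm Q a p, h])
    rw [rho_sw ha hp (by rwa [polar_comm]), ← ee_pj h, ← mul_assoc, rho_ee (by simp [h])] at this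
    simpa [ee_pj h, polar_comm Q z p] using this
theorem b1 (ha : Q a = 0) (hx : Q x = 0) (hpx : B p x = 0) (hax : B a x = 0) (hz : B z x ≠ 0) :
    pj ρ p a z * pj ρ p x 0 = 0 := zero_of_psi hz fun c => by
  have e1 := mul_assoc (pj ρ p a z) (ρ (rho Q a (c • x))) (pj ρ p x 0)
  rw [pj_rho h (by simp [hpx]) (by simp [hax]), rho_sw ha hx hax,
    rho_pj (by simp [h]) (by simp [polar_comm Q x a, hax])] at e1
  simpa using e1.symm
end

variable (Q) in
structure Gd (p a : V) : Prop where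
  s : Q a = 0
  pa : polar Q p a = 0
  ne : a ∉ F ∙ p

variable (ρ) in
structure Lv (c₀ : F) (p : V) : Prop where
  tr1 : ∀ {a z}, Gd Q p a → polar Q p z = 0 → polar Q a z = 0 → z ∉ Submodule.span F {p, a} →
    LinearMap.trace ℂ M (pj ρ p a z) = if Q z = c₀ then 1 else 0
  triv : ∀ {a x z w}, Gd Q p a → Q x = 0 → x ∉ Submodule.span F {p, a} → z ∉ Submodule.span F {p, a} →
    polar Q p x = 0 → polar Q a x = 0 → polar Q p z = 0 → polar Q a z = 0 → polar Q x z = 0 →
    polar Q p w = 0 → polar Q a w = 0 → polar Q x w = 0 → polar Q z w = 0 →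
    ρ (rho Q x w) * pj ρ p a z = pj ρ p a z

theorem mem_p3 : w ∈ perp Q (Submodule.span F {p, a} ⊔ F ∙ x) ↔ (B p w = 0 ∧ B a w = 0) ∧ B x w = 0 :=
  mem_DD3

theorem Lv.b2 {c₀ : F} (L : Lv ρ c₀ p) (ha : Gd Q p a) (hx : Gd Q p x) (hax : B a x = 0)
    (hxa : x ∉ Submodule.span F {p, a}) (h1 : B p z = 0) (h2 : B a z = 0) (h3 : B x z = 0)
    (hz : z ∉ Submodule.span F {p, a} ⊔ F ∙ x) :
    q * tr (pj ρ p a z * pj ρ p x 0) = if Q z = c₀ then 1 else 0 := by
  have hz' : z ∉ Submodule.span F {p, a} := fun h => hz (Submodule.mem_sup_left h)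
  have hax' := notMem_swap ha.ne hxa
  have hxa' : B x a = 0 := by rwa [polar_comm]
  obtain ⟨w, hw, e⟩ := hC.nd.exists_perp_polar_ne hz
  obtain ⟨⟨w1, w2⟩, w3⟩ := mem_p3.1 hw
  set T := pp Q p x ⊓ perp Q (F ∙ a) with hT
  have mT : ∀ {v}, v ∈ T ↔ (B p v = 0 ∧ B x v = 0) ∧ B a v = 0 := by
    simp only [hT, Submodule.mem_inf, mem_perp_pair, mem_perp_singleton, implies_true]
  have e1 : pj ρ p a z * pj ρ p x 0 = pj ρ p a z * (av ρ T x 0 * ee ρ p) := by
    rw [hT, ← sum_line (by rwa [pp, hC.nd.perp_perp]), sum_mul, mul_sum, sum_eq_single 0]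
    · simp [pj]
    · refine fun c _ hc => zero_of_psi e fun t => ?_
      have e2 := mul_assoc (pj ρ p a z) (ρ (rho Q a (t • w))) (pj ρ p x (c • a))
      rw [pj_rho ha.pa (by simp [w1]) (by simp [w2]), L.triv hx ha.s hax'
        (by rwa [Submodule.smul_mem_iff _ hc]) ha.pa hxa' (by simp [ha.pa]) (by simp [hxa'])
        (by simp [Bss ha.s]) (by simp [w1]) (by simp [w3]) (by simp [w2]) (by simp [w2])] at e2
      simpa [pj] using e2.symm
    · simp
  have e2 : ∀ v ∈ fs T, tr (pj ρ p a z * ρ (rho Q x v)) =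
      if B v z = 0 then tr (pj ρ p a z) else 0 := fun v hv => by
    obtain ⟨⟨v1, v2⟩, v3⟩ := mT.1 (mem_fs.1 hv)
    split_ifs with h
    · rw [LinearMap.trace_mul_comm, L.triv ha hx.s hxa hz' hx.pa hax h1 h2 h3 v1 v3 v2 (by rwa [polar_comm])]
    · have e3 := pj_conj (ρ := ρ) (rho Q x v) p a z
      rw [rho_fix (by rw [polar_comm, hx.pa]) (by rw [polar_comm, v1]),
        rho_fix hxa' (by rw [polar_comm, v3]), rho_perp hx.s v2 h3] at e3
      rw [← pj_idem ha.pa, mul_assoc, LinearMap.trace_mul_comm, mul_assoc, e3, ← mul_assoc,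
        pj_orth ha.pa (by simpa [Submodule.smul_mem_iff _ h] using hxa)]
      simp
  have e3 := shift (fs T) w (fun y hy t => by
      simpa using add_mem (mem_fs.1 hy) (T.smul_mem t (mT.2 ⟨⟨w1, w3⟩, w2⟩))) (fun v => B v z)
    (fun _ => B w z) (fun _ _ => by rwa [polar_comm]) (fun _ _ _ => by simp)
    fun c => if c = 0 then tr (pj ρ p a z) else 0
  rw [e1, ← mul_assoc, LinearMap.trace_mul_comm, ← mul_assoc, ee_pj ha.pa, av, mul_smul_comm, mul_sum,
    map_smul, map_sum, sum_congr rfl fun v hv => by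
      rw [polar_zero_left, neg_zero, AddChar.map_zero_eq_one, one_smul, e2 v hv], smul_eq_mul,
    mul_left_comm, e3, ← L.tr1 ha h1 h2 hz', inv_mul_cancel_left₀ (card_fs_ne T)]
  simp

end Cfsg.Agent.H26.RD
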