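import Mathlib
import Cfsg.Agent.H26.RD2

/-! The trace computation at one level. -/

set_option autoImplicit false
set_option linter.unusedSectionVars false

namespace Cfsg.Agent.H26.RD

open Module QuadraticMap H13 MD Finset
open scoped Pointwise Classical

variable {F V : Type*} [Field F] [Fintype F] [AddCommGroup V] [Module F V] [FiniteDimensional F V]
  [Fintype V] {Q : QuadraticForm F V} [hC : OC Q]
  {M : Type*} [AddCommGroup M] [Module ℂ M] [FiniteDimensional ℂ M] (ρ : Om Q →* End ℂ M)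

local notation "B" => polar Q
local notation "q" => Nat.card F
local notation "n" => finrank F V
local notation "ψ" => psi F
local notation "tr" => LinearMap.trace ℂ M

variable (Q) in
noncomputable def cnt (S : Submodule F V) (c : F) : ℕ := #{z | z ∈ perp Q S ∧ Q z = c}
variable (Q) in
noncomputable def cne (S : Submodule F V) (b : V) (c : F) : ℕ := #{z | (z ∈ perp Q S ∧ Q z = c) ∧ B z b ≠ 0}

theorem card_sup {S : Submodule F V} {b : V} (h : b ∉ S) : #(fs (S ⊔ F ∙ b)) = q * #(fs S) := by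
  rw [card_fs, card_fs, finrank_sup_span_singleton_of_notMem h, pow_succ']

theorem card_perp_sup {S : Submodule F V} {b : V} (h : b ∉ S) :
    q * #(fs (perp Q (S ⊔ F ∙ b))) = #(fs (perp Q S)) := by
  rw [perp_sup, card_inf (by rwa [hC.nd.perp_perp])]

theorem cne_eq {S : Submodule F V} {b : V} (hb : Q b = 0) (h1 : b ∈ perp Q S) (h : b ∉ S) (c : F) :
    (q : ℂ) ^ 2 * cne Q S b c = (q - 1) * #(fs (perp Q S)) := by
  have e1 := shift (R := ℂ) (univ.filter fun z => z ∈ perp Q S ∧ B z b ≠ 0) b (fun y hy t => by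
      simp only [mem_filter, mem_univ, true_and] at hy ⊢
      exact ⟨add_mem hy.1 (Submodule.smul_mem _ t h1), by simpa [Bss hb] using hy.2⟩) Q (fun y => B y b)
    (fun y hy => (mem_filter.1 hy).2.2) (fun y _ t => by simp [Q_add, Q_smul, hb])
    fun a => if a = c then 1 else 0
  simp only [sum_ite_eq', mem_univ, if_true, mul_one, sum_boole, filter_filter] at e1
  have e2 := card_filter_add_card_filter_not (s := fs (perp Q S)) fun z => B z b = 0
  rw [show (fs (perp Q S)).filter (fun z => B z b = 0) = fs (perp Q (S ⊔ F ∙ b)) by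
    ext z; rw [mem_filter, mem_fs, mem_fs, perp_sup, Submodule.mem_inf, mem_perp_singleton, polar_comm],
    show (fs (perp Q S)).filter (fun z => ¬ B z b = 0) = univ.filter fun z => z ∈ perp Q S ∧ B z b ≠ 0 by
      ext z; simp] at e2
  have e3 := congrArg (Nat.cast (R := ℂ)) (card_perp_sup (Q := Q) h)
  have e4 := congrArg (Nat.cast (R := ℂ)) e2
  rw [cne, show (univ.filter fun z => (z ∈ perp Q S ∧ Q z = c) ∧ B z b ≠ 0) =
    univ.filter fun z => (z ∈ perp Q S ∧ B z b ≠ 0) ∧ Q z = c from filter_congr fun z _ => by tauto]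
  push_cast at e3 e4
  linear_combination q * e1 + q * e4 - e3

theorem cnt_sup (S : Submodule F V) (b : V) (c : F) : cnt Q S c = cnt Q (S ⊔ F ∙ b) c + cne Q S b c := by
  rw [cnt, ← card_filter_add_card_filter_not fun z => B z b = 0, filter_filter, filter_filter, cnt, cne]
  congr 2; ext z
  simp only [mem_filter, mem_univ, true_and, perp_sup, Submodule.mem_inf, mem_perp_singleton,
    polar_comm Q z b]; tauto

theorem card_diff {S : Submodule F V} (hS : ∀ z ∈ S, Q z = 0) (c : F) :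
    (#{z | (z ∈ perp Q S ∧ Q z = c) ∧ z ∉ S} : ℂ) = cnt Q S c - (if c = 0 then 1 else 0) * #(fs S) := by
  rw [cnt, ← card_filter_add_card_filter_not (s := univ.filter fun z => z ∈ perp Q S ∧ Q z = c) (· ∈ S),
    filter_filter, filter_filter]
  split_ifs with h
  · rw [show (univ.filter fun z => (z ∈ perp Q S ∧ Q z = c) ∧ z ∈ S) = fs S by
      ext z; simpa using fun hz => ⟨le_perp_of_singular hS hz, by rw [h, hS z hz]⟩]; simp
  · rw [show (univ.filter fun z => (z ∈ perp Q S ∧ Q z = c) ∧ z ∈ S) = ∅ by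
      ext z; simpa using fun _ e hz => h (by rw [← e, hS z hz])]; simp

theorem sp2 (p a : V) : Submodule.span F {p, a} = (F ∙ p) ⊔ F ∙ a := Submodule.span_insert _ _

noncomputable def GG (p a b : V) : End ℂ M := ∑ z with B z b ≠ 0, pj ρ p a z

variable {ρ} {p a b x : V} {c₀ : F}

theorem sum_pj (p a : V) : ∑ z, pj ρ p a z = (#(fs (Submodule.span F {p, a})) : ℂ) • ee ρ p := by
  have h : perp Q ⊤ = ⊥ := by rw [← hC.nd.perp_perp ⊥]; congr 1; ext; simp [mem_perp]
  have := sum_av' ρ (Y := ⊤) (S := pp Q p a) (h ▸ bot_le) a 0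
  rw [h, av_bot, pp, hC.nd.perp_perp, show fs (⊤ : Submodule F V) = univ by ext; simp] at this
  simp only [zero_add] at this
  simp only [pj, ← sum_mul, this, smul_mul_assoc, one_mul]

theorem GG_eq (h1 : B p b = 0) (h2 : B a b = 0) : GG ρ p a b =
    (#(fs (Submodule.span F {p, a})) : ℂ) • (ee ρ p - av ρ (F ∙ b) a 0 * ee ρ p) := by
  have := sum_av' ρ (Y := perp Q (F ∙ b)) (S := pp Q p a) (by
    rw [hC.nd.perp_perp, Submodule.span_singleton_le_iff_mem]; exact mem_perp_pair.2 ⟨h1, h2⟩) a 0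
  rw [hC.nd.perp_perp, pp, hC.nd.perp_perp] at this
  rw [smul_sub, ← sum_pj, ← smul_mul_assoc, ← this, sum_mul, ← sum_filter_add_sum_filter_not univ
    fun z => B z b ≠ 0, GG, eq_sub_iff_add_eq]
  congr 1
  exact sum_congr (by ext z; rw [mem_fs, mem_perp_singleton]; simp [polar_comm Q z b])
    fun z _ => by rw [zero_add, pj]

theorem line_le (h : B a b = 0) : ∀ w ∈ F ∙ b, B a w = 0 := fun w hw => by
  obtain ⟨c, rfl⟩ := Submodule.mem_span_singleton.1 hw; simp [h]

theorem av_swap (ha : Q a = 0) (hb : Q b = 0) (h : B a b = 0) : av ρ (F ∙ b) a 0 = av ρ (F ∙ a) b 0 := by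
  have h' : B b a = 0 := by rwa [polar_comm]
  rw [← av_left (ρ := ρ) (S := F ∙ b) (a := a) (z := 0) (T := av ρ (F ∙ a) b 0) fun w hw => ?_,
    av_right (ρ := ρ) fun w hw => ?_]
  all_goals obtain ⟨c, rfl⟩ := Submodule.mem_span_singleton.1 hw
  · rw [rho_sw hb ha h', av_mul (line_le h) (Submodule.smul_mem _ _ (Submodule.mem_span_singleton_self b))]
    simp
  · rw [rho_sw ha hb h, mul_av (line_le h') (Submodule.smul_mem _ _ (Submodule.mem_span_singleton_self a))]
    simp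

theorem Gd.card (ha : Gd Q p a) : #(fs (Submodule.span F {p, a})) = q * #(fs (F ∙ p)) := by
  rw [sp2, card_sup ha.ne]

theorem GG_swap (ha : Gd Q p a) (hb : Gd Q p b) (h : B a b = 0) : GG ρ p a b = GG ρ p b a := by
  rw [GG_eq hb.pa h, GG_eq ha.pa (by rwa [polar_comm]), ha.card, hb.card, av_swap ha.s hb.s h]

theorem GG_shift (ha : Gd Q p a) (hb : Gd Q p b) (h : B a b = 0) {c : F} (ha' : Gd Q p (a - c • b)) :
    GG ρ p a b = GG ρ p (a - c • b) b := by
  rw [GG_eq hb.pa h, GG_eq hb.pa (by simp [h, Bss hb.s]), ha.card, ha'.card, av, av]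
  rw [sum_congr rfl fun w hw => ?_]
  obtain ⟨t, rfl⟩ := Submodule.mem_span_singleton.1 (mem_fs.1 hw)
  have h' : B b a = 0 := by rwa [polar_comm]
  rw [rho_sw ha.s hb.s h, rho_sw ha'.s hb.s (by simp [h, Bss hb.s]), smul_sub, sub_eq_add_neg, smul_smul,
    ← neg_smul, rho_add (by simp [h']) (by simp [Bss hb.s]), rho_smul_self hb.s, mul_one]

theorem tr_GG_pj (p a b x : V) : tr (GG ρ p a b * pj ρ p x 0) =
    ∑ z with B z b ≠ 0, tr (pj ρ p a z * pj ρ p x 0) := by rw [GG, sum_mul, map_sum]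

theorem Gd.sing (hp : Q p = 0) (ha : Gd Q p a) : ∀ z ∈ Submodule.span F {p, a}, Q z = 0 := fun z hz => by
  obtain ⟨s, t, rfl⟩ := Submodule.mem_span_pair.1 hz
  simp [Q_add, Q_smul, hp, ha.s, ha.pa]

theorem sing3 (hp : Q p = 0) (ha : Gd Q p a) (hx : Gd Q p x) (hax : B a x = 0) :
    ∀ z ∈ Submodule.span F {p, a} ⊔ F ∙ x, Q z = 0 := fun z hz => by
  obtain ⟨y, hy, w, hw, rfl⟩ := Submodule.mem_sup.1 hz
  obtain ⟨s, t, rfl⟩ := Submodule.mem_span_pair.1 hy
  obtain ⟨r, rfl⟩ := Submodule.mem_span_singleton.1 hw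
  simp [Q_add, Q_smul, hp, ha.s, ha.pa, hx.s, hx.pa, hax]

theorem Lv.b3 (L : Lv ρ c₀ p) (hp : Q p = 0) (ha : Gd Q p a) (hx : Gd Q p x) (hax : B a x = 0)
    (hxa : x ∉ Submodule.span F {p, a}) {z : V} (hz : z ∉ Submodule.span F {p, a} ⊔ F ∙ x) :
    q * tr (pj ρ p a z * pj ρ p x 0) =
      if z ∈ perp Q (Submodule.span F {p, a} ⊔ F ∙ x) ∧ Q z = c₀ then 1 else 0 := by
  rw [mem_p3]
  by_cases h1 : B p z = 0; swap
  · simp [pj_zero2 ha.pa hp ha.s h1, h1]
  by_cases h2 : B a z = 0; swap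
  · simp [pj_zero1 ha.pa ha.s h2, h2]
  by_cases h3 : B x z = 0; swap
  · simp [b1 ha.pa ha.s hx.s hx.pa hax (by rwa [polar_comm]), h3]
  rw [L.b2 ha hx hax hxa h1 h2 h3 hz]; simp [h1, h2, h3]

theorem Lv.phi1 (L : Lv ρ c₀ p) (hp : Q p = 0) (ha : Gd Q p a) (hx : Gd Q p x) (hax : B a x = 0)
    (hxa : x ∉ Submodule.span F {p, a}) (hb : b ∈ perp Q (Submodule.span F {p, a} ⊔ F ∙ x)) :
    q * tr (GG ρ p a b * pj ρ p x 0) = cne Q (Submodule.span F {p, a} ⊔ F ∙ x) b c₀ := by
  rw [tr_GG_pj, mul_sum, sum_congr rfl fun z hz => L.b3 hp ha hx hax hxa fun h =>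
    absurd (mem_perp.1 hb z h) (by simpa using hz), sum_boole, filter_filter, cne]
  congr 2; ext z; simp [and_comm]

theorem sum_sup {S : Submodule F V} (hx : x ∉ S) (f : V → ℂ) :
    ∑ z ∈ fs (S ⊔ F ∙ x), f z = ∑ c : F, ∑ s ∈ fs S, f (s + c • x) := by
  rw [← sum_product']
  symm
  refine sum_bij (fun c _ => c.2 + c.1 • x) (fun c hc => ?_) (fun c hc d hd h => ?_) (fun z hz => ?_)
    fun _ _ => rfl
  · exact mem_fs.2 (Submodule.add_mem_sup (by simpa using hc)
      (Submodule.smul_mem _ _ (Submodule.mem_span_singleton_self x)))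
  · have : c.1 = d.1 := by
      by_contra h0
      refine hx ((S.smul_mem_iff (sub_ne_zero.2 h0)).1 ?_)
      rw [show (c.1 - d.1) • x = d.2 - c.2 by rw [sub_smul]; linear_combination (norm := module) h]
      exact sub_mem (by simpa using hd) (by simpa using hc)
    exact Prod.ext this (by simpa [this] using h)
  · obtain ⟨y, hy, w, hw, rfl⟩ := Submodule.mem_sup.1 (mem_fs.1 hz)
    obtain ⟨r, rfl⟩ := Submodule.mem_span_singleton.1 hw
    exact ⟨(r, y), by simpa, rfl⟩

variable (ρ) in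
noncomputable def th (p a x : V) : ℂ := ∑ c : F with c ≠ 0, tr (pj ρ p a (c • x) * pj ρ p x 0)

theorem Lv.phi2 (L : Lv ρ c₀ p) (hp : Q p = 0) (ha : Gd Q p a) (hx : Gd Q p x) (hax : B a x = 0)
    (h1 : B p b = 0) (h2 : B a b = 0) (hb : B x b ≠ 0) :
    q ^ 2 * tr (GG ρ p a b * pj ρ p x 0) = (q - 1) * (cnt Q (Submodule.span F {p, a} ⊔ F ∙ x) c₀ -
      (if c₀ = 0 then 1 else 0) * #(fs (Submodule.span F {p, a} ⊔ F ∙ x))) +
      q ^ 2 * #(fs (Submodule.span F {p, a})) * th ρ p a x := by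
  have hS : ∀ s ∈ Submodule.span F {p, a}, B s b = 0 := mem_perp.1 (mem_perp_pair.2 ⟨h1, h2⟩)
  have hxa : x ∉ Submodule.span F {p, a} := fun h => hb (hS x h)
  set S := Submodule.span F {p, a} ⊔ F ∙ x with hS3
  have hx3 : x ∈ S := Submodule.mem_sup_right (Submodule.mem_span_singleton_self x)
  have s3 := sing3 hp ha hx hax
  have e1 : ∑ z ∈ (univ.filter fun z => B z b ≠ 0).filter (· ∈ S), tr (pj ρ p a z * pj ρ p x 0) =
      #(fs (Submodule.span F {p, a})) * th ρ p a x := by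
    rw [filter_comm, ← fs, sum_filter, hS3, sum_sup hxa, th, mul_sum, sum_filter]
    refine sum_congr rfl fun c _ => ?_
    rw [sum_congr rfl fun s hs => by
      rw [polar_add_left, hS s (mem_fs.1 hs), pj_congr (z' := c • x) (by simpa using hs)]]
    by_cases hc : c = 0 <;> simp [hc, hb]
  have e2 := shift (R := ℂ) (univ.filter fun z => (z ∈ perp Q S ∧ Q z = c₀) ∧ z ∉ S) x (fun y hy t => by
      simp only [mem_filter, mem_univ, true_and] at hy ⊢
      exact ⟨⟨add_mem hy.1.1 (Submodule.smul_mem _ t (le_perp_of_singular s3 hx3)), by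
        simp [Q_add, Q_smul, hx.s, hy.1.2, polar_comm Q y x, mem_perp.1 hy.1.1 x hx3]⟩,
        by rw [S.add_mem_iff_left (S.smul_mem t hx3)]; exact hy.2⟩)
    (fun y => B y b) (fun _ => B x b) (fun _ _ => hb) (fun _ _ _ => by simp) fun c => if c = 0 then 0 else 1
  have e3 : q * ∑ z ∈ (univ.filter fun z => B z b ≠ 0).filter (· ∉ S), tr (pj ρ p a z * pj ρ p x 0) =
      ∑ y ∈ univ.filter fun z => (z ∈ perp Q S ∧ Q z = c₀) ∧ z ∉ S, if B y b = 0 then 0 else 1 := by
    rw [mul_sum, sum_congr rfl fun z hz => L.b3 hp ha hx hax hxa (mem_filter.1 hz).2, filter_filter,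
      sum_filter, sum_filter]
    exact sum_congr rfl fun z _ => by split_ifs <;> tauto
  rw [card_diff s3, show ∑ c : F, (if c = 0 then 0 else 1 : ℂ) = q - 1 by
    simp [sum_ite, filter_ne', card_erase_of_mem, Nat.cast_pred Fintype.card_pos]] at e2
  rw [tr_GG_pj, ← sum_filter_add_sum_filter_not _ (· ∈ S), e1]
  linear_combination q * e3 + e2

end Cfsg.Agent.H26.RD
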