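import Mathlib
import Cfsg.Agent.H26.RD3

/-! The level formula. -/

set_option autoImplicit false
set_option linter.unusedSectionVars false

namespace Cfsg.Agent.H26.RD

open Module QuadraticMap H13 MD Finset
open scoped Pointwise Classical

variable {F V : Type*} [Field F] [Fintype F] [AddCommGroup V] [Module F V] [FiniteDimensional F V]
  [Fintype V] {Q : QuadraticForm F V} [hC : OC Q]
  {M : Type*} [AddCommGroup M] [Module ℂ M] [FiniteDimensional ℂ M] (ρ : Om Q →* End ℂ M)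

local notation "B" => polar Q
local notation "q" => Nat.card F
local notation "n" => finrank F V
local notation "ψ" => psi F
local notation "tr" => LinearMap.trace ℂ M

noncomputable def Am (p : V) : End ℂ M := ∑ x with Gd Q p x, (ee ρ p - pj ρ p x 0)

variable {ρ} {p a b x : V} {c₀ : F}

theorem exch {S : Submodule F V} (hx : x ∈ S ⊔ F ∙ b) (h : x ∉ S) : b ∈ S ⊔ F ∙ x := by
  obtain ⟨y, hy, w, hw, rfl⟩ := Submodule.mem_sup.1 hx
  obtain ⟨r, rfl⟩ := Submodule.mem_span_singleton.1 hw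
  have hr : r ≠ 0 := by rintro rfl; exact h (by simpa)
  exact Submodule.mem_sup.2 ⟨_, S.smul_mem (-r⁻¹) hy, _, Submodule.smul_mem _ r⁻¹
    (Submodule.mem_span_singleton_self _), by match_scalars <;> field_simp <;> ring⟩

theorem cne_zero {S : Submodule F V} (h : b ∈ S) (c : F) : cne Q S b c = 0 := by
  rw [cne, card_eq_zero, filter_eq_empty_iff]
  exact fun z _ hz => hz.2 (polar_comm Q b z ▸ mem_perp.1 hz.1.1 b h)

theorem cnt_step {S : Submodule F V} (hb : Q b = 0) (h1 : b ∈ perp Q S) (h : b ∉ S) {c : F} {δ : ℂ}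
    (e : q * (cnt Q S c : ℂ) = δ + #(fs (perp Q S))) :
    q * (cnt Q (S ⊔ F ∙ b) c : ℂ) = δ + #(fs (perp Q (S ⊔ F ∙ b))) := by
  have e1 := cne_eq hb h1 h c
  have e2 := congrArg (Nat.cast (R := ℂ)) (card_perp_sup (Q := Q) h)
  rw [cnt_sup S b] at e
  push_cast at e e2
  refine mul_left_cancel₀ (q_ne (F := F)) ?_
  linear_combination q * e - e1 - e2

theorem Gd.mp1 (ha : Gd Q p a) : a ∈ perp Q (F ∙ p) := mem_perp_singleton.2 ha.pa

theorem Gd.cp (ha : Gd Q p a) :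
    q * (#(fs (perp Q (Submodule.span F {p, a}))) : ℂ) = #(fs (perp Q (F ∙ p))) := by
  rw [sp2]; exact_mod_cast card_perp_sup ha.ne

theorem Gd.cn (ha : Gd Q p a) {c : F} {δ : ℂ} (e : q * (cnt Q (F ∙ p) c : ℂ) = δ + #(fs (perp Q (F ∙ p)))) :
    q * (cnt Q (Submodule.span F {p, a}) c : ℂ) = δ + #(fs (perp Q (Submodule.span F {p, a}))) := by
  rw [sp2]; exact cnt_step ha.s ha.mp1 ha.ne e

theorem sing1 (hp : Q p = 0) : ∀ z ∈ F ∙ p, Q z = 0 := fun z hz => by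
  obtain ⟨c, rfl⟩ := Submodule.mem_span_singleton.1 hz; simp [Q_smul, hp]

theorem card_Gd (hp : Q p = 0) : (#{x | Gd Q p x} : ℂ) = cnt Q (F ∙ p) 0 - #(fs (F ∙ p)) := by
  have := card_diff (sing1 hp) 0
  rw [if_pos rfl, one_mul] at this
  rw [← this]; congr 2; ext x
  simp only [mem_filter, mem_univ, true_and, mem_perp_singleton]
  exact ⟨fun h => ⟨⟨h.pa, h.s⟩, h.ne⟩, fun h => ⟨h.1.2, h.1.1, h.2⟩⟩

theorem Lv.tr_pj (L : Lv ρ c₀ p) (hp : Q p = 0) (ha : Gd Q p a) {z : V}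
    (hz : z ∉ Submodule.span F {p, a}) : tr (pj ρ p a z) =
      if z ∈ perp Q (Submodule.span F {p, a}) ∧ Q z = c₀ then 1 else 0 := by
  rw [mem_perp_pair]
  by_cases h1 : B p z = 0; swap
  · simp [pj_zero2 ha.pa hp ha.s h1, h1]
  by_cases h2 : B a z = 0; swap
  · simp [pj_zero1 ha.pa ha.s h2, h2]
  rw [L.tr1 ha h1 h2 hz]; simp [h1, h2]

theorem Lv.tr_ee (L : Lv ρ c₀ p) (hp : Q p = 0) (ha : Gd Q p a) :
    #(fs (Submodule.span F {p, a})) * tr (ee ρ p - pj ρ p a 0) = cnt Q (Submodule.span F {p, a}) c₀ -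
      (if c₀ = 0 then 1 else 0) * #(fs (Submodule.span F {p, a})) := by
  have e := congrArg tr (sum_pj (ρ := ρ) p a)
  rw [map_sum, ← sum_filter_add_sum_filter_not _ (· ∈ Submodule.span F {p, a}), ← fs,
    sum_congr rfl fun z hz => by rw [pj_congr (z' := 0) (by simpa using hz)],
    sum_congr rfl fun z hz => L.tr_pj hp ha (mem_filter.1 hz).2, sum_boole, filter_comm, filter_filter,
    card_diff (ha.sing hp)] at e
  simp only [sum_const, nsmul_eq_mul, map_smul, smul_eq_mul] at e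
  rw [map_sub]; linear_combination -e

theorem Lv.tr_GG (L : Lv ρ c₀ p) (hp : Q p = 0) (ha : Gd Q p a) (h1 : B p b = 0) (h2 : B a b = 0) :
    tr (GG ρ p a b) = cne Q (Submodule.span F {p, a}) b c₀ := by
  rw [GG, map_sum, sum_congr rfl fun z hz => L.tr_pj hp ha fun h =>
    absurd (mem_perp.1 (mem_perp_pair.2 ⟨h1, h2⟩) z h) (by simpa using hz), sum_boole, filter_filter, cne]
  congr 2; ext z; simp [and_comm]

theorem ee_GG (ha : Gd Q p a) : ee ρ p * GG ρ p a b = GG ρ p a b := by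
  rw [GG, mul_sum]; exact sum_congr rfl fun _ _ => ee_pj ha.pa

section
variable (L : Lv ρ c₀ p) (hp : Q p = 0) {δ0 δ k m : ℂ} (hk : k = #(fs (F ∙ p)))
  (hm : m = #(fs (perp Q (F ∙ p)))) (h0 : Nat.card F * (cnt Q (F ∙ p) 0 : ℂ) = δ0 + m)
  (hc : Nat.card F * (cnt Q (F ∙ p) c₀ : ℂ) = δ + m)
include L hp hk hm h0 hc

theorem Lv.tr_Am : q ^ 4 * k * tr (Am ρ p) =
    (δ0 + m - q * k) * (q * δ + m - (if c₀ = 0 then 1 else 0) * q ^ 3 * k) := by
  have e : ∀ x ∈ univ.filter (Gd Q p), q ^ 3 * k * tr (ee ρ p - pj ρ p x 0) =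
      q * δ + m - (if c₀ = 0 then 1 else 0) * q ^ 3 * k := fun x hx => by
    have hx := (mem_filter.1 hx).2
    have e1 := L.tr_ee hp hx
    have e2 := hx.cn (hm ▸ hc)
    have e3 := hx.cp
    rw [hx.card, Nat.cast_mul, ← hk] at e1
    rw [hm]; linear_combination q ^ 2 * e1 + q * e2 + e3
  rw [Am, map_sum, pow_succ', mul_assoc, mul_assoc, ← mul_assoc (_ ^ 3), mul_sum, sum_congr rfl e, sum_const,
    nsmul_eq_mul, card_Gd hp, ← hk, ← h0]
  ring

theorem Lv.phi {θ : ℂ} (hθ : ∀ a x, Gd Q p a → Gd Q p x → B a x = 0 → x ∉ Submodule.span F {p, a} →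
    th ρ p a x = θ) (ha : Gd Q p a) (hb : Gd Q p b) (hab : B a b = 0) (hba : b ∉ Submodule.span F {p, a})
    (hx : Gd Q p x) : q ^ 5 * tr (GG ρ p a b * pj ρ p x 0) =
      if x ∈ perp Q (Submodule.span F {p, a} ⊔ F ∙ b) then
        (if x ∈ Submodule.span F {p, a} ⊔ F ∙ b then 0 else (q - 1) * m) else
      (q - 1) * (q ^ 2 * δ + m - (if c₀ = 0 then 1 else 0) * q ^ 5 * k) + q ^ 6 * k * θ := by
  have key : ∀ a b, Gd Q p a → Gd Q p b → B a x = 0 → B a b = 0 → B x b ≠ 0 →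
      q ^ 5 * tr (GG ρ p a b * pj ρ p x 0) =
      (q - 1) * (q ^ 2 * δ + m - (if c₀ = 0 then 1 else 0) * q ^ 5 * k) + q ^ 6 * k * θ :=
    fun a b ha hb hax hab h => by
      have hxa : x ∉ Submodule.span F {p, a} := fun h' =>
        h (mem_perp.1 (mem_perp_pair.2 ⟨hb.pa, hab⟩) x h')
      have e1 := L.phi2 hp ha hx hax hb.pa hab h
      have e2 := cnt_step hx.s (mem_perp_pair.2 ⟨hx.pa, hax⟩) hxa (ha.cn (hm ▸ hc))
      have e3 := congrArg (Nat.cast (R := ℂ)) (card_perp_sup (Q := Q) hxa)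
      have e4 := ha.cp
      rw [hθ a x ha hx hax hxa, card_sup hxa, ha.card] at e1
      push_cast at e1 e3
      rw [← hk] at e1
      rw [hm]; linear_combination q ^ 3 * e1 + (q - 1) * (q ^ 2 * e2 + q * e3 + e4)
  have hba' : B b a = 0 := by rwa [polar_comm]
  by_cases h1 : x ∈ perp Q (Submodule.span F {p, a} ⊔ F ∙ b)
  · obtain ⟨⟨-, hax⟩, hbx⟩ := mem_p3.1 h1
    rw [if_pos h1]
    by_cases h2 : x ∈ Submodule.span F {p, a}
    · have h3 : a ∈ Submodule.span F {p, x} := by rw [sp2] at h2 ⊢; exact exch h2 hx.ne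
      have h4 : x ∉ Submodule.span F {p, b} := fun h => notMem_swap ha.ne hba
        ((Submodule.span_le.2 (Set.insert_subset (Submodule.subset_span (by simp)) (by simpa))) h3)
      have e := L.phi1 hp hb hx hbx h4 (mem_p3.2 ⟨⟨ha.pa, hba'⟩, by rwa [polar_comm]⟩)
      rw [cne_zero (by
        rw [sp2] at h3 ⊢; exact SetLike.le_def.1 (sup_le_sup_right le_sup_left _) h3)] at e
      rw [if_pos (Submodule.mem_sup_left h2), GG_swap ha hb hab]
      linear_combination q ^ 4 * e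
    have hb3 := mem_p3.2 ⟨⟨hb.pa, hab⟩, (polar_comm Q b x ▸ hbx : B x b = 0)⟩
    have e := L.phi1 hp ha hx hax h2 hb3
    split_ifs with h3
    · rw [cne_zero (exch h3 h2)] at e; linear_combination q ^ 4 * e
    · have h4 : b ∉ Submodule.span F {p, a} ⊔ F ∙ x := fun h => h3 (exch h hba)
      have e1 := cne_eq hb.s hb3 h4 c₀
      have e3 := congrArg (Nat.cast (R := ℂ)) (card_perp_sup (Q := Q) h2)
      have e4 := ha.cp
      push_cast at e3
      rw [hm]; linear_combination q ^ 4 * e + q ^ 2 * e1 + (q - 1) * (q * e3 + e4)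
  rw [if_neg h1]
  by_cases h2 : B x b = 0
  · rw [GG_swap ha hb hab]
    exact key b a hb ha (by rwa [polar_comm]) hba' fun h => h1 (mem_p3.2
      ⟨⟨hx.pa, by rwa [polar_comm]⟩, by rwa [polar_comm]⟩)
  · have ha' : Gd Q p (a - (B x a / B x b) • b) := ⟨by simp [Q_sub, Q_smul, ha.s, hb.s, hab],
      by simp [ha.pa, hb.pa], fun h => notMem_swap ha.ne hba (by
        rw [sp2, ← sub_add_cancel a ((B x a / B x b) • b)]
        exact Submodule.add_mem_sup h (Submodule.smul_mem _ _ (Submodule.mem_span_singleton_self b)))⟩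
    rw [GG_shift ha hb hab ha']
    exact key _ b ha' hb (by rw [polar_comm]; simp [h2]) (by simp [hab, Bss hb.s]) h2

theorem Lv.alpha {θ : ℂ} (hθ : ∀ a x, Gd Q p a → Gd Q p x → B a x = 0 → x ∉ Submodule.span F {p, a} →
    th ρ p a x = θ) (ha : Gd Q p a) (hb : Gd Q p b) (hab : B a b = 0) (hba : b ∉ Submodule.span F {p, a})
    {α : ℂ} (hα : Am ρ p * GG ρ p a b = α • GG ρ p a b) :
    q ^ 3 * α = (q ^ 2 - 1) * (δ0 - δ + m + (if c₀ = 0 then 1 else 0) * q ^ 3 * k) -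
      q ^ 4 * (q + 1) * k * θ := by
  set S := Submodule.span F {p, a} ⊔ F ∙ b with hS
  have hb2 : b ∈ perp Q (Submodule.span F {p, a}) := mem_perp_pair.2 ⟨hb.pa, hab⟩
  have pS : F ∙ p ≤ S := by rw [hS, sp2]; exact le_sup_of_le_left le_sup_left
  have e1 := congrArg (fun T => q ^ 5 * tr T) hα
  have c1 : (#{x ∈ {x ∈ univ.filter (Gd Q p) | x ∈ perp Q S} | x ∉ S} : ℂ) = cnt Q S 0 - #(fs S) := by
    have := card_diff (sing3 hp ha hb hab) 0
    rw [if_pos rfl, one_mul] at this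
    rw [← this]; congr 2; ext x
    simp only [mem_filter, mem_univ, true_and]
    exact ⟨fun h => ⟨⟨h.1.2, h.1.1.s⟩, h.2⟩,
      fun h => ⟨⟨⟨h.1.2, (mem_p3.1 h.1.1).1.1, fun h' => h.2 (pS h')⟩, h.1.1⟩, h.2⟩⟩
  have c2 : (#{x ∈ univ.filter (Gd Q p) | x ∉ perp Q S} : ℂ) = cnt Q (F ∙ p) 0 - cnt Q S 0 := by
    rw [cnt, ← card_filter_add_card_filter_not (s := univ.filter fun z => z ∈ perp Q (F ∙ p) ∧ Q z = 0)
      (· ∈ perp Q S), cnt, Nat.cast_add, eq_sub_iff_add_eq, add_comm]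
    congr 3 <;> ext x <;> simp only [mem_filter, mem_univ, true_and, mem_perp_singleton]
    · exact ⟨fun h => ⟨⟨(mem_p3.1 h.1).1.1, h.2⟩, h.1⟩, fun h => ⟨h.2, h.1.2⟩⟩
    · exact ⟨fun h => ⟨⟨h.1.pa, h.1.s⟩, h.2⟩, fun h => ⟨⟨h.1.2, h.1.1, fun h' => h.2
        (le_perp_of_singular (sing3 hp ha hb hab) (pS h'))⟩, h.2⟩⟩
  simp only [Am, sum_mul, sub_mul, ee_GG ha, map_sum, map_sub, mul_sum, mul_sub, map_smul, smul_eq_mul] at e1
  rw [sum_sub_distrib, sum_const, nsmul_eq_mul] at e1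
  rw [sum_congr rfl fun x hx => by
    rw [LinearMap.trace_mul_comm, L.phi hp hk hm h0 hc hθ ha hb hab hba (mem_filter.1 hx).2],
    sum_ite, sum_ite, sum_const_zero, sum_const, sum_const, nsmul_eq_mul, nsmul_eq_mul, c1, c2, card_Gd hp,
    L.tr_GG hp ha hb.pa hab, card_sup hba, ha.card] at e1
  have e2 := cne_eq hb.s hb2 hba c₀
  have e3 := cnt_step hb.s hb2 hba (ha.cn (hm ▸ h0))
  have e4 := congrArg (Nat.cast (R := ℂ)) (card_perp_sup (Q := Q) hba)
  have e5 := ha.cp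
  have hq1 : (q : ℂ) - 1 ≠ 0 := sub_ne_zero.2 (by exact_mod_cast (two_le_q (F := F)).trans_lt' one_lt_two |>.ne')
  push_cast at e1 e4
  rw [← hk] at e1
  rw [← hm] at e5
  have hm0 : m ≠ 0 := hm ▸ card_fs_ne _
  refine mul_left_cancel₀ (mul_ne_zero (mul_ne_zero hm0 hq1) (pow_ne_zero 2 (q_ne (F := F)))) ?_
  rw [← hS] at e3 e4
  generalize (#(fs (perp Q S)) : ℂ) = m3, (#(fs (perp Q (Submodule.span F {p, a}))) : ℂ) = m2,
    (cnt Q S 0 : ℂ) = s, (cnt Q (F ∙ p) 0 : ℂ) = s', (cne Q (Submodule.span F {p, a}) b c₀ : ℂ) = t,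
    (if c₀ = 0 then 1 else 0 : ℂ) = ε, (q : ℂ) = r at *
  obtain rfl : m2 = r * m3 := e4.symm
  obtain rfl : m = r * (r * m3) := e5.symm
  generalize hφ : (r - 1) * (r ^ 2 * δ + r * (r * m3) - ε * r ^ 5 * k) + r ^ 6 * k * θ = φ at e1
  linear_combination (-r ^ 3) * e1 + r ^ 6 * (s' - k - α) * e2 + (r ^ 6 * (r - 1) * m3 - r ^ 2 * φ) * h0 -
    (r ^ 4 * (r - 1) * m3 - r ^ 2 * φ) * e3 + r ^ 2 * (r ^ 2 - 1) * m3 * hφ
end

end Cfsg.Agent.H26.RD
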