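import Mathlib
import Cfsg.Agent.H26.RD4

/-! Passing from level zero to level one. -/

set_option autoImplicit false
set_option linter.unusedSectionVars false

namespace Cfsg.Agent.H26.RD

open Module QuadraticMap H13 MD Finset
open scoped Pointwise Classical

variable {F V : Type*} [Field F] [Fintype F] [AddCommGroup V] [Module F V] [FiniteDimensional F V]
  [Fintype V] {Q : QuadraticForm F V} [hC : OC Q]
  {M : Type*} [AddCommGroup M] [Module ℂ M] [FiniteDimensional ℂ M] (ρ : Om Q →* End ℂ M)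

local notation "B" => polar Q
local notation "q" => Nat.card F
local notation "n" => finrank F V
local notation "ψ" => psi F
local notation "tr" => LinearMap.trace ℂ M

/-- the elements fixing the range of `T` pointwise -/
def Fix (T : End ℂ M) : Subgroup (Om Q) where
  carrier := {g | ρ g * T = T}
  one_mem' := by simp
  mul_mem' {g h} hg hh := by
    simp only [Set.mem_setOf_eq] at *; rw [map_mul, mul_assoc, hh, hg]
  inv_mem' {g} hg := by
    simp only [Set.mem_setOf_eq] at *; conv_lhs => rw [← hg, ← mul_assoc, ← map_mul]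
    simp

variable {ρ} {p a b x z : V} {c₀ : F}

theorem mem_Fix {T : End ℂ M} {g : Om Q} : g ∈ Fix ρ T ↔ ρ g * T = T := Iff.rfl

theorem sp0 (a : V) : Submodule.span F {0, a} = F ∙ a := by simp

theorem Gd0 (ha : Q a = 0) (h : a ≠ 0) : Gd Q 0 a := ⟨ha, by simp, by simpa⟩

theorem Gd.ne0 (ha : Gd Q p a) : a ≠ 0 := fun h => ha.ne (h ▸ zero_mem _)

theorem Gd.sw (ha : Gd Q p a) (hp0 : p ≠ 0) : p ∉ F ∙ a := by
  simpa using notMem_swap (p := 0) (a := p) (x := a) (by simpa) (by simpa using ha.ne)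

theorem ee_eq (p : V) : ee ρ p = pj ρ 0 p 0 := (pj_zero p 0).symm

theorem pj_sum (ha : Gd Q p a) (hp0 : p ≠ 0) (z : V) :
    pj ρ p a z = ∑ c : F, pj ρ 0 a (z + c • p) * pj ρ 0 p 0 := by
  simp only [pj_zero]
  rw [← sum_mul, sum_line (by rw [hC.nd.perp_perp]; exact ha.sw hp0), pj, ee]
  congr 2; ext w; rw [mem_perp_pair, Submodule.mem_inf, mem_perp_singleton, mem_perp_singleton, and_comm]

theorem Lv.up (L : Lv ρ c₀ 0) (hp : Q p = 0) (hp0 : p ≠ 0) : Lv ρ c₀ p := by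
  have hm : ∀ {a z : V} (c : F), z ∉ Submodule.span F {p, a} →
      z + c • p ∉ Submodule.span F {0, a} ⊔ F ∙ p := fun c hz => by
    rw [sp0, sup_comm, ← sp2, Submodule.add_mem_iff_left _ (Submodule.smul_mem _ _
      (Submodule.subset_span (by simp)))]; exact hz
  refine ⟨fun {a z} ha h1 h2 hz => ?_, fun {a x z w} ha hx hxa hz h1 h2 h3 h4 h5 h6 h7 h8 h9 => ?_⟩
  · have hap : B a p = 0 := by rw [polar_comm, ha.pa]
    refine mul_left_cancel₀ (q_ne (F := F)) ?_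
    rw [pj_sum ha hp0, map_sum, mul_sum, sum_congr rfl fun c _ => L.b2 (Gd0 ha.s ha.ne0) (Gd0 hp hp0) hap
      (by rw [sp0]; exact ha.sw hp0) (by simp) (by simp [h2, hap]) (by simp [h1, Bss hp]) (hm c hz)]
    simp [Q_add, Q_smul, hp, polar_comm Q z p, h1]
  · rw [pj_sum ha hp0, mul_sum]
    refine sum_congr rfl fun c _ => ?_
    rw [← mul_assoc, L.triv (Gd0 ha.s ha.ne0) hx (fun h => hxa (by
      rw [sp0] at h; rw [sp2]; exact Submodule.mem_sup_right h)) (fun h => hm c hz (Submodule.mem_sup_left h))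
      (by simp) h2 (by simp) (by simp [h4, polar_comm Q a p, ha.pa]) (by simp [h5, polar_comm Q x p, h1])
      (by simp) h7 h8 (by simp [h9, h6])]

theorem av_sup {S S' : Submodule F V} (hS : ∀ w ∈ S ⊔ S', B a w = 0) (z : V) :
    av ρ (S ⊔ S') a z = av ρ S a z * av ρ S' a z := by
  have h1 := fun w hw => hS w (Submodule.mem_sup_left hw)
  have h2 := fun w hw => hS w (Submodule.mem_sup_right hw)
  rw [← av_left (ρ := ρ) (S := S ⊔ S') (a := a) (z := z) (T := av ρ S a z * av ρ S' a z) fun w hw => ?_,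
    ← mul_assoc, av_right fun w hw => av_mul hS (Submodule.mem_sup_left hw),
    av_right fun w hw => av_mul hS (Submodule.mem_sup_right hw)]
  obtain ⟨u, hu, v, hv, rfl⟩ := Submodule.mem_sup.1 hw
  rw [rho_add (h1 u hu) (h2 v hv), map_mul, mul_assoc, ← mul_assoc _ (av ρ S a z),
    (commute_av fun w hw => commute_rho (h2 v hv) (h1 w hw)).eq, mul_assoc, mul_av h2 hv, ← mul_assoc,
    mul_av h1 hu, polar_add_right, AddChar.map_add_eq_mul, mul_smul, smul_mul_assoc, mul_smul_comm]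

theorem dec {S : Submodule F V} {y : V} (hy : y ∈ S) (h : B b y = 1) :
    S = (F ∙ y) ⊔ S ⊓ perp Q (F ∙ b) := by
  refine le_antisymm (fun w hw => ?_) (sup_le ((Submodule.span_singleton_le_iff_mem _ _).2 hy) inf_le_left)
  rw [← add_sub_cancel (B b w • y) w]
  exact Submodule.add_mem_sup (Submodule.smul_mem _ _ (Submodule.mem_span_singleton_self y))
    ⟨sub_mem hw (S.smul_mem _ hy), mem_perp_singleton.2 (by simp [h])⟩

theorem av_red {S : Submodule F V} (hS : ∀ w ∈ S, B a w = 0) {y : V} (hy : y ∈ S) (h : B b y = 1)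
    {T : End ℂ M} (hT : ∀ v ∈ S, B b v = 0 → ρ (rho Q a v) * T = ψ (B z v) • T) :
    av ρ S a z * T = av ρ (F ∙ y) a z * T := by
  rw [dec hy h] at hS
  conv_lhs => rw [dec hy h, av_sup hS, mul_assoc]
  rw [av_left (S := S ⊓ perp Q (F ∙ b)) fun w hw => hT w hw.1 (mem_perp_singleton.1 hw.2)]

variable (ρ) in
def Fx (S : Submodule F V) (a x : V) (T : End ℂ M) : Prop :=
  ∀ v ∈ S, rho Q a v ∈ Fix ρ T ∧ rho Q x v ∈ Fix ρ T

theorem Fx.symm {S : Submodule F V} {T : End ℂ M} (h : Fx ρ S a x T) : Fx ρ S x a T :=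
  fun v hv => (h v hv).symm

theorem Fx.mul {S : Submodule F V} {T : End ℂ M} (h : Fx ρ S a x T) (ha : Q a = 0) (hx : Q x = 0)
    (haS : a ∈ S) (hS : ∀ v ∈ S, B a v = 0 ∧ B x v = 0) {y : V} (hy : B x y = 0) :
    Fx ρ S a x (ρ (rho Q x y) * T) := fun v hv => by
  obtain ⟨h1, h2⟩ := hS v hv
  have h3 := (hS a haS).2
  refine ⟨?_, by rw [mem_Fix, ← mul_assoc, (commute_rho h2 hy).eq, mul_assoc, (h v hv).2]⟩
  have e := conj_rho (rho Q x (-y)) a v
  rw [rho_perp hx (by simpa) h3, rho_perp hx (by simpa) h2, (rr Q x).neg (mem_DD.2 hy), inv_inv,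
    ← sub_neg_eq_add a, ← neg_smul, eq_inv_mul_of_mul_eq (rho_mix hx ha h3 h2 h1 _ _)] at e
  rw [mem_Fix, ← mul_assoc, ← map_mul, show rho Q a v * rho Q x y = rho Q x y *
    ((rho Q x y)⁻¹ * rho Q a v * rho Q x y) by group, map_mul, mul_assoc, e,
    mul_mem (inv_mem (h _ (add_mem (S.smul_mem _ hv) (S.smul_mem _ haS))).2) (h v hv).1]

theorem Fx.av {S S' : Submodule F V} {T : End ℂ M} (h : Fx ρ S a x T) (ha : Q a = 0) (hx : Q x = 0)
    (haS : a ∈ S) (hS : ∀ v ∈ S, B a v = 0 ∧ B x v = 0) (hy : ∀ y ∈ S', B x y = 0) :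
    Fx ρ S a x (av ρ S' x z * T) := fun v hv => by
  constructor <;> rw [mem_Fix, RD.av, smul_mul_assoc, mul_smul_comm, sum_mul, mul_sum] <;>
    refine congrArg _ (sum_congr rfl fun y hy' => ?_) <;> rw [smul_mul_assoc, mul_smul_comm]
  · rw [(h.mul ha hx haS hS (hy y (mem_fs.1 hy')) v hv).1]
  · rw [(h.mul ha hx haS hS (hy y (mem_fs.1 hy')) v hv).2]

theorem Lv.eta (L : Lv ρ 0 p) (hp : Q p = 0) (ha : Gd Q p a) (hx : Gd Q p x) (hax : B a x = 0)
    (hxa : x ∉ Submodule.span F {p, a}) {a' x' : V} (h1 : B p a' = 0) (h2 : B x a' = 0) (h3 : B a a' = 1)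
    (h4 : B p x' = 0) (h5 : B a x' = 0) (h6 : B x x' = 1) {c : F} (hc : c ≠ 0) :
    av ρ (F ∙ x') a (c • x) * (av ρ (F ∙ a') x 0 * pj ρ p a (c • x)) =
      tr (pj ρ p a (c • x) * pj ρ p x 0) • pj ρ p a (c • x) := by
  have hcx : c • x ∉ Submodule.span F {p, a} := by rwa [Submodule.smul_mem_iff _ hc]
  have hF : Fx ρ (perp Q (Submodule.span F {p, a} ⊔ F ∙ x)) a x (pj ρ p a (c • x)) := fun v hv => by
    obtain ⟨⟨v1, v2⟩, v3⟩ := mem_p3.1 hv
    exact ⟨by rw [mem_Fix, rho_pj v1 v2]; simp [v3], L.triv ha hx.s hxa hcx hx.pa hax (by simp [hx.pa])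
      (by simp [hax]) (by simp [Bss hx.s]) v1 v2 v3 (by simp [v3])⟩
  have hF' := hF.av (z := 0) ha.s hx.s (mem_p3.2 ⟨⟨ha.pa, Bss ha.s⟩, by rwa [polar_comm]⟩)
    (fun v hv => ⟨(mem_p3.1 hv).1.2, (mem_p3.1 hv).2⟩) (line_le h2)
  have e1 : pj ρ p x 0 * pj ρ p a (c • x) = av ρ (F ∙ a') x 0 * pj ρ p a (c • x) := by
    rw [pj.eq_1 ρ p x, mul_assoc, ee_pj ha.pa,
      av_red (fun w hw => (mem_perp_pair.1 hw).2) (mem_perp_pair.2 ⟨h1, h2⟩) h3 fun v hv h => by
      rw [(hF v (mem_p3.2 ⟨⟨(mem_perp_pair.1 hv).1, h⟩, (mem_perp_pair.1 hv).2⟩)).2]; simp]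
  rw [LinearMap.trace_mul_comm, ← rank_one (pj_idem ha.pa) (by
    rw [L.tr1 ha (by simp [hx.pa]) (by simp [hax]) hcx]; simp [Q_smul, hx.s]), mul_assoc, e1]
  conv_rhs => lhs; rw [pj]
  rw [mul_assoc, ← mul_assoc (ee ρ p), (av_ee hx.pa (line_le h1)).eq, mul_assoc, ee_pj ha.pa,
    av_red (fun w hw => (mem_perp_pair.1 hw).2) (mem_perp_pair.2 ⟨h4, h5⟩) h6 fun v hv h => by
      rw [(hF' v (mem_p3.2 ⟨mem_perp_pair.1 hv, h⟩)).1]; simp [h]]

theorem exists_dual (ha : a ∉ Submodule.span F {p, x}) : ∃ a', B p a' = 0 ∧ B x a' = 0 ∧ B a a' = 1 := by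
  obtain ⟨b, h1, h2⟩ := hC.nd.exists_perp_one _ ha
  exact ⟨b, polar_comm Q b p ▸ h1 p (Submodule.subset_span (by simp)),
    polar_comm Q b x ▸ h1 x (Submodule.subset_span (by simp)), polar_comm Q b a ▸ h2⟩

theorem Lv.th_up (L : Lv ρ 0 0) (hp : Q p = 0) (hp0 : p ≠ 0) (ha : Gd Q p a) (hx : Gd Q p x)
    (hax : B a x = 0) (hxa : x ∉ Submodule.span F {p, a}) : th ρ p a x = th ρ 0 a x := by
  refine sum_congr rfl fun c hc => ?_
  have hc := (mem_filter.1 hc).2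
  obtain ⟨a', h1, h2, h3⟩ := exists_dual (Q := Q) (notMem_swap ha.ne hxa)
  obtain ⟨x', h4, h5, h6⟩ := exists_dual (Q := Q) hxa
  have hxa' : x ∉ Submodule.span F {0, a} := fun h => hxa (by
    rw [sp0] at h; rw [sp2]; exact Submodule.mem_sup_right h)
  have e1 := (L.up hp hp0).eta hp ha hx hax hxa h1 h2 h3 h4 h5 h6 hc
  have e0 := L.eta (map_zero Q) (Gd0 ha.s ha.ne0) (Gd0 hx.s hx.ne0) hax hxa' (by simp) h2 h3 (by simp) h5 h6 hc
  have e2 : pj ρ p a (c • x) * (ee ρ p * pj ρ 0 a (c • x)) = ee ρ p * pj ρ 0 a (c • x) :=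
    pj_left ha.pa (by rw [← mul_assoc, ee_idem]) fun w w1 w2 => by
      rw [← mul_assoc, (comm_ee (rho_fix (by rw [polar_comm, ha.pa]) (by rwa [polar_comm]))).eq, mul_assoc,
        rho_pj (by simp) w2, mul_smul_comm]
  have e3 := congrArg (· * (ee ρ p * pj ρ 0 a (c • x))) e1
  simp only [mul_assoc, smul_mul_assoc, e2] at e3
  rw [← mul_assoc (av ρ _ x 0), ← (av_ee hx.pa (line_le h1)).eq, mul_assoc, ← mul_assoc,
    ← (av_ee ha.pa (line_le h4)).eq, mul_assoc, e0, mul_smul_comm] at e3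
  refine (smul_left_injective ℂ (fun h => ?_) e3).symm
  have := L.b2 (z := c • x) (Gd0 ha.s ha.ne0) (Gd0 hp hp0) (by rw [polar_comm, ha.pa])
    (by rw [sp0]; exact ha.sw hp0) (by simp) (by simp [hax]) (by simp [hx.pa])
    (by rwa [sp0, sup_comm, ← sp2, Submodule.smul_mem_iff _ hc])
  rw [LinearMap.trace_mul_comm, ← ee_eq, h] at this
  simp [Q_smul, hx.s] at this

end Cfsg.Agent.H26.RD
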