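import Mathlib
import Cfsg.Agent.H26.RD5

/-! Constancy and integrality of the cross term; the scalar of the averaged operator. -/

set_option autoImplicit false
set_option linter.unusedSectionVars false

namespace Cfsg.Agent.H26.RD

open Module QuadraticMap H13 MD Finset
open scoped Pointwise Classical

variable {F V : Type*} [Field F] [Fintype F] [AddCommGroup V] [Module F V] [FiniteDimensional F V]
  [Fintype V] {Q : QuadraticForm F V} [hC : OC Q]
  {M : Type*} [AddCommGroup M] [Module ℂ M] [FiniteDimensional ℂ M] (ρ : Om Q →* End ℂ M)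

local notation "B" => polar Q
local notation "q" => Nat.card F
local notation "n" => finrank F V
local notation "ψ" => psi F
local notation "tr" => LinearMap.trace ℂ M

variable {ρ} {p a b x z : V} {c₀ : F}

theorem tr_conj (g : Om Q) {S T : End ℂ M} (h : ρ g * S = T * ρ g) : tr S = tr T := by
  rw [← one_mul S, ← map_one ρ, ← inv_mul_cancel g, map_mul ρ, mul_assoc, h, LinearMap.trace_mul_comm,
    mul_assoc, ← map_mul ρ]; simp

theorem th_conj (g : Om Q) (p a x : V) : th ρ p a x = th ρ (g • p) (g • a) (g • x) :=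
  sum_congr rfl fun c _ => tr_conj g (by
    rw [← mul_assoc, pj_conj, mul_assoc, pj_conj, g_smul, smul_zero, mul_assoc])

theorem trans2' (hn : 7 ≤ n) {a' z' : V} (ha : a ≠ 0) (ha' : a' ≠ 0) (h : Q a' = Q a) (hz : z ∉ F ∙ a)
    (hz' : z' ∉ F ∙ a') (h1 : Q z' = Q z) (h2 : B a' z' = B a z) : ∃ g : Om Q, g • a = a' ∧ g • z = z' := by
  obtain ⟨g, rfl⟩ := trans1 hn ha ha' h
  obtain ⟨g', h3, h4⟩ := trans2 (Q := Q) hn ha' (g_notMem g hz) hz' (by simpa) (by simpa using h2)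
  exact ⟨g' * g, by rw [mul_smul, h3], by rw [mul_smul, h4]⟩

theorem th_const (hn : 7 ≤ n) {a' x' : V} (ha : Gd Q 0 a) (hx : Gd Q 0 x) (hax : B a x = 0)
    (hxa : x ∉ Submodule.span F {0, a}) (ha' : Gd Q 0 a') (hx' : Gd Q 0 x') (hax' : B a' x' = 0)
    (hxa' : x' ∉ Submodule.span F {0, a'}) : th ρ 0 a' x' = th ρ 0 a x := by
  obtain ⟨g, rfl, rfl⟩ := trans2' hn ha.ne0 ha'.ne0 (ha'.s.trans ha.s.symm) (sp0 (F := F) a ▸ hxa)
    (sp0 (F := F) a' ▸ hxa') (hx'.s.trans hx.s.symm) (hax'.trans hax.symm)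
  rw [th_conj g 0 a x, smul_zero]

theorem Lv.th_zero (L : Lv ρ c₀ p) (hc : c₀ ≠ 0) (ha : Gd Q p a) (hx : Gd Q p x) (hax : B a x = 0)
    (hxa : x ∉ Submodule.span F {p, a}) : th ρ p a x = 0 := sum_eq_zero fun c h => by
  rw [eq_zero_of_tr (pj_idem ha.pa) (by
    rw [L.tr1 ha (by simp [hx.pa]) (by simp [hax]) (by
      rwa [Submodule.smul_mem_iff _ (mem_filter.1 h).2])]; simp [Q_smul, hx.s, hc.symm])]
  simp

theorem av_line {y : V} (hy : y ≠ 0) (a : V) :
    (q : ℂ) • av ρ (F ∙ y) a 0 = ∑ w ∈ fs (F ∙ y), ρ (rho Q a w) := by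
  rw [av, card_fs, finrank_span_singleton hy, pow_one, smul_inv_smul₀ q_ne]; simp

theorem th_int (ha : Gd Q 0 a) (hx : Gd Q 0 x) (hax : B a x = 0) (hxa : x ∉ Submodule.span F {0, a}) :
    IsIntegral ℤ ((q : ℂ) ^ 2 * th ρ 0 a x) := by
  obtain ⟨a', -, h2, h3⟩ := exists_dual (Q := Q) (notMem_swap ha.ne hxa)
  obtain ⟨x', -, h5, h6⟩ := exists_dual (Q := Q) hxa
  have hxa' : B x a = 0 := by rwa [polar_comm]
  set K := perp Q (F ∙ a) ⊓ perp Q (F ∙ x) with hK
  have mK : ∀ {v}, v ∈ K ↔ B a v = 0 ∧ B x v = 0 := by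
    simp only [hK, Submodule.mem_inf, mem_perp_singleton, implies_true]
  have k1 : ∀ v ∈ K, B a v = 0 := fun v hv => (mK.1 hv).1
  have k2 : ∀ v ∈ K, B x v = 0 := fun v hv => (mK.1 hv).2
  have aK : a ∈ K := mK.2 ⟨Bss ha.s, hxa'⟩
  have xK : x ∈ K := mK.2 ⟨hax, Bss hx.s⟩
  set E := av ρ K x 0 * av ρ K a 0 with hE
  have hF : Fx ρ K a x E := fun v hv => by
    refine ⟨?_, by rw [mem_Fix, hE, ← mul_assoc, mul_av k2 hv]; simp⟩
    rw [mem_Fix, hE, av.eq_1 ρ K x, smul_mul_assoc, mul_smul_comm, sum_mul, mul_sum]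
    refine congrArg _ (sum_congr rfl fun w hw => ?_)
    have hw := mem_fs.1 hw
    have e := conj_rho (rho Q x (-w)) a v
    rw [rho_fix hxa' (by simp [polar_comm Q w a, k1 w hw]), rho_perp hx.s (by simp [k2 w hw]) (k2 v hv),
      (rr Q x).neg (mem_DD.2 (k2 w hw)), inv_inv] at e
    rw [smul_mul_assoc, mul_smul_comm, ← mul_assoc, ← map_mul, show rho Q a v * rho Q x w = rho Q x w *
      ((rho Q x w)⁻¹ * rho Q a v * rho Q x w) by group, map_mul, mul_assoc, e,
      mul_av k1 (add_mem hv (K.smul_mem _ xK))]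
    simp
  have hE1 : ∀ {T}, Fx ρ K a x T → E * T = T := fun h => by
    rw [hE, mul_assoc, av_left (a := a) fun w hw => by rw [(h w hw).1]; simp,
      av_left fun w hw => by rw [(h w hw).2]; simp]
  have hI : ∀ v ∈ fs (F ∙ x'), ∀ w ∈ fs (F ∙ a'), IsIntegral ℤ (tr (ρ (rho Q a v) * ρ (rho Q x w) * E)) :=
    fun v hv w hw => by
      have h1 := hE1 ((hF.mul ha.s hx.s aK (fun v => mK.1) (line_le h2 w (mem_fs.1 hw))).symm.mul hx.s ha.s xK
        (fun v hv => (mK.1 hv).symm) (line_le h5 v (mem_fs.1 hv))).symm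
      rw [← mul_assoc (ρ _), ← map_mul] at h1
      rw [← map_mul]
      generalize rho Q a v * rho Q x w = g at h1
      have h2 : ∀ k, (ρ g * E) ^ (k + 1) = ρ (g ^ (k + 1)) * E := fun k => by
        induction k with
        | zero => simp
        | succ k ih => rw [pow_succ, ih, mul_assoc, h1, ← mul_assoc, ← map_mul, ← pow_succ]
      have : Finite (Om Q) := by
        have : Finite (V ≃ₗ[F] V) := Finite.of_injective _ DFunLike.coe_injective
        infer_instance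
      exact tr_integral (orderOf_pos g) (by rw [h2, pow_succ, pow_orderOf_eq_one, one_mul])
  have p1 : pj ρ 0 x 0 = av ρ (F ∙ a') x 0 * av ρ K x 0 := by
    have := dec (S := perp Q (F ∙ x)) (mem_perp_singleton.2 h2) h3
    rw [pj_zero, hK, inf_comm, ← av_sup (by rw [← this]; exact fun _ => mem_perp_singleton.1), ← this]
  have p2 : pj ρ 0 a 0 = av ρ K a 0 * av ρ (F ∙ x') a 0 := by
    have := dec (S := perp Q (F ∙ a)) (mem_perp_singleton.2 h5) h6
    rw [sup_comm] at this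
    rw [pj_zero, hK, ← av_sup (by rw [← this]; exact fun _ => mem_perp_singleton.1), ← this]
  have p3 : th ρ 0 a x = tr (av ρ (F ∙ a') x 0 * E) - tr (av ρ (F ∙ x') a 0 * av ρ (F ∙ a') x 0 * E) := by
    have := sum_line (ρ := ρ) (S := perp Q (F ∙ a)) (y := x) (by rwa [hC.nd.perp_perp, ← sp0]) a 0
    simp only [zero_add, ← pj_zero] at this
    rw [th, filter_ne', sum_erase_eq_sub (mem_univ _), ← map_sum, ← sum_mul, this, zero_smul, p2, p1, hE,
      LinearMap.trace_mul_comm, mul_assoc, mul_assoc, LinearMap.trace_mul_comm (f := av ρ K a 0)]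
    simp only [mul_assoc, hK]
  have n1 : a' ≠ 0 := by rintro rfl; simp at h3
  have n2 : x' ≠ 0 := by rintro rfl; simp at h6
  have p4 : (q : ℂ) ^ 2 * th ρ 0 a x = q * tr (((q : ℂ) • av ρ (F ∙ a') x 0) * E) -
      tr (((q : ℂ) • av ρ (F ∙ x') a 0) * ((q : ℂ) • av ρ (F ∙ a') x 0) * E) := by
    simp only [p3, smul_mul_assoc, mul_smul_comm, map_smul, smul_eq_mul]; ring
  rw [p4, av_line n1, av_line n2, sum_mul_sum]
  simp only [sum_mul, map_sum]
  refine ((isIntegral_natCast _).mul (IsIntegral.sum _ fun w hw => ?_)).sub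
    (IsIntegral.sum _ fun v hv => IsIntegral.sum _ fun w hw => hI v hv w hw)
  simpa [(rr Q a).zero] using hI 0 (by simp) w hw

theorem Gd.g (g : Om Q) : Gd Q (g • p) (g • x) ↔ Gd Q p x :=
  ⟨fun h => ⟨by simpa using h.s, by simpa using h.pa, by simpa using g_notMem g⁻¹ h.ne⟩,
    fun h => ⟨by simpa using h.s, by simpa using h.pa, g_notMem g h.ne⟩⟩

theorem Am_conj (g : Om Q) (p : V) : ρ g * Am ρ p = Am ρ (g • p) * ρ g := by
  rw [Am, Am, mul_sum, sum_mul]
  refine sum_equiv (MulAction.toPerm g) (fun x => by simp [Gd.g]) fun x _ => ?_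
  rw [mul_sub, sub_mul, ee_conj, pj_conj, smul_zero]; rfl

theorem Am_smul (hp : Q p = 0) {c : F} (hc : c ≠ 0) : Am ρ (c • p) = Am ρ p := by
  simp only [Am, ee_smul hp hc, pj_smul_left hp hc]
  congr 2; ext x
  exact ⟨fun h => ⟨h.s, by simpa [hc] using h.pa, by simpa [Submodule.span_singleton_smul_eq hc.isUnit] using h.ne⟩,
    fun h => ⟨h.s, by simp [h.pa], by simpa [Submodule.span_singleton_smul_eq hc.isUnit] using h.ne⟩⟩

theorem comm_Am {g : Om Q} (h : g • p = p) : Commute (Am ρ p) (ρ g) := by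
  rw [Commute, SemiconjBy, Am_conj, h]

theorem Am_pj (ha : Gd Q p a) (z : V) : Commute (Am ρ p) (pj ρ p a z) :=
  (commute_av fun w hw => comm_Am (rho_fix (by rw [polar_comm, ha.pa])
    (by rw [polar_comm, (mem_perp_pair.1 hw).1]))).mul_right (commute_av fun w _ => comm_Am (rho_self p w))

theorem li3 (hp0 : p ≠ 0) (ha : a ∉ F ∙ p) (hz : z ∉ Submodule.span F {p, a}) :
    LinearIndependent F ![z, p, a] :=
  LinearIndependent.finCons (linearIndependent_pair_of_notMem hp0 ha) (by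
    rwa [Matrix.range_cons_cons_empty])

theorem trans3 (hn : 7 ≤ n) (hp : Q p = 0) (hp0 : p ≠ 0) {a' z' : V} (ha : Gd Q p a) (ha' : Gd Q p a')
    (hz : Gd Q p z) (hz' : Gd Q p z') (h : B a z = 0) (h' : B a' z' = 0) (h1 : z ∉ Submodule.span F {p, a})
    (h1' : z' ∉ Submodule.span F {p, a'}) :
    ∃ (g : Om Q) (c : F), c ≠ 0 ∧ g • p = c • p ∧ g • a = a' ∧ g • z = z' := by
  obtain ⟨g, hg⟩ := hC.nd.witt (li3 hp0 ha.ne h1) (li3 hp0 ha'.ne h1') (fun i j => by
    fin_cases i <;> fin_cases j <;> simp [Bss, hp, ha.s, ha'.s, hz.s, hz'.s, ha.pa, ha'.pa, hz.pa, hz'.pa, h, h',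
      polar_comm Q _ p, polar_comm Q z a, polar_comm Q z' a'])
    fun i => by fin_cases i <;> simp [ha.s, ha'.s, hz.s, hz'.s]
  obtain ⟨y, ⟨⟨c, hc, y1⟩, y2, y3⟩, hy⟩ := hC.nd.exists_mul_mem_Om (good_of_five hC.five)
    (p := fun y => (∃ c : F, c ≠ 0 ∧ y.1 p = c • p) ∧ y.1 a = a ∧ y.1 z = z) ⟨⟨1, by simp⟩, rfl, rfl⟩
    (fun u v ⟨⟨c, hc, u1⟩, u2, u3⟩ ⟨⟨d, hd, v1⟩, v2, v3⟩ => ⟨⟨d * c, mul_ne_zero hd hc, by
      rw [OG_mul_apply, v1, map_smul, u1, smul_smul]⟩, by rw [OG_mul_apply, v2, u2], by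
      rw [OG_mul_apply, v3, u3]⟩)
    (by
      obtain ⟨v, hv, h⟩ := hC.nd.exists_nonsingular_perp (Submodule.span F {p, a, z})
        (by have := finrank_span_triple_le (F := F) p a z; omega)
      have k : ∀ w ∈ ({p, a, z} : Set V), (refl Q v).1 w = w := fun w hw =>
        refl_apply_of_perp (by rw [polar_comm]; exact mem_perp.1 hv w (Submodule.subset_span hw))
      exact ⟨v, h, ⟨1, one_ne_zero, by simp [k]⟩, k _ (by simp), k _ (by simp)⟩)
    (fun h2 => by
      obtain ⟨c, hc, hs⟩ := exists_sgn_eq_neg_one h2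
      have h3 : p ∉ Submodule.span F {a, z} := by
        rw [Set.pair_comm] at h1; exact notMem_swap (ha.sw hp0) h1
      obtain ⟨v, v1, v2, v3⟩ := hC.nd.exists_partner _ hp h3
        (fun w hw => polar_comm Q w p ▸ mem_perp.1 (mem_perp_pair.2
          ⟨polar_comm Q p a ▸ ha.pa, polar_comm Q p z ▸ hz.pa⟩) w hw)
      have hh : HP Q p v := ⟨hp, v1, v2⟩
      exact ⟨hh.torus (Units.mk0 c hc), ⟨⟨c, hc, hh.torus_left _⟩,
        hh.torus_pp _ ⟨a, mem_perp_pair.2 ⟨ha.pa, v3 a (Submodule.subset_span (by simp))⟩⟩,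
        hh.torus_pp _ ⟨z, mem_perp_pair.2 ⟨hz.pa, v3 z (Submodule.subset_span (by simp))⟩⟩⟩,
        hh.dickson_torus _ _ _, (hh.spinor_torus _ _ _).trans hs⟩) g
  exact ⟨⟨_, hy⟩, c, hc, by rw [g_def, OG_mul_apply, y1, map_smul]; exact congrArg _ (hg 1),
    by rw [g_def, OG_mul_apply, y2]; exact hg 2, by rw [g_def, OG_mul_apply, y3]; exact hg 0⟩

theorem Lv.scalar (L : Lv ρ 0 p) (hn : 7 ≤ n) (hp : Q p = 0) (hp0 : p ≠ 0) (ha : Gd Q p a) (hb : Gd Q p b)
    (hab : B a b = 0) (hba : b ∉ Submodule.span F {p, a}) : ∃ α : ℂ,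
    Am ρ p * GG ρ p a b = α • GG ρ p a b ∧ Am ρ p * Am ρ p = α • Am ρ p := by
  have key : ∀ x z, Gd Q p x → z ∉ Submodule.span F {p, x} →
      Am ρ p * pj ρ p x z = tr (Am ρ p * pj ρ p a b) • pj ρ p x z := fun x z hx hz => by
    have e := L.tr_pj hp hx hz
    split_ifs at e with h
    · obtain ⟨h1, h2⟩ := mem_perp_pair.1 h.1
      obtain ⟨g, c, hc, g1, rfl, rfl⟩ := trans3 hn hp hp0 ha hx hb
        ⟨h.2, h1, fun h' => hz (by rw [sp2]; exact Submodule.mem_sup_left h')⟩ hab h2 hba hz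
      rw [tr_conj g (T := Am ρ p * pj ρ p (g • a) (g • b)) (by
        rw [← mul_assoc, Am_conj, mul_assoc, pj_conj, g1, Am_smul hp hc, pj_smul_left hp hc, mul_assoc]),
        ← rank_one (pj_idem hx.pa) e, ← (Am_pj hx _).eq, mul_assoc, pj_idem hx.pa]
    · simp [eq_zero_of_tr (pj_idem hx.pa) e]
  refine ⟨tr (Am ρ p * pj ρ p a b), ?_, ?_⟩
  · rw [GG, mul_sum, smul_sum]
    exact sum_congr rfl fun z hz => key a z ha fun h =>
      absurd (mem_perp.1 (mem_perp_pair.2 ⟨hb.pa, hab⟩) z h) (by simpa using hz)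
  · conv_lhs => rhs; rw [Am]
    conv_rhs => rhs; rw [Am]
    rw [mul_sum, smul_sum]
    refine sum_congr rfl fun x hx => smul_right_injective _ (card_fs_ne (Submodule.span F {p, x})) ?_
    have e := sum_pj (ρ := ρ) p x
    rw [← sum_filter_add_sum_filter_not _ (· ∈ Submodule.span F {p, x}), ← fs,
      sum_congr rfl fun z hz => pj_congr (z' := 0) (by simpa using hz), sum_const,
      ← Nat.cast_smul_eq_nsmul ℂ, ← eq_sub_iff_add_eq', ← smul_sub] at e
    simp only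
    rw [← mul_smul_comm, smul_comm, ← e, mul_sum, smul_sum]
    exact sum_congr rfl fun z hz => key x z (mem_filter.1 hx).2 (mem_filter.1 hz).2

theorem rank_Am (p : V) :
    finrank ℂ (LinearMap.range (Am ρ p)) ≤ finrank ℂ (LinearMap.range (ee ρ p)) := by
  have : ee ρ p * Am ρ p = Am ρ p := by
    rw [Am, mul_sum]
    exact sum_congr rfl fun x hx => by rw [mul_sub, ee_idem, ee_pj (mem_filter.1 hx).2.pa]
  rw [← this]
  exact Submodule.finrank_mono (LinearMap.range_comp_le_range _ _)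

end Cfsg.Agent.H26.RD
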