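import Mathlib
import Cfsg.Agent.H26.RD6

/-! Triviality of the stabiliser on the rank one eigenspaces. -/

set_option autoImplicit false
set_option linter.unusedSectionVars false

namespace Cfsg.Agent.H26.RD

open Module QuadraticMap H13 MD Finset
open scoped Pointwise Classical

variable {F V : Type*} [Field F] [Fintype F] [AddCommGroup V] [Module F V] [FiniteDimensional F V]
  [Fintype V] {Q : QuadraticForm F V} [hC : OC Q]
  {M : Type*} [AddCommGroup M] [Module ℂ M] [FiniteDimensional ℂ M] (ρ : Om Q →* End ℂ M)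

local notation "B" => polar Q
local notation "q" => Nat.card F
local notation "n" => finrank F V
local notation "ψ" => psi F
local notation "tr" => LinearMap.trace ℂ M

variable {ρ} {a x z w : V} {c₀ : F}

theorem exists_B1 (S : Submodule F V) (h : 2 * finrank F S < n) :
    ∃ u ∈ perp Q S, ∃ v ∈ perp Q S, B u v = 1 := by
  have h1 := hC.nd.finrank_perp S
  obtain ⟨v, hv, h2⟩ : ∃ v ∈ perp Q S, v ∉ S := by
    by_contra! h2; have := Submodule.finrank_mono (show perp Q S ≤ S from h2); omega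
  obtain ⟨b, h3, h4⟩ := hC.nd.exists_perp_one S h2
  exact ⟨b, mem_perp.2 fun y hy => polar_comm Q b y ▸ h3 y hy, v, hv, h4⟩

theorem exists_sB (S : Submodule F V) (h : 2 * finrank F S + 3 ≤ n) :
    ∃ u ∈ perp Q S, ∃ v ∈ perp Q S, Q u = 0 ∧ B u v ≠ 0 := by
  obtain ⟨C, hC'⟩ := S.exists_isCompl
  have h1 := hC.nd.finrank_perp S
  have h2 := Submodule.finrank_add_eq_of_isCompl hC'
  have h3 := Submodule.finrank_sup_add_finrank_inf_eq (perp Q S) C
  have h4 := Submodule.finrank_le (perp Q S ⊔ C)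
  obtain ⟨u, hu, hu0, hQ⟩ := exists_singular_mem Q (H := perp Q S ⊓ C) (by omega)
  obtain ⟨y, hy, hB⟩ := hC.nd.exists_perp_polar_ne (H := S) (x := u)
    fun h => hu0 (Submodule.disjoint_def.1 hC'.disjoint u h hu.2)
  exact ⟨u, hu.1, y, hy, hQ, hB⟩

theorem fr_sup (S : Submodule F V) (u : V) : finrank F ↥(S ⊔ F ∙ u) ≤ finrank F S + 1 :=
  (Submodule.finrank_add_le_finrank_add_finrank _ _).trans
    (Nat.add_le_add_left ((finrank_span_le_card _).trans (by simp)) _)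

section
variable (hP : LinearMap.trace ℂ M (pj ρ 0 a z) = 0 ∨ LinearMap.trace ℂ M (pj ρ 0 a z) = 1)
include hP

theorem scal {g : Om Q} (h1 : g • a = a) (h2 : g • z = z) : ∃ c : ℂ, ρ g * pj ρ 0 a z = c • pj ρ 0 a z := by
  have i := pj_idem (ρ := ρ) (p := 0) (a := a) (z := z) (by simp)
  rcases hP with h | h
  · exact ⟨0, by simp [eq_zero_of_tr i h]⟩
  · have e := pj_conj (ρ := ρ) g 0 a z
    rw [h1, h2, smul_zero] at e
    exact ⟨_, by rw [← rank_one i h, ← e, mul_assoc, i]⟩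

variable (hx : Q x = 0) (hax : polar Q a x = 0) (hxz : polar Q x z = 0)
include hx hax hxz

theorem key {g : Om Q} (h1 : g • a = a) (h2 : g • z = z) {ν : F} (h3 : g • x = ν • x) {v : V}
    (v1 : B a v = 0) (v2 : B x v = 0) (v3 : B z v = 0) :
    rho Q x (ν • g • v - v) ∈ Fix ρ (pj ρ 0 a z) := by
  obtain ⟨c, hc⟩ := scal hP h1 h2
  obtain ⟨d, hd⟩ := scal hP (g := rho Q x v) (rho_fix (by rwa [polar_comm]) (by rwa [polar_comm]))
    (rho_fix hxz (by rwa [polar_comm]))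
  have h4 : B (ν • x) (g • v) = 0 := by rw [← h3, Bg, v2]
  have h5 : B x (ν • g • v) = 0 := by simpa using h4
  have e : rho Q x (ν • g • v) = g * rho Q x v * g⁻¹ := by
    rw [conj_rho, h3]
    by_cases hν : ν = 0
    · have : x = 0 := by_contra fun h => g_ne g h (by simpa [hν] using h3)
      simp only [this, smul_zero]; exact Subtype.ext ((sieg_zero_left _).trans (sieg_zero_left _).symm)
    · rw [rho_smul_left hx (by simpa [hν] using h4)]
  have e2 : c • (ρ g⁻¹ * pj ρ 0 a z) = pj ρ 0 a z := by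
    rw [← mul_smul_comm, ← hc, ← mul_assoc, ← map_mul]; simp
  have e3 : ρ (g * rho Q x v * g⁻¹) * pj ρ 0 a z = ρ (rho Q x v) * pj ρ 0 a z := by
    obtain ⟨c', hc'⟩ := scal hP (g := g⁻¹) (by rw [inv_smul_eq_iff, h1]) (by rw [inv_smul_eq_iff, h2])
    rw [hc'] at e2
    rw [map_mul, map_mul, mul_assoc, mul_assoc, hc', mul_smul_comm, hd, mul_smul_comm, mul_smul_comm, hc,
      smul_comm c', smul_comm c', e2]
  rw [sub_eq_neg_add, rho_add (by simpa) h5, (rr Q x).neg (mem_DD.2 v2), e, mem_Fix, map_mul, mul_assoc, e3,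
    ← mul_assoc, ← map_mul]
  simp

theorem fix_sing {S : Submodule F V} (ha : a ∈ S) (hxS : x ∈ S) (hz : z ∈ S) {u : V} (hu : u ∈ perp Q S)
    (hQ : Q u = 0) (h : 2 * finrank F ↥(S ⊔ F ∙ u) < n) : rho Q x u ∈ Fix ρ (pj ρ 0 a z) := by
  obtain ⟨w, hw, v, hv, e⟩ := exists_B1 (Q := Q) _ h
  have k : ∀ {y t}, y ∈ perp Q (S ⊔ F ∙ u) → t ∈ S → B t y = 0 := fun hy ht =>
    mem_perp.1 hy _ (Submodule.mem_sup_left ht)
  have k' : ∀ {y}, y ∈ perp Q (S ⊔ F ∙ u) → B u y = 0 := fun hy =>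
    mem_perp.1 hy _ (Submodule.mem_sup_right (Submodule.mem_span_singleton_self u))
  have k2 : ∀ {t}, t ∈ S → rho Q u w • t = t := fun ht =>
    rho_fix (by rw [polar_comm, mem_perp.1 hu _ ht]) (by rw [polar_comm, k hw ht])
  simpa [rho_perp hQ (k' hw) (k' hv), e] using
    key hP hx hax hxz (k2 ha) (k2 hz) (ν := 1) (by simp [k2 hxS]) (k hv ha) (k hv hxS) (k hv hz)

theorem fix_big {S : Submodule F V} (ha : a ∈ S) (hxS : x ∈ S) (hz : z ∈ S) (h : 2 * finrank F S + 3 ≤ n)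
    (hw : w ∈ perp Q S) : rho Q x w ∈ Fix ρ (pj ρ 0 a z) := by
  obtain ⟨u, hu, v, hv, h1, h2⟩ := exists_sB (Q := Q) S h
  exact singular_induction h1 hu hv h2 (p := fun w => rho Q x w ∈ Fix ρ (pj ρ 0 a z))
    (fun y hy hQ => fix_sing hP hx hax hxz ha hxS hz hy hQ (by have := fr_sup S y; omega))
    (fun y hy t ht h h' => by
      rw [rho_add (mem_perp.1 hy x hxS) (mem_perp.1 ht x hxS)]; exact mul_mem h h') w hw

theorem fix_torus (hq : 4 ≤ q) (w1 : B a w = 0) (w2 : B x w = 0) (w3 : B z w = 0)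
    (h : x ∉ Submodule.span F {a, z} ⊔ F ∙ w) : rho Q x w ∈ Fix ρ (pj ρ 0 a z) := by
  have hx3 : x ∈ perp Q (Submodule.span F {a, z} ⊔ F ∙ w) :=
    mem_p3.2 ⟨⟨hax, by rwa [polar_comm]⟩, by rwa [polar_comm]⟩
  obtain ⟨y, y1, y2, y3⟩ := hC.nd.exists_partner _ hx h fun t ht => polar_comm Q t x ▸ mem_perp.1 hx3 t ht
  obtain ⟨⟨y4, y5⟩, y6⟩ := mem_p3.1 (mem_perp.2 fun t ht => polar_comm Q y t ▸ y3 t ht)
  obtain ⟨τ, ν, h1, h2, -, h3⟩ := exists_torus hq (⟨hx, y1, y2⟩ : HP Q x y)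
  have := key hP hx hax hxz (h3 a (by rwa [polar_comm]) (by rwa [polar_comm]))
    (h3 z hxz (by rwa [polar_comm])) h2 (v := (ν - 1)⁻¹ • w) (by simp [w1]) (by simp [w2]) (by simp [w3])
  rwa [g_smul, h3 w w2 (by rwa [polar_comm]), show ν • (ν - 1)⁻¹ • w - (ν - 1)⁻¹ • w = w by
    match_scalars; field_simp [sub_ne_zero.2 h1]] at this

theorem fix_refl {S : Submodule F V} (ha : a ∈ S) (hxS : x ∈ S) (hz : z ∈ S) (h : 2 * finrank F S + 2 ≤ n)
    (hS : ∀ y ∈ perp Q S, Q y = 0 → y ∈ S) (hw : w ∈ perp Q S) (hw' : w ∉ S) :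
    rho Q x w ∈ Fix ρ (pj ρ 0 a z) := by
  have h1 := hC.nd.finrank_perp (S ⊔ F ∙ w)
  have h2 := fr_sup S w
  obtain ⟨e, he, he'⟩ : ∃ v ∈ perp Q (S ⊔ F ∙ w), v ∉ S := by
    by_contra! h2; have := Submodule.finrank_mono (show perp Q (S ⊔ F ∙ w) ≤ S from h2); omega
  obtain ⟨y, y1, y2, y3⟩ := hC.nd.exists_perp_ne_two S hw' he'
  have y4 : y ∈ perp Q S := mem_perp.2 fun t ht => polar_comm Q y t ▸ y1 t ht
  have y5 : y ∉ S ⊔ F ∙ w := fun h => y3 (mem_perp.1 he y h)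
  have y6 : Q y ≠ 0 := fun h => y5 (Submodule.mem_sup_left (hS y y4 h))
  have y7 : Q w ≠ 0 := fun h => hw' (hS w hw h)
  have f1 : w ∉ S ⊔ F ∙ (refl Q y).1 w := fun h => by
    have := exch h hw'
    rw [refl_apply, y2, one_mul] at this
    exact y5 (by simpa [y6] using Submodule.smul_mem _ (Q y) (sub_mem (Submodule.mem_sup_right
      (Submodule.mem_span_singleton_self w)) this))
  obtain ⟨v, v1, v2⟩ := hC.nd.exists_perp_one _ f1
  have v3 : ∀ t ∈ S, B t v = 0 := fun t ht => polar_comm Q v t ▸ v1 t (Submodule.mem_sup_left ht)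
  let g : Om Q := ⟨refl Q w * refl Q ((refl Q y).1 w), by
    rw [← conj_refl, ← mul_assoc, ← mul_assoc, ← refl_inv w]
    nth_rw 1 [refl_inv]
    exact Subgroup.commutator_mem_commutator (Subgroup.mem_top _) (Subgroup.mem_top _)⟩
  have k : ∀ t ∈ S, g • t = t := fun t ht => by
    have k1 : B w t = 0 := polar_comm Q t w ▸ mem_perp.1 hw t ht
    rw [g_def, OG_mul_apply, refl_apply_of_perp (v := (refl Q y).1 w) (by simp [refl_apply, k1, y1 t ht]),
      refl_apply_of_perp k1]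
  have := key hP hx hax hxz (k a ha) (k z hz) (ν := 1) (by simp [k x hxS]) (v := -Q w • v)
    (by simp [v3 a ha]) (by simp [v3 x hxS]) (by simp [v3 z hz])
  rwa [one_smul, g_smul, g_def, OG_mul_apply, refl_apply_of_perp (v := (refl Q y).1 w) (polar_comm Q v _ ▸ v1 _
    (Submodule.mem_sup_right (Submodule.mem_span_singleton_self _))), refl_apply, polar_comm, v2,
    show -Q w • (v - (1 * (Q w)⁻¹) • w) - -Q w • v = w by match_scalars <;> field_simp <;> ring] at this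

theorem fix_span (ha : Q a = 0) (w2 : B x w = 0) (hw : w ∈ Submodule.span F {a, x} ⊔ F ∙ z)
    (h : ∀ t : F, (∃ s ∈ Submodule.span F {a, x}, w = s + t • z) → rho Q x (t • z) ∈ Fix ρ (pj ρ 0 a z)) :
    rho Q x w ∈ Fix ρ (pj ρ 0 a z) := by
  obtain ⟨y, hy, u, hu, rfl⟩ := Submodule.mem_sup.1 hw
  obtain ⟨t, rfl⟩ := Submodule.mem_span_singleton.1 hu
  have h1 := h t ⟨y, hy, rfl⟩
  obtain ⟨r, s, rfl⟩ := Submodule.mem_span_pair.1 hy
  have hxa : B x a = 0 := by rwa [polar_comm]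
  rw [rho_add (by simp [hxa, Bss hx]) (by simp [hxz]), rho_add (by simp [hxa]) (by simp [Bss hx]),
    rho_smul_self hx, mul_one, rho_sw hx ha hxa]
  exact mul_mem (by rw [mem_Fix, rho_pj (by simp) (by simp [hax])]; simp [polar_comm Q z x, hxz]) h1
end

/-- the side condition under which the stabiliser acts trivially -/
def Sd (Q : QuadraticForm F V) (c₀ : F) : Prop := 9 ≤ finrank F V ∨ 4 ≤ Nat.card F ∨ (c₀ = 0 ∧ 8 ≤ finrank F V ∧
  ∀ S : Submodule F V, (∀ y ∈ S, Q y = 0) → finrank F S ≤ 3)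

theorem Lv.mk' (hn : 7 ≤ n) (hS : Sd Q c₀) (h : ∀ {a z}, Gd Q 0 a → B a z = 0 → z ∉ F ∙ a →
    tr (pj ρ 0 a z) = if Q z = c₀ then 1 else 0) : Lv ρ c₀ 0 := by
  refine ⟨fun ha _ h1 h2 => h ha h1 (by rwa [sp0] at h2),
    fun {a x z w} ha hx hxa hz _ hax _ haz hxz _ w1 w2 w3 => ?_⟩
  rw [sp0] at hxa hz
  have e := h ha haz hz
  have hP : tr (pj ρ 0 a z) = 0 ∨ tr (pj ρ 0 a z) = 1 := by rw [e]; split_ifs <;> simp
  have m1 : a ∈ Submodule.span F {a, x} := Submodule.subset_span (by simp)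
  have m2 : x ∈ Submodule.span F {a, x} := Submodule.subset_span (by simp)
  have f2 := finrank_span_pair_le (F := F) a x
  by_cases hz2 : z ∈ Submodule.span F {a, x}
  · exact fix_big hP hx hax hxz m1 m2 hz2 (by omega) (mem_perp_pair.2 ⟨w1, w2⟩)
  have f3 := fr_sup (Submodule.span F {a, x}) z
  have m3 : z ∈ Submodule.span F {a, x} ⊔ F ∙ z :=
    Submodule.mem_sup_right (Submodule.mem_span_singleton_self z)
  have hw := mem_p3.2 ⟨⟨w1, w2⟩, w3⟩
  have hx2 : x ∉ Submodule.span F {a, z} := notMem_swap hxa hz2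
  rcases hS with hS | hS | ⟨rfl, h8, hS⟩
  · exact fix_big hP hx hax hxz (Submodule.mem_sup_left m1) (Submodule.mem_sup_left m2) m3 (by omega) hw
  · by_cases h1 : x ∈ Submodule.span F {a, z} ⊔ F ∙ w
    · refine fix_span hP hx hax hxz ha.s w2 ?_ fun t ⟨s, hs, e⟩ => fix_torus hP hx hax hxz hS (by simp [haz])
        (by simp [hxz]) ?_ ?_
      · simpa only [sp2, sup_right_comm] using exch h1 hx2
      · rwa [e, polar_add_right, polar_comm, mem_perp.1 (mem_perp_pair.2 ⟨haz, hxz⟩) s hs, zero_add] at w3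
      · rwa [sup_eq_left.2 ((Submodule.span_singleton_le_iff_mem _ _).2
          (Submodule.smul_mem _ _ (Submodule.subset_span (by simp))))]
    · exact fix_torus hP hx hax hxz hS w1 w2 w3 h1
  split_ifs at e with hQ; swap
  · simp [eq_zero_of_tr (pj_idem (by simp)) e]
  have hx' : Gd Q a x := ⟨hx, hax, hxa⟩
  have hz' : Gd Q a z := ⟨hQ, haz, hz⟩
  have s3 := sing3 ha.s hx' hz' hxz
  by_cases h1 : w ∈ Submodule.span F {a, x} ⊔ F ∙ z
  · refine fix_span hP hx hax hxz ha.s w2 h1 fun t _ => fix_sing hP hx hax hxz (Submodule.mem_sup_left m1)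
      (Submodule.mem_sup_left m2) m3 (le_perp_of_singular s3 (Submodule.smul_mem _ _ m3))
      (by simp [Q_smul, hQ]) ?_
    rw [sup_eq_left.2 ((Submodule.span_singleton_le_iff_mem _ _).2 (Submodule.smul_mem _ _ m3))]; omega
  refine fix_refl hP hx hax hxz (Submodule.mem_sup_left m1) (Submodule.mem_sup_left m2) m3 (by omega)
    (fun y hy hQ => by_contra fun hy' => ?_) hw h1
  have := hS (Submodule.span F {a, x} ⊔ F ∙ z ⊔ F ∙ y) fun t ht => by
    obtain ⟨r, hr, u, hu, rfl⟩ := Submodule.mem_sup.1 ht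
    obtain ⟨c, rfl⟩ := Submodule.mem_span_singleton.1 hu
    simp [Q_add, Q_smul, hQ, s3 r hr, mem_perp.1 hy r hr]
  rw [finrank_sup_span_singleton_of_notMem hy', finrank_sup_span_singleton_of_notMem hz2,
    finrank_span_pair_eq (linearIndependent_pair_of_notMem ha.ne0 hxa)] at this
  omega

end Cfsg.Agent.H26.RD
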