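import Mathlib
import Cfsg.Agent.H26.RD7

/-! The multiplicity function and the two trace equations. -/

set_option autoImplicit false
set_option linter.unusedSectionVars false

namespace Cfsg.Agent.H26.RD

open Module QuadraticMap H13 MD Finset
open scoped Pointwise Classical

variable {F V : Type*} [Field F] [Fintype F] [AddCommGroup V] [Module F V] [FiniteDimensional F V]
  [Fintype V] {Q : QuadraticForm F V} [hC : OC Q]
  {M : Type*} [AddCommGroup M] [Module ℂ M] [FiniteDimensional ℂ M] (ρ : Om Q →* End ℂ M)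

local notation "B" => polar Q
local notation "q" => Nat.card F
local notation "n" => finrank F V
local notation "ψ" => psi F
local notation "tr" => LinearMap.trace ℂ M

variable {ρ} {p a x z w : V} {c₀ : F}

variable (Q) in
noncomputable def Tc (a : V) (c : F) : ℕ := #{z | (z ∈ perp Q (F ∙ a) ∧ Q z = c) ∧ z ∉ F ∙ a}

theorem exists_c0 (hn : 7 ≤ n) (hρ : ρ ≠ 1) (ha : Gd Q 0 a) (hmin : ∀ c, q * finrank ℂ M < 2 * Tc Q a c) :
    ∃ c₀, (∀ {a z}, Gd Q 0 a → B a z = 0 → z ∉ F ∙ a → tr (pj ρ 0 a z) = if Q z = c₀ then 1 else 0) ∧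
      (4 ≤ q → c₀ = 0) ∧ Tc Q a c₀ ≤ q * finrank ℂ M := by
  have i : ∀ a z, pj ρ 0 a z * pj ρ 0 a z = pj ρ 0 a z := fun _ _ => pj_idem (by simp)
  obtain ⟨μ, hμ⟩ : ∃ μ : F → ℕ, ∀ a z, Gd Q 0 a → B a z = 0 → z ∉ F ∙ a → tr (pj ρ 0 a z) = μ (Q z) := by
    refine ⟨fun c => if h : ∃ t : V × V, (Gd Q 0 t.1 ∧ B t.1 t.2 = 0 ∧ t.2 ∉ F ∙ t.1) ∧ Q t.2 = c then
      finrank ℂ (LinearMap.range (pj ρ 0 h.choose.1 h.choose.2)) else 0, fun a z h1 h2 h3 => ?_⟩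
    have h : ∃ t : V × V, (Gd Q 0 t.1 ∧ B t.1 t.2 = 0 ∧ t.2 ∉ F ∙ t.1) ∧ Q t.2 = Q z :=
      ⟨(a, z), ⟨h1, h2, h3⟩, rfl⟩
    obtain ⟨⟨k1, k2, k3⟩, k4⟩ := h.choose_spec
    obtain ⟨g, g1, g2⟩ := trans2' hn h1.ne0 k1.ne0 (k1.s.trans h1.s.symm) h3 k3 k4 (k2.trans h2.symm)
    beta_reduce
    rw [dif_pos h, ← tr_idem (i _ _), ← g1, ← g2]
    exact tr_conj g (by rw [pj_conj, smul_zero])
  have hs : ∀ a, Gd Q 0 a → ∑ z, pj ρ 0 a z = (q : ℂ) • 1 := fun a ha => by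
    rw [sum_pj, ee_zero, sp0, card_fs, finrank_span_singleton ha.ne0, pow_one]
  have h1 : ∑ c, μ c * Tc Q a c ≤ q * finrank ℂ M := by
    have e := congrArg tr (hs a ha)
    simp only [map_sum, tr_idem (i _ _), map_smul, LinearMap.trace_one, smul_eq_mul] at e
    rw [← show ∑ z, finrank ℂ (LinearMap.range (pj ρ 0 a z)) = q * finrank ℂ M by exact_mod_cast e,
      ← sum_fiberwise univ Q]
    refine sum_le_sum fun c _ => ?_
    rw [Tc, mul_comm, ← smul_eq_mul, ← sum_const]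
    refine (sum_congr rfl fun z hz => ?_).trans_le (sum_le_sum_of_subset fun z hz => by
      simp only [mem_filter, mem_univ, true_and] at hz ⊢; exact hz.1.2)
    simp only [mem_filter, mem_univ, true_and] at hz
    have := hμ a z ha (mem_perp_singleton.1 hz.1.1) hz.2
    rw [tr_idem (i _ _), hz.1.2] at this
    exact_mod_cast this.symm
  obtain ⟨b, z, hb, h2, h3, h4⟩ : ∃ a z, Gd Q 0 a ∧ B a z = 0 ∧ z ∉ F ∙ a ∧ μ (Q z) ≠ 0 := by
    by_contra! h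
    refine hρ (MonoidHom.eq_of_eqOn_dense (hC.nd.closure_Root_top hC.five) ?_)
    rintro g ⟨u, w, hu, -, huw, e⟩
    obtain rfl : g = rho Q u w := Subtype.ext e
    by_cases h0 : u = 0
    · rw [h0, show rho Q 0 w = 1 from Subtype.ext (sieg_zero_left w)]; simp
    have hu' := Gd0 hu h0
    have e := hs u hu'
    rw [← sum_filter_add_sum_filter_not _ (· ∈ F ∙ u), ← fs,
      sum_congr rfl fun z hz => pj_congr (z' := 0) (by simpa using hz), sum_const, card_fs,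
      finrank_span_singleton h0, pow_one, sum_eq_zero fun z hz => by
        by_cases h1 : B u z = 0
        · exact eq_zero_of_tr (i _ _) (by
            rw [hμ u z hu' h1 (mem_filter.1 hz).2, h u z hu' h1 (mem_filter.1 hz).2, Nat.cast_zero])
        · exact pj_zero1 (by simp) hu h1, add_zero, ← Nat.cast_smul_eq_nsmul ℂ] at e
    have := rho_pj (ρ := ρ) (p := 0) (z := 0) (by simp) huw
    simpa [smul_right_injective _ q_ne e] using this
  have k1 : μ (Q z) * Tc Q a (Q z) ≤ q * finrank ℂ M :=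
    (single_le_sum (f := fun c => μ c * Tc Q a c) (fun _ _ => Nat.zero_le _) (mem_univ _)).trans h1
  have k2 : μ (Q z) = 1 := by
    by_contra h
    have := Nat.mul_le_mul_right (Tc Q a (Q z)) (show 2 ≤ μ (Q z) by omega)
    have := hmin (Q z); omega
  have k3 : ∀ c ≠ Q z, μ c = 0 := fun c hc => by
    by_contra h
    have := (add_le_sum (f := fun c => μ c * Tc Q a c) (fun _ _ => Nat.zero_le _) (mem_univ _) (mem_univ _)
      hc).trans h1
    have := Nat.mul_le_mul_right (Tc Q a c) (show 1 ≤ μ c by omega)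
    have := hmin (Q z); have := hmin c
    simp only [k2] at *; omega
  refine ⟨Q z, fun h1 h2 h3 => ?_, fun hq => ?_, by simpa [k2] using k1⟩
  · rw [hμ _ _ h1 h2 h3]; split_ifs with h
    · simp [h, k2]
    · simp [k3 _ h]
  · obtain ⟨t, ht, ht1⟩ := exists_sq_ne hq
    have := hμ (t • b) (t • z) (Gd0 (by simp [Q_smul, hb.s]) (smul_ne_zero ht hb.ne0)) (by simp [h2])
      (by rwa [Submodule.span_singleton_smul_eq ht.isUnit, Submodule.smul_mem_iff _ ht])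
    rw [pj_smul hb.s ht, hμ b z hb h2 h3, Nat.cast_inj, k2, Q_smul] at this
    by_contra h
    exact one_ne_zero (this.trans (k3 _ fun e => ht1 (mul_right_cancel₀ h (by simpa [pow_two] using e))))

theorem exists_Gd (S : Submodule F V) (h : 2 * finrank F S + 3 ≤ n) : ∃ u ∈ perp Q S, Q u = 0 ∧ u ∉ S := by
  obtain ⟨u, hu, v, hv, h1, h2⟩ := exists_sB (Q := Q) S h
  exact ⟨u, hu, h1, fun h => h2 (mem_perp.1 hv u h)⟩

theorem exists_tri (hn : 7 ≤ n) : ∃ p a b, Gd Q 0 p ∧ Gd Q p a ∧ Gd Q p b ∧ B a b = 0 ∧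
    b ∉ Submodule.span F {p, a} := by
  obtain ⟨p, -, p1, p2⟩ := exists_Gd (Q := Q) ⊥ (by simp; omega)
  obtain ⟨a, a0, a1, a2⟩ := exists_Gd (Q := Q) (F ∙ p) (by rw [finrank_span_singleton (by simpa using p2)]; omega)
  obtain ⟨b, b0, b1, b2⟩ := exists_Gd (Q := Q) (Submodule.span F {p, a})
    (by have := finrank_span_pair_le (F := F) p a; omega)
  exact ⟨p, a, b, Gd0 p1 (by simpa using p2), ⟨a1, mem_perp_singleton.1 a0, a2⟩, ⟨b1, (mem_perp_pair.1 b0).1,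
    fun h => b2 (by rw [sp2]; exact Submodule.mem_sup_left h)⟩, (mem_perp_pair.1 b0).2, b2⟩

theorem fs0 : (1 : ℂ) = #(fs (F ∙ (0 : V))) := by
  rw [card_fs, Submodule.span_zero_singleton]; simp
theorem perp0 : perp Q (F ∙ (0 : V)) = ⊤ := by ext; rw [mem_perp_singleton]; simp
theorem fs1 : (q : ℂ) ^ n = #(fs (perp Q (F ∙ (0 : V)))) := by rw [card_fs, perp0]; simp
theorem cnt0 (c : F) : cnt Q (F ∙ (0 : V)) c = Nc Q c := by
  rw [cnt, perp0, Nc, Nat.card_eq_fintype_card, Fintype.card_subtype]; simp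

theorem Tc_eq (ha : Gd Q 0 a) {c : F} {δ : ℂ} (h : q * (Nc Q c : ℂ) = δ + q ^ n) :
    q ^ 2 * (Tc Q a c : ℂ) = q * δ + q ^ n - (if c = 0 then 1 else 0) * q ^ 3 := by
  have e1 := ha.cn (c := c) (δ := δ) (by rw [cnt0, ← fs1, h])
  have e2 := ha.cp
  rw [sp0] at e1 e2
  rw [Tc, card_diff (sing1 ha.s), card_fs, finrank_span_singleton ha.ne0, fs1 (Q := Q)]
  push_cast
  linear_combination q * e1 + e2

theorem Tc_ge (ha : Gd Q 0 a) (c : F) : (q - 1) * q ^ (n - 3) ≤ Tc Q a c := by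
  obtain ⟨x, h1, h2, h3⟩ := exists_x ha.s
  have e := cne_eq h1 (mem_perp_singleton.2 h2) h3 c
  have h5 := hC.five
  have e2 := hC.nd.finrank_perp (F ∙ a)
  rw [finrank_span_singleton ha.ne0] at e2
  rw [card_fs, show finrank F (perp Q (F ∙ a)) = 2 + (n - 3) by omega, pow_add, ← Nat.cast_pred Nat.card_pos,
    Nat.cast_mul, mul_left_comm, Nat.cast_pow] at e
  rw [← show cne Q (F ∙ a) x c = (q - 1) * q ^ (n - 3) by exact_mod_cast mul_left_cancel₀ (pow_ne_zero 2 q_ne) e]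
  exact card_le_card fun z hz => by
    simp only [mem_filter, mem_univ, true_and] at hz ⊢
    exact ⟨hz.1, fun h => hz.2 (mem_perp.1 (mem_perp_singleton.2 h2) z h)⟩

section
variable (hn : 7 ≤ finrank F V) (hs : ∀ T : End ℂ M, (∀ g, T * ρ g = ρ g * T) → ∃ c : ℂ, T = c • 1)
include hn hs

theorem Lv.eq0 (L : Lv ρ c₀ 0) {δ0 δ θ : ℂ} (h0 : q * (Nc Q 0 : ℂ) = δ0 + q ^ n)
    (hc : q * (Nc Q c₀ : ℂ) = δ + q ^ n) (hθ : ∀ a x, Gd Q 0 a → Gd Q 0 x → B a x = 0 →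
      x ∉ Submodule.span F {0, a} → th ρ 0 a x = θ) :
    q * finrank ℂ M * ((q ^ 2 - 1) * (δ0 - δ + q ^ n + (if c₀ = 0 then 1 else 0) * q ^ 3) -
      q ^ 4 * (q + 1) * θ) = (δ0 + q ^ n - q) * (q * δ + q ^ n - (if c₀ = 0 then 1 else 0) * q ^ 3) := by
  obtain ⟨p, a, -, hp, ha, -⟩ := exists_tri (Q := Q) hn
  obtain ⟨α, hα⟩ := hs (Am ρ 0) fun g => (comm_Am (smul_zero g)).eq
  rw [← cnt0, fs1 (Q := Q)] at h0 hc
  have e1 := L.tr_Am (map_zero Q) fs0 rfl h0 hc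
  have e2 := L.alpha (map_zero Q) fs0 rfl h0 hc hθ hp (Gd0 ha.s ha.ne0) ha.pa (by rw [sp0]; exact ha.ne)
    (α := α) (by simp [hα])
  rw [hα, map_smul, LinearMap.trace_one, smul_eq_mul] at e1
  rw [fs1 (Q := Q)]
  linear_combination e1 - q * finrank ℂ M * e2

theorem Lv.eq1 (L : Lv ρ 0 0) [Nontrivial M] {δ : ℤ} (h0 : q * (Nc Q 0 : ℤ) = δ + q ^ n) :
    ∃ (t : ℤ) (D0 r : ℕ), D0 ≤ r ∧ (q : ℤ) ^ 3 * (finrank ℂ M - r) = q * δ + q ^ n - q ^ 3 ∧
      q * finrank ℂ M * ((q ^ 2 - 1) * (q ^ n + q ^ 3) - q ^ 2 * (q + 1) * t) =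
        (δ + q ^ n - q) * (q * δ + q ^ n - q ^ 3) ∧
      q ^ 3 * D0 * ((q ^ 2 - 1) * (q ^ n + q ^ 5) - q ^ 4 * (q + 1) * t) =
        (q * δ + q ^ n - q ^ 3) * (q ^ 2 * δ + q ^ n - q ^ 5) := by
  obtain ⟨p, a, b, hp, ha, hb, hab, hba⟩ := exists_tri (Q := Q) hn
  have ha0 := Gd0 ha.s ha.ne0
  have hpa : a ∉ Submodule.span F {0, p} := by rw [sp0]; exact ha.ne
  have h0' : q * (Nc Q 0 : ℂ) = δ + q ^ n := by exact_mod_cast h0
  have e0 := L.eq0 hn hs h0' h0' fun a' x' => th_const (ρ := ρ) hn hp ha0 ha.pa hpa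
  have hI := th_int (ρ := ρ) hp ha0 ha.pa hpa
  set θ := th ρ 0 p a
  have hD : ((q * finrank ℂ M * (q ^ 2 * (q + 1)) : ℕ) : ℚ) ≠ 0 := by
    have := finrank_pos (R := ℂ) (M := M); have := Nat.card_pos (α := F); positivity
  obtain ⟨t, ht⟩ : ∃ t : ℤ, (t : ℂ) = q ^ 2 * θ := by
    let s : ℚ := (q * finrank ℂ M * ((q ^ 2 - 1) * (q ^ n + q ^ 3)) -
      (δ + q ^ n - q) * (q * δ + q ^ n - q ^ 3)) / (q * finrank ℂ M * (q ^ 2 * (q + 1)) : ℕ)
    have hs : algebraMap ℚ ℂ s = q ^ 2 * θ := by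
      rw [map_div₀, div_eq_iff ((map_ne_zero _).2 hD)]; simp at e0 ⊢; linear_combination e0
    obtain ⟨t, ht⟩ := IsIntegrallyClosed.isIntegral_iff.1
      ((isIntegral_algebraMap_iff (algebraMap ℚ ℂ).injective).1 (hs ▸ hI))
    exact ⟨t, by rw [← hs, ← ht]; simp⟩
  have L1 := L.up hp.s hp.ne0
  obtain ⟨α, h1, h2⟩ := L1.scalar hn hp.s hp.ne0 ha hb hab hba
  have c1 := hp.cn (c := 0) (δ := δ) (by rw [cnt0, ← fs1, h0'])
  have c2 := hp.cp
  have c3 := L.tr_ee (map_zero Q) hp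
  rw [sp0] at c1 c2 c3
  have k : (q : ℂ) = #(fs (F ∙ p)) := by rw [card_fs, finrank_span_singleton hp.ne0, pow_one]
  have e1 := L1.tr_Am hp.s k rfl c1 c1
  have e2 := L1.alpha hp.s k rfl c1 c1 (θ := θ) (fun a' x' h1 h2 h3 h4 => by
    rw [L.th_up hp.s hp.ne0 h1 h2 h3 h4]
    exact th_const hn hp ha0 ha.pa hpa (Gd0 h1.s h1.ne0) (Gd0 h2.s h2.ne0) h3 fun h => h4 (by
      rw [sp0] at h; rw [sp2]; exact Submodule.mem_sup_right h)) ha hb hab hba h1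
  rw [tr_of_sq h2] at e1
  rw [ee_zero, ← ee_eq, map_sub, tr_idem ee_idem, LinearMap.trace_one, ← k] at c3
  rw [← fs1] at c2
  simp only [if_true] at e0 e1 e2 c3
  refine ⟨t, _, _, rank_Am (ρ := ρ) p, ?_, ?_, ?_⟩ <;> refine Int.cast_injective (α := ℂ) ?_ <;> push_cast
  · linear_combination q ^ 2 * c3 + q * c1 + c2
  · rw [ht]; linear_combination e0
  · rw [ht, ← c2]; linear_combination q ^ 2 * e1 - q ^ 4 * finrank ℂ (LinearMap.range (Am ρ p)) * e2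
end

end Cfsg.Agent.H26.RD
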