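import Mathlib

/-! Arithmetic for the degree bounds. -/

set_option autoImplicit false

namespace Cfsg.Agent.H26.RD

theorem not_dvd1 {q : ℤ} (hq : 2 ≤ q) (c : ℤ) : 1 ≠ q * c := fun h => by
  have := Int.le_of_dvd one_pos ⟨c, h⟩; omega

theorem ar_odd {q s D D0 r t : ℤ} (hq : 2 ≤ q) (hs : 0 < s) (e : ℤ) (he : q * s = (q ^ 2 - 1) * e + 1)
    (h0 : D0 ≤ r) (h1 : q ^ 3 * (D - r) = q * 0 + q ^ 6 * s - q ^ 3)
    (h2 : q * D * ((q ^ 2 - 1) * (q ^ 6 * s + q ^ 3) - q ^ 2 * (q + 1) * t) =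
      (0 + q ^ 6 * s - q) * (q * 0 + q ^ 6 * s - q ^ 3))
    (h3 : q ^ 3 * D0 * ((q ^ 2 - 1) * (q ^ 6 * s + q ^ 5) - q ^ 4 * (q + 1) * t) =
      (q * 0 + q ^ 6 * s - q ^ 3) * (q ^ 2 * 0 + q ^ 6 * s - q ^ 5)) :
    q ^ 5 * s - 1 ≤ (q ^ 2 - 1) * D := by
  have q0 : q ≠ 0 := by omega
  have u0 : 0 < q ^ 2 - 1 := by nlinarith
  have k1 : D - r = q ^ 3 * s - 1 := mul_left_cancel₀ (pow_ne_zero 3 q0) (by linear_combination h1)
  have k2 : D * ((q ^ 2 - 1) * q * (q ^ 3 * s + 1) - (q + 1) * t) = q * (q ^ 5 * s - 1) * (q ^ 3 * s - 1) :=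
    mul_left_cancel₀ (pow_ne_zero 3 q0) (by linear_combination h2)
  have k3 : D0 * ((q ^ 2 - 1) * q * (q * s + 1) - (q + 1) * t) = q * (q ^ 3 * s - 1) * (q * s - 1) :=
    mul_left_cancel₀ (pow_ne_zero 7 q0) (by linear_combination h3)
  obtain ⟨E, hE⟩ : ∃ E, E = q ^ 2 * e + 1 := ⟨_, rfl⟩
  obtain ⟨N, hN⟩ : ∃ N, N = q ^ 2 * E + 1 := ⟨_, rfl⟩
  have a1 : q ^ 3 * s - 1 = (q ^ 2 - 1) * E := by rw [hE]; linear_combination q ^ 2 * he
  have a0 : q ^ 5 * s - 1 = (q ^ 2 - 1) * N := by rw [hN]; linear_combination q ^ 2 * a1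
  have a2 : q * s - 1 = (q ^ 2 - 1) * e := by linear_combination he
  have e0 : 0 < e := pos_of_mul_pos_left (a := q ^ 2 - 1) (by nlinarith) u0.le |> fun h => by nlinarith
  have k4 : D * D0 * (q * s) = E * (N * D0 - e * D) :=
    mul_left_cancel₀ (mul_ne_zero (pow_ne_zero 2 u0.ne') q0) (by
      rw [a0, a1] at k2; rw [a1, a2] at k3; linear_combination D0 * k2 - D * k3)
  rw [a0]
  by_contra! h
  obtain ⟨k, rfl⟩ : ∃ k, D = N - k := ⟨N - D, by ring⟩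
  obtain ⟨j, rfl⟩ : ∃ j, D0 = E - j := ⟨E - D0, by ring⟩
  have hk : 0 < k := by nlinarith
  have hj : k - 1 ≤ j := by nlinarith
  have key : (k - j) * N * e = q * s * k * (j - 1) := by
    have := congrArg ((N * E - N * j - k * E + k) * ·) he
    subst hN hE; linear_combination -k4 + this
  rcases lt_trichotomy j k with h' | rfl | h'
  · obtain rfl : j = k - 1 := by omega
    refine not_dvd1 hq (s * k * (k - 2) - q * E * e - q * e + s) ?_
    rw [hN] at key; linear_combination key - he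
  · obtain rfl : j = 1 := by
      have : q * s * j * (j - 1) = 0 := by linear_combination -key
      simp only [mul_eq_zero] at this; omega
    have E0 : E ≠ 0 := by rw [hE]; positivity
    have : q * ((q ^ 2 - 1) * q * (q ^ 3 * s + 1) - (q + 1) * t) = (q ^ 2 - 1) ^ 2 * N :=
      mul_left_cancel₀ (mul_ne_zero q0 E0) (by rw [a0, a1, hN] at k2; rw [hN]; linear_combination k2)
    refine not_dvd1 hq (((q ^ 2 - 1) * q * (q ^ 3 * s + 1) - (q + 1) * t) - (q ^ 2 - 1) ^ 2 * q * E -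
      q ^ 3 + 2 * q) ?_
    rw [hN] at this; linear_combination -this
  · have N0 : 0 < N := by rw [hN, hE]; positivity
    have : 0 < (j - k) * N * e := by have := sub_pos.2 h'; positivity
    have : 0 ≤ q * s * k * (j - 1) := by have : 0 ≤ j - 1 := by omega
                                         positivity
    nlinarith

theorem ar_even {q S R D D0 r t : ℤ} (hq : 2 ≤ q) (hS : S ≠ 0) (hR : R = q * S) (h0 : D0 ≤ r)
    (h1 : q ^ 3 * (D - r) = q * (q ^ 3 * R * (q - 1)) + q ^ 6 * R ^ 2 - q ^ 3)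
    (h2 : q * D * ((q ^ 2 - 1) * (q ^ 6 * R ^ 2 + q ^ 3) - q ^ 2 * (q + 1) * t) =
      (q ^ 3 * R * (q - 1) + q ^ 6 * R ^ 2 - q) * (q * (q ^ 3 * R * (q - 1)) + q ^ 6 * R ^ 2 - q ^ 3))
    (h3 : q ^ 3 * D0 * ((q ^ 2 - 1) * (q ^ 6 * R ^ 2 + q ^ 5) - q ^ 4 * (q + 1) * t) =
      (q * (q ^ 3 * R * (q - 1)) + q ^ 6 * R ^ 2 - q ^ 3) *
      (q ^ 2 * (q ^ 3 * R * (q - 1)) + q ^ 6 * R ^ 2 - q ^ 5)) :
    q * (q ^ 3 * R - 1) * (q * R + 1) ≤ (q ^ 2 - 1) * D := by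
  have q0 : q ≠ 0 := by omega
  have u0 : 0 < q ^ 2 - 1 := by nlinarith
  have k1 : D - r = (q ^ 2 * R - 1) * (q * R + 1) :=
    mul_left_cancel₀ (pow_ne_zero 3 q0) (by linear_combination h1)
  have k2 : D * ((q ^ 2 - 1) * q * (q ^ 3 * R ^ 2 + 1) - (q + 1) * t) =
      q * ((q ^ 3 * R - 1) * (q ^ 2 * R + 1)) * ((q ^ 2 * R - 1) * (q * R + 1)) :=
    mul_left_cancel₀ (pow_ne_zero 3 q0) (by linear_combination h2)
  have k3 : D0 * ((q ^ 2 - 1) * q * (q * R ^ 2 + 1) - (q + 1) * t) =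
      q * ((q ^ 2 * R - 1) * (q * R + 1)) * ((q * R - 1) * (R + 1)) :=
    mul_left_cancel₀ (pow_ne_zero 7 q0) (by linear_combination h3)
  have k4 : D * D0 * (q ^ 2 - 1) ^ 2 * q * R ^ 2 = ((q ^ 2 * R - 1) * (q * R + 1)) *
      ((q ^ 3 * R - 1) * (q ^ 2 * R + 1) * D0 - (q * R - 1) * (R + 1) * D) :=
    mul_left_cancel₀ q0 (by linear_combination D0 * k2 - D * k3)
  by_contra! h
  obtain ⟨k, hk⟩ : ∃ k, k = q * (q ^ 3 * R - 1) * (q * R + 1) - (q ^ 2 - 1) * D := ⟨_, rfl⟩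
  obtain ⟨s, hs⟩ : ∃ s, s = D - D0 - (q ^ 2 * R - 1) * (q * R + 1) - 1 := ⟨_, rfl⟩
  obtain ⟨β, hβ⟩ : ∃ β, β = (q ^ 3 * R - 1) * (q * R + 1) * (q ^ 2 * R ^ 2 - 1) := ⟨_, rfl⟩
  have k0 : 0 < k := by rw [hk]; linarith
  have s0 : -1 ≤ s := by rw [hs]; linarith
  have key : k * (q - 1) * R * (q ^ 3 * R ^ 2 + 1) - s * β = q * R ^ 2 * (k + s * (q ^ 2 - 1)) * k := by
    subst hk hs hβ; linear_combination -k4
  clear h1 h2 h3 k1 k2 k3 k4 hk hs h h0
  have hd : q ∣ s := by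
    have : s * β = q * (k * (q - 1) * S * (q ^ 3 * R ^ 2 + 1) - R ^ 2 * (k + s * (q ^ 2 - 1)) * k) := by
      linear_combination -key + k * (q - 1) * (q ^ 3 * R ^ 2 + 1) * hR
    exact ⟨_, show s = q * ((k * (q - 1) * S * (q ^ 3 * R ^ 2 + 1) - R ^ 2 * (k + s * (q ^ 2 - 1)) * k) -
      s * ((q ^ 3 * R ^ 2 + q ^ 2 * R - R) * (q ^ 2 * R ^ 2 - 1) - q * R ^ 2)) by
        rw [hβ] at this; linear_combination this⟩
  have R0 : R ≠ 0 := hR ▸ mul_ne_zero q0 hS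
  rcases lt_trichotomy s 0 with h' | rfl | h'
  · obtain rfl : s = -1 := by omega
    have := Int.le_of_dvd one_pos (dvd_neg.1 hd); omega
  · have : (q - 1) * (q ^ 3 * R ^ 2 + 1) = q * R * k :=
      mul_left_cancel₀ (mul_ne_zero k0.ne' R0) (by linear_combination key)
    exact not_dvd1 hq ((q - 1) * q ^ 2 * R ^ 2 + 1 - R * k) (by linear_combination -this)
  have hs' := Int.le_of_dvd h' hd
  have r2 : 1 ≤ R ^ 2 := by have := sq_pos_of_ne_zero R0; omega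
  have q4 : 4 ≤ q ^ 2 := by linarith [mul_le_mul hq hq zero_le_two (by omega : 0 ≤ q), sq q]
  have r3 : 2 ≤ q ^ 2 * R ^ 2 := by linarith [mul_le_mul q4 r2 zero_le_one (sq_nonneg q)]
  have q1 : 0 < q := by omega
  have p1 : 0 < q * R ^ 2 * (s * (q ^ 2 - 1)) * k := by positivity
  have p2 : 0 < q * R ^ 2 * k * k := by positivity
  rcases lt_or_gt_of_ne R0 with hR' | hR'
  · have b1 : 0 < β := by
      rw [hβ]
      refine mul_pos (mul_pos_of_neg_of_neg ?_ ?_) (by linarith)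
      · linarith [mul_neg_of_pos_of_neg (pow_pos q1 3) hR']
      · linarith [mul_le_mul hq (show 1 ≤ -R by omega) zero_le_one q1.le]
    have : 0 < k * (q - 1) * (-R) * (q ^ 3 * R ^ 2 + 1) := by
      have : 0 < q - 1 := by omega
      have : 0 < -R := by omega
      positivity
    linarith [mul_pos h' b1]
  · obtain ⟨W, hW⟩ : ∃ W, W = q ^ 3 * R ^ 2 := ⟨_, rfl⟩
    have W0 : 0 < W := by rw [hW]; positivity
    have b0 : q * W ≤ (q ^ 3 * R - 1) * (q * R + 1) := by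
      have : 0 < q * (q ^ 2 - 1) * R := by positivity
      rw [hW]; linarith [Int.add_one_le_iff.2 this]
    have b1 : W ^ 2 ≤ 2 * β := by
      have : q * W * (q ^ 2 * R ^ 2 - 1) ≤ β := hβ ▸ mul_le_mul_of_nonneg_right b0 (by linarith)
      have h5 : 0 ≤ q * W * (q ^ 2 * R ^ 2 - 2) := by have := sub_nonneg.2 r3; positivity
      have : W ^ 2 = q * W * (q ^ 2 * R ^ 2) := by rw [hW]; ring
      linarith
    have b2 : (q - 1) * (W + 1) ≤ q * W := by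
      have : q * 1 ≤ q * (q ^ 2 * R ^ 2) := mul_le_mul_of_nonneg_left (by linarith) q1.le
      rw [hW]; linarith
    have x0 : 0 < k * R := by positivity
    have b3 : q * β ≤ s * β := mul_le_mul_of_nonneg_right hs' (by linarith [sq_nonneg W])
    have b4 : q * (β + (k * R) ^ 2) ≤ q * ((k * R) * W) := by
      have := mul_le_mul_of_nonneg_left b2 x0.le
      rw [← hW] at key
      linarith
    have b5 := le_of_mul_le_mul_left b4 q1
    linarith [sq_nonneg (W - 2 * (k * R)), pow_pos W0 2]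

end Cfsg.Agent.H26.RD
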