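import Mathlib
import Cfsg.Agent.H26.RD8
import Cfsg.Agent.H26.RD9
import Cfsg.Agent.H4.Rep1
import Cfsg.Agent.H7.LS2

/-! The minimal degrees. -/

set_option autoImplicit false
set_option linter.unusedSectionVars false

namespace Cfsg.Agent.H26.RD

open Module QuadraticMap H13 MD Finset
open scoped Pointwise Classical

variable {F V : Type*} [Field F] [Fintype F] [AddCommGroup V] [Module F V] [FiniteDimensional F V]
  [Fintype V] {Q : QuadraticForm F V} [hC : OC Q]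
  {M : Type*} [AddCommGroup M] [Module ℂ M] [FiniteDimensional ℂ M] (ρ : Om Q →* End ℂ M)

local notation "B" => polar Q
local notation "q" => Nat.card F
local notation "n" => finrank F V
local notation "ψ" => psi F
local notation "tr" => LinearMap.trace ℂ M

variable {ρ} [Nontrivial M] (hρ : ρ ≠ 1) (hs : ∀ T : End ℂ M, (∀ g, T * ρ g = ρ g * T) → ∃ c : ℂ, T = c • 1)
include hρ hs

theorem odd_main {j : ℕ} (hn : n = 2 * (j + 3) + 1) (hq : 4 ≤ q) :
    (q : ℤ) ^ (2 * (j + 3)) - 1 ≤ (q ^ 2 - 1) * finrank ℂ M := by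
  by_contra! h
  obtain ⟨a, -, -, ha, -⟩ := exists_tri (Q := Q) (by omega)
  have hq' : (4 : ℤ) ≤ q := by exact_mod_cast hq
  obtain ⟨c₀, h1, h2, -⟩ := exists_c0 (by omega) hρ ha fun c => by
    refine lt_of_lt_of_le ?_ (Nat.mul_le_mul_left 2 (Tc_ge ha c))
    rw [show n - 3 = 2 * j + 4 by omega]
    zify [Nat.card_pos (α := F)]
    rw [show 2 * (j + 3) = 2 * j + 4 + 2 by ring, pow_add] at h
    have : (0 : ℤ) < q ^ (2 * j + 4) := by positivity
    generalize (q : ℤ) ^ (2 * j + 4) = y, (q : ℤ) = r at *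
    refine lt_of_mul_lt_mul_left (a := r ^ 2 - 1) ?_ (by nlinarith)
    have : r ^ 3 ≤ 2 * (r ^ 2 - 1) * (r - 1) := by nlinarith
    nlinarith
  obtain rfl := h2 hq
  have L := Lv.mk' (by omega) (.inr (.inl hq)) h1
  obtain ⟨t, D0, r, e0, e1, e2, e3⟩ := L.eq1 (by omega) hs (δ := 0) (by
    rw [show Nc Q 0 = _ from hC.nd.nz_odd hn, hn]; push_cast; ring)
  obtain ⟨e, he⟩ := sub_one_dvd_pow_sub_one ((q : ℤ) ^ 2) (j + 1)
  rw [show (q : ℤ) ^ n = q ^ 6 * q ^ (2 * j + 1) by rw [hn]; ring] at e1 e2 e3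
  refine h.not_ge (le_of_eq_of_le (by ring) (ar_odd (by omega) (by positivity) e ?_ (by exact_mod_cast e0)
    e1 e2 e3))
  linear_combination he

theorem plus_main {j : ℕ} (hn : n = 2 * (j + 4)) (hP : IsPlus Q) (hq : 4 ≤ q) :
    ((q : ℤ) ^ (j + 4) - 1) * (q ^ (j + 3) + q) ≤ (q ^ 2 - 1) * finrank ℂ M := by
  by_contra! h
  obtain ⟨a, -, -, ha, -⟩ := exists_tri (Q := Q) (by omega)
  have hq' : (4 : ℤ) ≤ q := by exact_mod_cast hq
  obtain ⟨c₀, h1, h2, -⟩ := exists_c0 (by omega) hρ ha fun c => by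
    refine lt_of_lt_of_le ?_ (Nat.mul_le_mul_left 2 (Tc_ge ha c))
    rw [show n - 3 = j * 2 + 5 by omega]
    zify [Nat.card_pos (α := F)]
    simp only [pow_add, pow_mul] at h ⊢
    have : (1 : ℤ) ≤ q ^ j := one_le_pow₀ (by omega)
    generalize (q : ℤ) ^ j = y at *
    generalize (q : ℤ) = r, (finrank ℂ M : ℤ) = D at *
    refine lt_of_mul_lt_mul_left (a := r ^ 2 - 1) ?_ (by nlinarith)
    have r0 : 0 < r := by omega
    have y0 : 0 < y := by omega
    have k1 : r ^ 3 + r ≤ 2 * (r ^ 2 - 1) * (r - 1) := by nlinarith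
    have k2 := mul_le_mul_of_nonneg_left k1 (show 0 ≤ y ^ 2 * r ^ 5 by positivity)
    have k3 := mul_lt_mul_of_pos_left h r0
    have k4 := mul_le_mul_of_nonneg_left this (show 0 ≤ y * r ^ 6 by positivity)
    have k5 : 0 ≤ y * r ^ 4 + r ^ 2 := by positivity
    linarith
  obtain rfl := h2 hq
  have L := Lv.mk' (by omega) (.inr (.inl hq)) h1
  obtain ⟨t, D0, r, e0, e1, e2, e3⟩ := L.eq1 (by omega) hs (δ := q ^ 3 * q ^ (j + 1) * (q - 1)) (by
    rw [show Nc Q 0 = _ from hC.nd.nz_plus hP (by omega) hn, hn, Nat.cast_sub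
      (le_add_left (Nat.pow_le_pow_right Nat.card_pos (by omega))), show 2 * (j + 4) - 1 = 2 * j + 7 by omega]
    simp; ring)
  rw [show (q : ℤ) ^ n = q ^ 6 * (q ^ (j + 1)) ^ 2 by rw [hn]; ring] at e1 e2 e3
  exact h.not_ge (le_of_eq_of_le (by ring) (ar_even (S := q ^ j) (by omega) (by positivity) (by ring)
    (by exact_mod_cast e0) e1 e2 e3))

theorem minus_main {j : ℕ} (hn : n = 2 * (j + 4)) (hP : ¬ IsPlus Q)
    (hS : ∀ S : Submodule F V, (∀ y ∈ S, Q y = 0) → finrank F S ≤ j + 3) :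
    ((q : ℤ) ^ (j + 4) + 1) * (q ^ (j + 3) - q) ≤ (q ^ 2 - 1) * finrank ℂ M := by
  by_contra! h
  obtain ⟨a, -, -, ha, -⟩ := exists_tri (Q := Q) (by omega)
  have hq' : (2 : ℤ) ≤ q := by exact_mod_cast two_le_q (F := F)
  have hm : (q : ℤ) ^ n = q ^ 6 * (-q ^ (j + 1)) ^ 2 := by rw [hn]; ring
  have n0 : (q : ℤ) * Nc Q 0 = q ^ 3 * (-q ^ (j + 1)) * (q - 1) + q ^ n := by
    rw [show Nc Q 0 = _ from hC.nd.nz_minus hP (by omega) hn, hn, Nat.cast_sub
      (le_add_right (Nat.pow_le_pow_right Nat.card_pos (by omega))), show 2 * (j + 4) - 1 = 2 * j + 7 by omega]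
    simp; ring
  have n1 : ∀ c ≠ 0, (q : ℤ) * Nc Q c = q ^ (j + 4) + q ^ n := fun c hc => by
    have h1 := sum_Nc (Q := Q)
    rw [← add_sum_erase _ _ (mem_univ 0), sum_congr rfl fun a ha =>
      (W.Nc_eq hC.nd (m := j + 3) hn (ne_of_mem_erase ha)).trans (W.Nc_eq hC.nd (m := j + 3) hn hc).symm,
      sum_const, card_erase_of_mem (mem_univ _), card_univ, ← Nat.card_eq_fintype_card, smul_eq_mul] at h1
    zify [Nat.card_pos (α := F)] at h1
    exact mul_left_cancel₀ (show (q : ℤ) - 1 ≠ 0 by omega) (by linear_combination q * h1 - n0)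
  have y1 : (1 : ℤ) ≤ q ^ j := one_le_pow₀ (by omega)
  have q0 : (q : ℤ) ^ 2 ≠ 0 := by positivity
  have t0 : (Tc Q a 0 : ℤ) = q * ((q ^ 3 * q ^ j + 1) * (q ^ 2 * q ^ j - 1)) := mul_left_cancel₀ q0 (by
    have := Tc_eq ha (c := 0) (δ := q ^ 3 * (-q ^ (j + 1)) * (q - 1)) (by exact_mod_cast n0)
    rw [if_pos rfl, hn] at this
    exact Int.cast_injective (α := ℂ) (by push_cast; linear_combination this))
  have t1 : ∀ c ≠ 0, (Tc Q a c : ℤ) = q * ((q ^ 3 * q ^ j + 1) * (q ^ 2 * q ^ j)) := fun c hc =>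
    mul_left_cancel₀ q0 (by
      have := Tc_eq ha (c := c) (δ := q ^ (j + 4)) (by exact_mod_cast n1 c hc)
      rw [if_neg hc, hn] at this
      exact Int.cast_injective (α := ℂ) (by push_cast; linear_combination this))
  obtain ⟨c₀, h1, -, h2⟩ := exists_c0 (by omega) hρ ha fun c => by
    have : q * ((q ^ 3 * q ^ j + 1) * (q ^ 2 * q ^ j - 1)) ≤ (Tc Q a c : ℤ) := by
      by_cases hc : c = 0
      · rw [hc, t0]
      · rw [t1 c hc]; gcongr; linarith
    zify
    refine lt_of_lt_of_le ?_ (mul_le_mul_of_nonneg_left this zero_le_two)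
    simp only [pow_add] at h
    generalize (q : ℤ) ^ j = y at *
    generalize (q : ℤ) = r, (finrank ℂ M : ℤ) = D at *
    have r0 : 0 < r := by omega
    have y0 : 0 < y := by omega
    rw [mul_left_comm]
    refine mul_lt_mul_of_pos_left (lt_of_mul_lt_mul_left (a := r ^ 2 - 1) (h.trans_le ?_) (by nlinarith)) r0
    have k1 : r * (y * r ^ 4 + 1) ≤ 2 * (r ^ 2 - 1) * (r ^ 3 * y + 1) := by
      have : 0 ≤ r ^ 3 * y * (r ^ 2 - 2) := by have : 0 ≤ r ^ 2 - 2 := by nlinarith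
                                               positivity
      nlinarith
    have := mul_le_mul_of_nonneg_right k1 (show 0 ≤ r ^ 2 * y - 1 by nlinarith)
    linarith
  by_cases hc : c₀ = 0
  · subst hc
    have L := Lv.mk' (by omega) (c₀ := 0) (by
      rcases j with _ | j
      exacts [.inr (.inr ⟨rfl, by omega, hS⟩), .inl (by omega)]) h1
    obtain ⟨t, D0, r, e0, e1, e2, e3⟩ := L.eq1 (by omega) hs n0
    rw [hm] at e1 e2 e3
    exact h.not_ge (le_of_eq_of_le (by ring) (ar_even (S := -q ^ j) (by omega) (by simp) (by ring)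
      (by exact_mod_cast e0) e1 e2 e3))
  rcases Nat.eq_zero_or_pos j with rfl | hj
  · zify at h2
    rw [t1 _ hc] at h2
    have := le_of_mul_le_mul_left h2 (by omega)
    have := mul_le_mul_of_nonneg_left this (show (0 : ℤ) ≤ q ^ 2 - 1 by nlinarith)
    have := mul_nonneg (show (0 : ℤ) ≤ q ^ 2 - 1 by nlinarith) (show (0 : ℤ) ≤ q ^ 2 - q by nlinarith)
    simp only [zero_add, pow_zero] at *
    linarith
  have L := Lv.mk' (by omega) (.inl (by omega)) h1
  have e := L.eq0 (by omega) hs (δ0 := q ^ 3 * (-q ^ (j + 1)) * (q - 1)) (δ := q ^ (j + 4))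
    (by exact_mod_cast n0) (by exact_mod_cast n1 _ hc) fun a x => L.th_zero hc
  rw [if_neg hc, hn] at e
  have e' : (q : ℤ) ^ 5 * q ^ (j + 1) * (q ^ (j + 3) - 1) * ((q ^ 2 - 1) * finrank ℂ M) =
      q ^ 5 * q ^ (j + 1) * (q ^ (j + 3) - 1) * ((q ^ (j + 4) + 1) * (q ^ (j + 3) + 1)) :=
    Int.cast_injective (α := ℂ) (by push_cast; linear_combination e)
  rw [mul_left_cancel₀ (mul_ne_zero (by positivity) (sub_pos.2 (one_lt_pow₀ (by omega) (by omega))).ne') e']
    at h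
  exact h.not_ge (by gcongr; linarith)

omit hρ hs in
theorem glue {ι : Type} [Fintype ι] [DecidableEq ι] (Q : QuadraticForm F (ι → F)) {k : ℕ}
    (ρ : Representation ℂ (Cfsg.Omega F Q) (Fin k → ℂ)) (h : ρ.IsIrreducible) (hk : 2 ≤ k) :
    ∃ ρ' : Om Q →* End ℂ (Fin k → ℂ), ρ' ≠ 1 ∧
      ∀ T : End ℂ (Fin k → ℂ), (∀ g, T * ρ' g = ρ' g * T) → ∃ c : ℂ, T = c • 1 :=
  ⟨MonoidHom.comp ρ (omegaEquiv Q).symm.toMonoidHom, fun e => H7.LS.ne_one_of_irr h hk
    (MonoidHom.ext fun g => by simpa using DFunLike.congr_fun e (omegaEquiv Q g)),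
    fun T hT => H4.schur_scalar ρ T fun g => by simpa [End.mul_eq_comp] using hT (omegaEquiv Q g)⟩

end Cfsg.Agent.H26.RD
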