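import Cfsg.Agent.H6.Dih
import Cfsg.Agent.H11.QD2

/-!
# Semidihedral Sylow 2-subgroups: local facts and columns
-/

set_option linter.unusedSectionVars false

namespace Cfsg.Agent.H26.SW

open Cfsg Cfsg.Agent.H4 Cfsg.Agent.H6 Subgroup
open Cfsg.Agent.H11 (MC hh qq IsSylIn cj)
open scoped ComplexConjugate

variable {G : Type*} [Group G] [Fintype G] {P : Sylow 2 G} {k : ℕ} {X Y : ZMod (2 ^ k) → G}
  (h : MC (P : Subgroup G) k (hh k) 0 X Y)
include h

theorem exX {y : G} (hy : y ∈ zpowers (X 1)) : ∃ a, y = X a := by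
  obtain ⟨a, ha⟩ := h.mem_zpowers_X.1 hy
  exact ⟨_, ha⟩

theorem powH {y : G} (hy : y ∈ zpowers (X 1)) : ∃ j, orderOf y = 2 ^ j :=
  exists_orderOf_eq_of_mem Nat.prime_two P.isPGroup' (h.zpowers_le 1 hy)

theorem z_mem {y : G} (hy : y ∈ zpowers (X 1)) (h1 : y * y ≠ 1) : X (qq k) ∈ zpowers y := by
  obtain ⟨j, hj⟩ := powH h hy
  have h2 : 2 ≤ j := by
    by_contra! h2
    refine h1 ?_
    rw [← sq, ← orderOf_dvd_iff_pow_eq_one, hj]
    exact pow_dvd_pow 2 (show j ≤ 1 by omega)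
  have h3 : orderOf (y ^ 2 ^ (j - 2)) = 4 := by
    rw [orderOf_pow_of_dvd (by positivity) (hj ▸ pow_dvd_pow 2 (by omega)), hj,
      Nat.pow_div (by omega) two_pos, show j - (j - 2) = 2 by omega]
    rfl
  obtain ⟨b, hb⟩ := exX h (pow_mem hy (2 ^ (j - 2)))
  rw [hb, h.orderOf_X_four] at h3
  have h4 : X b ∈ zpowers y := hb ▸ pow_mem (mem_zpowers y) _
  rcases h3 with rfl | rfl
  · exact h4
  · rw [← h.X_inv] at h4
    exact (inv_mem_iff).1 h4

theorem big_X {a : ZMod (2 ^ k)} : X a * X a ≠ 1 ↔ a ≠ 0 ∧ a ≠ hh k := by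
  rw [Ne, h.X_sq_eq_one, not_or]

theorem z_big : X (qq k) * X (qq k) ≠ 1 := fun e => by
  have := orderOf_dvd_of_pow_eq_one (show X (qq k) ^ 2 = 1 by rw [sq, e])
  rw [h.qd_oq] at this
  omega

theorem zz : X (qq k) * X (qq k) = X (hh k) := by rw [h.XX, ← two_mul, h.qq2]

theorem fact_le {w : G} (hw : ∃ j, orderOf w = 2 ^ j) (h1 : w * w ≠ 1) :
    2 ^ (Nat.card (centralizer ({w} : Set G))).factorization 2 ≤ 2 ^ k := by
  refine pow_factorization_le P hw fun g hg => ?_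
  have h3 : g * w * g⁻¹ * (g * w * g⁻¹) ≠ 1 := by
    intro e; apply h1
    have : g * (w * w) * g⁻¹ = 1 := by rw [← e]; group
    simpa [mul_inv_eq_one] using this
  obtain ⟨a, e | e⟩ := (h.mem _).1 hg <;> rw [e] at h3 ⊢
  · exact ⟨zpowers (X 1), by rw [Nat.card_zpowers, h.orderOf_X_one], fun x hx hc =>
      (h.commute_X_iff ((big_X h).1 h3).1 ((big_X h).1 h3).2 hx).1 hc⟩
  · have h4 : Y a * Y a = X (hh k) := by
      rw [h.Y_sq] at h3 ⊢
      rcases h.Y_sq_cases a with e | e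
      · exact absurd (h.X_eq_one.2 e) h3
      · rw [e]
    refine ⟨zpowers (Y a), ?_, fun x hx hc => ?_⟩
    · rw [Nat.card_zpowers]
      have := h.two_le
      have h5 : 2 ^ 2 ≤ 2 ^ k := Nat.pow_le_pow_right two_pos this
      rcases h.orderOf_Y a with e | e <;> omega
    · refine (closure_le _).2 ?_ ((h.commute_Y_iff hx).1 hc)
      rintro _ (rfl | rfl)
      · exact h4 ▸ mul_mem (mem_zpowers _) (mem_zpowers _)
      · exact mem_zpowers _

theorem H_le_cent {y : G} (hy : y ∈ zpowers (X 1)) : zpowers (X 1) ≤ centralizer {y} := by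
  obtain ⟨a, rfl⟩ := exX h hy
  exact zpowers_le.2 (H11.mem_cent1.2 (h.X_comm _ _))

theorem pgH : IsPGroup 2 (zpowers (X 1)) := P.isPGroup'.to_le (h.zpowers_le 1)

theorem syl_cent {y : G} (hy : y ∈ zpowers (X 1)) (h1 : y * y ≠ 1) :
    IsSylIn 2 (zpowers (X 1)) (centralizer {y}) := by
  obtain ⟨S, hS⟩ := H11.exists_isSylIn 2 (centralizer ({y} : Set G))
  refine hS.of_card_ge (pgH h) (H_le_cent h hy) ?_
  rw [hS.card_eq_pow, Nat.card_zpowers, h.orderOf_X_one]
  exact fact_le h (powH h hy) h1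

theorem fact_eq {y : G} (hy : y ∈ zpowers (X 1)) (h1 : y * y ≠ 1) :
    2 ^ (Nat.card (centralizer ({y} : Set G))).factorization 2 = 2 ^ k := by
  rw [← (syl_cent h hy h1).card_eq_pow, Nat.card_zpowers, h.orderOf_X_one]

theorem compl {y : G} (hy : y ∈ zpowers (X 1)) (h1 : y * y ≠ 1) :
    HasNormalPComplement 2 (centralizer ({y} : Set G)) :=
  H11.hasNormalPComplement_of_isSylIn_isCyclic (syl_cent h hy h1) inferInstance

theorem norm_act {n : G} (hn : n ∈ normalizer (zpowers (X 1) : Set G)) :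
    ∃ s ∈ (P : Subgroup G), ∀ a, n * X a * n⁻¹ = s * X a * s⁻¹ := by
  let K : Subgroup G :=
    { carrier := {n | ∃ s ∈ (P : Subgroup G), ∀ a, n * X a * n⁻¹ = s * X a * s⁻¹}
      one_mem' := ⟨1, one_mem _, fun _ => rfl⟩
      mul_mem' := by
        rintro n n' ⟨s, hs, e⟩ ⟨s', hs', e'⟩
        refine ⟨s * s', mul_mem hs hs', fun a => ?_⟩
        obtain ⟨b, hb⟩ : ∃ b, s' * X a * s'⁻¹ = X b := by
          rcases h.conj_X a hs' with e | e <;> exact ⟨_, e⟩
        calc n * n' * X a * (n * n')⁻¹ = n * (n' * X a * n'⁻¹) * n⁻¹ := by group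
          _ = s * (s' * X a * s'⁻¹) * s⁻¹ := by rw [e', hb, e]
          _ = _ := by group
      inv_mem' := by
        rintro n ⟨s, hs, e⟩
        refine ⟨s⁻¹, inv_mem hs, fun a => ?_⟩
        obtain ⟨b, hb⟩ : ∃ b, s⁻¹ * X a * s⁻¹⁻¹ = X b := by
          rcases h.conj_X a (inv_mem hs) with e | e <;> exact ⟨_, e⟩
        have : X a = n * X b * n⁻¹ := by rw [e, ← hb]; group
        rw [hb, this]; group }
  refine H11.le_of_sylIn_of_odd (H := normalizer (zpowers (X 1) : Set G)) (K := K)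
    (H11.isSylIn_of_sylow_le P (h.le_normalizer_zpowers 1)) (fun s hs => ⟨s, hs, fun _ => rfl⟩)
    (fun x hx ho => ⟨1, one_mem _, fun a => ?_⟩) hn
  have h1 := H11.commute_of_odd_of_zpowers ho h.orderOf_X_one
    (H11.conj_mem_of_mem_normalizer hx (mem_zpowers _))
  obtain ⟨j, hj⟩ := h.X_mem_zpowers_one a
  have h2 : Commute x (X a) := hj ▸ (show Commute x (X 1) from h1).zpow_right j
  rw [h2.eq]; group

theorem isConj_iff' {y x : G} (hy : y ∈ zpowers (X 1)) (h1 : y * y ≠ 1) (hx : x ∈ zpowers (X 1)) :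
    IsConj y x ↔ x = y ∨ x = Y 0 * y * (Y 0)⁻¹ := by
  refine ⟨fun hc => ?_, ?_⟩
  · obtain ⟨g, rfl⟩ := isConj_iff.1 hc
    have h3 : g * y * g⁻¹ * (g * y * g⁻¹) ≠ 1 := by
      intro e; apply h1
      have : g * (y * y) * g⁻¹ = 1 := by rw [← e]; group
      simpa [mul_inv_eq_one] using this
    have h4 := (syl_cent h hy h1).cj g
    rw [H11.cj_cent1] at h4
    obtain ⟨c, hc, e⟩ := h4.exists_cj_eq (syl_cent h hx h3)
    rw [← H11.cj_mul, H11.cj_eq_iff] at e
    obtain ⟨s, hs, e'⟩ := norm_act h e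
    obtain ⟨a, rfl⟩ := exX h hy
    have h5 : g * X a * g⁻¹ = s * X a * s⁻¹ := by
      rw [← e']
      have := H11.mem_cent1.1 hc
      calc g * X a * g⁻¹ = c * (g * X a * g⁻¹) * c⁻¹ := by rw [this]; group
        _ = _ := by group
    rw [h5, h.YXY]
    exact h.conj_X a hs
  · rintro (rfl | rfl)
    exacts [IsConj.refl _, H11.isConj_conj _ _]

/-- the action of the outer elements of `P` on the cyclic maximal subgroup -/
def sg (y : zpowers (X 1)) : zpowers (X 1) :=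
  ⟨Y 0 * y * (Y 0)⁻¹, H11.conj_mem_of_mem_normalizer (h.le_normalizer_zpowers 1 (h.Y_mem 0)) y.2⟩

theorem sg_coe (y : zpowers (X 1)) : (sg h y : G) = Y 0 * y * (Y 0)⁻¹ := rfl

/-- `sg` as a homomorphism -/
def sgH : zpowers (X 1) →* zpowers (X 1) where
  toFun := sg h
  map_one' := Subtype.ext (by simp [sg_coe])
  map_mul' a b := Subtype.ext (by simp [sg_coe, mul_assoc])

theorem sg_ne {y : zpowers (X 1)} (h1 : (y : G) * y ≠ 1) : sg h y ≠ y := by
  intro e
  obtain ⟨a, ha⟩ := exX h y.2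
  have e' := congrArg Subtype.val e
  rw [sg_coe, ha, mul_inv_eq_iff_eq_mul, eq_comm, h.XY_comm_iff] at e'
  rw [ha, big_X h] at h1
  tauto

theorem sg_small {y : zpowers (X 1)} (h1 : (y : G) * y = 1) : sg h y = y := by
  obtain ⟨a, ha⟩ := exX h y.2
  apply Subtype.ext
  rw [ha, h.X_sq_eq_one] at h1
  rw [sg_coe, ha, mul_inv_eq_iff_eq_mul, eq_comm, h.XY_comm_iff]
  exact h1

/-- the central involution as an element of the cyclic subgroup -/
def tH : zpowers (X 1) := ⟨X (hh k), h.X_mem_zpowers_one _⟩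

/-- the element of order four in the cyclic subgroup -/
def zH : zpowers (X 1) := ⟨X (qq k), h.X_mem_zpowers_one _⟩

theorem sg_cases (y : zpowers (X 1)) : sg h y = y⁻¹ ∨ sg h y = y⁻¹ * tH h := by
  obtain ⟨a, ha⟩ := exX h y.2
  simp only [Subtype.ext_iff, sg_coe, coe_mul, coe_inv, ha, tH, h.YXY, h.X_inv, h.XX, h.X_inj]
  rcases h.Y_sq_cases a with e | e <;> rw [zero_add] at e <;> simp [e]

theorem small_iff {y : zpowers (X 1)} : (y : G) * y = 1 ↔ y = 1 ∨ y = tH h := by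
  obtain ⟨a, ha⟩ := exX h y.2
  simp only [Subtype.ext_iff, ha, tH, h.X_sq_eq_one, coe_one, h.X_eq_one, h.X_inj]

theorem exists_big (hu : IsConj (X (qq k)) (Y 1)) {w : G} (hw : ∃ j, orderOf w = 2 ^ j)
    (h1 : w * w ≠ 1) : ∃ y ∈ zpowers (X 1), y * y ≠ 1 ∧ IsConj w y := by
  obtain ⟨g, hg⟩ := exists_conj_mem_sylow P hw
  have h3 : g * w * g⁻¹ * (g * w * g⁻¹) ≠ 1 := by
    intro e; apply h1
    have : g * (w * w) * g⁻¹ = 1 := by rw [← e]; group
    simpa [mul_inv_eq_one] using this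
  obtain ⟨a, e | e⟩ := (h.mem _).1 hg
  · exact ⟨_, e ▸ h.X_mem_zpowers_one a, h3, H11.isConj_conj _ _⟩
  · refine ⟨_, h.X_mem_zpowers_one _, z_big h, (H11.isConj_conj g w).trans ?_⟩
    have h4 : orderOf (Y a) = 4 := (h.orderOf_Y a).resolve_left fun e' => h3 (by
      rw [e, ← sq, ← e', pow_orderOf_eq_one])
    rw [e]
    rcases h.qd_four (h.Y_mem a) h4 with e' | e'
    exacts [e'.symm, (hu.trans e').symm]

variable {M : Ideal AlgInt} [hMm : M.IsMaximal] (hM : IsPModular 2 M) [Fintype (zpowers (X 1))]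
include hM

theorem tau_big (θ : zpowers (X 1) → ℂ) {g : G} {y : zpowers (X 1)} (hg : IsPPart 2 g (y : G))
    (hy : (y : G) * y ≠ 1) : tau M (zpowers (X 1)) θ g = θ y + θ (sg h y) := by
  classical
  rw [tau_of_isPPart hM (pgH h) θ hg (compl h y.2 hy), ← Finset.sum_filter,
    show Finset.univ.filter (fun x : zpowers (X 1) => IsConj (y : G) x) = {y, sg h y} by
      ext x
      rw [Finset.mem_filter, isConj_iff' h y.2 hy x.2, Finset.mem_insert, Finset.mem_singleton,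
        Subtype.ext_iff, Subtype.ext_iff (a2 := sg h y)]
      exact and_iff_right (Finset.mem_univ x), Nat.card_zpowers,
    h.orderOf_X_one, fact_eq h y.2 hy, Finset.sum_pair (sg_ne h hy).symm,
    inv_mul_cancel₀ (by simp), one_mul]

theorem tau_small {θ : zpowers (X 1) → ℂ} (h1 : θ 1 = 0) (ht : θ (tH h) = 0) {g w : G}
    (hg : IsPPart 2 g w) (hw : w * w = 1) : tau M (zpowers (X 1)) θ g = 0 := by
  refine tau_eq_zero hM (pgH h) hg fun x hx => ?_
  obtain ⟨c, hc⟩ := isConj_iff.1 hx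
  have : (x : G) * x = 1 := by
    rw [← hc]
    calc c * w * c⁻¹ * (c * w * c⁻¹) = c * (w * w) * c⁻¹ := by group
      _ = 1 := by rw [hw]; group
  rcases (small_iff h).1 this with rfl | rfl
  exacts [h1, ht]

theorem tau_res {θ : zpowers (X 1) → ℂ} (h1 : θ 1 = 0) (ht : θ (tH h) = 0) (y : zpowers (X 1)) :
    tau M (zpowers (X 1)) θ y = θ y + θ (sg h y) := by
  have hp := isPPart_self Nat.prime_two (powH h y.2)
  by_cases hy : (y : G) * y = 1
  · rw [tau_small h hM h1 ht hp hy, sg_small h hy]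
    rcases (small_iff h).1 hy with rfl | rfl <;> simp [h1, ht]
  · exact tau_big h hM θ hp hy

end Cfsg.Agent.H26.SW
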