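import Cfsg.Agent.H26.SW1
import Cfsg.Agent.H6.Dih2

/-!
# Semidihedral Sylow 2-subgroups: the characters of height zero
-/

set_option linter.unusedSectionVars false

namespace Cfsg.Agent.H26.SW

open Cfsg Cfsg.Agent.H4 Cfsg.Agent.H6 Subgroup
open Cfsg.Agent.H11 (MC hh qq IsSylIn cj)
open scoped ComplexConjugate

theorem sq_eq_one_iff_of_x {x : ℤ} (h : x ^ 2 = 1) : x = 1 ∨ x = -1 :=
  mul_self_eq_one_iff.1 (by rw [← sq, h])

variable {G : Type*} [Group G] [Fintype G] {P : Sylow 2 G} {k : ℕ} {X Y : ZMod (2 ^ k) → G}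
  (h : MC (P : Subgroup G) k (hh k) 0 X Y)
include h

theorem tH_sq : tH h * tH h = 1 := Subtype.ext (h.X_sq_eq_one.2 (Or.inr rfl))

theorem tH_ne : tH h ≠ 1 := fun e =>
  H11.ne_one_of_orderOf_two h.orderOf_z (congrArg Subtype.val e)

theorem zH_sq : zH h * zH h = tH h := Subtype.ext (zz h)

theorem sg_t : sgH h (tH h) = tH h := sg_small h (congrArg Subtype.val (tH_sq h))

theorem sg_z : sgH h (zH h) = (zH h)⁻¹ := Subtype.ext (by
  show Y 0 * X (qq k) * (Y 0)⁻¹ = (X (qq k))⁻¹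
  rw [h.YXY, h.X_inv, h.e_qq, add_zero])

theorem val_t (ψ : zpowers (X 1) →* ℂˣ) : (ψ (tH h) : ℂ) = 1 ∨ (ψ (tH h) : ℂ) = -1 := by
  rw [← mul_self_eq_one_iff, ← Units.val_mul, ← map_mul, tH_sq, map_one, Units.val_one]

theorem even_sg {ψ : zpowers (X 1) →* ℂˣ} (hψ : ψ (tH h) = 1) : ψ.comp (sgH h) = ψ⁻¹ := by
  ext y
  rcases sg_cases h y with e | e <;> simp [sgH, e, hψ]

theorem odd_sg {ψ : zpowers (X 1) →* ℂˣ} (hψ : ψ (tH h) ≠ 1) : ψ.comp (sgH h) ≠ ψ := by
  intro e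
  have := DFunLike.congr_fun e (zH h)
  rw [MonoidHom.comp_apply, sg_z, map_inv, inv_eq_iff_mul_eq_one, ← map_mul, zH_sq] at this
  exact hψ this

variable [Fintype (zpowers (X 1))] [Fintype (zpowers (X 1) →* ℂˣ)]

theorem card_odd : (Finset.univ.filter fun ψ : zpowers (X 1) →* ℂˣ => ¬ ψ (tH h) = 1).card
      = 2 ^ (k - 1) ∧
    (Finset.univ.filter fun ψ : zpowers (X 1) →* ℂˣ => ψ (tH h) = 1).card = 2 ^ (k - 1) := by
  classical
  have hc : ∀ a b : zpowers (X 1), a * b = b * a :=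
    (IsMulCommutative.is_comm (M := zpowers (X 1))).comm
  have h1 := sum_lf_apply hc (tH_ne h)
  have h2 := Finset.card_filter_add_card_filter_not (s := Finset.univ)
    (fun ψ : zpowers (X 1) →* ℂˣ => ψ (tH h) = 1)
  rw [Finset.card_univ, card_lf hc, Nat.card_zpowers, h.orderOf_X_one] at h2
  rw [← Finset.sum_filter_add_sum_filter_not Finset.univ
    (fun ψ : zpowers (X 1) →* ℂˣ => ψ (tH h) = 1),
    Finset.sum_congr rfl (g := fun _ => 1) fun ψ hψ => by simp [(Finset.mem_filter.1 hψ).2],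
    Finset.sum_congr (s₁ := Finset.univ.filter fun ψ : zpowers (X 1) →* ℂˣ => ¬ ψ (tH h) = 1) rfl
      (g := fun _ => -1) fun ψ hψ => (val_t h ψ).resolve_left fun e =>
        (Finset.mem_filter.1 hψ).2 (Units.val_eq_one.1 e)] at h1
  simp only [Finset.sum_const, nsmul_eq_mul, mul_one, mul_neg, add_neg_eq_zero,
    Nat.cast_inj] at h1
  have : 2 ^ k = 2 * 2 ^ (k - 1) := by
    rw [← pow_succ']; congr 1; have := h.two_le; omega
  omega

theorem even_iff {l : zpowers (X 1) →* ℂˣ} (hl : orderOf l = 2 ^ k) :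
    orderOf (l ^ 2) = 2 * 2 ^ (k - 2) ∧ (∀ ψ, ψ (tH h) = 1 ↔ ψ ∈ zpowers (l ^ 2)) ∧
      l (tH h) ≠ 1 := by
  classical
  have hk := h.two_le
  have e1 : 2 * 2 ^ (k - 2) = 2 ^ (k - 1) := by rw [← pow_succ']; congr 1; omega
  have e2 : 2 ^ k = 2 ^ (k - 1) * 2 := by rw [← pow_succ]; congr 1; omega
  have h1 : orderOf (l ^ 2) = 2 * 2 ^ (k - 2) := by
    rw [orderOf_pow_of_dvd two_ne_zero (by rw [hl, e2]; simp), hl, e2, e1]; simp
  have h2 : ∀ ψ ∈ zpowers (l ^ 2), ψ (tH h) = 1 := by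
    rintro _ ⟨j, rfl⟩
    have : (l ^ 2) (tH h) = 1 := by
      rw [MonoidHom.pow_apply, ← map_pow, sq, tH_sq, map_one]
    show ((l ^ 2) ^ j) (tH h) = 1
    rw [MonoidHom.zpow_apply, this, one_zpow]
  have h3 : (Finset.univ.filter fun ψ => ψ ∈ zpowers (l ^ 2)) =
      Finset.univ.filter fun ψ : zpowers (X 1) →* ℂˣ => ψ (tH h) = 1 := by
    refine Finset.eq_of_subset_of_card_le (fun ψ hψ => ?_) ?_
    · simpa using h2 ψ (by simpa using hψ)
    · rw [(card_odd h).2, ← Fintype.card_subtype, ← Nat.card_eq_fintype_card, Nat.card_zpowers,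
        h1, e1]
  have h4 : ∀ ψ, ψ (tH h) = 1 ↔ ψ ∈ zpowers (l ^ 2) := fun ψ => by
    simpa using (Finset.ext_iff.1 h3 ψ).symm
  refine ⟨h1, h4, fun e => ?_⟩
  have := orderOf_dvd_of_mem_zpowers ((h4 l).1 e)
  rw [hl, h1, e1, e2] at this
  have h5 := Nat.le_of_dvd (by positivity) this
  have : 0 < 2 ^ (k - 1) := by positivity
  omega

theorem sum_even {l : zpowers (X 1) →* ℂˣ} (hl : orderOf l = 2 ^ k)
    (f : (zpowers (X 1) →* ℂˣ) → ℂ) :
    ∑ ψ with ψ (tH h) = 1, f ψ = f 1 + f ((l ^ 2) ^ 2 ^ (k - 2)) +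
      ∑ j : Fin (2 ^ (k - 2) - 1), (f ((l ^ 2) ^ ((j : ℕ) + 1)) + f ((l ^ 2) ^ ((j : ℕ) + 1))⁻¹) := by
  classical
  obtain ⟨h1, h2, -⟩ := even_iff h hl
  rw [Finset.sum_subtype (p := fun ψ => ψ ∈ zpowers (l ^ 2)) _ (by simpa using h2),
    sum_dual (A := zpowers (l ^ 2)) (l := ⟨l ^ 2, mem_zpowers _⟩) (m := 2 ^ (k - 2))
      (by positivity) (by rw [← orderOf_coe]; exact h1)
      (by rw [← Nat.card_eq_fintype_card, Nat.card_zpowers, h1])]
  rfl

variable {M : Ideal AlgInt} [hMm : M.IsMaximal] (hM : IsPModular 2 M)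
include hM

theorem tau_cases (hu : IsConj (X (qq k)) (Y 1)) (g : G) :
    (∃ w, IsPPart 2 g w ∧ w * w = 1) ∨ ∃ y : zpowers (X 1), (y : G) * y ≠ 1 ∧
      (∃ w, IsPPart 2 g w ∧ IsConj w y) ∧
        ∀ θ, tau M (zpowers (X 1)) θ g = θ y + θ (sg h y) := by
  obtain ⟨w, hw⟩ := exists_isPPart Nat.prime_two g
  by_cases h1 : w * w = 1
  · exact Or.inl ⟨w, hw, h1⟩
  obtain ⟨y, hy, h2, h3⟩ := exists_big h hu (IsPPart.pow_order hw) h1
  refine Or.inr ⟨⟨y, hy⟩, h2, ⟨w, hw, h3⟩, fun θ => ?_⟩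
  obtain ⟨c, rfl⟩ := isConj_iff.1 h3
  rw [← tau_isClassFunction θ g c]
  exact tau_big h hM θ (y := ⟨_, hy⟩) (IsPPart.conj hw c) h2

open Classical in
theorem inner4 {ψ ψ' : zpowers (X 1) →* ℂˣ} (hψ : ψ (tH h) = ψ' (tH h))
    (φ φ' : zpowers (X 1) →* ℂˣ) :
    classInner (tau M (zpowers (X 1)) (lf ψ - lf ψ')) (tau M (zpowers (X 1)) (lf φ - lf φ')) =
      ((if ψ = φ then 1 else 0) - (if ψ' = φ then 1 else 0) +
        ((if ψ.comp (sgH h) = φ then 1 else 0) - (if ψ'.comp (sgH h) = φ then 1 else 0))) -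
      ((if ψ = φ' then 1 else 0) - (if ψ' = φ' then 1 else 0) +
        ((if ψ.comp (sgH h) = φ' then 1 else 0) - (if ψ'.comp (sgH h) = φ' then 1 else 0))) := by
  rw [inner_tau_tau, show (fun y : zpowers (X 1) => tau M (zpowers (X 1)) (lf ψ - lf ψ') y) =
    lf ψ - lf ψ' + (lf (ψ.comp (sgH h)) - lf (ψ'.comp (sgH h))) by
      ext y
      rw [tau_res h hM (by simp [lf]) (by simp [lf, hψ])]
      rfl]
  simp only [classInner_sub_left, classInner_add_left, classInner_sub_right, inner_lf]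

theorem hcol_eq (ψ : zpowers (X 1) →* ℂˣ) :
    hcol M ψ = tau M (zpowers (X 1)) (lf ψ - lf 1) := by rw [lf_one]; rfl

open Classical in
theorem inner_even {ψ φ : zpowers (X 1) →* ℂˣ} (h1 : ψ (tH h) = 1) (hψ : ψ ≠ 1) (hφ : φ ≠ 1) :
    classInner (hcol M ψ) (hcol M φ) =
      2 + (if ψ = φ then 1 else 0) + if ψ⁻¹ = φ then 1 else 0 := by
  rw [hcol_eq h hM, hcol_eq h hM, inner4 h hM (by simp [h1]), even_sg h h1,
    show (1 : zpowers (X 1) →* ℂˣ).comp (sgH h) = 1 from rfl, if_neg hψ, if_neg hφ.symm,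
    if_neg ((inv_ne_one (a := ψ)).2 hψ), if_pos rfl]
  ring

theorem hcol_small {ψ : zpowers (X 1) →* ℂˣ} (h1 : ψ (tH h) = 1) {g w : G}
    (hg : IsPPart 2 g w) (hw : w * w = 1) : hcol M ψ g = 0 :=
  tau_small h hM (by simp [lf]) (by simp [lf, h1]) hg hw

theorem hcol_inv' (hu : IsConj (X (qq k)) (Y 1)) {ψ : zpowers (X 1) →* ℂˣ} (h1 : ψ (tH h) = 1) :
    hcol M ψ⁻¹ = hcol M ψ := by
  ext g
  rcases tau_cases h hM hu g with ⟨w, hw, e⟩ | ⟨y, -, -, e⟩
  · rw [hcol_small h hM h1 hw e, hcol_small h hM (by simp [h1]) hw e]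
  · have := DFunLike.congr_fun (even_sg h h1) y
    rw [MonoidHom.comp_apply] at this
    simp only [hcol, e, Pi.sub_apply, lf, MonoidHom.inv_apply]
    rw [show sg h y = sgH h y from rfl, this]
    simp [add_comm]

theorem hcol_invol (hu : IsConj (X (qq k)) (Y 1)) {l : zpowers (X 1) →* ℂˣ}
    (hl : orderOf l = 2 ^ k) {a b : G} (ha : a * a = 1) (hb : b * b = 1) :
    hcol M ((l ^ 2) ^ 2 ^ (k - 2)) (a * b) = 0 := by
  obtain ⟨h1, h2, -⟩ := even_iff h hl
  have h3 : ((l ^ 2) ^ 2 ^ (k - 2)) (tH h) = 1 := (h2 _).2 (pow_mem (mem_zpowers _) _)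
  rcases tau_cases h hM hu (a * b) with ⟨w, hw, e⟩ | ⟨y, hy, ⟨w, hw, hc⟩, e⟩
  · exact hcol_small h hM h3 hw e
  have h4 : IsConj w w⁻¹ := IsPPart.isConj Nat.prime_two hw (IsPPart.inv hw) (isConj_iff.2 ⟨a, by
    rw [mul_inv_rev, inv_eq_of_mul_eq_one_left ha, inv_eq_of_mul_eq_one_left hb, ← mul_assoc,
      ha, one_mul]⟩)
  have h5 : IsConj (y : G) (y : G)⁻¹ := by
    obtain ⟨c, hc'⟩ := isConj_iff.1 hc
    refine hc.symm.trans (h4.trans (isConj_iff.2 ⟨c, ?_⟩))
    rw [← hc']; group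
  obtain ⟨u, hu'⟩ := exX h y.2
  rcases (isConj_iff' h y.2 hy (inv_mem y.2)).1 h5 with e' | e'
  · exact absurd (inv_eq_iff_mul_eq_one.1 e') hy
  rw [hu', h.YXY, h.X_inv, h.X_inj, left_eq_add] at e'
  obtain ⟨c, hc⟩ := h.qd_even.1 (show 0 + hh k * u = 0 by rw [e', zero_add])
  have h6 : y = (⟨X c, h.X_mem_zpowers_one c⟩ : zpowers (X 1)) ^ 2 := Subtype.ext (by
    rw [hu', hc, coe_pow, h.X_pow]; simp)
  have h7 : ((l ^ 2) ^ 2 ^ (k - 2)) y = 1 := by
    rw [h6, map_pow, ← MonoidHom.pow_apply, ← pow_mul, mul_comm, ← h1, pow_orderOf_eq_one,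
      MonoidHom.one_apply]
  have := DFunLike.congr_fun (even_sg h h3) y
  rw [MonoidHom.comp_apply, MonoidHom.inv_apply, h7] at this
  simp only [hcol, e, Pi.sub_apply, lf]
  rw [show sg h y = sgH h y from rfl, this, h7]
  simp

open Classical in
theorem sd_main (hu : IsConj (X (qq k)) (Y 1)) :
    ∃ (a b c : IrrCharacter G) (e : Fin (2 ^ (k - 2) - 1) → IrrCharacter G) (δa δb δc : ℤ),
      (δa = 1 ∨ δa = -1) ∧ (δb = 1 ∨ δb = -1) ∧ (δc = 1 ∨ δc = -1) ∧ Function.Injective e ∧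
      a ≠ irrOne G ∧ b ≠ irrOne G ∧ c ≠ irrOne G ∧ a ≠ b ∧ a ≠ c ∧ b ≠ c ∧
      (∀ j, e j ≠ irrOne G ∧ e j ≠ a ∧ e j ≠ b ∧ e j ≠ c) ∧
      a ∈ principalBlock M G ∧ b ∈ principalBlock M G ∧ c ∈ principalBlock M G ∧
      (∀ j, e j ∈ principalBlock M G) ∧
      (∀ g w, IsPPart 2 g w → w * w = 1 →
        1 + δa * (a : G → ℂ) g + δb * (b : G → ℂ) g + δc * (c : G → ℂ) g = 0 ∧
        ∀ j, 1 + δa * (a : G → ℂ) g - δa * (e j : G → ℂ) g = 0) ∧
      (∀ t : G, t * t = 1 → 1 + δa * ((a : G → ℂ) t * (a : G → ℂ) t / (a : G → ℂ) 1) +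
        δb * ((b : G → ℂ) t * (b : G → ℂ) t / (b : G → ℂ) 1) +
        δc * ((c : G → ℂ) t * (c : G → ℂ) t / (c : G → ℂ) 1) = 0) ∧
      (∀ (F : IrrCharacter G → ℂ) (T : ℂ), F (irrOne G) + δa * F a + δb * F b + δc * F c = 0 →
        (∀ j, F (irrOne G) + δa * F a - δa * F (e j) = T) →
        ∑ χ : IrrCharacter G, (if χ ∈ principalBlock M G then
          (χ : G → ℂ) (X (qq k)) * F χ else 0) = 2 * T) ∧
      ((δb = δc ∧ ∀ g w, IsPPart 2 g w → w * w = 1 → (b : G → ℂ) g = (c : G → ℂ) g) ∨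
        ∃ ra rb rc : ℤ, δa * (a : G → ℂ) (X (hh k)) = 1 + 2 ^ (k - 1) * ra ∧
          -δb * (b : G → ℂ) (X (hh k)) = 1 + 2 ^ (k - 1) * rb ∧
          -δc * (c : G → ℂ) (X (hh k)) = 1 + 2 ^ (k - 1) * rc) := by
  have hk := h.qd_three
  obtain ⟨l, -, hl⟩ := exists_faithful_linear (σ := X 1)
    (Complex.isPrimitiveRoot_exp _ (orderOf_pos _).ne')
  replace hl := hl.trans h.orderOf_X_one
  obtain ⟨hlam, hev, hlo⟩ := even_iff h hl
  have hse := sum_even h hl
  have hinvol := fun a b => hcol_invol h hM hu hl (a := a) (b := b)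
  have hlz : (l ^ 2) (zH h) = -1 := by
    rw [MonoidHom.pow_apply, ← map_pow, sq, zH_sq]
    exact Units.ext ((val_t h l).resolve_left fun e => hlo (Units.val_eq_one.1 e))
  set lam := l ^ 2 with hlamdef
  have hS := pgH h
  have hc : ∀ a b : zpowers (X 1), a * b = b * a :=
    (IsMulCommutative.is_comm (M := zpowers (X 1))).comm
  have hm4 : 2 ^ (k - 1) = 2 * 2 ^ (k - 2) := by rw [← pow_succ']; congr 1; omega
  have hm3 : 2 ∣ 2 ^ (k - 2) := dvd_pow_self 2 (by omega)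
  have hm0 : 0 < 2 ^ (k - 2) := by positivity
  generalize hm : 2 ^ (k - 2) = m at *
  obtain ⟨hinj, hne, hinv, hμ⟩ := cyc_facts' hm0 hlam
  have hpe : ∀ j : ℕ, (lam ^ j) (tH h) = 1 := fun j => (hev _).2 (pow_mem (mem_zpowers lam) j)
  choose n hn using fun (ψ : zpowers (X 1) →* ℂˣ) (χ : IrrCharacter G) =>
    (isGen_hcol (M := M) ψ).neg.classInner_int χ.2.isGen
  replace hn : ∀ ψ χ, classInner (hcol M ψ) (χ : IrrCharacter G) = -n ψ χ := fun ψ χ => by
    rw [← hn, classInner_neg_left, neg_neg]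
  have hnn : ∀ ψ φ, ((∑ χ, n ψ χ * n φ χ : ℤ) : ℂ) = classInner (hcol M ψ) (hcol M φ) :=
    fun ψ φ => by
      rw [(isGen_hcol ψ).isClassFunction.classInner_eq_sum]
      simp [hn]
  have hn1 : ∀ ψ, ψ ≠ 1 → n ψ (irrOne G) = 1 := fun ψ hψ => by
    have := hn ψ (irrOne G)
    rw [inner_hcol_one hψ, neg_inj] at this
    exact_mod_cast this.symm
  have hap : ∀ ψ g, hcol M ψ g = -∑ χ, n ψ χ * (χ : G → ℂ) g := fun ψ g => by
    rw [(isGen_hcol ψ).isClassFunction.apply_eq_sum]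
    simp only [hn, neg_mul, Finset.sum_neg_distrib]
  have hnd : ∀ ψ, ∑ χ, n ψ χ * charDegree (χ : G → ℂ) = 0 := fun ψ => by
    have := hcol_of_regular hM hS ψ (g := 1) (by simp)
    rw [hap] at this
    simp only [neg_eq_zero, ← irr_deg_cast] at this
    exact_mod_cast this
  have hj : ∀ j : Fin (m - 1), (j : ℕ) + 1 < m := fun j => by have := j.2; omega
  have hj1 : ∀ j : Fin (m - 1), lam ^ ((j : ℕ) + 1) ≠ 1 := fun j =>
    hne _ (by omega) (by have := hj j; omega)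
  have hm1 := hne m hm0 (by omega)
  haveI : Nonempty (Fin (m - 1)) := ⟨⟨0, by omega⟩⟩
  obtain ⟨a, b, c, e, ao, bo, co, ab, ac, bc, he, he', ha, hb, hc', hW, hU⟩ := dih_vectors
    (κ := Fin (m - 1)) (by rw [Fintype.card_fin]; omega) (o := irrOne G)
    (U := fun j => n (lam ^ ((j : ℕ) + 1))) (W := n (lam ^ m))
    (deg := fun χ => charDegree (χ : G → ℂ)) (fun χ => by exact_mod_cast χ.2.charDegree_pos)
    (by exact_mod_cast charDegree_one') (fun j => hn1 _ (hj1 j)) (hn1 _ hm1)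
    (fun i j => by
      have := hnn (lam ^ ((i : ℕ) + 1)) (lam ^ ((j : ℕ) + 1))
      have hi := hj i
      have hj' := hj j
      rw [inner_even h hM (hpe _) (hj1 i) (hj1 j), if_neg (hinv _ _ (by omega) (by omega)),
        add_zero, if_congr ((hinj _ _ (by omega) (by omega)).trans (show _ ↔ i = j by
          rw [Nat.add_left_inj, Fin.ext_iff])) rfl rfl] at this
      exact_mod_cast this)
    (by
      have := hnn (lam ^ m) (lam ^ m)
      rw [inner_even h hM (hpe _) hm1 hm1, if_pos rfl, if_pos hμ] at this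
      simp only [sq]
      exact_mod_cast this)
    (fun j => by
      have := hnn (lam ^ ((j : ℕ) + 1)) (lam ^ m)
      have hj' := hj j
      rw [inner_even h hM (hpe _) (hj1 j) hm1, if_neg (hinv _ _ (by omega) (by omega)),
        if_neg ((hinj _ _ (by omega) (by omega)).not.2 hj'.ne)] at this
      exact_mod_cast this)
    (fun j => hnd _) (hnd _)
  have hmem : ∀ ψ χ, n ψ χ ≠ 0 → χ ∈ principalBlock M G := fun ψ χ h0 => by
    by_contra h1
    have := hn ψ χ
    rw [inner_hcol_of_not_mem ψ h1, zero_eq_neg] at this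
    exact h0 (by exact_mod_cast this)
  have ma := hmem (lam ^ m) a (by omega)
  have mb := hmem (lam ^ m) b (by omega)
  have mc := hmem (lam ^ m) c (by omega)
  have me : ∀ j, e j ∈ principalBlock M G := fun j => hmem (lam ^ ((j : ℕ) + 1)) _ (by
    rw [(hU j).2.1]; omega)
  have sW : ∀ {R : Type} [Ring R] (F : IrrCharacter G → R), ∑ χ, (n (lam ^ m) χ : R) * F χ =
      F (irrOne G) + n (lam ^ m) a * F a + n (lam ^ m) b * F b + n (lam ^ m) c * F c :=
    fun F => by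
      rw [← Finset.sum_subset (Finset.subset_univ {irrOne G, a, b, c}) fun χ _ hχ => by
          simp only [Finset.mem_insert, Finset.mem_singleton, not_or] at hχ
          rw [hW χ hχ.1 hχ.2.1 hχ.2.2.1 hχ.2.2.2]; simp,
        Finset.sum_insert (by simp [ao.symm, bo.symm, co.symm]),
        Finset.sum_insert (by simp [ab, ac]), Finset.sum_pair bc, hn1 _ hm1]
      simp [add_assoc]
  have sU : ∀ {R : Type} [Ring R] (j : Fin (m - 1)) (F : IrrCharacter G → R),
      ∑ χ, (n (lam ^ ((j : ℕ) + 1)) χ : R) * F χ =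
      F (irrOne G) + n (lam ^ m) a * F a - n (lam ^ m) a * F (e j) := fun j F => by
    rw [sum_three ao (he' j).1 (he' j).2.1.symm (hU j).2.2, hn1 _ (hj1 j), (hU j).1, (hU j).2.1]
    simp [sub_eq_add_neg]
  have ninv : ∀ j : ℕ, n (lam ^ j)⁻¹ = n (lam ^ j) := fun j => by
    ext χ
    have := hn (lam ^ j)⁻¹ χ
    rw [hcol_inv' h hM hu (hpe j), hn, neg_inj] at this
    exact_mod_cast this.symm
  have n1 : ∀ χ, n 1 χ = 0 := fun χ => by
    have := hn 1 χ
    rw [inner_hcol_triv, zero_eq_neg] at this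
    exact_mod_cast this
  refine ⟨a, b, c, e, _, _, _, ha, hb, hc', he, ao, bo, co, ab, ac, bc, he', ma, mb, mc, me,
    fun g w hg hw => ⟨?_, fun j => ?_⟩, fun t ht => ?_, fun F T h1 h2 => ?_, ?_⟩
  · have := hcol_small h hM (hpe m) hg hw
    rwa [hap, neg_eq_zero, sW, irrOne_apply] at this
  · have := hcol_small h hM (hpe (j + 1)) hg hw
    rwa [hap, neg_eq_zero, sU, irrOne_apply] at this
  · have := sum_conj_mul_eq (isGen_hcol (M := M) (lam ^ m)).isClassFunction t t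
    rw [Finset.sum_eq_zero fun g _ => hinvol _ _ (by
      calc g * t * g⁻¹ * (g * t * g⁻¹) = g * (t * t) * g⁻¹ := by group
        _ = 1 := by rw [ht]; group) ht, eq_comm, mul_eq_zero] at this
    have h3 := this.resolve_left (by simp)
    simp only [hn, neg_mul, Finset.sum_neg_distrib, neg_eq_zero] at h3
    rw [sW] at h3
    simpa using h3
  · have hz1 : zH h ≠ 1 := fun e => z_big h (by
      have := congrArg Subtype.val e
      simp only [zH] at this
      simp [this])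
    have hm5 : ((lam ^ m) (zH h) : ℂ) = 1 := by
      obtain ⟨m', rfl⟩ := hm3
      rw [MonoidHom.pow_apply, hlz, pow_mul]; simp
    have hv : ∀ j : ℕ, (((lam ^ j) (zH h) : ℂ))⁻¹ = (lam ^ j) (zH h) := fun j => by
      rw [MonoidHom.pow_apply, hlz]; simp [← inv_pow, inv_neg]
    have hs0 : ∑ j : Fin (m - 1), ((lam ^ ((j : ℕ) + 1)) (zH h) : ℂ) = -1 := by
      simp only [MonoidHom.pow_apply, hlz, Units.val_pow_eq_pow_val, Units.val_neg, Units.val_one]
      simp only [pow_succ, ← Finset.sum_mul]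
      rw [Fin.sum_univ_eq_sum_range (fun j => (-1 : ℂ) ^ j), neg_one_geom_sum,
        if_neg (by rw [Nat.even_iff]; omega), one_mul]
    have hval : ∀ χ ∈ principalBlock M G, (χ : G → ℂ) (X (qq k)) =
        -(n (lam ^ m) χ + 2 * ∑ j : Fin (m - 1),
          ((lam ^ ((j : ℕ) + 1)) (zH h) : ℂ) * n (lam ^ ((j : ℕ) + 1)) χ) := fun χ hχ => by
      have a1 := apply_eq_sum_hcol hc hχ hz1
      have a2 := apply_eq_sum_hcol hc hχ (inv_ne_one.2 hz1)
      rw [← sg_z h, show ((sgH h (zH h) : zpowers (X 1)) : G) = Y 0 * zH h * (Y 0)⁻¹ from rfl,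
        χ.2.isClassFunction, sg_z] at a2
      have a3 : 2 * (χ : G → ℂ) (zH h) = ∑ ψ with ψ (tH h) = 1,
          2 * (-n ψ χ * (ψ (zH h) : ℂ)) := by
        rw [two_mul]
        nth_rewrite 2 [a2]
        rw [a1, ← Finset.sum_add_distrib, Finset.sum_filter]
        refine Finset.sum_congr rfl fun ψ _ => ?_
        have a4 : (ψ (zH h) : ℂ) * ψ (zH h) = ψ (tH h) := by
          rw [← Units.val_mul, ← map_mul, zH_sq]
        rw [hn, map_inv, Units.val_inv_eq_inv_val]
        split_ifs with a5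
        · rw [a5, Units.val_one] at a4
          rw [inv_eq_of_mul_eq_one_left a4]; ring
        · rw [(val_t h ψ).resolve_left fun e => a5 (Units.val_eq_one.1 e)] at a4
          rw [inv_eq_of_mul_eq_one_left (show -(ψ (zH h) : ℂ) * ψ (zH h) = 1 by
            rw [neg_mul, a4, neg_neg])]
          ring
      rw [hse] at a3
      simp only [ninv, n1, hm5, MonoidHom.inv_apply, Units.val_inv_eq_inv_val, hv] at a3
      rw [Finset.sum_congr rfl (g := fun j : Fin (m - 1) => -4 *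
        (((lam ^ ((j : ℕ) + 1)) (zH h) : ℂ) * n (lam ^ ((j : ℕ) + 1)) χ)) fun j _ => by ring,
        ← Finset.mul_sum] at a3
      show (χ : G → ℂ) (zH h) = _
      push_cast at a3
      linear_combination a3 / 2
    rw [Finset.sum_congr rfl (g := fun χ => -(n (lam ^ m) χ * F χ + 2 * ∑ j : Fin (m - 1),
          ((lam ^ ((j : ℕ) + 1)) (zH h) : ℂ) * (n (lam ^ ((j : ℕ) + 1)) χ * F χ))) fun χ _ => by
        split_ifs with hχ
        · rw [hval χ hχ]
          simp only [← mul_assoc, ← Finset.sum_mul]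
          ring
        · have : ∀ ψ, n ψ χ = 0 := fun ψ => by_contra fun e => hχ (hmem ψ χ e)
          simp [this],
      Finset.sum_neg_distrib, Finset.sum_add_distrib, ← Finset.mul_sum, Finset.sum_comm, sW, h1]
    simp only [← Finset.mul_sum, sU, h2]
    rw [← Finset.sum_mul, hs0]
    ring
  · by_cases hall : ∀ ψ, ψ (tH h) ≠ 1 → n ψ a = n l a ∧ n ψ b = n l b ∧ n ψ c = n l c
    · right
      have hval : ∀ χ ∈ principalBlock M G, (∀ ψ, ψ (tH h) ≠ 1 → n ψ χ = n l χ) →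
          (χ : G → ℂ) (X (hh k)) = -(n (lam ^ m) χ + 2 * ∑ j : Fin (m - 1),
            (n (lam ^ ((j : ℕ) + 1)) χ : ℂ)) + 2 ^ (k - 1) * n l χ := fun χ hχ h1 => by
        have a1 := apply_eq_sum_hcol hc hχ (tH_ne h)
        rw [← Finset.sum_filter_add_sum_filter_not Finset.univ
          (fun ψ : zpowers (X 1) →* ℂˣ => ψ (tH h) = 1),
          Finset.sum_congr rfl (g := fun ψ => -(n ψ χ : ℂ)) fun ψ hψ => by
            rw [hn, (Finset.mem_filter.1 hψ).2]; simp,
          Finset.sum_congr (s₁ := Finset.univ.filter fun ψ : zpowers (X 1) →* ℂˣ =>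
            ¬ ψ (tH h) = 1) rfl (g := fun _ => (n l χ : ℂ)) fun ψ hψ => by
              rw [hn, h1 ψ (Finset.mem_filter.1 hψ).2, (val_t h ψ).resolve_left fun e =>
                (Finset.mem_filter.1 hψ).2 (Units.val_eq_one.1 e)]; simp,
          hse, Finset.sum_const, (card_odd h).1] at a1
        simp only [ninv, n1, ← two_mul, ← Finset.mul_sum, Finset.sum_neg_distrib] at a1
        show (χ : G → ℂ) (tH h) = _
        rw [a1]; push_cast; simp; ring
      have hm6 : (2 : ℂ) ^ (k - 1) = 2 * m := by exact_mod_cast hm4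
      refine ⟨n (lam ^ m) a * n l a - 1, -n (lam ^ m) b * n l b, -n (lam ^ m) c * n l c,
        ?_, ?_, ?_⟩
      · rw [hval a ma fun ψ hψ => (hall ψ hψ).1]
        simp only [(hU _).1, Finset.sum_const, Finset.card_univ, Fintype.card_fin, nsmul_eq_mul]
        rw [Nat.cast_sub hm0, hm6]
        rcases ha with e | e <;> rw [e] <;> push_cast <;> ring
      · rw [hval b mb fun ψ hψ => (hall ψ hψ).2.1, Finset.sum_eq_zero fun j _ => by
          rw [(hU j).2.2 b bo ab.symm (he' j).2.2.1.symm, Int.cast_zero]]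
        rcases hb with e | e <;> rw [e] <;> push_cast <;> ring
      · rw [hval c mc fun ψ hψ => (hall ψ hψ).2.2, Finset.sum_eq_zero fun j _ => by
          rw [(hU j).2.2 c co ac.symm (he' j).2.2.2.symm, Int.cast_zero]]
        rcases hc' with e | e <;> rw [e] <;> push_cast <;> ring
    left
    push Not at hall
    obtain ⟨ψ, hψ, hall⟩ := hall
    have hψl : ψ (tH h) = l (tH h) := Units.ext (by
      rw [(val_t h ψ).resolve_left fun e => hψ (Units.val_eq_one.1 e),
        (val_t h l).resolve_left fun e => hlo (Units.val_eq_one.1 e)])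
    have hD : tau M (zpowers (X 1)) (lf ψ - lf l) = hcol M ψ - hcol M l := by
      rw [hcol, hcol, ← tau_sub]; congr 1; abel
    have hodd : ∀ φ φ' : zpowers (X 1) →* ℂˣ, φ (tH h) ≠ 1 → φ' (tH h) = 1 →
        φ ≠ φ' ∧ φ.comp (sgH h) ≠ φ' := fun φ φ' h1 h2 =>
      ⟨fun e => h1 (e ▸ h2), fun e => h1 (by rw [← e, MonoidHom.comp_apply, sg_t] at h2; exact h2)⟩
    have horth : ∀ j : ℕ, ∑ χ, n (lam ^ j) χ * (n ψ χ - n l χ) = 0 := fun j => by
      have := inner4 h hM hψl (lam ^ j) 1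
      rw [hD, ← hcol_eq h hM, classInner_sub_left, ← hnn, ← hnn, if_neg (hodd _ _ hψ (hpe j)).1,
        if_neg (hodd _ _ hψ (hpe j)).2, if_neg (hodd _ _ hlo (hpe j)).1,
        if_neg (hodd _ _ hlo (hpe j)).2, if_neg (hodd _ 1 hψ rfl).1, if_neg (hodd _ 1 hψ rfl).2,
        if_neg (hodd _ 1 hlo rfl).1, if_neg (hodd _ 1 hlo rfl).2] at this
      simp only [mul_comm (n (lam ^ j) _), sub_mul, Finset.sum_sub_distrib]
      simp only [sub_self, add_zero] at this
      exact_mod_cast this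
    have hnorm : ∑ χ, (n ψ χ - n l χ) ^ 2 ≤ 2 := by
      have := inner4 h hM hψl ψ l
      rw [hD, classInner_sub_left, classInner_sub_right, classInner_sub_right, ← hnn, ← hnn, ← hnn,
        ← hnn, if_pos rfl, if_pos rfl, if_neg (odd_sg h hψ), if_neg (odd_sg h hlo)] at this
      have h3 : ∑ χ, (n ψ χ - n l χ) ^ 2 = ∑ χ, n ψ χ * n ψ χ - ∑ χ, n ψ χ * n l χ -
          (∑ χ, n l χ * n ψ χ - ∑ χ, n l χ * n l χ) := by
        simp only [← Finset.sum_sub_distrib]
        exact Finset.sum_congr rfl fun χ _ => by ring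
      rw [h3]
      have h4 := congrArg Complex.re this
      simp only [Complex.sub_re, Complex.add_re, Complex.intCast_re, apply_ite Complex.re,
        Complex.one_re, Complex.zero_re] at h4
      have h5 : ((∑ χ, n ψ χ * n ψ χ - ∑ χ, n ψ χ * n l χ -
          (∑ χ, n l χ * n ψ χ - ∑ χ, n l χ * n l χ) : ℤ) : ℝ) ≤ 2 := by
        rw [Int.cast_sub, Int.cast_sub, Int.cast_sub, h4]
        split_ifs <;> norm_num
      exact_mod_cast h5
    have ho : n ψ (irrOne G) - n l (irrOne G) = 0 := by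
      rw [hn1 ψ (hodd _ 1 hψ rfl).1, hn1 l (hodd _ 1 hlo rfl).1, sub_self]
    set d := fun χ => n ψ χ - n l χ with hd
    have o1 := horth m
    have o2 := horth ((Classical.arbitrary (Fin (m - 1)) : ℕ) + 1)
    have s1 := sW (R := ℤ) d
    have s2 := sU (R := ℤ) (Classical.arbitrary _) d
    simp only [Int.cast_id] at s1 s2
    change ∑ χ, n _ χ * d χ = 0 at o1 o2
    change d _ = 0 at ho
    change ∑ χ, d χ ^ 2 ≤ 2 at hnorm
    rw [s1, ho] at o1
    rw [s2, ho] at o2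
    have he0 := he' (Classical.arbitrary _)
    have q1 := sum_sq_subset_le d {a, e (Classical.arbitrary _), b, c}
    rw [Finset.sum_insert (by simp [ab, ac, he0.2.1.symm]),
      Finset.sum_insert (by simp [he0.2.2.1, he0.2.2.2]), Finset.sum_pair bc] at q1
    have da : d a = 0 := by
      have : d (e (Classical.arbitrary _)) = d a := by rcases ha with e | e <;> rw [e] at o2 <;> omega
      rw [this] at q1
      by_contra hne
      have := sq_pos_of_ne_zero hne
      have q2 := sq_nonneg (d b)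
      have q3 := sq_nonneg (d c)
      have r1 : d b = 0 := pow_eq_zero_iff two_ne_zero |>.1 (by omega)
      have r2 : d c = 0 := pow_eq_zero_iff two_ne_zero |>.1 (by omega)
      rw [r1, r2] at o1
      rcases ha with e | e <;> rw [e] at o1 <;> omega
    have dbc : d b ≠ 0 ∧ d c ≠ 0 := by
      have : d b ≠ 0 ∨ d c ≠ 0 := by
        by_contra! h0
        exact hall (sub_eq_zero.1 da) (sub_eq_zero.1 h0.1) (sub_eq_zero.1 h0.2)
      rcases hb with e | e <;> rcases hc' with e' | e' <;> rw [e, e', da] at o1 <;> omega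
    have q2 := sq_pos_of_ne_zero dbc.1
    have q3 := sq_pos_of_ne_zero dbc.2
    have q4 := sq_nonneg (d a)
    have q5 := sq_nonneg (d (e (Classical.arbitrary _)))
    have hz : ∀ χ, χ ≠ b → χ ≠ c → d χ = 0 := fun χ h1 h2 =>
      eq_zero_of_sum_sq_eq (s := {b, c}) (by rw [Finset.sum_pair bc]; omega) (by simp [h1, h2])
    have sD : ∀ {R : Type} [Ring R] (F : IrrCharacter G → R), ∑ χ, (d χ : R) * F χ =
        d b * F b + d c * F c := fun F => by
      rw [← Finset.sum_subset (Finset.subset_univ {b, c}) fun χ _ hχ => by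
        simp only [Finset.mem_insert, Finset.mem_singleton, not_or] at hχ
        rw [hz χ hχ.1 hχ.2]; simp, Finset.sum_pair bc]
    have db : d b = 1 ∨ d b = -1 := sq_eq_one_iff_of_x (by omega)
    have dc : d c = 1 ∨ d c = -1 := sq_eq_one_iff_of_x (by omega)
    have hdeg := sD (R := ℤ) fun χ => charDegree (χ : G → ℂ)
    simp only [Int.cast_id, hd, sub_mul, Finset.sum_sub_distrib, hnd] at hdeg
    have p1 := b.2.charDegree_pos
    have p2 := c.2.charDegree_pos
    have hbc : d c = -d b := by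
      simp only [← sub_mul] at hdeg
      change 0 - 0 = d b * _ + d c * _ at hdeg
      rcases db with e | e <;> rcases dc with e' | e' <;> rw [e, e'] at hdeg ⊢ <;> omega
    refine ⟨?_, fun g w hg hw => ?_⟩
    · rcases db with e | e <;> rw [hbc, e, da] at o1 <;> omega
    · have := tau_small h hM (θ := lf ψ - lf l) (by simp [lf]) (by simp [lf, hψl]) hg hw
      rw [hD, Pi.sub_apply, hap, hap, neg_sub_neg, ← Finset.sum_sub_distrib] at this
      have h3 := sD fun χ => (χ : G → ℂ) g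
      rw [Finset.sum_congr rfl (g := fun χ => -((d χ : ℂ) * (χ : G → ℂ) g)) fun χ _ => by
        simp only [hd]; push_cast; ring, Finset.sum_neg_distrib, h3, hbc] at this
      rcases db with e | e <;> rw [e] at this <;> push_cast at this
      · linear_combination -this
      · linear_combination this

end Cfsg.Agent.H26.SW
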