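import Cfsg.Agent.H26.SW2

/-!
# Semidihedral Sylow 2-subgroups: the order formula
-/

set_option linter.unusedSectionVars false

namespace Cfsg.Agent.H26.SW

open Cfsg Cfsg.Agent.H4 Cfsg.Agent.H6 Subgroup
open Cfsg.Agent.H11 (MC hh qq IsSylIn cj)
open scoped ComplexConjugate

variable {G : Type*} [Group G] [Fintype G] {P : Sylow 2 G} {k : ℕ} {X Y : ZMod (2 ^ k) → G}
  (h : MC (P : Subgroup G) k (hh k) 0 X Y)
include h

theorem conj_z_of_mem {g : G} (hg : g ∈ normalizer (zpowers (X (qq k)) : Set G)) :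
    g * X (qq k) * g⁻¹ = X (qq k) ∨ g * X (qq k) * g⁻¹ = (X (qq k))⁻¹ :=
  H11.zpowers_eq_of_orderOf_four ((orderOf_conj' _ _).trans h.qd_oq) h.qd_oq
    (H11.conj_mem_of_mem_normalizer hg (mem_zpowers _))

theorem N_le_C : normalizer (zpowers (X (qq k)) : Set G) ≤ centralizer {X (hh k)} := by
  intro g hg
  rw [H11.mem_cent1, ← mul_inv_eq_iff_eq_mul]
  have : g * X (hh k) * g⁻¹ = (g * X (qq k) * g⁻¹) * (g * X (qq k) * g⁻¹) := by
    rw [← zz h]; group
  rw [this]
  rcases conj_z_of_mem h hg with e | e <;> rw [e]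
  · exact zz h
  · rw [← mul_inv_rev, zz h, H11.inv_eq_of_orderOf_two h.orderOf_z]

theorem mem_N_of {g : G} (e : g * X (qq k) * g⁻¹ = X (qq k) ∨
    g * X (qq k) * g⁻¹ = (X (qq k))⁻¹) : g ∈ normalizer (zpowers (X (qq k)) : Set G) := by
  rw [← H11.cj_eq_iff, H11.cj_zpowers]
  rcases e with e | e <;> rw [e]
  exact zpowers_inv

theorem N_compl : HasNormalPComplement 2 (normalizer (zpowers (X (qq k)) : Set G)) := by
  refine (h.sylow_subtype (h.le_normalizer_zpowers (qq k))).hasNormalPComplement_of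
    (fun a hc => ?_) fun a hc => ?_ <;> obtain ⟨g, hg⟩ := isConj_iff.1 hc
  · have h1 : (g : G) * X (hh k) * (g : G)⁻¹ = Y a := congrArg Subtype.val hg
    rw [H11.mem_cent1.1 (N_le_C h g.2), mul_inv_cancel_right] at h1
    exact h.X_ne_Y _ _ h1
  · have h1 : (g : G) * X (qq k) * (g : G)⁻¹ = Y a := congrArg Subtype.val hg
    rcases conj_z_of_mem h g.2 with e | e <;> rw [e] at h1
    · exact h.X_ne_Y _ _ h1
    · rw [h.X_inv] at h1; exact h.X_ne_Y _ _ h1

theorem isConj_z_inv : IsConj (X (qq k)) (X (qq k))⁻¹ := by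
  rw [h.X_inv]; exact h.qd_isConj_neg

open Classical in
theorem count_P [Fintype (P : Subgroup G)] {c : ZMod (2 ^ k)} (hc : ∃ d, c = 2 * d) :
    (Finset.univ.filter fun y : (P : Subgroup G) =>
      (y : G) * Y 0 * (y : G)⁻¹ * Y 0 = X c).card = 4 := by
  obtain ⟨d, rfl⟩ := hc
  obtain ⟨b, hb⟩ := h.exists_conj_Y 0 (-d)
  have h1 : IsConj (⟨Y 0, h.Y_mem 0⟩ : (P : Subgroup G)) ⟨Y (0 + 2 * -d), h.Y_mem _⟩ :=
    isConj_iff.2 ⟨⟨X b, h.X_mem b⟩, Subtype.ext hb⟩
  have h2 := card_conjugator_of_isConj h1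
  have h3 : Nat.card (centralizer ({⟨Y 0, h.Y_mem 0⟩} : Set (P : Subgroup G))) = 4 := by
    rw [← (h.isKleinFour_four (a := 0) (by simp)).card_four, ← H11.card_subgroupOf
      (h.closure_XY_le (hh k) 0)]
    congr 2
    ext x
    rw [H11.mem_cent1, mem_subgroupOf, ← h.commute_Y_iff x.2, Subtype.ext_iff]
    rfl
  rw [h3, Nat.card_eq_fintype_card, Fintype.card_subtype] at h2
  refine Eq.trans ?_ h2
  refine congrArg Finset.card (Finset.ext fun y => ?_)
  simp only [Finset.mem_filter, Finset.mem_univ, true_and, Subtype.ext_iff, coe_mul, coe_inv]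
  have h4 : X (2 * d) = Y (0 + 2 * -d) * Y 0 := by
    rw [h.YY]; congr 1
    linear_combination d * h.hh2
  rw [h4, mul_left_inj]

variable {M : Ideal AlgInt} [hMm : M.IsMaximal] (hM : IsPModular 2 M)
include hM

open Classical in
theorem order_formula (hone : ∀ a : G, orderOf a = 2 → IsConj (X (hh k)) a) :
    ((centralizer ({X (hh k)} : Set G)).index : ℂ) * (∑ χ : IrrCharacter G,
      (if χ ∈ principalBlock M G then (χ : G → ℂ) (X (qq k)) *
        ((χ : G → ℂ) (X (hh k)) * (χ : G → ℂ) (X (hh k)) / (χ : G → ℂ) 1) else 0)) *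
      (Nat.card ↥(normalizer (zpowers (X (qq k)) : Set G) ⊓ centralizer {Y 0}) : ℂ) ^ 2 =
    4 * Nat.card (centralizer ({X (hh k)} : Set G)) *
      Nat.card (normalizer (zpowers (X (qq k)) : Set G)) := by
  have hk := h.qd_three
  set z := X (qq k) with hz
  set N := normalizer (zpowers z : Set G) with hN
  have hPN : (P : Subgroup G) ≤ N := h.le_normalizer_zpowers _
  let S : Set G := {g | IsPPart 2 g z ∨ IsPPart 2 g z⁻¹}
  have hS : ∀ g ∈ N, ∀ s ∈ S, g * s * g⁻¹ ∈ S := fun g hg s hs => by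
    rcases hs with hs | hs <;> have := IsPPart.conj hs g
    · rcases conj_z_of_mem h hg with e | e <;> rw [← hz] at e <;> rw [e] at this
      exacts [Or.inl this, Or.inr this]
    · rw [← conj_inv] at this
      rcases conj_z_of_mem h hg with e | e <;> rw [← hz] at e <;> rw [e] at this
      exacts [Or.inr this, Or.inl (by simpa using this)]
  have hTI : ∀ g : G, g ∉ N → ∀ s ∈ S, g * s * g⁻¹ ∉ S := fun g hg s hs hs' => by
    refine hg (mem_N_of h ?_)
    rcases hs with hs | hs <;> have := IsPPart.conj hs g <;> rcases hs' with hs' | hs' <;>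
      have e := IsPPart.unique Nat.prime_two this hs'
    · exact Or.inl e
    · exact Or.inr e
    · rw [← conj_inv, inv_eq_iff_eq_inv] at e; exact Or.inr e
    · rw [← conj_inv, inv_inj] at e; exact Or.inl e
  let φ : N → ℂ := fun c => if (c : G) ∈ S then 1 else 0
  have hφ : IsClassFunction N φ := fun c g => by
    refine if_congr ⟨fun e => ?_, fun e => hS _ g.2 _ e⟩ rfl rfl
    have := hS _ (inv_mem g.2) _ e
    simpa [mul_assoc] using this
  let θ : G → ℂ := ∑ χ : IrrCharacter G,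
    (if χ ∈ principalBlock M G then (χ : G → ℂ) z else 0) • (χ : G → ℂ)
  have hθ : ∀ g, θ g = bker (principalBlock M G) g z := fun g => by
    rw [bker_eq, show θ g = _ from Finset.sum_apply g _ _]
    refine Finset.sum_congr rfl fun χ _ => ?_
    rw [← χ.2.isCharacter.apply_inv, ← χ.2.isClassFunction.of_isConj (isConj_z_inv h)]
    split_ifs <;> simp [mul_comm, hz]
  have hθc : IsClassFunction G θ := fun g c => by
    rw [hθ, hθ]; exact bker_of_isConj _ (H11.isConj_conj c g).symm (IsConj.refl _)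
  have hθφ : ∀ g, θ g = 2 ^ k * indFun N φ g := fun g => by
    obtain ⟨w, hw⟩ := exists_isPPart Nat.prime_two g
    have hzz := isPPart_self Nat.prime_two (powH h (h.X_mem_zpowers_one (qq k)))
    by_cases hc : IsConj w z
    · obtain ⟨c, hc⟩ := isConj_iff.1 hc
      have h1 := IsPPart.conj hw c
      rw [hc] at h1
      have h2 : c * g * c⁻¹ ∈ N := mem_N_of h (Or.inl (by
        rw [← (IsPPart.commute h1).eq, mul_inv_cancel_right]))
      rw [← hθc g c, ← H5.indFun_isClassFunction N φ g c, hθ,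
        bker_principal hM h1 (compl h (h.X_mem_zpowers_one _) (z_big h)) (IsConj.refl _),
        fact_eq h (h.X_mem_zpowers_one _) (z_big h),
        H5.indFun_eq_of_TI N hφ ⟨_, h2⟩ fun x hx _ => if_neg (hTI x hx _ (Or.inl h1))]
      simp [φ, S, h1]
    · rw [hθ, bker_of_not_isConj hM isPBlock_principal hw hzz hc, H5.indFun_apply',
        Finset.sum_eq_zero fun x _ => ?_]
      · simp
      by_cases hx : x * g * x⁻¹ ∈ N
      · rw [H5.extendByZero_mem _ _ hx]
        refine if_neg fun e => hc ?_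
        rcases e with e | e <;> have := IsPPart.isConj Nat.prime_two hw e (H11.isConj_conj x g)
        exacts [this, this.trans (isConj_z_inv h).symm]
      · rw [H5.extendByZero_not_mem _ _ hx]
  have e1 := H5.sum_indFun_mul_invol N S hTI (fun s hs => by
      rcases hs with hs | hs
      · exact Or.inr (IsPPart.inv hs)
      · exact Or.inl (by simpa using IsPPart.inv hs)) φ (fun x hx => if_neg hx)
    (fun a => orderOf a = 2)
    (fun a => orderOf a = 2) (fun g a => by rw [orderOf_conj']) (fun g a => by rw [orderOf_conj'])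
    (fun a => H11.mul_self_of_orderOf_two) (fun a => H11.mul_self_of_orderOf_two)
  have e2 := sum_class_class_eq hθc (X (hh k)) (X (hh k))
  rw [show Finset.univ.filter (IsConj (X (hh k))) = Finset.univ.filter fun a => orderOf a = 2 from
    Finset.filter_congr fun a _ => ⟨fun e => orderOf_eq_of_isConj e ▸ h.orderOf_z, hone a⟩] at e2
  simp only [θ, classInner_sum_irr_left, ite_mul, zero_mul] at e2
  change ∑ a ∈ _, ∑ b ∈ _, θ (a * b) = _ at e2
  simp only [hθφ, ← Finset.mul_sum] at e2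
  simp only [ite_and] at e1
  rw [Finset.sum_congr rfl fun a _ => Finset.sum_ite_irrel _ _ _ _,
    Finset.sum_congr (s₁ := (Finset.univ : Finset N)) rfl fun a _ => Finset.sum_ite_irrel _ _ _ _]
    at e1
  simp only [Finset.sum_const_zero, ← Finset.sum_filter] at e1
  rw [e1] at e2
  have hMC := h.sylow_subtype hPN
  let s : N := ⟨Y 0, hPN (h.Y_mem 0)⟩
  have hsplit : ∀ F : N → ℂ, F ⟨X (hh k), hPN (h.X_mem _)⟩ = 0 →
      ∑ a ∈ Finset.univ.filter (fun a : N => orderOf (a : G) = 2), F a =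
        ∑ a ∈ Finset.univ.filter (IsConj s), F a := fun F hF => by
    symm
    refine Finset.sum_subset (fun a ha => ?_) fun a ha ha' => ?_
    · simp only [Finset.mem_filter, Finset.mem_univ, true_and] at ha ⊢
      rw [orderOf_coe, ← orderOf_eq_of_isConj ha, orderOf_mk, h.qd_o0]
    · simp only [Finset.mem_filter, Finset.mem_univ, true_and, orderOf_coe] at ha ha'
      obtain ⟨c, hc⟩ := isConj_iff.1 ((hMC.qd_invol_G ha).resolve_right ha')
      have : a = ⟨X (hh k), hPN (h.X_mem _)⟩ := by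
        rw [← hc]
        apply Subtype.ext
        simp only [coe_mul, coe_inv]
        rw [H11.mem_cent1.1 (N_le_C h c.2), mul_inv_cancel_right]
      rw [this, hF]
  have hsm : ∀ a : N, (a : G) * a = 1 → φ a = 0 := fun a ha => if_neg fun e => by
    have : ∀ w, IsPPart 2 (a : G) w → w * w = 1 := fun w hw => by
      obtain ⟨j, rfl⟩ := IsPPart.mem_zpowers Nat.prime_two hw
      show (a : G) ^ j * a ^ j = 1
      rw [← (Commute.refl (a : G)).mul_zpow, ha, one_zpow]
    rcases e with e | e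
    · exact z_big h (this _ e)
    · have := this _ e
      rw [← mul_inv_rev, inv_eq_one] at this
      exact z_big h this
  have hcomm : ∀ a : N, orderOf (a : G) = 2 → (a : G) * X (hh k) * (a * X (hh k)) = 1 :=
    fun a ha => by
      have h1 := H11.mem_cent1.1 (N_le_C h a.2)
      calc (a : G) * X (hh k) * (a * X (hh k)) = a * (X (hh k) * a) * X (hh k) := by group
        _ = (a * a) * (X (hh k) * X (hh k)) := by rw [← h1]; group
        _ = 1 := by rw [H11.mul_self_of_orderOf_two ha, H11.mul_self_of_orderOf_two h.orderOf_z,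
          one_mul]
  rw [Finset.sum_congr rfl fun a ha => hsplit (fun b => φ (a * b))
      (hsm _ (hcomm a (Finset.mem_filter.1 ha).2)),
    hsplit (fun a => ∑ b ∈ Finset.univ.filter (IsConj s), φ (a * b)) (Finset.sum_eq_zero fun b hb => hsm _ (by
      have h1 := hcomm b (by rw [orderOf_coe, ← orderOf_eq_of_isConj (Finset.mem_filter.1 hb).2,
        orderOf_mk, h.qd_o0])
      rw [H11.mem_cent1.1 (N_le_C h b.2)] at h1
      exact h1)), sum_class_class_eq' hφ] at e2
  obtain ⟨π, hπ1, hπ2, -, hπ⟩ := exists_retract (N_compl h) (P.subtype hPN)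
  have hφπ : ∀ c, φ c = φ (π c) := fun c => by
    obtain ⟨w, hw⟩ := exists_isPPart Nat.prime_two c
    rw [← hφ.of_isConj (hπ c w hw)]
    have h1 := IsPPart.coe hw
    have h2 := isPPart_self Nat.prime_two (IsPPart.pow_order h1)
    refine if_congr (or_congr ⟨fun e => ?_, fun e => ?_⟩ ⟨fun e => ?_, fun e => ?_⟩) rfl rfl
    · exact IsPPart.unique Nat.prime_two h1 e ▸ h2
    · exact IsPPart.unique Nat.prime_two h2 e ▸ h1
    · exact IsPPart.unique Nat.prime_two h1 e ▸ h2
    · exact IsPPart.unique Nat.prime_two h2 e ▸ h1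
  have hs' : s ∈ (P.subtype hPN : Subgroup N) := by simp [mem_subgroupOf, s, h.Y_mem]
  have h1 := sum_retract hπ1 hπ2 fun g => φ (g * s * g⁻¹ * s)
  have h2 : Nat.card (P.subtype hPN : Subgroup N) = Nat.card P :=
    Nat.card_congr (subgroupOfEquivOfLe hPN).toEquiv
  obtain ⟨d, hd⟩ : ∃ d, qq k = 2 * d := ⟨H11.fr k 3, by
    show H11.fr k 2 = _
    simp only [H11.fr]
    rw [← pow_succ']; congr 1; omega⟩
  have h3 : ∑ y : (P.subtype hPN : Subgroup N), φ (y * s * (y : N)⁻¹ * s) = 8 := by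
    refine (Fintype.sum_equiv (subgroupOfEquivOfLe hPN).toEquiv _ (fun y : (P : Subgroup G) =>
      (if (y : G) * Y 0 * (y : G)⁻¹ * Y 0 = X (qq k) then (1 : ℂ) else 0) +
        if (y : G) * Y 0 * (y : G)⁻¹ * Y 0 = X (-qq k) then 1 else 0) fun y => ?_).trans ?_
    swap
    · rw [Finset.sum_add_distrib, Finset.sum_boole, Finset.sum_boole, count_P h ⟨d, hd⟩,
        count_P h ⟨-d, by rw [hd]; ring⟩]
      norm_num
    have h4 : ((y : N) : G) * Y 0 * ((y : N) : G)⁻¹ * Y 0 ∈ (P : Subgroup G) :=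
      mul_mem (mul_mem (mul_mem y.2 (h.Y_mem 0)) (inv_mem y.2)) (h.Y_mem 0)
    have h5 := isPPart_self Nat.prime_two
      (exists_orderOf_eq_of_mem Nat.prime_two P.isPGroup' h4)
    show (if ((y : N) : G) * Y 0 * ((y : N) : G)⁻¹ * Y 0 ∈ S then (1 : ℂ) else 0) =
      (if ((y : N) : G) * Y 0 * ((y : N) : G)⁻¹ * Y 0 = X (qq k) then (1 : ℂ) else 0) +
        if ((y : N) : G) * Y 0 * ((y : N) : G)⁻¹ * Y 0 = X (-qq k) then 1 else 0
    generalize ((y : N) : G) * Y 0 * ((y : N) : G)⁻¹ * Y 0 = w at h5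
    rw [← h.X_inv, ← hz]
    have h6 : z ≠ z⁻¹ := fun e => z_big h (eq_inv_iff_mul_eq_one.1 e)
    by_cases a1 : w = z
    · rw [if_pos (show w ∈ S from Or.inl (a1 ▸ h5)), if_pos a1, if_neg (a1 ▸ h6), add_zero]
    by_cases a2 : w = z⁻¹
    · rw [if_pos (show w ∈ S from Or.inr (a2 ▸ h5)), if_neg a1, if_pos a2, zero_add]
    rw [if_neg a1, if_neg a2, if_neg, add_zero]
    rintro (e | e)
    exacts [a1 (IsPPart.unique Nat.prime_two h5 e), a2 (IsPPart.unique Nat.prime_two h5 e)]
  rw [h2, h3, h.card, ← Finset.sum_congr rfl fun g _ => show φ (g * s * g⁻¹ * s) =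
    φ (π g * s * (π g)⁻¹ * s) by
      rw [hφπ, map_mul, map_mul, map_mul, map_inv, hπ2 s hs']] at h1
  have h4 : Nat.card (centralizer ({s} : Set N)) = Nat.card ↥(N ⊓ centralizer {Y 0}) := by
    rw [← H11.card_subgroupOf (inf_le_left : N ⊓ centralizer {Y 0} ≤ N)]
    congr 2
    ext x
    rw [H11.mem_cent1, mem_subgroupOf, mem_inf, H11.mem_cent1, Subtype.ext_iff]
    exact (and_iff_right x.2).symm
  rw [h4] at e2
  have h5 := H5.card_mul_index_C N
  have h6 := H5.card_mul_index_C (centralizer ({X (hh k)} : Set G))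
  have h7 := H5.index_ne_zero_C (centralizer ({X (hh k)} : Set G))
  have h8 : (Nat.card ↥(N ⊓ centralizer {Y 0}) : ℂ) ≠ 0 := natCard_ne_zero'
  replace h1 : (2 : ℂ) ^ (k + 1) * ∑ g, φ (g * s * g⁻¹ * s) = Nat.card N * 8 := by
    rw [← h1]; push_cast; congr!
  generalize (Nat.card ↥(N ⊓ centralizer {Y 0}) : ℂ) = c at *
  generalize (Nat.card N : ℂ) = n at *
  generalize ∑ g, φ (g * s * g⁻¹ * s) = r at *
  generalize (∑ χ : IrrCharacter G,
      (if χ ∈ principalBlock M G then (χ : G → ℂ) z *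
        ((χ : G → ℂ) (X (hh k)) * (χ : G → ℂ) (X (hh k)) / (χ : G → ℂ) 1) else 0)) = T at *
  field_simp at e2
  apply mul_left_cancel₀ h7
  rw [pow_succ] at h1
  linear_combination -e2 + (N.index * n / 2) * h1 + 4 * n * (h5 - h6)

end Cfsg.Agent.H26.SW
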