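import Cfsg.Agent.H26.SW3
import Cfsg.Agent.H7.TB15
import Cfsg.Agent.H6.Q8a
import Cfsg.Agent.S4652
import Cfsg.Agent.H4.Galois

/-!
# Semidihedral Sylow 2-subgroups: the section of the central involution
-/

set_option linter.unusedSectionVars false

namespace Cfsg.Agent.H26.SW

open Cfsg Cfsg.Agent.H4 Cfsg.Agent.H6 Subgroup
open Cfsg.Agent.H11 (MC hh qq IsSylIn cj)
open scoped ComplexConjugate

/-- the Steinberg character of the involution centralizer, abstractly -/
structure StD {Γ : Type*} [Group Γ] [Fintype Γ] (t : Γ) (St : Γ → ℤ) (ε : ℤ) (p : ℕ) : Prop where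
  irr : IsIrrCharacter Γ fun g => (St g : ℂ)
  deg : St 1 = p
  odd : Odd p
  three : 3 ≤ p
  hε : ε = 1 ∨ ε = -1
  ht : ∀ g, St (t * g) = St g
  hs : ∀ g w, IsPPart 2 g w → orderOf w = 2 → w ≠ t → ε * St g = 1
  hb : ∀ g w, IsPPart 2 g w → w * w ≠ 1 → ε * St g = -1
  hodd : ∀ g, ¬ 2 ∣ (centralizer ({g} : Set Γ)).index → Odd (St g)
  hu : ∃ u : Γ, ¬ 2 ∣ orderOf u ∧ St u = 0 ∧ ∀ [Fintype (zpowers u)],
    ∑ y : zpowers u, St y = Nat.card (zpowers u)

theorem isGen_shift {Γ : Type*} [Group Γ] [Fintype Γ] {t : Γ} (h1 : t ^ 2 = 1) (h2 : t ∈ center Γ)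
    {θ : Γ → ℂ} (hθ : IsGeneralizedCharacter Γ θ) :
    IsGeneralizedCharacter Γ fun g => θ (t * g) := by
  obtain ⟨a, rfl⟩ := isGen_iff_exists_int.1 hθ
  have : (fun g => (∑ χ : IrrCharacter Γ, (a χ : ℂ) • (χ : Γ → ℂ)) (t * g)) =
      ∑ χ : IrrCharacter Γ, (a χ : ℂ) • fun g => (χ : Γ → ℂ) (t * g) := by
    ext g; simp [Finset.sum_apply]
  rw [this]
  refine isGen_sum _ _ fun χ _ => ?_
  rcases irr_central_involution h1 h2 χ.2 with e | e <;> simp only [e]
  exacts [χ.2.isGen.intCast_smul _, χ.2.isGen.neg.intCast_smul _]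

theorem bessel {G : Type*} [Group G] [Fintype G] {θ : G → ℂ} (hθ : IsClassFunction G θ) {N : ℝ}
    (hN : classInner θ θ = N) (s : Finset (IrrCharacter G)) (r : IrrCharacter G → ℝ)
    (hr : ∀ χ ∈ s, classInner θ χ = r χ) : ∑ χ ∈ s, r χ ^ 2 ≤ N := by
  rw [hθ.classInner_eq_sum] at hN
  simp only [Complex.mul_conj] at hN
  have h1 : ∑ χ : IrrCharacter G, Complex.normSq (classInner θ χ) = N := by exact_mod_cast hN
  rw [← h1, Finset.sum_congr rfl (g := fun χ : IrrCharacter G =>
    Complex.normSq (classInner θ χ)) fun χ hχ => by rw [hr χ hχ, Complex.normSq_ofReal, sq]]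
  exact Finset.sum_le_sum_of_subset_of_nonneg (Finset.subset_univ _)
    fun _ _ _ => Complex.normSq_nonneg _

theorem sum_bker {G : Type*} [Group G] [Fintype G] {M : Ideal AlgInt} [M.IsMaximal] (s : G) :
    ∑ g, bker (principalBlock M G) g s = Nat.card G := by
  classical
  have := card_mul_classInner (∑ χ : IrrCharacter G, (if χ ∈ principalBlock M G then
    conj ((χ : G → ℂ) s) else 0) • (χ : G → ℂ)) (irrOne G)
  rw [classInner_sum_irr_left, if_pos irrOne_mem_principal] at this
  simp only [irrOne_apply, map_one, mul_one] at this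
  rw [this]
  refine Finset.sum_congr rfl fun g _ => ?_
  rw [bker_eq, Finset.sum_apply]
  refine Finset.sum_congr rfl fun χ _ => ?_
  split_ifs <;> simp [mul_comm]

section Gam
variable {G : Type*} [Group G] [Fintype G] {P : Sylow 2 G} {k : ℕ} {X Y : ZMod (2 ^ k) → G}
  (h : MC (P : Subgroup G) k (hh k) 0 X Y) (hc : X (hh k) ∈ center G)
  {M : Ideal AlgInt} [hMm : M.IsMaximal] (hM : IsPModular 2 M)
include h hc

theorem eq_t_of_isConj {w : G} (e : IsConj (X (hh k)) w) : w = X (hh k) := by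
  obtain ⟨c, rfl⟩ := isConj_iff.1 e
  rw [mem_center_iff.1 hc c, mul_assoc, mul_inv_cancel, mul_one]

theorem syl_s : IsSylIn 2 (closure {X (hh k), Y 0}) (centralizer {Y 0}) := by
  have hV := h.isKleinFour_four (a := 0) (by simp)
  obtain ⟨S, hS⟩ := H11.exists_isSylIn 2 (centralizer ({Y 0} : Set G))
  refine hS.of_card_ge (P.isPGroup'.to_le (h.closure_XY_le _ _)) (fun x hx => H11.mem_cent1.2
    ((h.commute_Y_iff (h.closure_XY_le _ _ hx)).2 hx)) ?_
  rw [hS.card_eq_pow, hV.card_four]
  refine pow_factorization_le P ⟨1, h.qd_o0⟩ fun g hg => ?_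
  have ho : orderOf (g * Y 0 * g⁻¹) = 2 := (orderOf_conj' _ _).trans h.qd_o0
  obtain ⟨a, e | e⟩ := (h.mem _).1 hg
  · rw [e, h.orderOf_X_two] at ho
    rw [ho] at e
    exact absurd (eq_t_of_isConj h hc (e ▸ (H11.isConj_conj g (Y 0)).symm)) (h.Y_ne_X _ _)
  · rw [e] at ho ⊢
    exact ⟨_, (h.isKleinFour_four (h.orderOf_Y_two.1 ho)).card_four.le, fun x hx hc =>
      (h.commute_Y_iff hx).1 hc⟩

theorem compl_s : HasNormalPComplement 2 (centralizer ({Y 0} : Set G)) := by
  obtain ⟨S, hS⟩ := (syl_s h hc).exists_sylow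
  refine H3.hasNormalPComplement_of_sylow_le_center S fun x hx => mem_center_iff.2 fun y => ?_
  rw [hS, mem_subgroupOf, h.mem_four] at hx
  have h1 := H11.mem_cent1.1 y.2
  have h2 := mem_center_iff.1 hc y
  apply Subtype.ext
  have h3 : Y (0 + hh k) = Y 0 * X (hh k) := (h.YX _ _).symm
  rcases hx with e | e | e | e <;> simp only [coe_mul, e, h1, h2, mul_one, one_mul, h3]
  rw [← mul_assoc, h1, mul_assoc, h2, mul_assoc]

include hM

open Classical in
theorem sum_split (hu : IsConj (X (qq k)) (Y 1)) {F : G → ℂ} (ht : ∀ g, F (X (hh k) * g) = F g)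
    {a b : ℂ} (hs : ∀ g w, IsPPart 2 g w → orderOf w = 2 → w ≠ X (hh k) → F g = a)
    (hb : ∀ g w, IsPPart 2 g w → w * w ≠ 1 → F g = b) :
    ∑ g, F g = 2 * ∑ g with ¬ 2 ∣ orderOf g, F g + a * Nat.card G / 4 +
      b * Nat.card G * (1 / 2 - 1 / 2 ^ k) := by
  let θ : zpowers (X 1) → ℂ := fun y => if (y : G) * y = 1 then 0 else 1
  haveI := Fintype.ofFinite (zpowers (X 1) →* ℂˣ)
  have htt := H11.mul_self_of_orderOf_two h.orderOf_z
  have hss := isPPart_self Nat.prime_two ⟨1, h.qd_o0⟩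
  have key : ∀ g, F g = (if ¬ 2 ∣ orderOf g then F g else 0) +
      (if ¬ 2 ∣ orderOf (X (hh k) * g) then F (X (hh k) * g) else 0) +
      a / 4 * bker (principalBlock M G) g (Y 0) + b / 2 * tau M (zpowers (X 1)) θ g := fun g => by
    obtain ⟨w, hw⟩ := exists_isPPart Nat.prime_two g
    have h1 : ¬ 2 ∣ orderOf g ↔ w = 1 := (IsPPart.eq_one_iff Nat.prime_two hw).symm
    have h2 : ¬ 2 ∣ orderOf (X (hh k) * g) ↔ w = X (hh k) := by
      constructor
      · intro e
        refine IsPPart.unique Nat.prime_two hw ⟨X (hh k) * g, by rw [← mul_assoc, htt, one_mul],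
          (mem_center_iff.1 hc _).symm, ⟨1, h.orderOf_z⟩, e⟩
      · rintro rfl
        obtain ⟨y, rfl, -, -, hy⟩ := hw
        rwa [← mul_assoc, htt, one_mul]
    have h3 : X (hh k) ≠ 1 := H11.ne_one_of_orderOf_two h.orderOf_z
    simp only [h1, h2, ht]
    by_cases a1 : w * w = 1
    · rw [tau_small h hM (by simp [θ]) (by simp [θ, tH, htt]) hw a1]
      by_cases a2 : IsConj w (Y 0)
      · have a3 := (orderOf_eq_of_isConj a2).trans h.qd_o0
        have a4 : w ≠ X (hh k) := fun e => h.Y_ne_X _ _ (eq_t_of_isConj h hc (e ▸ a2))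
        obtain ⟨c, hc'⟩ := isConj_iff.1 a2
        have a5 := IsPPart.conj hw c
        rw [hc'] at a5
        rw [bker_of_isConj _ (H11.isConj_conj c g) (IsConj.refl _),
          bker_principal hM a5 (compl_s h hc) (IsConj.refl _), ← (syl_s h hc).card_eq_pow,
          (h.isKleinFour_four (a := 0) (by simp)).card_four, if_neg a4,
          if_neg (H11.ne_one_of_orderOf_two a3), hs g w hw a3 a4]
        push_cast; ring
      · rw [bker_of_not_isConj hM isPBlock_principal hw hss a2]
        by_cases a3 : w = 1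
        · simp [a3, h3.symm]
        · have a4 : orderOf w = 2 := orderOf_eq_prime (by rw [sq, a1]) a3
          rw [eq_t_of_isConj h hc ((h.qd_invol_G a4).resolve_right fun e => a2 e.symm)]
          simp [h3]
    · have a2 : ¬ IsConj w (Y 0) := fun e => a1 (H11.mul_self_of_orderOf_two
        ((orderOf_eq_of_isConj e).trans h.qd_o0))
      rw [bker_of_not_isConj hM isPBlock_principal hw hss a2, if_neg (by rintro rfl; simp at a1),
        if_neg (by rintro rfl; exact a1 htt), hb g w hw a1]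
      rcases tau_cases h hM hu g with ⟨w', hw', e⟩ | ⟨y, hy, -, e⟩
      · exact absurd (IsPPart.unique Nat.prime_two hw hw' ▸ e) a1
      · have : ¬ (sg h y : G) * sg h y = 1 := fun e' => hy (by
          have : Y 0 * (y * y) * (Y 0)⁻¹ = 1 := by rw [← e', sg_coe]; group
          simpa [mul_inv_eq_one] using this)
        rw [e]
        simp only [θ, if_neg hy, if_neg this]
        ring
  have h1 : ∑ g, tau M (zpowers (X 1)) θ g = Nat.card G * (1 - 2 / 2 ^ k) := by
    have := card_mul_classInner (tau M (zpowers (X 1)) θ) (irrOne G)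
    rw [inner_tau_irr, if_pos irrOne_mem_principal, classInner_def] at this
    simp only [irrOne_apply, map_one, mul_one] at this
    rw [← this, Nat.card_zpowers, h.orderOf_X_one]
    have h2 : ∑ y, θ y = 2 ^ k - 2 := by
      have h3 : ∀ y, θ y = 1 - ((if y = 1 then 1 else 0) + if y = tH h then 1 else 0) := fun y => by
        simp only [θ, small_iff h]
        by_cases e : y = 1
        · simp [e, (tH_ne h).symm]
        · by_cases e' : y = tH h <;> simp [e, e', tH_ne h]
      simp only [h3, Finset.sum_sub_distrib, Finset.sum_add_distrib, Finset.sum_ite_eq',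
        Finset.mem_univ, if_true, Finset.sum_const, Finset.card_univ, ← Nat.card_eq_fintype_card,
        Nat.card_zpowers, h.orderOf_X_one]
      push_cast; ring
    rw [h2]; push_cast; field_simp
  rw [Finset.sum_congr rfl fun g _ => key g]
  simp only [Finset.sum_add_distrib, ← Finset.mul_sum, sum_bker, h1]
  rw [Fintype.sum_equiv (Equiv.mulLeft (X (hh k))) (fun g =>
    if ¬ 2 ∣ orderOf (X (hh k) * g) then F (X (hh k) * g) else 0)
    (fun g => if ¬ 2 ∣ orderOf g then F g else 0) fun _ => rfl, ← Finset.sum_filter]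
  ring

variable {St : G → ℤ} {ε : ℤ} {p : ℕ} (hS : StD (X (hh k)) St ε p)
include hS

theorem St_mem : (⟨_, hS.irr⟩ : IrrCharacter G) ∈ principalBlock M G := by
  intro g
  obtain ⟨q, hq⟩ := hS.odd
  have hp : (p : ℂ) ≠ 0 := by have := hS.three; exact_mod_cast (by omega : p ≠ 0)
  have : centralChar (fun _ : G => (1 : ℂ)) g - centralChar (fun g => (St g : ℂ)) g =
      (((centralizer ({g} : Set G)).index * (p - St g) : ℤ) : ℂ) * (p : ℂ)⁻¹ := by
    simp only [centralChar, hS.deg]
    push_cast; field_simp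
  show MemLocalIdeal M (centralChar _ g - centralChar (fun g => (St g : ℂ)) g)
  rw [this]
  refine MemLocalIdeal.mul_right' ((memLocalIdeal_intCast_iff hM _).2 ?_)
    (inv_natCast_mem hM (by omega))
  by_cases h1 : 2 ∣ (centralizer ({g} : Set G)).index
  · exact Dvd.dvd.mul_right (by exact_mod_cast h1) _
  · obtain ⟨r, hr⟩ := hS.hodd g h1
    exact Dvd.dvd.mul_left (by omega) _

theorem span_two {ξ : IrrCharacter G} (hξ : ξ ∈ principalBlock M G) :
    ∃ a b : ℂ, ∀ y, ¬ 2 ∣ orderOf y → (ξ : G → ℂ) y = a + b * St y := by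
  have hD := (S4652.result 2 M hM (P : Subgroup G)).2 ⟨P, rfl⟩
  have hk := h.qd_three
  have h1 := (H7.TB.semidihedral hM isPBlock_principal hD hk h).2.2.1
  have h2 : blockRank 2 (principalBlock M G) ≠ 3 := fun e => by
    have := (H7.TB.rank_three hM isPBlock_principal hD h (c := 2 * 0 + qq k)
      (by rw [mul_zero, zero_add, h.e_qq]) (by
        rw [mul_zero, zero_add, h.qq2]; exact H11.hh_ne h.one_le) e).1
    have h3 := (center G).orderOf_dvd_natCard hc
    rw [h.orderOf_z] at h3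
    exact (Nat.not_even_iff_odd.2 this) (even_iff_two_dvd.2 h3)
  obtain ⟨u, hu1, hu2, -⟩ := hS.hu
  have hp : (p : ℂ) ≠ 0 := by have := hS.three; exact_mod_cast (by omega : p ≠ 0)
  let v : Fin 2 → G → ℂ := ![pRegularPart 2 (irrOne G), pRegularPart 2 fun g => (St g : ℂ)]
  have r1 : IsPRegular 2 (1 : G) := by simp [IsPRegular]
  have hli : LinearIndependent ℂ v := by
    rw [LinearIndependent.pair_iff]
    intro s t e
    have e1 := congrFun e 1
    have e2 := congrFun e u
    simp only [Pi.add_apply, Pi.smul_apply, pRegularPart, if_pos r1,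
      if_pos (show IsPRegular 2 u from hu1), hu2, hS.deg, irrOne_apply] at e1 e2
    simp at e1 e2
    simp [e2, hp] at e1
    exact ⟨e2, by simpa [hp] using e1⟩
  have hle : Submodule.span ℂ (Set.range v) ≤ Submodule.span ℂ
      ((fun χ : IrrCharacter G => pRegularPart 2 (χ : G → ℂ)) '' principalBlock M G) := by
    refine Submodule.span_mono ?_
    rintro _ ⟨i, rfl⟩
    fin_cases i
    exacts [⟨_, irrOne_mem_principal, rfl⟩, ⟨_, St_mem h hc hM hS, rfl⟩]
  have heq := Submodule.eq_of_le_of_finrank_le hle (by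
    rw [finrank_span_eq_card hli, Fintype.card_fin]
    unfold blockRank at h1 h2
    omega)
  have h3 : pRegularPart 2 (ξ : G → ℂ) ∈ Submodule.span ℂ (Set.range v) :=
    heq ▸ Submodule.subset_span ⟨ξ, hξ, rfl⟩
  obtain ⟨c, hc⟩ := (Submodule.mem_span_range_iff_exists_fun ℂ).1 h3
  refine ⟨c 0, c 1, fun y hy => ?_⟩
  have := congrFun hc y
  simp only [Fin.sum_univ_two, Pi.add_apply, Pi.smul_apply, v, Matrix.cons_val_zero,
    Matrix.cons_val_one, pRegularPart, if_pos (show IsPRegular 2 y from hy), irrOne_apply] at this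
  rw [← this]; simp

open Classical in
theorem norms (hu : IsConj (X (qq k)) (Y 1)) :
    ∑ g with ¬ 2 ∣ orderOf g, ((1 + ε * St g) * (1 + ε * St g) : ℂ) = Nat.card G / 2 ∧
    ∑ g with ¬ 2 ∣ orderOf g, ((1 - ε * St g) * (1 - ε * St g) : ℂ) = Nat.card G * 2 / 2 ^ k ∧
    ∑ g with ¬ 2 ∣ orderOf g, ((1 + ε * St g) * (1 - ε * St g) : ℂ) = 0 := by
  have hε : (ε : ℂ) * ε = 1 := by rcases hS.hε with e | e <;> simp [e]
  have h1 : ∑ g, (St g : ℂ) * St g = Nat.card G := by
    have := card_mul_classInner (fun g => (St g : ℂ)) fun g => (St g : ℂ)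
    rw [hS.irr.classInner_self] at this
    simpa using this.symm
  have h2 : ∑ g, (St g : ℂ) = 0 := by
    have := card_mul_classInner (fun g => (St g : ℂ)) fun _ => (1 : ℂ)
    rw [hS.irr.classInner_of_ne isIrrCharacter_one fun e => by
      have := congrFun e 1
      rw [hS.deg] at this
      have h3 := hS.three
      norm_cast at this
      omega] at this
    simpa using this.symm
  have h3 : ∑ g : G, (1 : ℂ) = Nat.card G := by simp
  have e1 : ∀ g w, IsPPart 2 g w → orderOf w = 2 → w ≠ X (hh k) → (ε * St g : ℂ) = 1 :=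
    fun g w a b c => by exact_mod_cast hS.hs g w a b c
  have e2 : ∀ g w, IsPPart 2 g w → w * w ≠ 1 → (ε * St g : ℂ) = -1 :=
    fun g w a b => by exact_mod_cast hS.hb g w a b
  have s1 := sum_split h hc hM hu (F := fun g => (1 + ε * St g) * (1 + ε * St g)) (a := 4) (b := 0)
    (fun g => by rw [hS.ht]) (fun g w a b c => by rw [e1 g w a b c]; norm_num)
    (fun g w a b => by rw [e2 g w a b]; norm_num)
  have s2 := sum_split h hc hM hu (F := fun g => (1 - ε * St g) * (1 - ε * St g)) (a := 0) (b := 4)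
    (fun g => by rw [hS.ht]) (fun g w a b c => by rw [e1 g w a b c]; norm_num)
    (fun g w a b => by rw [e2 g w a b]; norm_num)
  have s3 := sum_split h hc hM hu (F := fun g => (1 + ε * St g) * (1 - ε * St g)) (a := 0) (b := 0)
    (fun g => by rw [hS.ht]) (fun g w a b c => by rw [e1 g w a b c]; norm_num)
    (fun g w a b => by rw [e2 g w a b]; norm_num)
  have t : ∀ a b c : ℂ, ∑ g, (a + b * St g + c * (St g * St g)) = (a + c) * Nat.card G :=
    fun a b c => by
      simp only [Finset.sum_add_distrib, ← Finset.mul_sum, h1, h2]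
      simp; ring
  rw [Finset.sum_congr rfl (g := fun g => 1 + 2 * ε * St g + 1 * (St g * St g : ℂ)) fun g _ => by
    linear_combination (St g * St g : ℂ) * hε, t] at s1
  rw [Finset.sum_congr rfl (g := fun g => 1 + -2 * ε * St g + 1 * (St g * St g : ℂ)) fun g _ => by
    linear_combination (St g * St g : ℂ) * hε, t] at s2
  rw [Finset.sum_congr rfl (g := fun g => 1 + 0 * St g + -1 * (St g * St g : ℂ)) fun g _ => by
    linear_combination -(St g * St g : ℂ) * hε, t] at s3
  refine ⟨by linear_combination -s1 / 2, ?_, by linear_combination -s3 / 2⟩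
  field_simp at s2 ⊢
  linear_combination -s2 / 16

end Gam

section Big
variable {G : Type*} [Group G] [Fintype G] {P : Sylow 2 G} {k : ℕ} {X Y : ZMod (2 ^ k) → G}
  (h : MC (P : Subgroup G) k (hh k) 0 X Y)
  {M : Ideal AlgInt} [hMm : M.IsMaximal] (hM : IsPModular 2 M)
include h

/-- the central involution inside its centralizer -/
def tC : centralizer ({X (hh k)} : Set G) := ⟨X (hh k), h.le_cent_z (h.X_mem _)⟩

theorem tC_center : tC h ∈ center (centralizer ({X (hh k)} : Set G)) :=
  mem_center_iff.2 fun g => Subtype.ext (H11.mem_cent1.1 g.2)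

theorem hu_C (hu : IsConj (X (qq k)) (Y 1)) :
    IsConj (⟨X (qq k), h.le_cent_z (h.X_mem _)⟩ : centralizer ({X (hh k)} : Set G))
      ⟨Y 1, h.le_cent_z (h.Y_mem _)⟩ := by
  obtain ⟨c, hc⟩ := isConj_iff.1 hu
  have h1 : c * X (hh k) * c⁻¹ = X (hh k) := by
    have : c * X (hh k) * c⁻¹ = (c * X (qq k) * c⁻¹) * (c * X (qq k) * c⁻¹) := by
      rw [← zz h]; group
    rw [this, hc, h.Y_sq]; simp
  exact isConj_iff.2 ⟨⟨c, H11.mem_cent1.2 (mul_inv_eq_iff_eq_mul.1 h1)⟩, Subtype.ext hc⟩

variable [Fintype (centralizer ({X (hh k)} : Set G))]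
  {St : centralizer ({X (hh k)} : Set G) → ℤ} {ε : ℤ} {p : ℕ} (hS : StD (tC h) St ε p)
include hM hS

theorem coords {χ : IrrCharacter G} (hχ : χ ∈ principalBlock M G) :
    ∃ a b : ℤ, ∀ y : centralizer ({X (hh k)} : Set G), ¬ 2 ∣ orderOf y →
      (χ : G → ℂ) (X (hh k) * y) = a + b * (ε * St y) := by
  classical
  have hC := h.sylow_subtype h.le_cent_z
  have ht2 : tC h ^ 2 = 1 := Subtype.ext (by
    show X (hh k) ^ 2 = 1
    rw [← h.orderOf_z, pow_orderOf_eq_one])
  have hε : (ε : ℂ) * ε = 1 := by rcases hS.hε with e | e <;> simp [e]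
  choose! a b hab using fun ξ (hξ : ξ ∈ principalBlock M (centralizer ({X (hh k)} : Set G))) =>
    span_two hC (tC_center h) hM hS hξ
  have hsg : ∀ ξ : IrrCharacter (centralizer ({X (hh k)} : Set G)), ∃ c : ℂ,
      ∀ g, (ξ : _ → ℂ) (tC h * g) = c * (ξ : _ → ℂ) g := fun ξ => by
    rcases irr_central_involution ht2 (tC_center h) ξ.2 with e | e
    exacts [⟨1, by simp [e]⟩, ⟨-1, by simp [e]⟩]
  choose c hc using hsg
  obtain ⟨A, B, hAB⟩ : ∃ A B : ℂ, ∀ y : centralizer ({X (hh k)} : Set G), ¬ 2 ∣ orderOf y →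
      (χ : G → ℂ) (X (hh k) * y) = A + B * St y := by
    refine ⟨∑ ξ : IrrCharacter (centralizer ({X (hh k)} : Set G)), if ξ ∈ principalBlock M _ then
        classInner (fun c : centralizer ({X (hh k)} : Set G) => (χ : G → ℂ) c) ξ * c ξ * a ξ else 0,
      ∑ ξ : IrrCharacter (centralizer ({X (hh k)} : Set G)), if ξ ∈ principalBlock M _ then
        classInner (fun c : centralizer ({X (hh k)} : Set G) => (χ : G → ℂ) c) ξ * c ξ * b ξ else 0,
      fun y hy => ?_⟩
    have := principal_restrict_of_mem hM (H := centralizer {X (hh k)})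
      (fun b hb => inducedBlockDefined_centralizer_elt hM ⟨1, h.orderOf_z⟩ hb) (h := tC h * y)
      (z := X (hh k)) (isPPart_mul (H11.mem_cent1.1 y.2).symm ⟨1, h.orderOf_z⟩ (by simpa using hy))
      le_rfl hχ
    rw [blockPart_eq_sum] at this
    rw [show X (hh k) * y = ((tC h * y : centralizer ({X (hh k)} : Set G)) : G) from rfl, ← this,
      Finset.sum_mul, ← Finset.sum_add_distrib]
    refine Finset.sum_congr rfl fun ξ _ => ?_
    split_ifs with hξ
    · rw [hc, hab ξ hξ y hy]; ring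
    · simp
  have hg := isGen_shift ht2 (tC_center h) (χ.2.isGen.restrict (centralizer {X (hh k)}))
  obtain ⟨u, hu1, hu2, hu3⟩ := hS.hu
  obtain ⟨n1, hn1⟩ := hg.exists_degree
  obtain ⟨n2, hn2⟩ := (hg.restrict (zpowers u)).classInner_int isGen_one
  have hi := hg.isIntegral u
  have e1 := hAB 1 (by simp)
  have e2 := hAB u hu1
  change (χ : G → ℂ) (X (hh k) * u) = _ at e2
  change IsIntegral ℤ ((χ : G → ℂ) (X (hh k) * u)) at hi
  change (χ : G → ℂ) (X (hh k) * (1 : centralizer ({X (hh k)} : Set G))) = _ at hn1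
  rw [hn1, hS.deg] at e1
  rw [e2, hu2] at hi
  have e3 : A + B = n2 := by
    rw [← hn2, classInner_def, Finset.sum_congr rfl (g := fun y : zpowers u => A + B * St y)
      fun y _ => by
        rw [map_one, mul_one]
        exact hAB y fun e => hu1 (e.trans (orderOf_dvd_of_mem_zpowers y.2)),
      Finset.sum_add_distrib, ← Finset.mul_sum, ← Int.cast_sum, hu3, Finset.sum_const,
      Finset.card_univ, ← Nat.card_eq_fintype_card]
    have : (Nat.card (zpowers u) : ℂ) ≠ 0 := natCard_ne_zero'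
    push_cast
    rw [nsmul_eq_mul]
    field_simp
  have hp : (p : ℂ) - 1 ≠ 0 := by
    rw [sub_ne_zero]; have := hS.three; exact_mod_cast (by omega : p ≠ 1)
  obtain ⟨a0, ha0⟩ := exists_int_of_isIntegral_rat hi (q := (p * n2 - n1) / (p - 1)) (by
    push_cast at e1 ⊢
    field_simp
    linear_combination p * e3 + e1)
  simp only [Int.cast_zero, mul_zero, add_zero] at ha0
  refine ⟨a0, ε * (n2 - a0), fun y hy => ?_⟩
  rw [hAB y hy]
  push_cast
  rw [← ha0, ← e3]
  linear_combination -(B * St y) * hε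

theorem bessel_t (hu : IsConj (X (qq k)) (Y 1)) (s : Finset (IrrCharacter G))
    (a b : IrrCharacter G → ℤ) (hab : ∀ χ ∈ s, ∀ y : centralizer ({X (hh k)} : Set G),
      ¬ 2 ∣ orderOf y → (χ : G → ℂ) (X (hh k) * y) = a χ + b χ * (ε * St y)) :
    ∑ χ ∈ s, (a χ + b χ) ^ 2 ≤ 8 ∧ ∑ χ ∈ s, (a χ - b χ) ^ 2 ≤ 2 * 2 ^ k := by
  classical
  have hC := h.sylow_subtype h.le_cent_z
  obtain ⟨n1, n2, n3⟩ := norms hC (tC_center h) hM hS (hu_C h hu)
  have htt : tC h * tC h = 1 := Subtype.ext (H11.mul_self_of_orderOf_two h.orderOf_z)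
  have hcard : (Nat.card (centralizer ({X (hh k)} : Set G)) : ℂ) ≠ 0 := natCard_ne_zero'
  have key : ∀ (η : ℤ) (N : ℝ) (r : IrrCharacter G → ℝ),
      (∑ g with ¬ 2 ∣ orderOf g, ((1 + η * (ε * St g)) * (1 + η * (ε * St g)) : ℂ) =
        Nat.card (centralizer ({X (hh k)} : Set G)) * N) →
      (∀ χ ∈ s, ∑ g with ¬ 2 ∣ orderOf g, ((1 + η * (ε * St g)) * (a χ + b χ * (ε * St g)) : ℂ) =
        Nat.card (centralizer ({X (hh k)} : Set G)) * r χ) → ∑ χ ∈ s, r χ ^ 2 ≤ N := by
    intro η N r h1 h2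
    let φ : centralizer ({X (hh k)} : Set G) → ℂ := fun c =>
      if ¬ 2 ∣ orderOf (tC h * c) then 1 + η * (ε * St c) else 0
    have hφ : IsClassFunction _ φ := fun g c => by
      have e1 : tC h * (c * g * c⁻¹) = c * (tC h * g) * c⁻¹ := by
        rw [← mul_assoc, ← mul_assoc, ← mem_center_iff.1 (tC_center h) c, mul_assoc c]
      have e2 : (St (c * g * c⁻¹) : ℂ) = St g := hS.irr.isClassFunction g c
      simp only [φ, e1, orderOf_conj', e2]
    have hT : ∀ x : centralizer ({X (hh k)} : Set G), ¬ IsPPart 2 (x : G) (X (hh k)) → φ x = 0 :=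
      fun x hx => if_neg fun e => hx (by
        have := isPPart_mul (p := 2) (x := tC h) (y := tC h * x)
          (mem_center_iff.1 (tC_center h) _).symm ⟨1, by rw [← orderOf_coe]; exact h.orderOf_z⟩ e
        rw [← mul_assoc, htt, one_mul] at this
        exact IsPPart.coe this)
    have hsum : ∀ F : centralizer ({X (hh k)} : Set G) → ℂ, ∑ c, φ c * F c =
        ∑ g with ¬ 2 ∣ orderOf g, (1 + η * (ε * St g)) * F (tC h * g) := fun F => by
      rw [← Equiv.sum_comp (Equiv.mulLeft (tC h)), Finset.sum_filter]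
      refine Finset.sum_congr rfl fun g _ => ?_
      simp only [φ, Equiv.coe_mulLeft, ← mul_assoc, htt, one_mul, hS.ht, ite_mul, zero_mul]
    refine bessel (H5.indFun_isClassFunction _ φ) ?_ s r fun χ hχ => ?_
    · rw [H5.inner_indFun_indFun_of_TI_set _ {g | IsPPart 2 g (X (hh k))} (fun g hg x hx hx' =>
        absurd (H11.mem_cent1.2 (mul_inv_eq_iff_eq_mul.1
          (IsPPart.unique Nat.prime_two (IsPPart.conj hx g) hx'))) hg) hφ (fun x hx _ => hT x hx)
        (fun x hx _ => hT x hx) (hT 1 fun e => H11.ne_one_of_orderOf_two h.orderOf_z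
          ((IsPPart.eq_one_iff Nat.prime_two e).2 (by simp))), classInner_def, hsum,
        Finset.sum_congr rfl (g := fun g => ((1 + η * (ε * St g)) * (1 + η * (ε * St g)) : ℂ))
          fun g hg => by
            simp only [φ, ← mul_assoc, htt, one_mul, hS.ht, if_pos (Finset.mem_filter.1 hg).2]
            simp, h1, ← mul_assoc, inv_mul_cancel₀ hcard, one_mul]
    · rw [H5.inner_indFun_left _ _ χ.2.isClassFunction, classInner_def, hsum,
        Finset.sum_congr rfl (g := fun g => ((1 + η * (ε * St g)) * (a χ + b χ * (ε * St g)) : ℂ))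
          fun g hg => by
            rw [show ((tC h * g : centralizer ({X (hh k)} : Set G)) : G) = X (hh k) * g from rfl,
              hab χ hχ g (Finset.mem_filter.1 hg).2]
            simp, h2 χ hχ, ← mul_assoc, inv_mul_cancel₀ hcard, one_mul]
  have k1 := key 1 (1 / 2) (fun χ => (a χ + b χ) / 4) (by push_cast; simp only [one_mul, n1]; ring)
    fun χ _ => by
      rw [Finset.sum_congr rfl (g := fun g => (a χ + b χ) / 2 *
        ((1 + ε * St g) * (1 + ε * St g) : ℂ) + (a χ - b χ) / 2 *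
        ((1 + ε * St g) * (1 - ε * St g) : ℂ)) fun g _ => by push_cast; ring,
        Finset.sum_add_distrib, ← Finset.mul_sum, ← Finset.mul_sum, n1, n3]
      push_cast; ring
  have k2 := key (-1) (2 / 2 ^ k) (fun χ => (a χ - b χ) / 2 ^ k) (by
      push_cast; simp only [neg_one_mul, ← sub_eq_add_neg, n2]; ring)
    fun χ _ => by
      rw [Finset.sum_congr rfl (g := fun g => (a χ + b χ) / 2 *
        ((1 + ε * St g) * (1 - ε * St g) : ℂ) + (a χ - b χ) / 2 *
        ((1 - ε * St g) * (1 - ε * St g) : ℂ)) fun g _ => by push_cast; ring,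
        Finset.sum_add_distrib, ← Finset.mul_sum, ← Finset.mul_sum, n2, n3]
      push_cast; ring
  simp only [div_pow, ← Finset.sum_div] at k1 k2
  constructor
  · have : ∑ χ ∈ s, ((a χ : ℝ) + b χ) ^ 2 ≤ 8 := by linarith
    exact_mod_cast this
  · have : ∑ χ ∈ s, ((a χ : ℝ) - b χ) ^ 2 ≤ 2 * 2 ^ k := by
      rw [div_le_div_iff₀ (by positivity) (by positivity)] at k2
      have h0 : (0 : ℝ) < 2 ^ k := by positivity
      nlinarith
    exact_mod_cast this

end Big

end Cfsg.Agent.H26.SW
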