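import Cfsg.Agent.H26.SW4
import Cfsg.Agent.H12.PGL2

/-!
# Definitions for the pieces of the semidihedral case of the Suzuki-Wong theorem
-/

set_option linter.unusedSectionVars false

namespace Cfsg.Agent.H26.SW

open Cfsg Cfsg.Agent.H4 Cfsg.Agent.H6 Subgroup
open Cfsg.Agent.H11 (MC hh qq IsSylIn cj)
open scoped MatrixGroups

/-- all subgroups of odd prime power order are cyclic -/
def Cy (G : Type*) [Group G] : Prop :=
  ∀ r : ℕ, r.Prime → r ≠ 2 → ∀ R : Subgroup G, IsPGroup r R → IsCyclic R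

/-- Sylow 2-subgroups have a cyclic subgroup of index at most 2 -/
def H2 (G : Type*) [Group G] : Prop :=
  ∀ S : Sylow 2 G, ∃ C : Subgroup ↥(S : Subgroup G), IsCyclic C ∧ C.index ∣ 2

theorem Cy.of_sylow {G : Type*} [Group G]
    (h : ∀ p : ℕ, p.Prime → p ≠ 2 → ∀ P : Sylow p G, IsCyclic P) : Cy G := fun r hr h2 R hR => by
  obtain ⟨P, hP⟩ := hR.exists_le_sylow
  haveI := h r hr h2 P
  exact isCyclic_of_injective (inclusion hP) (inclusion_injective hP)

theorem Cy.inj {G H : Type*} [Group G] [Group H] (h : Cy G) (f : H →* G)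
    (hf : Function.Injective f) : Cy H := fun r hr h2 R hR => by
  haveI := h r hr h2 (R.map f) (hR.map f)
  exact isCyclic_of_injective (R.equivMapOfInjective f hf).toMonoidHom
    (R.equivMapOfInjective f hf).injective

theorem Cy.sub {G : Type*} [Group G] (h : Cy G) (H : Subgroup G) : Cy H :=
  h.inj H.subtype H.subtype_injective

theorem Cy.surj {G H : Type*} [Group G] [Group H] [Finite G] (h : Cy G) (f : G →* H)
    (hf : Function.Surjective f) : Cy H := by
  haveI := Finite.of_surjective f hf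
  refine Cy.of_sylow fun r hr h2 P => ?_
  haveI := Fact.mk hr
  obtain ⟨Q, rfl⟩ := Sylow.mapSurjective_surjective hf r P
  haveI := h r hr h2 Q Q.isPGroup'
  exact isCyclic_of_surjective (f.subgroupMap Q) (f.subgroupMap_surjective Q)

/-- the projection of the involution centralizer onto `PGL(2, p)` -/
structure RH {Γ : Type*} [Group Γ] (t z s : Γ) (p : ℕ) [Fact p.Prime]
    (ρ : Γ →* PGL(2, ZMod p)) (O : Subgroup Γ) : Prop where
  p2 : p ≠ 2
  sur : Function.Surjective ρ
  nO : O.Normal
  oddO : Odd (Nat.card O)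
  ker : ∀ g, ρ g = 1 ↔ g ∈ O ∨ t * g ∈ O
  nc : ¬ IsConj (ρ z) (ρ s)
  card : Nat.card Γ = p * (p ^ 2 - 1) * (2 * Nat.card O)
  np : 5 ≤ p → ¬ p ∣ Nat.card O

variable {G : Type*} [Group G] [Fintype G] {P : Sylow 2 G} {k : ℕ} {X Y : ZMod (2 ^ k) → G}
  (h : MC (P : Subgroup G) k (hh k) 0 X Y)

/-- the element of order 4 inside the involution centralizer -/
def zC : centralizer ({X (hh k)} : Set G) := ⟨X (qq k), h.le_cent_z (h.X_mem _)⟩

/-- the noncentral involution inside the involution centralizer -/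
def sC : centralizer ({X (hh k)} : Set G) := ⟨Y 0, h.le_cent_z (h.Y_mem _)⟩

end Cfsg.Agent.H26.SW
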