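import Cfsg.Agent.H26.SW5

/-!
# Arithmetic for the semidihedral case of the Suzuki-Wong theorem
-/

namespace Cfsg.Agent.H26.SW

theorem dvd_three {n i x : ℤ} (hi : 0 < i) (h : n ∣ i * x)
    (cop : ∀ r : ℕ, r.Prime → (r : ℤ) ∣ n → (r : ℤ) ∣ i → r = 3 ∧ ¬ 9 ∣ i) : n ∣ 3 * x := by
  have h1 : n ∣ (Int.gcd n i : ℤ) * x := by
    rw [Int.gcd_eq_gcd_ab, add_mul]
    exact dvd_add (Dvd.intro _ (by ring : n * (Int.gcdA n i * x) = _))
      (by rw [mul_right_comm]; exact h.mul_right _)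
  refine h1.trans (mul_dvd_mul_right ?_ _)
  set g := Int.gcd n i with hg
  have hn : (g : ℤ) ∣ n := Int.gcd_dvd_left ..
  have hgi : (g : ℤ) ∣ i := Int.gcd_dvd_right ..
  have hg0 : g ≠ 0 := fun e => by rw [e] at hgi; simp at hgi; omega
  have key : ∀ r : ℕ, r.Prime → r ∣ g → r = 3 ∧ ¬ 9 ∣ i := fun r hr hd =>
    cop r hr ((Int.natCast_dvd_natCast.2 hd).trans hn) ((Int.natCast_dvd_natCast.2 hd).trans hgi)
  have h3 := Nat.eq_prime_pow_of_unique_prime_dvd hg0 (p := 3) fun hr hd => (key _ hr hd).1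
  generalize g.primeFactorsList.length = l at h3
  rcases l with _ | _ | l
  · rw [h3]; simp
  · rw [h3]; simp
  · refine absurd (dvd_trans ?_ hgi) (key 3 Nat.prime_three (h3 ▸ dvd_pow_self 3 (by omega))).2
    rw [h3]; push_cast; exact ⟨3 ^ l, by ring⟩

theorem big_aux {U V D : ℤ} (hU : 6 ≤ U) (hV : 8 ≤ V) (hUV : U ≤ V + 2) (h2 : 2 ≤ D)
    (hD : D ≤ U * V) (h : 4 * (U * V) * D ≤ 3 * (D + U) ^ 2) : False := by
  have h1 : 0 ≤ (D - 2) * (U * V - D) := mul_nonneg (by omega) (by omega)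
  have h3 : 8 * U ≤ U * V := by nlinarith
  have h4 : (6 + 6 * U - U * V) * D ≤ 0 := mul_nonpos_of_nonpos_of_nonneg (by omega) (by omega)
  have h5 : U * (U - 2 * V) < 0 := mul_neg_of_pos_of_neg (by omega) (by omega)
  nlinarith

theorem ar5 {m p a b i ω : ℤ} (hm : m = p ∨ m = -p) (h5 : 5 ≤ p) (h4 : 4 ∣ m - 1)
    (hab : (a + m) * (m - b) = m ^ 2 - 1) (hi : 0 < i) (hω : 0 < ω) (ha : m * a ≠ 0)
    (ha1 : m * a + 1 ≠ 0)
    (e : i * (m * a - m) ^ 2 = p * (4 * (p ^ 2 - 1) * ω) * (m * a * (m * a + 1)))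
    (cop : ∀ r : ℕ, r.Prime → (r : ℤ) ∣ 2 ∨ (r : ℤ) ∣ p ^ 2 - 1 ∨ (r : ℤ) ∣ ω → (r : ℤ) ∣ i →
      r = 3 ∧ ¬ 9 ∣ i) : p = 5 ∧ ω = 1 ∧ i = 357 := by
  obtain ⟨d, rfl⟩ : ∃ d, a = d - m := ⟨a + m, by ring⟩
  rw [sub_add_cancel] at hab
  have hpm : m ^ 2 = p ^ 2 := by rcases hm with rfl | rfl <;> ring
  have hp1 : 0 < p ^ 2 - 1 := by nlinarith
  have hp0 : p ^ 2 ≠ 0 := by positivity
  have hdd : d ∣ p ^ 2 - 1 := ⟨m - b, by rw [hab, hpm]⟩
  have e1 : m * (d - m) + 1 = d * b := by linear_combination hab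
  have hdv : 4 * (p ^ 2 - 1) * ω * d ∣ i * (d - m - 1) ^ 2 := by
    rw [e1] at e
    rcases hm with rfl | rfl
    · exact ⟨(d - m) * b, mul_left_cancel₀ hp0 (by linear_combination e)⟩
    · exact ⟨-((d + p) * b), mul_left_cancel₀ hp0 (by linear_combination e)⟩
  have hdv3 := dvd_three hi hdv fun r hr hd => cop r hr (by
    have hr' := Nat.prime_iff_prime_int.1 hr
    rcases hr'.dvd_or_dvd hd with h | h
    · rcases hr'.dvd_or_dvd h with h | h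
      · rcases hr'.dvd_or_dvd h with h | h
        · exact Or.inl (hr'.dvd_of_dvd_pow (n := 2) (by simpa using h))
        · exact Or.inr (Or.inl h)
      · exact Or.inr (Or.inr h)
    · exact Or.inr (Or.inl (h.trans hdd)))
  have hne : d - m - 1 ≠ 0 := fun e0 => by
    have : m * (d - m) - m = 0 := by rw [show d - m = 1 by omega]; ring
    rw [this] at e
    have : p * (4 * (p ^ 2 - 1) * ω) * (m * (d - m) * (m * (d - m) + 1)) ≠ 0 := by positivity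
    exact this (by rw [← e]; ring)
  have hd0 : d ≠ 0 := fun e0 => by rw [e0] at hdd; simp at hdd; omega
  have hev : 2 ∣ d := by
    have : (2 : ℤ) ∣ 3 * (d - m - 1) ^ 2 := dvd_trans ⟨2 * (p ^ 2 - 1) * ω * d, by ring⟩ hdv3
    have := Int.prime_two.dvd_of_dvd_pow ((Int.prime_two.dvd_or_dvd this).resolve_left (by decide))
    omega
  have hD : |d| ≤ p ^ 2 - 1 := Int.le_of_dvd hp1 ((abs_dvd _ _).2 hdd)
  have hle : 4 * (p ^ 2 - 1) * |d| ≤ 3 * (d - m - 1) ^ 2 := by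
    refine Int.le_of_dvd (by positivity) ?_
    refine dvd_trans ?_ hdv3
    rcases abs_choice d with h | h <;> rw [h]
    · exact ⟨ω, by ring⟩
    · exact ⟨-ω, by ring⟩
  have hD2 : 2 ≤ |d| := by rcases abs_choice d with h | h <;> have := abs_pos.2 hd0 <;> omega
  have hsq : (d - m - 1) ^ 2 ≤ (|d| + |m + 1|) ^ 2 := by
    rw [sq_le_sq, abs_of_nonneg (by positivity : 0 ≤ |d| + |m + 1|), sub_sub]
    exact abs_sub _ _
  obtain rfl : m = 5 := by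
    by_contra hm5
    rcases hm with rfl | rfl
    · rw [abs_of_nonneg (by omega : 0 ≤ m + 1)] at hsq
      exact big_aux (U := m + 1) (V := m - 1) (D := |d|) (by omega) (by omega) (by omega) hD2
        (by nlinarith) (by nlinarith)
    · rw [abs_of_nonpos (by omega : -p + 1 ≤ 0)] at hsq
      exact big_aux (U := -(-p + 1)) (V := p + 1) (D := |d|) (by omega) (by omega) (by omega) hD2
        (by nlinarith) (by nlinarith)
  obtain rfl : p = 5 := by omega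
  have h96 : 96 * d ∣ 3 * (d - 5 - 1) ^ 2 := dvd_trans ⟨ω, by ring⟩ hdv3
  obtain rfl : d = -2 := by
    obtain ⟨h1, h2⟩ := abs_le.1 hD
    norm_num at h1 h2 hdd
    revert h96 hdd hne
    clear * - h1 h2
    interval_cases d <;> decide
  obtain rfl : ω = 1 := by
    have := Int.le_of_dvd (by norm_num) ((abs_dvd _ _).2 hdv3)
    rw [abs_of_neg (by omega)] at this
    omega
  omega

theorem ar3 {A B i ω : ℤ} (hab : (A + 9) * (B - 9) = -72) (hω : 0 < ω) (ha : A ≠ 0)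
    (ha1 : A + 1 ≠ 0) (e : i * (A + 3) ^ 2 = 96 * ω * (A * (A + 1)))
    (cop : ∀ r : ℕ, r.Prime → (r : ℤ) ∣ 6 ∨ (r : ℤ) ∣ ω → (r : ℤ) ∣ i → r = 3 ∧ ¬ 9 ∣ i) :
    ω = 1 ∧ 3 ∣ i := by
  have h2 : ¬ 2 ∣ i := fun h => by simpa using (cop 2 Nat.prime_two (Or.inl (by decide)) h).1
  have h9 : ¬ 9 ∣ i := fun h =>
    (cop 3 Nat.prime_three (Or.inl (by decide)) (dvd_trans (by decide) h)).2 h
  have hd : A + 9 ∣ 72 := ⟨9 - B, by linear_combination hab⟩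
  obtain ⟨h1, h3⟩ := abs_le.1 (Int.le_of_dvd (by norm_num) ((abs_dvd _ _).2 hd))
  have hi : i = 165 * ω := by
    have h1 : -81 ≤ A := by omega
    have h3 : A ≤ 63 := by omega
    interval_cases A <;> omega
  refine ⟨?_, by omega⟩
  by_contra hne
  obtain ⟨r, hr, hd⟩ := Nat.exists_prime_and_dvd (n := ω.natAbs) (by omega)
  replace hd := Int.natCast_dvd.2 hd
  obtain rfl := (cop r hr (Or.inr hd) (hi ▸ hd.mul_left _)).1
  omega

theorem qs_one {n Qa Qb Qc : ℤ} (hn : 2 ≤ n) (ha : 2 * n ∣ Qa - 1) (hb : 2 * n ∣ Qb - 1)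
    (hc : 2 * n ∣ Qc - 1) (e : 1 + Qa = Qb + Qc)
    (h : 1 + Qa ^ 2 + Qb ^ 2 + Qc ^ 2 + (n - 1) * (1 + Qa) ^ 2 ≤ 8 * n) :
    Qa = 1 ∧ Qb = 1 ∧ Qc = 1 := by
  have key : ∀ Q : ℤ, 2 * n ∣ Q - 1 → Q = 1 ∨ (2 * n - 1) ^ 2 ≤ Q ^ 2 := by
    rintro Q ⟨r, hr⟩
    rcases lt_trichotomy r 0 with h | h | h
    · right; have : Q ≤ -(2 * n - 1) := by nlinarith
      nlinarith
    · left; rw [h] at hr; omega
    · right; have : 2 * n - 1 ≤ Q := by nlinarith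
      nlinarith
  have h4 : 4 ≤ (1 + Qa) ^ 2 := by
    obtain ⟨r, hr⟩ := ha
    have : 1 + Qa = 2 * (1 + n * r) := by linear_combination hr
    have h0 : 1 + n * r ≠ 0 := fun e0 => by
      have := Int.le_of_dvd one_pos (⟨-r, by linear_combination e0⟩ : n ∣ 1); omega
    have := sq_pos_of_ne_zero h0
    nlinarith
  have h5 : (n - 1) * 4 ≤ (n - 1) * (1 + Qa) ^ 2 := mul_le_mul_of_nonneg_left h4 (by omega)
  rcases key _ ha with h1 | h1 <;> rcases key _ hb with h2 | h2 <;> rcases key _ hc with h3 | h3 <;>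
    first | exact ⟨h1, h2, h3⟩ | omega | nlinarith [sq_nonneg Qa, sq_nonneg Qb, sq_nonneg Qc]

theorem ps_one {Pa Pb Pc : ℤ} (ha : 2 ∣ Pa - 1) (hb : 2 ∣ Pb - 1) (hc : 2 ∣ Pc - 1)
    (e : 1 + Pa = Pb + Pc) (h : 1 + Pa ^ 2 + Pb ^ 2 + Pc ^ 2 ≤ 8) :
    (Pa = 1 ∧ Pb = 1 ∧ Pc = 1) ∨ (Pa = -1 ∧ Pb = -1 ∧ Pc = 1) ∨ (Pa = -1 ∧ Pb = 1 ∧ Pc = -1) := by
  have h1 : -3 < Pa ∧ Pa < 3 := by constructor <;> nlinarith [sq_nonneg Pb, sq_nonneg Pc]
  have h2 : -3 < Pb ∧ Pb < 3 := by constructor <;> nlinarith [sq_nonneg Pa, sq_nonneg Pc]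
  have h3 : -3 < Pc ∧ Pc < 3 := by constructor <;> nlinarith [sq_nonneg Pb, sq_nonneg Pa]
  omega

end Cfsg.Agent.H26.SW
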