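import Cfsg.Agent.H26.SW6

/-!
# Degrees in the principal 2-block and the order formula
-/

set_option linter.unusedSectionVars false

namespace Cfsg.Agent.H26.SW

open Cfsg Cfsg.Agent.H4 Cfsg.Agent.H6 Subgroup
open Cfsg.Agent.H11 (MC hh qq IsSylIn cj)

theorem sg_div {δ : ℤ} (hδ : δ = 1 ∨ δ = -1) (x d : ℂ) :
    (δ : ℂ) * (x * x / d) = (δ * x) ^ 2 / (δ * d) := by
  rcases hδ with rfl | rfl <;> simp [sq, div_neg]

theorem sg_sq {δ : ℤ} (hδ : δ = 1 ∨ δ = -1) (x : ℤ) : (δ * x) ^ 2 = x ^ 2 := by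
  rcases hδ with rfl | rfl <;> simp

theorem sdeg {G : Type*} [Group G] [Finite G] (hG : commutator G = ⊤) {δ : ℤ}
    (hδ : δ = 1 ∨ δ = -1) {χ : IrrCharacter G} (h1 : χ ≠ irrOne G) :
    ∃ A : ℤ, (δ : ℂ) * (χ : G → ℂ) 1 = A ∧ A ≠ 0 ∧ A ≠ 1 ∧ A ∣ Nat.card G := by
  obtain ⟨n, hn, e⟩ := χ.2.exists_degree
  have hd := Int.natCast_dvd_natCast.2 (χ.2.degree_dvd_card e)
  have hn1 : n ≠ 1 := fun e1 => by
    have := χ.2.commutator_le_charKer_iff.mpr (by rw [e, e1, Nat.cast_one])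
    rw [hG, top_le_iff, χ.2.charKer_eq_top_iff] at this
    exact h1 (Subtype.ext this)
  refine ⟨δ * n, by rw [e]; push_cast; rfl, ?_, ?_, ?_⟩ <;> rcases hδ with rfl | rfl <;>
    first | omega | simpa using hd

theorem fin_ar {A B C α β γ m i c R : ℤ} (hA1 : A + 1 ≠ 0) (hA : A ≠ 0) (hB1 : B ≠ 1)
    (hC1 : C ≠ 1) (hB0 : B ≠ 0) (hR : R ≠ 0) (e1 : 1 + A = B + C) (e2 : 1 + α = β + γ)
    (E : A * B * C + α ^ 2 * B * C - β ^ 2 * A * C - γ ^ 2 * A * B = 0)
    (O : i * (A - α) ^ 2 * c = R * (A * (A + 1)))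
    (H : (B = C ∧ β = γ) ∨ (α = 1 ∧ β = 1 ∧ γ = 1) ∨ (α = m ∧ β = m ∧ γ = 1) ∨
      (α = m ∧ β = 1 ∧ γ = m)) :
    α = m ∧ (A * B = m ^ 2 * C ∨ A * C = m ^ 2 * B) := by
  rcases H with ⟨rfl, rfl⟩ | ⟨rfl, rfl, rfl⟩ | ⟨rfl, rfl, rfl⟩ | ⟨rfl, rfl, rfl⟩
  · obtain rfl : A = 2 * B - 1 := by omega
    obtain rfl : α = 2 * β - 1 := by omega
    have : B * (B - β) ^ 2 * 2 = 0 := by linear_combination E
    have h0 : (B - β) ^ 2 = 0 := (mul_eq_zero.1 (by omega : B * (B - β) ^ 2 = 0)).resolve_left hB0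
    refine absurd (O.symm.trans ?_) (mul_ne_zero hR (mul_ne_zero hA hA1))
    linear_combination 4 * i * c * h0
  · obtain rfl : A = B + C - 1 := by omega
    have : (B + C - 1 + 1) * ((B - 1) * (C - 1)) = 0 := by linear_combination E
    rcases mul_eq_zero.1 ((mul_eq_zero.1 this).resolve_left hA1) with h | h <;> omega
  · obtain rfl : A = B + C - 1 := by omega
    have : (C - 1) * ((B + C - 1) * B - β ^ 2 * C) = 0 := by linear_combination E
    exact ⟨rfl, Or.inl (sub_eq_zero.1 ((mul_eq_zero.1 this).resolve_left (by omega)))⟩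
  · obtain rfl : A = B + C - 1 := by omega
    have : (B - 1) * ((B + C - 1) * C - γ ^ 2 * B) = 0 := by linear_combination E
    exact ⟨rfl, Or.inr (sub_eq_zero.1 ((mul_eq_zero.1 this).resolve_left (by omega)))⟩

variable {G : Type*} [Group G] [Fintype G] {P : Sylow 2 G} {k : ℕ} {X Y : ZMod (2 ^ k) → G}
  (h : MC (P : Subgroup G) k (hh k) 0 X Y) [Fintype (centralizer ({X (hh k)} : Set G))]
  {St : centralizer ({X (hh k)} : Set G) → ℤ} {ε : ℤ} {p : ℕ} (hS : StD (tC h) St ε p)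
include h hS

theorem degs (hG : commutator G = ⊤) (hu : IsConj (X (qq k)) (Y 1))
    (hone : ∀ a : G, orderOf a = 2 → IsConj (X (hh k)) a) (hm : (2 : ℤ) ^ (k - 1) ∣ -ε * p - 1) :
    ∃ A B C : ℤ, A ≠ 0 ∧ A + 1 ≠ 0 ∧ A ∣ Nat.card G ∧ B ∣ Nat.card G ∧ 1 + A = B + C ∧
      A * B = (-ε * p) ^ 2 * C ∧
      (centralizer ({X (hh k)} : Set G)).index * (A - -ε * p) ^ 2 *
        (Nat.card ↥(normalizer (zpowers (X (qq k)) : Set G) ⊓ centralizer {Y 0}) : ℤ) ^ 2 =
      2 * Nat.card (centralizer ({X (hh k)} : Set G)) *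
        Nat.card (normalizer (zpowers (X (qq k)) : Set G)) * (A * (A + 1)) := by
  classical
  have hk := h.qd_three
  obtain ⟨M, hM⟩ := exists_isPModular Nat.prime_two
  haveI := hM.2.1
  haveI := Fintype.ofFinite (zpowers (X 1) →* ℂˣ)
  obtain ⟨a, b, c, e, δa, δb, δc, ha, hb, hc, he, a1, b1, c1, ab, ac, bc, hne, aB, bB, cB, eB,
    V, E1, Ord, H⟩ := sd_main h hM hu
  have hb' : -δb = 1 ∨ -δb = -1 := by omega
  have hc' : -δc = 1 ∨ -δc = -1 := by omega
  have j0 : Fin (2 ^ (k - 2) - 1) := ⟨0, by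
    have : 2 ^ 1 ≤ 2 ^ (k - 2) := Nat.pow_le_pow_right two_pos (by omega)
    omega⟩
  obtain ⟨A, hA, A0, -, Ad⟩ := sdeg hG ha a1
  obtain ⟨B, hB, B0, B1, Bd⟩ := sdeg hG hb' b1
  obtain ⟨C, hC, C0, C1, Cd⟩ := sdeg hG hc' c1
  have ht2 : X (hh k) * X (hh k) = 1 := H11.mul_self_of_orderOf_two h.orderOf_z
  have V1 := V 1 1 (isPPart_one Nat.prime_two (by simp)) (mul_one 1)
  have hto : ∃ l, orderOf (X (hh k)) = 2 ^ l := ⟨1, h.orderOf_z⟩
  have Vt := V _ _ (isPPart_self Nat.prime_two hto) ht2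
  push_cast at hB hC
  have e1 : 1 + A = B + C := by
    have : (1 + A : ℂ) = B + C := by linear_combination V1.1 - hA + hB + hC
    exact_mod_cast this
  have hF : ∀ j, (δa : ℂ) * (e j : G → ℂ) 1 = 1 + A := fun j => by
    linear_combination hA - V1.2 j
  have A1 : A + 1 ≠ 0 := fun e0 => by
    obtain ⟨F, h1, h2, -⟩ := sdeg hG ha (hne j0).1
    have : (1 + A : ℂ) = F := (hF j0).symm.trans h1
    have : 1 + A = F := by exact_mod_cast this
    omega
  choose! x0 x1 hx using fun (χ : IrrCharacter G) (hχ : χ ∈ principalBlock M G) =>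
    coords h hM hS hχ
  have hxt : ∀ χ ∈ principalBlock M G, (χ : G → ℂ) (X (hh k)) = x0 χ + x1 χ * (ε * p) :=
    fun χ hχ => by simpa [hS.deg] using hx χ hχ 1 (by simp)
  obtain ⟨u, uo, u0, -⟩ := hS.hu
  have hxu : ∀ χ ∈ principalBlock M G, (χ : G → ℂ) (X (hh k) * u) = x0 χ :=
    fun χ hχ => by simpa [u0] using hx χ hχ u uo
  have Vu := V (X (hh k) * u) _ (isPPart_mul (H11.mem_cent1.1 u.2).symm hto
    (by simpa using uo)) ht2
  have hεp : (ε * p : ℤ) ≠ 0 := by have := hS.three; rcases hS.hε with e | e <;> rw [e] <;> omega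
  rw [hxu a aB, hxu b bB, hxu c cB] at Vu
  have Vt' := Vt
  rw [hxt a aB, hxt b bB, hxt c cB] at Vt'
  have R0 : 1 + δa * x0 a + δb * x0 b + δc * x0 c = 0 := by exact_mod_cast Vu.1
  have R1 : δa * x1 a + δb * x1 b + δc * x1 c = 0 := by
    have : 1 + δa * (x0 a + x1 a * (ε * p)) + δb * (x0 b + x1 b * (ε * p)) +
      δc * (x0 c + x1 c * (ε * p)) = 0 := by exact_mod_cast Vt'.1
    exact mul_right_cancel₀ hεp (by linear_combination this - R0)
  have S0 : ∀ j, δa * x0 (e j) = 1 + δa * x0 a := fun j => by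
    have := Vu.2 j
    rw [hxu _ (eB j)] at this
    have : 1 + δa * x0 a - δa * x0 (e j) = 0 := by exact_mod_cast this
    omega
  have S1 : ∀ j, δa * x1 (e j) = δa * x1 a := fun j => by
    have := Vt'.2 j
    rw [hxt _ (eB j)] at this
    have : 1 + δa * (x0 a + x1 a * (ε * p)) - δa * (x0 (e j) + x1 (e j) * (ε * p)) = 0 := by
      exact_mod_cast this
    exact mul_right_cancel₀ hεp (by linear_combination -S0 j - this)
  have o0 : x0 (irrOne G) = 1 := by
    have := (hxu _ (irrOne_mem_principal (M := M))).symm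
    rw [irrOne_apply] at this
    exact_mod_cast this
  have o1 : x1 (irrOne G) = 0 := by
    have := hxt _ (irrOne_mem_principal (M := M))
    rw [o0, irrOne_apply] at this
    have : (1 : ℤ) = 1 + x1 (irrOne G) * (ε * p) := by exact_mod_cast this
    exact mul_right_cancel₀ hεp (by linear_combination -this)
  obtain ⟨bP, bQ⟩ := bessel_t h hM hS hu
    (insert (irrOne G) (insert a (insert b (insert c (Finset.univ.image e))))) x0 x1 (by
      intro χ hχ
      simp only [Finset.mem_insert, Finset.mem_image, Finset.mem_univ, true_and] at hχ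
      rcases hχ with rfl | rfl | rfl | rfl | ⟨j, rfl⟩
      exacts [hx _ irrOne_mem_principal, hx _ aB, hx _ bB, hx _ cB, hx _ (eB j)])
  have hsum : ∀ f : IrrCharacter G → ℤ, ∑ χ ∈ insert (irrOne G) (insert a (insert b (insert c
      (Finset.univ.image e)))), f χ = f (irrOne G) + f a + f b + f c + ∑ j, f (e j) := fun f => by
    rw [Finset.sum_insert, Finset.sum_insert, Finset.sum_insert, Finset.sum_insert,
      Finset.sum_image fun _ _ _ _ h => he h]
    · ring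
    all_goals simp [fun j => (hne j).1, fun j => (hne j).2.1, fun j => (hne j).2.2.1,
      fun j => (hne j).2.2.2, ab, ac, bc, a1.symm, b1.symm, c1.symm]
  rw [hsum, o0, o1] at bP bQ
  obtain ⟨α, hα⟩ : ∃ α, α = δa * (x0 a + x1 a * (ε * p)) := ⟨_, rfl⟩
  obtain ⟨β, hβ⟩ : ∃ β, β = -δb * (x0 b + x1 b * (ε * p)) := ⟨_, rfl⟩
  obtain ⟨γ, hγ⟩ : ∃ γ, γ = -δc * (x0 c + x1 c * (ε * p)) := ⟨_, rfl⟩
  have cα : (δa : ℂ) * (a : G → ℂ) (X (hh k)) = α := by rw [hxt a aB, hα]; push_cast; ring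
  have cβ : -(δb : ℂ) * (b : G → ℂ) (X (hh k)) = β := by rw [hxt b bB, hβ]; push_cast; ring
  have cγ : -(δc : ℂ) * (c : G → ℂ) (X (hh k)) = γ := by rw [hxt c cB, hγ]; push_cast; ring
  have e2 : 1 + α = β + γ := by linear_combination hα - hβ - hγ + R0 + (ε * p) * R1
  have cA : (A : ℂ) ≠ 0 := by exact_mod_cast A0
  have cB' : (B : ℂ) ≠ 0 := by exact_mod_cast B0
  have cC : (C : ℂ) ≠ 0 := by exact_mod_cast C0
  have cA1 : (1 + A : ℂ) ≠ 0 := by rw [add_comm]; exact_mod_cast A1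
  have Et := E1 _ ht2
  have E : A * B * C + α ^ 2 * B * C - β ^ 2 * A * C - γ ^ 2 * A * B = 0 := by
    have h1 := sg_div hb' ((b : G → ℂ) (X (hh k))) ((b : G → ℂ) 1)
    have h2 := sg_div hc' ((c : G → ℂ) (X (hh k))) ((c : G → ℂ) 1)
    push_cast at h1 h2
    rw [cβ, hB] at h1
    rw [cγ, hC] at h2
    have h3 := Et
    rw [sg_div ha, cα, hA] at h3
    have : (1 + α ^ 2 / A - β ^ 2 / B - γ ^ 2 / C : ℂ) = 0 := by linear_combination h3 + h1 + h2
    field_simp at this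
    have : (A * B * C + α ^ 2 * B * C - β ^ 2 * A * C - γ ^ 2 * A * B : ℂ) = 0 := by
      linear_combination this
    exact_mod_cast this
  have hO := order_formula h hM hone
  rw [Ord (fun χ => (χ : G → ℂ) (X (hh k)) * (χ : G → ℂ) (X (hh k)) / (χ : G → ℂ) 1)
    ((A - α) ^ 2 / (A * (1 + A))) (by simpa using Et) fun j => by
      have h1 : (δa : ℂ) * (e j : G → ℂ) (X (hh k)) = 1 + α := by linear_combination cα - Vt.2 j
      rw [sg_div ha, sg_div ha, cα, hA, h1, hF j]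
      simp only [irrOne_apply]
      field_simp
      ring] at hO
  have O : (centralizer ({X (hh k)} : Set G)).index * (A - α) ^ 2 *
        (Nat.card ↥(normalizer (zpowers (X (qq k)) : Set G) ⊓ centralizer {Y 0}) : ℤ) ^ 2 =
      2 * Nat.card (centralizer ({X (hh k)} : Set G)) *
        Nat.card (normalizer (zpowers (X (qq k)) : Set G)) * (A * (A + 1)) := by
    field_simp at hO
    have : ((centralizer ({X (hh k)} : Set G)).index * (A - α) ^ 2 *
        (Nat.card ↥(normalizer (zpowers (X (qq k)) : Set G) ⊓ centralizer {Y 0}) : ℂ) ^ 2 : ℂ) =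
      2 * Nat.card (centralizer ({X (hh k)} : Set G)) *
        Nat.card (normalizer (zpowers (X (qq k)) : Set G)) * (A * (A + 1)) := by
      linear_combination hO / 2
    exact_mod_cast this
  have key := fin_ar (m := -ε * p) A1 A0 B1 C1 B0 (by
    have := Nat.card_pos (α := centralizer ({X (hh k)} : Set G))
    have := Nat.card_pos (α := normalizer (zpowers (X (qq k)) : Set G))
    positivity) e1 e2 E O (by
    rcases H with ⟨rfl, H⟩ | ⟨ra, rb, rc, h1, h2, h3⟩
    · left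
      rw [H 1 1 (isPPart_one Nat.prime_two (by simp)) (mul_one 1), hC] at hB
      rw [H _ _ (isPPart_self Nat.prime_two hto) ht2, cγ] at cβ
      exact ⟨by exact_mod_cast hB.symm, by exact_mod_cast cβ.symm⟩
    right
    rw [cα] at h1; rw [cβ] at h2; rw [cγ] at h3
    replace h1 : α = 1 + 2 ^ (k - 1) * ra := by exact_mod_cast h1
    replace h2 : β = 1 + 2 ^ (k - 1) * rb := by exact_mod_cast h2
    replace h3 : γ = 1 + 2 ^ (k - 1) * rc := by exact_mod_cast h3
    obtain ⟨r, hr⟩ := hm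
    obtain ⟨n, hn⟩ : ∃ n : ℤ, n = 2 ^ (k - 2) := ⟨_, rfl⟩
    have n1 : (2 : ℤ) ^ (k - 1) = 2 * n := by
      rw [hn, ← pow_succ']; congr 1; omega
    have n2 : (2 : ℤ) * 2 ^ k = 8 * n := by
      rw [hn, ← pow_succ', show (8 : ℤ) = 2 ^ 3 by norm_num, ← pow_add]; congr 1; omega
    have n3 : 2 ≤ n := by
      rw [hn]; exact le_self_pow₀ one_le_two (by omega)
    rw [n1] at h1 h2 h3 hr
    rw [Finset.sum_congr rfl (g := fun _ => (1 + δa * (x0 a - x1 a)) ^ 2) fun j _ => by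
      rw [← sg_sq ha]; congr 1; linear_combination S0 j - S1 j, n2, ← sg_sq ha (x0 a - x1 a),
      ← sg_sq hb' (x0 b - x1 b), ← sg_sq hc' (x0 c - x1 c), Finset.sum_const, Finset.card_univ,
      Fintype.card_fin, nsmul_eq_mul, Nat.cast_sub Nat.one_le_two_pow] at bQ
    push_cast at bQ
    rw [← hn] at bQ
    obtain ⟨qa, qb, qc⟩ := qs_one (Qa := δa * (x0 a - x1 a)) (Qb := -δb * (x0 b - x1 b))
      (Qc := -δc * (x0 c - x1 c)) n3
      ⟨ra + δa * x1 a * r, by linear_combination h1 - hα + δa * x1 a * hr⟩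
      ⟨rb + -δb * x1 b * r, by linear_combination h2 - hβ - δb * x1 b * hr⟩
      ⟨rc + -δc * x1 c * r, by linear_combination h3 - hγ - δc * x1 c * hr⟩
      (by linear_combination R0 - R1) (by linear_combination bQ)
    have hs0 : 0 ≤ ∑ j, (x0 (e j) + x1 (e j)) ^ 2 := Finset.sum_nonneg fun _ _ => sq_nonneg _
    rw [← sg_sq ha (x0 a + x1 a), ← sg_sq hb' (x0 b + x1 b), ← sg_sq hc' (x0 c + x1 c)] at bP
    have two : ∀ {x y : ℤ}, 2 * x = 2 * y → x = y := fun h => by omega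
    rcases ps_one (Pa := δa * (x0 a + x1 a)) (Pb := -δb * (x0 b + x1 b))
      (Pc := -δc * (x0 c + x1 c)) ⟨δa * x1 a, by linear_combination qa⟩
      ⟨-δb * x1 b, by linear_combination qb⟩ ⟨-δc * x1 c, by linear_combination qc⟩
      (by linear_combination R0 + R1) (by linarith) with
      ⟨pa, pb, pc⟩ | ⟨pa, pb, pc⟩ | ⟨pa, pb, pc⟩
    · exact Or.inl ⟨two (by linear_combination 2 * hα + (1 + ε * p) * pa + (1 - ε * p) * qa),
        two (by linear_combination 2 * hβ + (1 + ε * p) * pb + (1 - ε * p) * qb),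
        two (by linear_combination 2 * hγ + (1 + ε * p) * pc + (1 - ε * p) * qc)⟩
    · exact Or.inr (Or.inl
        ⟨two (by linear_combination 2 * hα + (1 + ε * p) * pa + (1 - ε * p) * qa),
        two (by linear_combination 2 * hβ + (1 + ε * p) * pb + (1 - ε * p) * qb),
        two (by linear_combination 2 * hγ + (1 + ε * p) * pc + (1 - ε * p) * qc)⟩)
    · exact Or.inr (Or.inr
        ⟨two (by linear_combination 2 * hα + (1 + ε * p) * pa + (1 - ε * p) * qa),
        two (by linear_combination 2 * hβ + (1 + ε * p) * pb + (1 - ε * p) * qb),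
        two (by linear_combination 2 * hγ + (1 + ε * p) * pc + (1 - ε * p) * qc)⟩))
  obtain ⟨rfl, h1 | h1⟩ := key
  · exact ⟨A, B, C, A0, A1, Ad, Bd, e1, h1, O⟩
  · exact ⟨A, C, B, A0, A1, Ad, Cd, by omega, h1, O⟩

end Cfsg.Agent.H26.SW
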