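import Cfsg.Agent.H26.SW5

/-!
# The order of the involution centralizer in terms of the normalizer of a cyclic group of order 4
-/

set_option linter.unusedSectionVars false

namespace Cfsg.Agent.H26.SW

open Cfsg Cfsg.Agent.H4 Cfsg.Agent.H6 Subgroup
open Cfsg.Agent.H11 (MC hh qq IsSylIn cj)
open scoped MatrixGroups

namespace PC

open Matrix

theorem lift_comm {Γ Q : Type*} [Group Γ] [Group Q] (π : Γ →* Q) (hk : ∀ g, π g = 1 → g ∈ center Γ)
    {A B : Γ} {n : ℕ} (hn : Odd n) (hA : π A ^ n = 1) (hB : π B * π B = 1)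
    (hc : π A * π B = π B * π A) : A * B = B * A := by
  have c := mem_center_iff.1 (hk (A * B * A⁻¹ * B⁻¹) (by simp [hc]))
  have cA := mem_center_iff.1 (hk (A ^ n) (by simpa using hA))
  have cB := mem_center_iff.1 (hk (B * B) (by simpa using hB))
  generalize hζ : A * B * A⁻¹ * B⁻¹ = ζ at c
  have e1 : A * B * A⁻¹ = ζ * B := by rw [← hζ]; group
  have e2 : B * A⁻¹ * B⁻¹ = A⁻¹ * ζ := by rw [← hζ]; group
  have z2 : ζ ^ 2 = 1 := by
    have : (A * B * A⁻¹) * (A * B * A⁻¹) = B * B := by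
      rw [show (A * B * A⁻¹) * (A * B * A⁻¹) = A * (B * B) * A⁻¹ by group, cB A]; group
    rw [e1, show ζ * B * (ζ * B) = ζ * (B * ζ) * B by group, c B] at this
    rw [pow_two]
    exact mul_right_cancel (b := B * B) (by rw [one_mul]; conv_rhs => rw [← this]
                                            group)
  have zn : ζ ^ n = 1 := by
    have := congrArg (· ^ n) e2
    simp only [conj_pow, inv_pow] at this
    rw [(show Commute A⁻¹ ζ from c A⁻¹).mul_pow, inv_pow,
      (show Commute B (A ^ n) from cA B).inv_right.eq] at this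
    simpa using this.symm
  obtain ⟨m, rfl⟩ := hn
  rw [pow_succ, pow_mul, z2, one_pow, one_mul] at zn
  rw [zn, one_mul] at e1
  exact mul_inv_eq_iff_eq_mul.1 e1

theorem prop3 {F : Type*} [Field F] {a b c d e f : F} (h : ¬ (a = 0 ∧ b = 0 ∧ c = 0))
    (h1 : b * f = e * c) (h2 : a * e = b * d) (h3 : c * d = a * f) :
    ∃ μ, d = μ * a ∧ e = μ * b ∧ f = μ * c := by
  by_cases ha : a = 0
  · by_cases hb : b = 0
    · have hc : c ≠ 0 := fun hc => h ⟨ha, hb, hc⟩
      exact ⟨f / c, by field_simp; linear_combination h3, by field_simp; linear_combination -h1,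
        by field_simp⟩
    · exact ⟨e / b, by field_simp; linear_combination -h2, by field_simp,
        by field_simp; linear_combination h1⟩
  · exact ⟨d / a, by field_simp, by field_simp; linear_combination h2,
      by field_simp; linear_combination -h3⟩

theorem cen_iff {F : Type*} [Field F] (A : GL (Fin 2) F) :
    ProjGenLinGroup.mk A = 1 ↔ A 0 0 - A 1 1 = 0 ∧ A 0 1 = 0 ∧ A 1 0 = 0 := by
  rw [ProjGenLinGroup.mk_eq_one, GeneralLinearGroup.mem_center_iff_val_mem_range_scalar]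
  refine ⟨fun ⟨a, e⟩ => by simp [← e], fun ⟨a, b, c⟩ => ⟨A 0 0, ?_⟩⟩
  ext i j
  fin_cases i <;> fin_cases j <;> simp [b, c, sub_eq_zero.1 a]

theorem pgl4 {F : Type*} [Field F] (h2 : (2 : F) ≠ 0) {x a b : PGL(2, F)} {n : ℕ} (hn : Odd n)
    (hx : x ^ n = 1) (ha : a * a = 1) (hb : b * b = 1) (a1 : a ≠ 1) (b1 : b ≠ 1)
    (xa : x * a = a * x) (xb : x * b = b * x) (ab : a ≠ b) : x = 1 := by
  obtain ⟨A, rfl⟩ := ProjGenLinGroup.mk_surjective x
  by_contra hA
  have key : ∀ B : GL (Fin 2) F, ProjGenLinGroup.mk B * .mk B = 1 → ProjGenLinGroup.mk B ≠ 1 →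
      ProjGenLinGroup.mk A * .mk B = .mk B * .mk A → ∃ μ, μ ≠ 0 ∧ B 0 0 + B 1 1 = 0 ∧
        B 0 0 - B 1 1 = μ * (A 0 0 - A 1 1) ∧ B 0 1 = μ * A 0 1 ∧ B 1 0 = μ * A 1 0 := by
    intro B h1 h3 h4
    have e := congrArg Units.val (lift_comm ProjGenLinGroup.mk
      (fun g => ProjGenLinGroup.mk_eq_one.1) hn hx h1 h4)
    have e0 := congrFun (congrFun e 0) 0
    have e1 := congrFun (congrFun e 0) 1
    have e2 := congrFun (congrFun e 1) 0
    rw [← map_mul, cen_iff] at h1
    simp only [Units.val_mul, mul_apply, Fin.sum_univ_two] at e0 e1 e2 h1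
    obtain ⟨μ, m⟩ := prop3 (d := B 0 0 - B 1 1) (e := B 0 1) (f := B 1 0) (mt (cen_iff A).2 hA)
      (by linear_combination e0) (by linear_combination e1) (by linear_combination e2)
    refine ⟨μ, fun z => h3 ((cen_iff B).2 (by simpa [z] using m)), ?_, m⟩
    by_contra t
    exact h3 ((cen_iff B).2 ⟨mul_right_cancel₀ t (by linear_combination h1.1),
      mul_right_cancel₀ t (by linear_combination h1.2.1),
      mul_right_cancel₀ t (by linear_combination h1.2.2)⟩)
  obtain ⟨B, rfl⟩ := ProjGenLinGroup.mk_surjective a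
  obtain ⟨C, rfl⟩ := ProjGenLinGroup.mk_surjective b
  obtain ⟨μ, m0, m1, m2, m3, m4⟩ := key B ha a1 xa
  obtain ⟨ν, n0, n1, n2, n3, n4⟩ := key C hb b1 xb
  refine ab (ProjGenLinGroup.mk_eq_mk_iff.2 ⟨Units.mk0 (ν / μ) (div_ne_zero n0 m0), ?_⟩)
  ext i j
  fin_cases i <;> fin_cases j <;> simp [mul_apply, Fin.sum_univ_two] <;> field_simp
  · exact mul_left_cancel₀ h2 (by linear_combination ν * (m1 + m2) - μ * (n1 + n2))
  · linear_combination ν * m3 - μ * n3
  · linear_combination ν * m4 - μ * n4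
  · exact mul_left_cancel₀ h2 (by linear_combination ν * (m1 - m2) - μ * (n1 - n2))

theorem card4 {Γ : Type*} [Group Γ] [Finite Γ] {M O : Subgroup Γ} [O.Normal]
    (hO : Odd (Nat.card O)) (h4 : 2 ^ (Nat.card M).factorization 2 = 4)
    (h : ∀ g ∈ M, ∀ m, Odd m → g ^ m = 1 → g ∈ O) : Nat.card M = 4 * Nat.card ↥(O ⊓ M) := by
  have h1 : IsPGroup 2 (M ⧸ O.subgroupOf M) := fun q => by
    obtain ⟨g, rfl⟩ := QuotientGroup.mk_surjective q
    obtain ⟨j, m, hm, e⟩ := Nat.exists_eq_two_pow_mul_odd (orderOf_pos (g : Γ)).ne'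
    refine ⟨j, ?_⟩
    rw [← QuotientGroup.mk_pow, QuotientGroup.eq_one_iff, mem_subgroupOf]
    exact h _ (g ^ 2 ^ j).2 m hm (by rw [coe_pow, ← pow_mul, ← e, pow_orderOf_eq_one])
  obtain ⟨j, hj⟩ := IsPGroup.iff_card.1 h1
  have h2 := card_eq_card_quotient_mul_card_subgroup (O.subgroupOf M)
  rw [hj, ← inf_subgroupOf_right, Nat.card_congr (subgroupOfEquivOfLe inf_le_right).toEquiv] at h2
  have h3 : Odd (Nat.card ↥(O ⊓ M)) := hO.of_dvd_nat (card_dvd_of_le inf_le_left)
  rw [h2, Nat.factorization_mul (by positivity) Nat.card_pos.ne', Finsupp.add_apply,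
    Nat.Prime.factorization_pow Nat.prime_two, Finsupp.single_eq_same,
    Nat.factorization_eq_zero_of_not_dvd h3.not_two_dvd_nat, add_zero] at h4
  rw [h2, h4]

end PC

variable {G : Type*} [Group G] [Fintype G] {P : Sylow 2 G} {k : ℕ} {X Y : ZMod (2 ^ k) → G}
  (h : MC (P : Subgroup G) k (hh k) 0 X Y)
include h

theorem cen0 (hc : X (hh k) ∈ center G) {p : ℕ} [Fact p.Prime] {ρ : G →* PGL(2, ZMod p)}
    {O : Subgroup G} (hr : RH (X (hh k)) (X (qq k)) (Y 0) p ρ O) :
    ∃ a b : ℕ, Nat.card O * Nat.card (normalizer (zpowers (X (qq k)) : Set G)) = a * b *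
      Nat.card ↥(normalizer (zpowers (X (qq k)) : Set G) ⊓ centralizer {Y 0}) ^ 2 ∧
      a ∣ Nat.card G ∧ b ∣ Nat.card G ∧
      (a * b = 1 → ∀ g ∈ O, g * X (qq k) = X (qq k) * g ∧ g * Y 0 = Y 0 * g) := by
  have := hr.nO
  have tc := mem_center_iff.1 hc
  have tt : X (hh k) * X (hh k) = 1 := H11.mul_self_of_orderOf_two h.orderOf_z
  have ss : Y 0 * Y 0 = 1 := H11.mul_self_of_orderOf_two h.qd_o0
  have iv : ∀ g ∈ O, g * g = 1 → g = 1 := fun g hg e => orderOf_eq_one_iff.1 <|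
    Nat.eq_one_of_dvd_coprimes (Nat.coprime_two_left.2 hr.oddO)
      (orderOf_dvd_of_pow_eq_one (by rw [pow_two, e])) (O.orderOf_dvd_natCard hg)
  have tO : X (hh k) ∉ O := fun e => H11.hh_ne h.one_le (h.X_eq_one.1 (iv _ e tt))
  have rt : ρ (X (hh k)) = 1 := (hr.ker _).2 (.inr (tt ▸ O.one_mem))
  have rz : ρ (X (qq k)) * ρ (X (qq k)) = 1 := by rw [← map_mul, zz h, rt]
  have z1 : ρ (X (qq k)) ≠ 1 := fun e => tO <| by
    rcases (hr.ker _).1 e with e | e
    · exact zz h ▸ O.mul_mem e e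
    · have := O.mul_mem e e
      rwa [mul_assoc, ← mul_assoc (X (qq k)), tc, mul_assoc, zz h, tt, mul_one] at this
  have s1 : ρ (Y 0) ≠ 1 := fun e => by
    rcases (hr.ker _).1 e with e | e
    · exact h.Y_ne_one _ (iv _ e ss)
    · have := iv _ e (by rw [mul_assoc, ← mul_assoc (Y 0), tc, mul_assoc, ss, mul_one, tt])
      rw [h.XY] at this
      exact h.Y_ne_one _ this
  have PN := h.le_normalizer_zpowers (qq k)
  have e4 : Nat.card ↥(normalizer (zpowers (X (qq k)) : Set G) ⊓ centralizer {Y 0}) = 4 * _ :=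
    PC.card4 hr.oddO (by
      rw [← ((syl_s h hc).of_le (le_inf ((h.closure_XY_le _ _).trans PN) (syl_s h hc).le)
        inf_le_right).card_eq_pow, (h.isKleinFour_four (a := 0) (by simp)).card_four])
      fun g hg m hm e => by
        have p2 : (2 : ZMod p) ≠ 0 := fun e => hr.p2 ((Nat.prime_dvd_prime_iff_eq Fact.out
          Nat.prime_two).1 ((ZMod.natCast_eq_zero_iff 2 p).1 (by exact_mod_cast e)))
        have := PC.pgl4 p2 (x := ρ g) hm (by rw [← map_pow, e, map_one]) rz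
          (by rw [← map_mul, ss, map_one]) z1 s1 (by
            rw [← mul_inv_eq_iff_eq_mul, ← map_inv, ← map_mul, ← map_mul]
            rcases conj_z_of_mem h hg.1 with e | e <;> rw [e]
            rw [map_inv, inv_eq_of_mul_eq_one_left rz])
          (by rw [← map_mul, H11.mem_cent1.1 hg.2, map_mul]) fun e => hr.nc (e ▸ IsConj.refl _)
        refine ((hr.ker _).1 this).resolve_right fun e' => tO ?_
        have := O.pow_mem e' m
        obtain ⟨m, rfl⟩ := hm
        rwa [(show Commute (X (hh k)) g from (tc g).symm).mul_pow, e, mul_one, pow_succ, pow_mul,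
          pow_two, tt, one_pow, one_mul] at this
  generalize hM : normalizer (zpowers (X (qq k)) : Set G) ⊓ centralizer {Y 0} = M at e4
  have k3 : 3 ≤ k := (h.he.resolve_left (H11.hh_ne h.one_le)).1
  have d16 : 16 ∣ Nat.card (normalizer (zpowers (X (qq k)) : Set G)) :=
    (h.card ▸ pow_dvd_pow 2 (show 4 ≤ k + 1 by omega) : 2 ^ 4 ∣ _).trans (card_dvd_of_le PN)
  have wO := card_dvd_of_le (inf_le_left : O ⊓ M ≤ O)
  obtain ⟨a, ha⟩ := Nat.Coprime.mul_dvd_of_dvd_of_dvd
    ((Nat.coprime_two_left.2 (hr.oddO.of_dvd_nat wO)).pow_left 4) d16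
    (card_dvd_of_le (inf_le_right.trans (hM ▸ inf_le_left)))
  obtain ⟨b, hb⟩ := wO
  refine ⟨a, b, by rw [e4, ha]; conv_lhs => rw [hb]
                   ring, (Dvd.intro_left _ ha.symm).trans (card_subgroup_dvd_card _),
    (Dvd.intro_left _ hb.symm).trans (card_subgroup_dvd_card _), fun e g hg => ?_⟩
  rw [Nat.eq_one_of_mul_eq_one_left e, mul_one] at hb
  have : g ∈ O ⊓ M := (eq_of_le_of_card_ge inf_le_left hb.le).symm ▸ hg
  have hg' := hM ▸ this.2
  refine ⟨?_, H11.mem_cent1.1 hg'.2⟩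
  rcases conj_z_of_mem h hg'.1 with e | e
  · exact mul_inv_eq_iff_eq_mul.1 e
  · have := O.mul_mem hg (hr.nO.conj_mem _ (O.inv_mem hg) (X (qq k)))
    rw [show g * (X (qq k) * g⁻¹ * (X (qq k))⁻¹) = g * X (qq k) * g⁻¹ * (X (qq k))⁻¹ by group, e,
      ← mul_inv_rev, zz h] at this
    exact absurd (O.inv_mem_iff.1 this) tO

theorem cen [Fintype (centralizer ({X (hh k)} : Set G))] {p : ℕ} [Fact p.Prime]
    {ρ : centralizer ({X (hh k)} : Set G) →* PGL(2, ZMod p)}
    {O : Subgroup (centralizer ({X (hh k)} : Set G))} (hr : RH (tC h) (zC h) (sC h) p ρ O) :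
    ∃ ω : ℕ, 2 * Nat.card (centralizer ({X (hh k)} : Set G)) *
      Nat.card (normalizer (zpowers (X (qq k)) : Set G)) = p * (4 * (p ^ 2 - 1) * ω) *
      (Nat.card ↥(normalizer (zpowers (X (qq k)) : Set G) ⊓ centralizer {Y 0})) ^ 2 ∧
      (∀ r : ℕ, r.Prime → r ∣ ω → r ∣ Nat.card (centralizer ({X (hh k)} : Set G))) ∧
      (ω = 1 → ∀ g ∈ O, g * zC h = zC h * g ∧ g * sC h = sC h * g) := by
  have hC := h.sylow_subtype h.le_cent_z
  obtain ⟨a, b, e, ha, hb, h1⟩ := cen0 hC (tC_center h) hr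
  have eN : normalizer (zpowers (zC h) : Set (centralizer ({X (hh k)} : Set G))) =
      (normalizer (zpowers (X (qq k)) : Set G)).subgroupOf _ := by
    ext g
    exact ⟨fun hg => mem_N_of h ((conj_z_of_mem hC hg).imp (congrArg Subtype.val)
      (congrArg Subtype.val)), fun hg => mem_N_of hC ((conj_z_of_mem h hg).imp Subtype.ext
        Subtype.ext)⟩
  have eM : normalizer (zpowers (zC h) : Set (centralizer ({X (hh k)} : Set G))) ⊓
      centralizer {sC h} = (normalizer (zpowers (X (qq k)) : Set G) ⊓ centralizer {Y 0}).subgroupOf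
        _ := by
    ext g
    rw [eN, mem_subgroupOf, mem_inf, mem_inf, mem_subgroupOf, H11.mem_cent1, H11.mem_cent1,
      Subtype.ext_iff]
    rfl
  change _ * Nat.card (normalizer (zpowers (zC h) : Set (centralizer ({X (hh k)} : Set G)))) = _ *
    Nat.card ↥(normalizer (zpowers (zC h) : Set (centralizer ({X (hh k)} : Set G))) ⊓
      centralizer {sC h}) ^ 2 at e
  rw [eM, eN, Nat.card_congr (subgroupOfEquivOfLe (N_le_C h)).toEquiv,
    Nat.card_congr (subgroupOfEquivOfLe (inf_le_left.trans (N_le_C h))).toEquiv] at e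
  refine ⟨a * b, ?_, fun r hr' d => ((Nat.Prime.dvd_mul hr').1 d).elim (·.trans ha) (·.trans hb),
    h1⟩
  rw [hr.card]
  linear_combination 4 * p * (p ^ 2 - 1) * e

end Cfsg.Agent.H26.SW
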