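import Cfsg.Agent.H26.SW5
import Cfsg.Agent.H4.PermChar

/-!
# The Steinberg character of the involution centralizer
-/

set_option linter.unusedSectionVars false

namespace Cfsg.Agent.H26.SW

open Cfsg Cfsg.Agent.H4 Cfsg.Agent.H6 Subgroup
open Cfsg.Agent.H11 (MC hh qq IsSylIn cj)
open scoped MatrixGroups Pointwise
open MulAction

namespace StP

open Cfsg.Agent.H12 (P1 inf aff affPGL unip)

theorem mem_of_pow {Γ : Type*} [Group Γ] {H : Subgroup Γ} {x : Γ} {n : ℕ}
    (h : n.Coprime (orderOf x)) (hx : x ^ n ∈ H) : x ∈ H := by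
  obtain ⟨m, hm⟩ := exists_pow_eq_self_of_coprime h
  exact hm ▸ H.pow_mem hx m

variable {F : Type*} [Field F]

theorem swap {γ : PGL(2, F)} {a b : P1 F} (hab : a ≠ b) (h1 : γ • a = b) (h2 : γ • b = a) :
    γ * γ = 1 := by
  obtain ⟨c, c1, c2⟩ := H12.exists_third_point a b
  obtain ⟨K, rfl, rfl, -⟩ := H12.exists_pgl_std hab c1 c2
  have e1 : (K⁻¹ * γ * K) • inf F = aff 0 := by rw [mul_smul, mul_smul, h1, inv_smul_smul]
  have e2 : (K⁻¹ * γ * K) • aff (0 : F) = inf F := by rw [mul_smul, mul_smul, h2, inv_smul_smul]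
  rw [← pow_two, ← H12.conj_pow_eq_one_iff (k := K), pow_two]
  generalize K⁻¹ * γ * K = δ at e1 e2
  refine H12.pgl_eq_one_of_fix (H12.inf_ne_aff (0 : F)) (H12.inf_ne_aff 1) (by simp)
    (by rw [mul_smul, e1, e2]) (by rw [mul_smul, e2, e1]) ?_
  obtain ⟨g, rfl⟩ := Matrix.ProjGenLinGroup.mk_surjective δ
  rw [H12.pgl_mk_smul, H12.gl_smul_inf_eq_aff_iff] at e1
  rw [H12.pgl_mk_smul, H12.gl_smul_aff_eq_inf_iff] at e2
  rw [← map_mul, H12.pgl_mk_smul, H12.gl_smul_aff_eq_aff_iff]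
  simp only [zero_mul, mul_zero, zero_add] at e1 e2
  simp [Matrix.mul_apply, Fin.sum_univ_two, e1, e2, mul_comm]

theorem invConj (h2 : (2 : F) ≠ 0) {γ : PGL(2, F)} {x : P1 F} (hγ : γ * γ = 1) (h1 : γ ≠ 1)
    (hx : γ • x = x) : IsConj γ (affPGL (-1) 0) := by
  obtain ⟨K, rfl⟩ := H12.exists_pgl_point x
  obtain ⟨a, b, e⟩ := H12.exists_affPGL_of_fix (H12.conj_smul_eq_iff.2 hx)
  have e2 : affPGL a b * affPGL a b = 1 := by
    rw [← e, ← pow_two, H12.conj_pow_eq_one_iff, pow_two, hγ]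
  rw [H12.affPGL_mul, H12.affPGL_eq_one] at e2
  have c1 : IsConj γ (affPGL a b) := isConj_iff.2 ⟨K⁻¹, by rw [inv_inv, e]⟩
  have ha : (a : F) * a = 1 := by rw [← Units.val_mul, e2.1, Units.val_one]
  rcases mul_self_eq_one_iff.1 ha with ha | ha
  · exfalso
    have hb : b = 0 := by
      have := e2.2
      rw [ha] at this
      exact (mul_eq_zero.1 (show 2 * b = 0 by linear_combination this)).resolve_left h2
    rw [H12.affPGL_eq_one.2 ⟨Units.ext ha, hb⟩, isConj_one_left] at c1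
    exact h1 c1
  · obtain rfl : a = -1 := Units.ext ha
    refine c1.trans (IsConj.symm (isConj_iff.2 ⟨affPGL 1 (b / 2), ?_⟩))
    rw [mul_inv_eq_iff_eq_mul, H12.affPGL_mul, H12.affPGL_mul, H12.affPGL_inj]
    refine ⟨by simp, ?_⟩
    simp only [Units.val_neg, Units.val_one]
    field_simp
    ring

theorem fix_of_comm {γ δ : PGL(2, F)} (hc : δ * γ = γ * δ) {x : P1 F} (hx : γ • x = x) :
    γ • δ • x = δ • x := by rw [← mul_smul, ← hc, mul_smul, hx]

/-- an element commuting with `γ ≠ 1` fixes or swaps the fixed points of `γ` -/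
theorem sq_fix {γ δ : PGL(2, F)} (h1 : γ ≠ 1) (hc : δ * γ = γ * δ) {x : P1 F} (hx : γ • x = x) :
    δ • δ • x = x := by
  have h2 := fix_of_comm hc hx
  have h3 := fix_of_comm hc h2
  by_contra h4
  by_cases h5 : δ • x = x
  · exact h4 (by rw [h5, h5])
  · exact h1 (H12.pgl_eq_one_of_fix (Ne.symm h5) (Ne.symm h4)
      (fun e => h5 (smul_left_cancel δ e).symm) hx h2 h3)

theorem cases02 (p : ℕ) [Fact p.Prime] [CharP F p] {γ : PGL(2, F)} (h : γ ^ p ≠ 1) :
    fixedBy (P1 F) γ = ∅ ∨ ∃ a b, a ≠ b ∧ fixedBy (P1 F) γ = {a, b} := by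
  rcases (fixedBy (P1 F) γ).eq_empty_or_nonempty with e | ⟨x, hx⟩
  · exact Or.inl e
  · obtain ⟨y, h1, h2⟩ := H12.exists_fixedBy_of_not_mem_unip hx
      fun hu => h ((H12.mem_unip_iff p).1 hu).2
    exact Or.inr ⟨x, y, h1, h2⟩

theorem ncard_conj {γ δ : PGL(2, F)} (h : IsConj γ δ) :
    (fixedBy (P1 F) γ).ncard = (fixedBy (P1 F) δ).ncard := by
  obtain ⟨c, rfl⟩ := isConj_iff.1 h
  rw [← smul_fixedBy, Set.ncard_smul_set]

theorem free {G : Type*} [Group G] [Finite G] [Finite F] (ρ : G →* PGL(2, F)) (H : Subgroup G)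
    {t : G} (ht : t ∈ H) (ho : orderOf t = 2) (S : Set (P1 F))
    (hS : ∀ g ∈ H, ∀ x ∈ S, ρ g • x ∈ S)
    (hf : ∀ g ∈ H, ∀ x ∈ S, ρ g • x = x → g ∈ zpowers t) : Nat.card H ∣ 2 * S.ncard := by
  letI : MulAction H (P1 F) := MulAction.compHom _ (ρ.comp H.subtype)
  let T : SubMulAction H (P1 F) := ⟨S, fun g {x} hx => hS g g.2 x hx⟩
  have h1 : (zpowers t).relIndex H ∣ Nat.card T :=
    dvd_card_of_forall_dvd_index_stabilizer (G := H) T fun x =>
      index_dvd_of_le fun g hg => hf g g.2 x x.2 (congrArg Subtype.val hg)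
  have h2 := ((zpowers t).subgroupOf H).card_mul_index
  rw [Nat.card_congr (subgroupOfEquivOfLe (zpowers_le.2 ht)).toEquiv, Nat.card_zpowers, ho] at h2
  rw [← h2, ← Nat.card_coe_set_eq]
  exact Nat.mul_dvd_mul_left 2 h1

end StP

open Cfsg.Agent.H12 (P1 inf aff affPGL unip)

variable {G : Type*} [Group G] [Fintype G] {P : Sylow 2 G} {k : ℕ} {X Y : ZMod (2 ^ k) → G}
  (h : MC (P : Subgroup G) k (hh k) 0 X Y)
include h

theorem st (hc : X (hh k) ∈ center G) (hu : IsConj (X (qq k)) (Y 1)) {p : ℕ} [hp : Fact p.Prime]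
    {ρ : G →* PGL(2, ZMod p)} {O : Subgroup G} (hr : RH (X (hh k)) (X (qq k)) (Y 0) p ρ O) :
    ∃ (St : G → ℤ) (ε : ℤ), StD (X (hh k)) St ε p ∧ (2 : ℤ) ^ (k - 1) ∣ -ε * p - 1 := by
  classical
  haveI : Fact (Nat.Prime 2) := ⟨Nat.prime_two⟩
  have po : Odd p := hp.out.odd_of_ne_two hr.p2
  have p3 : 3 ≤ p := by have := hp.out.two_le; have := hr.p2; omega
  have k3 := h.qd_three
  have two0 : (2 : ZMod p) ≠ 0 := fun e => hr.p2 ((Nat.prime_dvd_prime_iff_eq hp.out
    Nat.prime_two).1 ((ZMod.natCast_eq_zero_iff 2 p).1 (by exact_mod_cast e)))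
  have htt := H11.mul_self_of_orderOf_two h.orderOf_z
  have rt : ρ (X (hh k)) = 1 := (hr.ker _).2 (Or.inr (htt ▸ O.one_mem))
  have cΩ : Nat.card (P1 (ZMod p)) = p + 1 := by rw [H12.card_P1, Nat.card_zmod]
  let f : G → ℕ := fun g => (fixedBy (P1 (ZMod p)) (ρ g)).ncard
  have oO : ∀ w ∈ O, ∀ j, w ^ 2 ^ j = 1 → w = 1 := fun w hw j e => by
    have h1 : orderOf w ∣ Nat.card O := O.orderOf_dvd_natCard hw
    have h2 : orderOf w ∣ 2 ^ j := orderOf_dvd_of_pow_eq_one e
    rw [← orderOf_eq_one_iff]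
    exact Nat.eq_one_of_dvd_coprimes
      ((Nat.coprime_two_right.2 hr.oddO).pow_right j) h1 h2
  have r1 : ∀ w j, orderOf w = 2 ^ j → ρ w = 1 → w = 1 ∨ w = X (hh k) := by
    intro w j hw e
    have e1 : w ^ 2 ^ (j + 1) = 1 := by rw [pow_succ, pow_mul, ← hw, pow_orderOf_eq_one, one_pow]
    rcases (hr.ker w).1 e with e | e
    · exact Or.inl (oO w e _ e1)
    · right
      have hcm : Commute (X (hh k)) w := (mem_center_iff.1 hc w).symm
      have := oO _ e (j + 1) (by
        rw [hcm.mul_pow, e1, mul_one, pow_succ', pow_mul, pow_two, htt, one_pow])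
      exact mul_left_cancel (this.trans htt.symm)
  have rp : ∀ w j, orderOf w = 2 ^ j → ρ w ≠ 1 → ρ w ^ p ≠ 1 := by
    intro w j hw e e'
    have h1 : orderOf (ρ w) ∣ 2 ^ j := hw ▸ orderOf_map_dvd ρ w
    exact e (orderOf_eq_one_iff.1 (Nat.eq_one_of_dvd_coprimes
      ((Nat.coprime_two_right.2 po).pow_right j) (orderOf_dvd_of_pow_eq_one e') h1))
  have pp : ∀ g w, IsPPart 2 g w → ρ w ≠ 1 → f g = f w := by
    rintro g w ⟨y, rfl, hcm, ⟨j, hj⟩, hy⟩ e
    have cy : (orderOf y).Coprime 2 := (Nat.prime_two.coprime_iff_not_dvd.2 hy).symm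
    show Set.ncard _ = Set.ncard _
    congr 1
    ext x
    rw [mem_fixedBy, mem_fixedBy]
    constructor
    · intro hx
      have h1 : w * y ∈ (stabilizer PGL(2, ZMod p) x).comap ρ := hx
      have h2 := pow_mem h1 (orderOf y)
      rw [hcm.mul_pow, pow_orderOf_eq_one, mul_one] at h2
      exact StP.mem_of_pow (H := (stabilizer PGL(2, ZMod p) x).comap ρ)
        (hj ▸ cy.pow_right j) h2
    · intro hx
      have h1 := StP.sq_fix e (δ := ρ y) (by rw [← map_mul, ← map_mul, hcm.eq]) hx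
      have h2 : y ^ 2 ∈ (stabilizer PGL(2, ZMod p) x).comap ρ := by
        rw [mem_comap, mem_stabilizer_iff, pow_two, map_mul, mul_smul]; exact h1
      have h3 : ρ y • x = x := StP.mem_of_pow cy.symm h2
      rw [map_mul, mul_smul, h3, hx]
  have fc : ∀ {a b : G}, IsConj a b → f a = f b := fun e => StP.ncard_conj (ρ.map_isConj e)
  have nb : ∀ w, (∃ j, orderOf w = 2 ^ j) → w * w ≠ 1 → ρ w ≠ 1 := by
    rintro w ⟨j, hj⟩ e e'
    rcases r1 w j hj e' with rfl | rfl
    · exact e (one_mul 1)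
    · exact e htt
  have oz : orderOf (X (qq k)) = 2 ^ 2 := h.qd_oq
  have os : orderOf (Y 0) = 2 ^ 1 := h.qd_o0
  have rz : ρ (X (qq k)) ≠ 1 := nb _ ⟨_, oz⟩ (z_big h)
  have rs : ρ (Y 0) ≠ 1 := fun e => (r1 _ _ os e).elim (h.Y_ne_one 0) (h.Y_ne_X _ _)
  have zz' : ρ (X (qq k)) * ρ (X (qq k)) = 1 := by rw [← map_mul, zz h, rt]
  have ss' : ρ (Y 0) * ρ (Y 0) = 1 := by
    rw [← map_mul, H11.mul_self_of_orderOf_two h.qd_o0, map_one]
  have inv_s : ∀ w, orderOf w = 2 → w ≠ X (hh k) → IsConj (Y 0) w := by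
    intro w hw hne
    obtain ⟨g, hg⟩ := exists_conj_mem_sylow P ⟨1, hw⟩
    rcases h.qd_invol hg ((orderOf_conj' _ _).trans hw) with e | e
    · exact absurd (eq_t_of_isConj h hc (e ▸ (H11.isConj_conj g w).symm)) hne
    · exact e.trans (H11.isConj_conj g w).symm
  have zfix : ∀ y ∈ zpowers (X 1), y * y ≠ 1 → ∀ x : P1 (ZMod p), ρ y • x = x →
      ρ (X (qq k)) • x = x := fun y hy e x hx =>
    (zpowers_le (H := (stabilizer PGL(2, ZMod p) x).comap ρ)).2 hx (z_mem h hy e)
  have small : ∀ y ∈ zpowers (X 1), y * y = 1 → y ∈ zpowers (X (hh k)) := fun y hy e => by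
    rcases (small_iff h (y := ⟨y, hy⟩)).1 e with e | e
    · rw [show y = 1 from congrArg Subtype.val e]; exact one_mem _
    · rw [show y = X (hh k) from congrArg Subtype.val e]; exact mem_zpowers _
  have cH : Nat.card (zpowers (X 1)) = 2 * 2 ^ (k - 1) := by
    rw [Nat.card_zpowers, h.orderOf_X_one, ← pow_succ']; congr 1; omega
  -- the sign
  have key : ∃ ε : ℤ, (ε = 1 ∨ ε = -1) ∧ ε * ((f (Y 0) : ℤ) - 1) = 1 ∧
      (∀ y ∈ zpowers (X 1), y * y ≠ 1 → ε * ((f y : ℤ) - 1) = -1) ∧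
      (2 : ℤ) ^ (k - 1) ∣ -ε * p - 1 := by
    rcases StP.cases02 p (rp _ _ oz rz) with ez | ⟨a, b, hab, ez⟩
    · have big : ∀ y ∈ zpowers (X 1), y * y ≠ 1 → ∀ x : P1 (ZMod p), ρ y • x ≠ x :=
        fun y hy e x hx => by
          have : x ∈ fixedBy (P1 (ZMod p)) (ρ (X (qq k))) := zfix y hy e x hx
          rw [ez] at this; exact this
      have big0 : ∀ y ∈ zpowers (X 1), y * y ≠ 1 → f y = 0 := fun y hy e => by
        show Set.ncard _ = 0
        rw [(Set.eq_empty_iff_forall_notMem (s := fixedBy (P1 (ZMod p)) (ρ y))).2 (big y hy e),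
          Set.ncard_empty]
      refine ⟨1, Or.inl rfl, ?_, fun y hy e => by rw [big0 y hy e]; norm_num, ?_⟩
      · rcases StP.cases02 p (rp _ _ os rs) with es | ⟨a, b, hab, es⟩
        · exfalso
          have d := StP.free ρ P (h.X_mem _) h.orderOf_z Set.univ (fun _ _ _ _ => trivial)
            fun g hg x _ hx => by
              have fp : f g ≠ 0 := ((Set.ncard_pos (s := fixedBy (P1 (ZMod p)) (ρ g))).2 ⟨x, hx⟩).ne'
              have hj := exists_orderOf_eq_of_mem Nat.prime_two P.isPGroup' hg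
              by_cases e : g * g = 1
              · by_cases e1 : g = 1
                · rw [e1]; exact one_mem _
                by_cases e2 : g = X (hh k)
                · rw [e2]; exact mem_zpowers _
                rw [← fc (inv_s g (orderOf_eq_prime (by rw [pow_two, e]) e1) e2)] at fp
                exact absurd (show Set.ncard _ = 0 by rw [es, Set.ncard_empty]) fp
              · obtain ⟨y, hy, e1, e2⟩ := exists_big h hu hj e
                exact absurd ((fc e2).trans (big0 y hy e1)) fp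
          rw [Set.ncard_univ, cΩ, h.card] at d
          obtain ⟨c, hc'⟩ := d
          obtain ⟨m, hm⟩ := po
          apply P.not_dvd_index
          have e1 := (P : Subgroup G).card_mul_index
          rw [h.card, hr.card, show p ^ 2 - 1 = (p + 1) * (2 * m) by
            rw [hm]; exact Nat.sub_eq_of_eq_add (by ring)] at e1
          have e2 : 2 ^ (k + 1) * (P : Subgroup G).index =
              2 ^ (k + 1) * (2 * (p * c * m * Nat.card O)) := by
            rw [e1]
            calc p * ((p + 1) * (2 * m)) * (2 * Nat.card O)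
                = p * (2 * (p + 1)) * (2 * m) * Nat.card O := by ring
              _ = _ := by rw [hc']; ring
          exact ⟨_, Nat.eq_of_mul_eq_mul_left (by positivity) e2⟩
        · rw [show f (Y 0) = 2 by show Set.ncard _ = 2; rw [es, Set.ncard_pair hab]]; norm_num
      · have d := StP.free ρ (zpowers (X 1)) (h.X_mem_zpowers_one _) h.orderOf_z Set.univ
          (fun _ _ _ _ => trivial) fun g hg x _ hx =>
            small g hg (by by_contra e; exact big g hg e x hx)
        rw [Set.ncard_univ, cΩ, cH] at d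
        obtain ⟨c, hc'⟩ := Nat.dvd_of_mul_dvd_mul_left two_pos d
        refine ⟨-c, ?_⟩
        have : ((p + 1 : ℕ) : ℤ) = (2 ^ (k - 1) * c : ℕ) := by rw [hc']
        push_cast at this
        linear_combination -this
    · have ha : ρ (X (qq k)) • a = a := (show a ∈ fixedBy (P1 (ZMod p)) _ by rw [ez]; simp)
      have cz : ∀ y ∈ zpowers (X 1), ρ y * ρ (X (qq k)) = ρ (X (qq k)) * ρ y := fun y hy => by
        obtain ⟨c, rfl⟩ := exX h hy
        rw [← map_mul, ← map_mul, h.X_comm]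
      refine ⟨-1, Or.inr rfl, ?_, fun y hy e => ?_, ?_⟩
      · rcases StP.cases02 p (rp _ _ os rs) with es | ⟨a', b', hab', es⟩
        · rw [show f (Y 0) = 0 by show Set.ncard _ = 0; rw [es, Set.ncard_empty]]; norm_num
        · have ha' : ρ (Y 0) • a' = a' := (show a' ∈ fixedBy (P1 (ZMod p)) _ by rw [es]; simp)
          exact absurd ((StP.invConj two0 zz' rz ha).trans (StP.invConj two0 ss' rs ha').symm)
            hr.nc
      · obtain ⟨j, hj⟩ := powH h hy
        have ya : ρ y • a = a := by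
          by_contra e1
          have e2 := StP.swap (Ne.symm e1) rfl (StP.sq_fix rz (cz y hy) ha)
          rw [← map_mul] at e2
          obtain ⟨j', hj'⟩ := powH h (mul_mem hy hy)
          have e3 := (r1 _ _ hj' e2).resolve_left e
          obtain ⟨c, rfl⟩ := exX h hy
          have e4 : orderOf (X c) = 4 := by
            rw [H11.orderOf_eq_four_iff, e3]
            exact ⟨fun e => by simpa [e] using h.orderOf_z, htt⟩
          rcases h.orderOf_X_four.1 e4 with rfl | rfl
          · exact e1 ha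
          · exact e1 (by rw [← h.X_inv, map_inv, inv_smul_eq_iff, ha])
        rcases StP.cases02 p (rp _ _ hj (nb y ⟨j, hj⟩ e)) with ey | ⟨a', b', hab', ey⟩
        · have : a ∈ fixedBy (P1 (ZMod p)) (ρ y) := ya
          rw [ey] at this; exact this.elim
        · rw [show f y = 2 by show Set.ncard _ = 2; rw [ey, Set.ncard_pair hab']]; norm_num
      · have d := StP.free ρ (zpowers (X 1)) (h.X_mem_zpowers_one _) h.orderOf_z
          (fixedBy (P1 (ZMod p)) (ρ (X (qq k))))ᶜ
          (fun g hg x hx hx' => hx (by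
            have := StP.fix_of_comm (cz _ (inv_mem hg)) hx'
            rwa [map_inv, inv_smul_smul] at this))
          fun g hg x hx' hx => small g hg (by by_contra e; exact hx' (zfix g hg e x hx))
        have e1 := Set.ncard_add_ncard_compl (fixedBy (P1 (ZMod p)) (ρ (X (qq k))))
        rw [cΩ] at e1
        rw [cH] at d
        obtain ⟨c, hc'⟩ := Nat.dvd_of_mul_dvd_mul_left two_pos d
        rw [hc', ez, Set.ncard_pair hab] at e1
        refine ⟨c, ?_⟩
        have : ((2 + 2 ^ (k - 1) * c : ℕ) : ℤ) = (p + 1 : ℕ) := by rw [e1]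
        push_cast at this
        linear_combination -this
  obtain ⟨ε, hε, k1, k2, k4⟩ := key
  have f1 : ∀ g, ρ g = 1 → f g = p + 1 := fun g e => by
    show Set.ncard _ = _
    rw [e, fixedBy_one_eq_univ, Set.ncard_univ, cΩ]
  have fu : ∀ g x, ρ g ∈ unip x → ρ g ≠ 1 → f g = 1 := fun g x e e' => by
    show Set.ncard _ = _
    rw [H12.fixedBy_of_mem_unip e e', Set.ncard_singleton]
  refine ⟨fun g => (f g : ℤ) - 1, ε, ⟨?_, ?_, po, p3, hε, fun g => ?_, fun g w hw ho hne => ?_,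
    fun g w hw e => ?_, fun g hg => ?_, ?_⟩, k4⟩
  · letI : MulAction G (P1 (ZMod p)) := MulAction.compHom _ ρ
    have h2 : IsMultiplyPretransitive G (P1 (ZMod p)) 2 := by
      rw [is_two_pretransitive_iff]
      intro a b c d hab hcd
      obtain ⟨x, x1, x2⟩ := H12.exists_third_point a b
      obtain ⟨y, y1, y2⟩ := H12.exists_third_point c d
      obtain ⟨γ, g1, g2, -⟩ := H12.exists_pgl_triple hab x1 x2 hcd y1 y2
      obtain ⟨g, rfl⟩ := hr.sur γ
      exact ⟨g, g1, g2⟩
    haveI : Nontrivial (P1 (ZMod p)) := ⟨_, _, H12.inf_ne_aff 0⟩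
    haveI : IsPretransitive G (P1 (ZMod p)) := isPretransitive_of_is_two_pretransitive
    convert (isIrr_permChar_sub_one_iff (G := G) (P1 (ZMod p))).2 h2 using 1
    funext g
    simp only [Pi.sub_apply, permChar, Nat.card_coe_set_eq]
    push_cast
    rfl
  · rw [f1 1 (map_one ρ)]; push_cast; ring
  · simp only [f, map_mul, rt, one_mul]
  · have e := inv_s w ho hne
    have e' : ρ w ≠ 1 := fun e' => (r1 w 1 ho e').elim (fun e => by simp [e] at ho) hne
    rw [pp g w hw e', ← fc e, k1]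
  · obtain ⟨y', -, -, hj, -⟩ := id hw
    obtain ⟨y, hy, e1, e2⟩ := exists_big h hu hj e
    rw [pp g w hw (nb w hj e), fc e2, k2 y hy e1]
  · have ev : Even (f g) := by
      by_cases e : ρ g = 1
      · rw [f1 g e]; exact po.add_one
      by_cases e' : ρ g ^ p = 1
      swap
      · rcases StP.cases02 p e' with eg | ⟨a, b, hab, eg⟩
        · rw [show f g = 0 by show Set.ncard _ = 0; rw [eg, Set.ncard_empty]]; exact Even.zero
        · rw [show f g = 2 by show Set.ncard _ = 2; rw [eg, Set.ncard_pair hab]]; exact even_two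
      rcases (fixedBy (P1 (ZMod p)) (ρ g)).eq_empty_or_nonempty with eg | ⟨x, hx⟩
      · rw [show f g = 0 by show Set.ncard _ = 0; rw [eg, Set.ncard_empty]]; exact Even.zero
      exfalso
      have ex := H12.fixedBy_of_mem_unip ((H12.mem_unip_iff p).2 ⟨hx, e'⟩) e
      have hz : IsPGroup 2 (zpowers (X (qq k))) := P.isPGroup'.to_le (h.zpowers_le _)
      obtain ⟨q, hq⟩ := hz.nonempty_fixed_point_of_prime_not_dvd_card
        (G ⧸ centralizer ({g} : Set G)) hg
      obtain ⟨c, rfl⟩ := QuotientGroup.mk_surjective q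
      have h1 : ((X (qq k) * c : G) : G ⧸ centralizer ({g} : Set G)) = c :=
        hq ⟨_, mem_zpowers _⟩
      have h2 := mem_centralizer_singleton_iff.1 (inv_mem (QuotientGroup.eq.1 h1))
      obtain ⟨w, hw⟩ : ∃ w, w = ((X (qq k) * c)⁻¹ * c)⁻¹ := ⟨_, rfl⟩
      rw [← hw] at h2
      have hw' : w = c⁻¹ * X (qq k) * c⁻¹⁻¹ := by rw [hw]; group
      have ow : orderOf w = 2 ^ 2 := by rw [hw', orderOf_conj']; exact oz
      have rw1 : ρ w ≠ 1 := fun e => rz (by
        rw [hw', map_mul, map_mul, map_inv ρ c⁻¹, conj_eq_one_iff] at e; exact e)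
      have cm : ρ w * ρ g = ρ g * ρ w := by rw [← map_mul, ← map_mul, h2]
      have wx : ρ w • x = x := by
        have : ρ w • x ∈ fixedBy (P1 (ZMod p)) (ρ g) := StP.fix_of_comm cm hx
        rw [ex] at this; exact this
      obtain ⟨y, hxy, ew⟩ := H12.exists_fixedBy_of_not_mem_unip wx
        fun hu => rp _ _ ow rw1 ((H12.mem_unip_iff p).1 hu).2
      have hy : ρ w • y = y := (show y ∈ fixedBy (P1 (ZMod p)) _ by rw [ew]; simp)
      have h3 : ρ g • y ∈ fixedBy (P1 (ZMod p)) (ρ w) := StP.fix_of_comm cm.symm hy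
      rw [ew] at h3
      rcases h3 with h3 | h3
      · exact hxy (smul_left_cancel (ρ g) (hx.trans h3.symm))
      · have : y ∈ fixedBy (P1 (ZMod p)) (ρ g) := h3
        rw [ex] at this; exact hxy this.symm
    exact ((Int.even_coe_nat _).2 ev).sub_odd odd_one
  · obtain ⟨u0, hu0⟩ := hr.sur (affPGL 1 1)
    obtain ⟨j, m, hm, ho⟩ := Nat.exists_eq_two_pow_mul_odd (orderOf_pos u0).ne'
    have ru : ρ (u0 ^ 2 ^ j) = affPGL 1 (((2 ^ j : ℕ) : ZMod p) * 1) := by
      rw [map_pow, hu0, H12.affPGL_one_pow]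
    have ou : orderOf (u0 ^ 2 ^ j) = m := by
      rw [orderOf_pow_of_dvd (by positivity) (ho ▸ dvd_mul_right _ _), ho,
        Nat.mul_div_cancel_left _ (by positivity)]
    obtain ⟨u, hu'⟩ : ∃ u, u = u0 ^ 2 ^ j := ⟨_, rfl⟩
    rw [← hu'] at ru ou
    have un : ρ u ∈ unip (inf (ZMod p)) := H12.mem_unip_inf.2 ⟨_, ru⟩
    have u1 : ρ u ≠ 1 := by
      rw [ru, Ne, H12.affPGL_eq_one]
      push_cast
      exact fun e => pow_ne_zero j two0 (by simpa using e.2)
    have op : orderOf (ρ u) = p := orderOf_eq_prime ((H12.mem_unip_iff p).1 un).2 u1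
    refine ⟨u, by rw [ou]; exact hm.not_two_dvd_nat, by rw [fu u _ un u1]; norm_num, ?_⟩
    intro inst
    let φ := ρ.comp (zpowers u).subtype
    have e1 : ∀ y : zpowers u, ((f y : ℤ) - 1) = if y ∈ φ.ker then (p : ℤ) else 0 := fun y => by
      split_ifs with e
      · rw [f1 y e]; push_cast; ring
      · rw [fu y _ ((zpowers_le (H := (unip (inf (ZMod p))).comap ρ)).2 un y.2) e]; norm_num
    have e2 := φ.ker.card_mul_index
    rw [index_ker, MonoidHom.range_comp, range_subtype, MonoidHom.map_zpowers, Nat.card_zpowers, op] at e2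
    rw [Finset.sum_congr rfl fun y _ => e1 y, ← Finset.sum_filter, Finset.sum_const, ← e2,
      Nat.card_eq_fintype_card, Fintype.card_subtype]
    simp

end Cfsg.Agent.H26.SW
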