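import Cfsg.Agent.H26.ClassFour
import Cfsg.Agent.H26.AbCyc
import Cfsg.Agent.H26.PElt
import Cfsg.Agent.H2.SS3
import Cfsg.Agent.H1.Coprime
import Cfsg.Agent.H1.Hall
import Cfsg.Agent.H3.PGroup1
import Cfsg.Agent.H3.PNil

/-!
# Groups whose class sizes are not divisible by `p ^ 2`
-/

set_option autoImplicit false

namespace Cfsg.Agent.H26

open Subgroup
open scoped commutatorElement

universe u

theorem all_eq_or_all_eq {X A B : Type*} (S : X → Prop) (H : X → A) (L : X → B)
    (h : ∀ x y, S x → S y → H x = H y ∨ L x = L y) :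
    (∀ x y, S x → S y → H x = H y) ∨ ∀ x y, S x → S y → L x = L y := by
  by_contra hc
  push Not at hc
  obtain ⟨⟨a, b, ha, hb, hab⟩, c, d, hc, hd, hcd⟩ := hc
  have h1 := (h a b ha hb).resolve_left hab
  have key : ∀ z, S z → L z = L a := by
    intro z hz
    rcases h z a hz ha with h2 | h2
    · exact ((h z b hz hb).resolve_left (fun h3 => hab (h2.symm.trans h3))).trans h1.symm
    · exact h2
  exact hcd ((key c hc).trans (key d hd).symm)

variable {G : Type*} [Group G] [Finite G] {p : ℕ} [hp : Fact p.Prime]

theorem relIndex_eq_one_or {V C : Subgroup G} (hV : IsPGroup p V) (h : ¬ p ^ 2 ∣ C.relIndex V) :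
    C.relIndex V = 1 ∨ C.relIndex V = p := by
  obtain ⟨n, hn⟩ := IsPGroup.iff_card.1 hV
  have := relIndex_dvd_card C V
  rw [hn] at this
  obtain ⟨k, -, hk⟩ := (Nat.dvd_prime_pow hp.out).1 this
  rw [hk] at h ⊢
  rw [Nat.pow_dvd_pow_iff_le_right hp.out.one_lt] at h
  have : k = 0 ∨ k = 1 := by omega
  rcases this with rfl | rfl <;> simp

theorem eq_of_le_of_card_prime {A B : Subgroup G} (hA : Nat.card A = p) (hB : Nat.card B = p) (h : A ⊓ B ≠ ⊥) :
    A = B := by
  have key : ∀ A B : Subgroup G, Nat.card A = p → A ⊓ B ≠ ⊥ → A ≤ B := by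
    intro A B hA h
    have h1 := card_dvd_of_le (inf_le_left : A ⊓ B ≤ A)
    rw [hA] at h1
    rcases (Nat.dvd_prime hp.out).1 h1 with h2 | h2
    · exact absurd (card_eq_one.1 h2) h
    · exact inf_eq_left.1 (eq_of_le_of_card_ge inf_le_left (by rw [h2, hA]))
  exact le_antisymm (key A B hA h) (key B A hB (by rwa [inf_comm]))

theorem eq_of_le_of_relIndex_prime {A B V : Subgroup G} (hA : A.relIndex V = p ∨ A.relIndex V = 1)
    (hB : B.relIndex V = p) (hAV : A ≤ V) (hBV : B ≤ V) (h : A ≤ B) : A = B := by
  apply eq_of_le_of_card_ge h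
  have h1 := H1.card_mul_relIndex hAV
  have h2 := H1.card_mul_relIndex hBV
  have := hp.out.one_lt
  have h3 : 0 < Nat.card A := Nat.card_pos
  rcases hA with hA | hA <;> rw [hA] at h1 <;> rw [hB] at h2 <;> nlinarith

/-- an abelian normal `p`-subgroup on which all elements act as generalized reflections -/
theorem refl_dichotomy (V : Subgroup G) [V.Normal] (hV : IsPGroup p V) (hc : ∀ a ∈ V, ∀ b ∈ V, a * b = b * a)
    (h : ∀ x : G, ¬ p ^ 2 ∣ (centralizer ({x} : Set G)).relIndex V) :
    (V ⊓ center G).relIndex V ≤ p ∨ Nat.card (⁅V, (⊤ : Subgroup G)⁆ : Subgroup G) ≤ p := by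
  have hker : ∀ x : G, (twistHom V hc x).ker = (centralizer ({x} : Set G)).subgroupOf V := by
    intro x; ext a
    rw [MonoidHom.mem_ker, twistHom_apply, mem_subgroupOf, mem_cent, inv_mul_eq_one, eq_mul_inv_iff_mul_eq]
  have hL : ∀ x : G, Nat.card (twistHom V hc x).range = (centralizer ({x} : Set G)).relIndex V := by
    intro x; rw [← index_ker, hker]; rfl
  have hS : ∀ x : G, ¬ V ≤ centralizer ({x} : Set G) → (centralizer ({x} : Set G)).relIndex V = p :=
    fun x hx => (relIndex_eq_one_or hV (h x)).resolve_left (fun h1 => hx (relIndex_eq_one.1 h1))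
  rcases all_eq_or_all_eq (fun x : G => ¬ V ≤ centralizer ({x} : Set G)) (fun x => centralizer ({x} : Set G) ⊓ V)
    (fun x => (twistHom V hc x).range) (by
      intro x y hx hy
      by_contra hcon
      push Not at hcon
      have h1 : (twistHom V hc x).range ⊓ (twistHom V hc y).range = ⊥ := by
        by_contra h1
        exact hcon.2 (eq_of_le_of_card_prime ((hL x).trans (hS x hx)) ((hL y).trans (hS y hy)) h1)
      have h2 : ∀ v ∈ V, v ∈ centralizer ({y⁻¹ * x} : Set G) →
          v ∈ centralizer ({x} : Set G) ∧ v ∈ centralizer ({y} : Set G) := by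
        intro v hv hvc
        rw [mem_cent] at hvc
        have h3 : twistHom V hc x ⟨v, hv⟩ = twistHom V hc y ⟨v, hv⟩ := by
          simp only [twistHom_apply]
          calc v⁻¹ * (x * v * x⁻¹) = v⁻¹ * (y * (y⁻¹ * x * v) * x⁻¹) := by group
            _ = _ := by rw [← hvc]; group
        have h4 : twistHom V hc x ⟨v, hv⟩ = 1 := by
          rw [← mem_bot, ← h1]; exact ⟨⟨_, rfl⟩, ⟨_, h3.symm⟩⟩
        rw [h4, eq_comm, ← MonoidHom.mem_ker, hker] at h3
        rw [← MonoidHom.mem_ker, hker] at h4
        exact ⟨h4, h3⟩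
      have h3 := (relIndex_eq_one_or hV (h (y⁻¹ * x))).symm
      rw [← inf_relIndex_right] at h3
      apply hcon.1
      rw [← eq_of_le_of_relIndex_prime h3 (by rw [inf_relIndex_right]; exact hS x hx) inf_le_right inf_le_right
        (fun v hv => ⟨(h2 v hv.2 hv.1).1, hv.2⟩),
        ← eq_of_le_of_relIndex_prime h3 (by rw [inf_relIndex_right]; exact hS y hy) inf_le_right inf_le_right
        (fun v hv => ⟨(h2 v hv.2 hv.1).2, hv.2⟩)]) with h1 | h1
  · left
    by_cases h0 : ∃ x : G, ¬ V ≤ centralizer ({x} : Set G)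
    · obtain ⟨x, hx⟩ := h0
      have : V ⊓ center G = centralizer ({x} : Set G) ⊓ V := by
        apply le_antisymm (le_inf (inf_le_right.trans (center_le_cent x)) inf_le_left)
        intro v hv
        refine ⟨hv.2, mem_center_iff.2 fun y => ?_⟩
        by_cases hy : V ≤ centralizer ({y} : Set G)
        · exact (mem_cent.1 (hy hv.2)).symm
        · have h2 : centralizer ({x} : Set G) ⊓ V = centralizer ({y} : Set G) ⊓ V := h1 x y hx hy
          rw [h2] at hv
          exact (mem_cent.1 hv.1).symm
      rw [this, inf_relIndex_right, hS x hx]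
    · push Not at h0
      rw [relIndex_eq_one.2 (le_inf le_rfl fun v hv => mem_center_iff.2 fun y => (mem_cent.1 (h0 y hv)).symm)]
      exact hp.out.one_lt.le
  · right
    by_cases h0 : ∃ x : G, ¬ V ≤ centralizer ({x} : Set G)
    · obtain ⟨x, hx⟩ := h0
      rw [← hS x hx, ← hL]
      apply card_le_of_le
      rw [commutator_le]
      intro v hv y _
      by_cases hy : V ≤ centralizer ({y} : Set G)
      · rw [commutatorElement_eq_one_iff_mul_comm.2 (mem_cent.1 (hy hv))]; exact one_mem _
      · have h2 : (twistHom V hc x).range = (twistHom V hc y).range := h1 x y hx hy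
        rw [h2]
        exact ⟨⟨v⁻¹, inv_mem hv⟩, by rw [twistHom_apply, commutatorElement_def]; simp [mul_assoc]⟩
    · push Not at h0
      have : (⁅V, (⊤ : Subgroup G)⁆ : Subgroup G) = ⊥ := by
        rw [eq_bot_iff, commutator_le]
        intro v hv y _
        rw [commutatorElement_eq_one_iff_mul_comm.2 (mem_cent.1 (h0 y hv))]; exact one_mem _
      rw [this, card_bot]; exact hp.out.one_lt.le

/-- **Knoche**: a `p`-group of breadth at most one has derived subgroup of order at most `p` -/
theorem knoche (hG : IsPGroup p G) (h : ∀ x : G, ¬ p ^ 2 ∣ (centralizer ({x} : Set G)).index) :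
    Nat.card (_root_.commutator G) ≤ p := by
  have hT : IsPGroup p (⊤ : Subgroup G) := hG.to_subgroup ⊤
  have hS : ∀ x : G, x ∉ center G → (centralizer ({x} : Set G)).index = p := by
    intro x hx
    have := relIndex_eq_one_or hT (C := centralizer ({x} : Set G)) (by rw [relIndex_top_right]; exact h x)
    rw [relIndex_top_right] at this
    exact this.resolve_left (fun h1 => hx (index_cent_eq_one_iff.1 h1))
  -- class two
  have hcl : ∀ x g : G, ⁅x, g⁆ ∈ center G := by
    intro x g
    by_cases hx : x ∈ center G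
    · rw [commutatorElement_eq_one_iff_mul_comm.2 (mem_center_iff.1 hx g).symm]; exact one_mem _
    set C := centralizer ({x} : Set G) with hC
    have hco : IsCoatom C := H2.isCoatom_of_index_prime (by rw [hS x hx]; exact hp.out)
    haveI : C.Normal := H3.normal_of_isCoatom hG hco
    set A := C ⊓ centralizer (C : Set G) with hA
    have hcA : ∀ a ∈ A, ∀ b ∈ A, a * b = b * a := fun a ha b hb => hb.2 a ha.1
    have hxA : x ∈ A := ⟨mem_cent_self x, fun c hc => mem_cent.1 hc⟩
    have key : Nat.card (⁅A, (⊤ : Subgroup G)⁆ : Subgroup G) ≤ p := by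
      obtain ⟨y, hy⟩ : ∃ y, y ∉ C := by
        by_contra hcon; push Not at hcon
        exact hco.1 (eq_top_iff.2 fun y _ => hcon y)
      have h1 : (⁅A, (⊤ : Subgroup G)⁆ : Subgroup G) ≤ (twistHom A hcA y).range := by
        have hR : ((twistHom A hcA y).range).Normal := by
          constructor
          rintro _ ⟨a, rfl⟩ g
          have hg : g ∈ C ⊔ zpowers y := by rw [H1.sup_zpowers_eq_top_of_isCoatom hco hy]; trivial
          obtain ⟨c, hc, k, rfl⟩ := (H3.mem_sup_zpowers_iff (by rw [normalizer_eq_top]; trivial)).1 hg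
          have h2 : y ^ k * twistHom A hcA y a * (y ^ k)⁻¹ =
              twistHom A hcA y ⟨y ^ k * a * (y ^ k)⁻¹, Normal.conj_mem inferInstance _ a.2 _⟩ := by
            simp only [twistHom_apply]; group
          have h3 : ∀ b : A, twistHom A hcA y b ∈ A := fun b =>
            mul_mem (inv_mem b.2) (Normal.conj_mem inferInstance _ b.2 _)
          have : c * y ^ k * twistHom A hcA y a * (c * y ^ k)⁻¹ =
              c * (y ^ k * twistHom A hcA y a * (y ^ k)⁻¹) * c⁻¹ := by group
          rw [this, h2, (h3 _).2 c hc, mul_inv_cancel_right]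
          exact ⟨_, rfl⟩
        rw [← H1.sup_zpowers_eq_top_of_isCoatom hco hy, commutator_le]
        intro a ha g hg
        rw [← QuotientGroup.eq_one_iff, ← QuotientGroup.mk'_apply, map_commutatorElement,
          commutatorElement_eq_one_iff_mul_comm]
        obtain ⟨c, hc, k, rfl⟩ := (H3.mem_sup_zpowers_iff (by rw [normalizer_eq_top]; trivial)).1 hg
        have h4 : Commute (QuotientGroup.mk' (twistHom A hcA y).range a) (QuotientGroup.mk' _ c) := by
          rw [Commute, SemiconjBy, ← map_mul, ← map_mul, ha.2 c hc]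
        have h5 : Commute (QuotientGroup.mk' (twistHom A hcA y).range a) (QuotientGroup.mk' _ y) := by
          rw [Commute, SemiconjBy, ← map_mul, ← map_mul, QuotientGroup.mk'_apply, QuotientGroup.mk'_apply,
            QuotientGroup.eq]
          have := hR.conj_mem _ ⟨⟨a, ha⟩, rfl⟩ y⁻¹
          rw [twistHom_apply] at this
          convert this using 1
          simp [mul_assoc]
        rw [map_mul, map_zpow]
        exact (h4.mul_right (h5.zpow_right k)).eq
      refine (card_le_of_le h1).trans ?_
      rw [← index_ker]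
      have h2 : (twistHom A hcA y).ker = (centralizer ({y} : Set G)).subgroupOf A := by
        ext a
        rw [MonoidHom.mem_ker, twistHom_apply, mem_subgroupOf, mem_cent, inv_mul_eq_one, eq_mul_inv_iff_mul_eq]
      rw [h2]
      rcases relIndex_eq_one_or (hG.to_subgroup A) (C := centralizer ({y} : Set G))
        (fun h3 => h y (h3.trans (relIndex_dvd_index_of_normal_right _ A))) with h3 | h3
      · exact (le_of_eq h3).trans hp.out.one_lt.le
      · exact le_of_eq h3
    have h2 : (⁅A, (⊤ : Subgroup G)⁆ : Subgroup G) ≤ center G := by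
      by_cases h0 : (⁅A, (⊤ : Subgroup G)⁆ : Subgroup G) = ⊥
      · rw [h0]; exact bot_le
      have h3 := H3.inf_center_ne_bot hG.isNilpotent _ h0
      rw [← inf_eq_left]
      apply eq_of_le_of_card_ge inf_le_left
      have := mul_card_le_of_lt (hG.to_subgroup _) (bot_lt_iff_ne_bot.2 h3)
      rw [card_bot, mul_one] at this
      exact key.trans this
    exact h2 (commutator_mem_commutator hxA (mem_top g))
  let φ : G → G →* G := fun x => MonoidHom.mk' (fun g => ⁅x, g⁆) (fun a b => by
    have := mem_center_iff.1 (hcl x b) a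
    calc ⁅x, a * b⁆ = ⁅x, a⁆ * (a * ⁅x, b⁆) * a⁻¹ := by simp only [commutatorElement_def]; group
      _ = _ := by rw [this]; group)
  have hker : ∀ x, (φ x).ker = centralizer ({x} : Set G) := fun x => by
    ext g; rw [MonoidHom.mem_ker, mem_cent, eq_comm (a := g * x)]; exact commutatorElement_eq_one_iff_mul_comm
  have hL : ∀ x, x ∉ center G → Nat.card (φ x).range = p := fun x hx => by rw [← index_ker, hker, hS x hx]
  by_cases h0 : ∃ x, x ∉ center G
  swap
  · push Not at h0
    have : _root_.commutator G = ⊥ := by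
      rw [eq_bot_iff, _root_.commutator_def, commutator_le]
      intro a _ b _
      rw [commutatorElement_eq_one_iff_mul_comm.2 (mem_center_iff.1 (h0 b) a)]; exact one_mem _
    rw [this, card_bot]; exact hp.out.one_lt.le
  obtain ⟨x, hx⟩ := h0
  rcases all_eq_or_all_eq (fun x : G => x ∉ center G) (fun x => centralizer ({x} : Set G)) (fun x => (φ x).range) (by
      intro x y hx hy
      by_contra hcon
      push Not at hcon
      have h1 : (φ x).range ⊓ (φ y).range = ⊥ := by
        by_contra h1
        exact hcon.2 (eq_of_le_of_card_prime (hL x hx) (hL y hy) h1)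
      have h2 : ∀ v ∈ centralizer ({y⁻¹ * x} : Set G),
          v ∈ centralizer ({x} : Set G) ∧ v ∈ centralizer ({y} : Set G) := by
        intro v hvc
        rw [mem_cent] at hvc
        have h3 : φ x v = φ y v := by
          show ⁅x, v⁆ = ⁅y, v⁆
          simp only [commutatorElement_def]
          calc x * v * x⁻¹ * v⁻¹ = y * (y⁻¹ * x * v) * x⁻¹ * v⁻¹ := by group
            _ = _ := by rw [← hvc]; group
        have h4 : φ x v = 1 := by
          rw [← mem_bot, ← h1]; exact ⟨⟨_, rfl⟩, ⟨_, h3.symm⟩⟩
        rw [h4, eq_comm, ← MonoidHom.mem_ker, hker] at h3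
        rw [← MonoidHom.mem_ker, hker] at h4
        exact ⟨h4, h3⟩
      have h3 := (relIndex_eq_one_or hT (C := centralizer ({y⁻¹ * x} : Set G))
        (by rw [relIndex_top_right]; exact h _)).symm
      apply hcon.1
      rw [← eq_of_le_of_relIndex_prime h3 (by rw [relIndex_top_right]; exact hS x hx) le_top le_top
        (fun v hv => (h2 v hv).1),
        ← eq_of_le_of_relIndex_prime h3 (by rw [relIndex_top_right]; exact hS y hy) le_top le_top
        (fun v hv => (h2 v hv).2)]) with h1 | h1
  · exfalso
    apply hx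
    rw [← cent_eq_top_iff, eq_top_iff]
    intro y _
    by_cases hy : y ∈ center G
    · exact center_le_cent x hy
    · have h2 : centralizer ({x} : Set G) = centralizer ({y} : Set G) := h1 x y hx hy
      rw [h2]; exact mem_cent_self y
  · rw [← hL x hx]
    apply card_le_of_le
    rw [_root_.commutator_def, commutator_le]
    intro a _ b _
    by_cases ha : a ∈ center G
    · rw [commutatorElement_eq_one_iff_mul_comm.2 (mem_center_iff.1 ha b).symm]; exact one_mem _
    · have h2 : (φ x).range = (φ a).range := h1 x a hx ha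
      rw [h2]; exact ⟨b, rfl⟩

omit [Finite G] in
theorem commutator_le_of_sup_eq_top {A B N : Subgroup G} [N.Normal] (h : A ⊔ B = ⊤) (hAA : ⁅A, A⁆ ≤ N)
    (hAB : ⁅A, B⁆ ≤ N) (hBB : ⁅B, B⁆ ≤ N) : _root_.commutator G ≤ N := by
  have key : ∀ {X Y : Subgroup G}, ⁅X, Y⁆ ≤ N ↔ X ≤ (centralizer ((Y.map (QuotientGroup.mk' N) : Subgroup _) : Set (G ⧸ N))).comap
      (QuotientGroup.mk' N) := by
    intro X Y
    rw [← map_le_iff_le_comap, ← commutator_eq_bot_iff_le_centralizer, ← map_commutator, Subgroup.map_eq_bot_iff,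
      QuotientGroup.ker_mk']
  have h1 : ⁅(⊤ : Subgroup G), A⁆ ≤ N := by
    rw [← h, key]; exact sup_le (key.1 hAA) (key.1 (by rwa [commutator_comm]))
  have h2 : ⁅(⊤ : Subgroup G), B⁆ ≤ N := by
    rw [← h, key]; exact sup_le (key.1 hAB) (key.1 hBB)
  rw [_root_.commutator_def]
  nth_rewrite 1 [← h]
  rw [key]
  exact sup_le (key.1 (by rwa [commutator_comm])) (key.1 (by rwa [commutator_comm]))

theorem card_commutator_le_of_isPGroup (hG : IsPGroup p (_root_.commutator G))
    (h : ∀ x : G, ¬ p ^ 2 ∣ (centralizer ({x} : Set G)).index) : Nat.card (_root_.commutator G) ≤ p := by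
  obtain ⟨P, hP⟩ := hG.exists_le_sylow
  haveI : (P : Subgroup G).Normal := Normal.of_commutator_le G hP
  obtain ⟨H, hH⟩ := exists_right_complement'_of_coprime P.card_coprime_index
  have hsup := hH.sup_eq_top
  have hHH : ⁅H, H⁆ = ⊥ := by
    rw [eq_bot_iff, ← hH.disjoint.eq_bot]
    exact le_inf ((commutator_mono le_top le_top).trans hP) (commutator_le_self H)
  have hcop : (Nat.card H).Coprime (Nat.card (P : Subgroup G)) := by
    rw [← hH.symm.index_eq_card]; exact P.card_coprime_index.symm
  have hrel : ∀ x : G, ¬ p ^ 2 ∣ (centralizer ({x} : Set G)).relIndex (P : Subgroup G) :=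
    fun x h3 => h x (h3.trans (relIndex_dvd_index_of_normal_right _ _))
  have hn : ∀ K : Subgroup G, K ≤ normalizer ((P : Subgroup G) : Set G) := fun K => by
    rw [normalizer_eq_top]; exact le_top
  by_cases hc : ∀ a ∈ (P : Subgroup G), ∀ b ∈ (P : Subgroup G), a * b = b * a
  · haveI : IsMulCommutative (P : Subgroup G) := H2.isMulCommutative_of_forall hc
    have hPP : ⁅(P : Subgroup G), (P : Subgroup G)⁆ = ⊥ := commutator_eq_bot_iff_le_centralizer.2 (le_centralizer _)
    rcases refl_dichotomy (P : Subgroup G) P.isPGroup' hc hrel with h1 | h1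
    · haveI : (⁅(P : Subgroup G), H⁆ : Subgroup G).Normal :=
        H2.normal_of_sup_eq_top (normalizer_commutator_ge_left _ _) (normalizer_commutator_ge_right _ _) hsup
      refine (card_le_of_le (commutator_le_of_sup_eq_top (N := ⁅(P : Subgroup G), H⁆) hsup (by rw [hPP]; exact bot_le)
        le_rfl (by rw [hHH]; exact bot_le))).trans ?_
      have h2 := H1.inf_centralizer_inf_commutator_eq_bot (hn H) hcop
      have h3 : ⁅(P : Subgroup G), H⁆ ⊓ ((P : Subgroup G) ⊓ center G) = ⊥ := by
        rw [eq_bot_iff, ← h2]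
        exact le_inf (inf_le_right.trans (inf_le_inf_left _ (center_le_centralizer _))) inf_le_left
      have h4 := H1.card_sup_of_disjoint (H2.le_normalizer_of_normal' _ _) h3
      have h5 := card_le_of_le (sup_le (H1.commutator_le_left_of_le_normalizer (hn H)) inf_le_left :
        ⁅(P : Subgroup G), H⁆ ⊔ ((P : Subgroup G) ⊓ center G) ≤ P)
      have h6 := H1.card_mul_relIndex (inf_le_left : (P : Subgroup G) ⊓ center G ≤ P)
      have h7 : 0 < Nat.card ((P : Subgroup G) ⊓ center G : Subgroup G) := Nat.card_pos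
      rw [h4, ← h6, mul_comm] at h5
      exact (Nat.le_of_mul_le_mul_left h5 h7).trans h1
    · exact (card_le_of_le (commutator_le_of_sup_eq_top hsup (commutator_mono le_rfl le_top)
        (commutator_mono le_rfl le_top) (by rw [hHH]; exact bot_le))).trans h1
  have hPH : ⁅(P : Subgroup G), H⁆ = ⊥ := by
    by_contra hne
    apply hc
    obtain ⟨x, hxH, hx⟩ : ∃ x ∈ H, ¬ (P : Subgroup G) ≤ centralizer ({x} : Set G) := by
      by_contra hcon
      push Not at hcon
      apply hne
      rw [eq_bot_iff, commutator_le]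
      intro a ha b hb
      rw [mem_bot, commutatorElement_eq_one_iff_mul_comm]; exact mem_cent.1 (hcon b hb ha)
    set D := centralizer ({x} : Set G) ⊓ (P : Subgroup G) with hD
    have hDi : D.relIndex P = p := by
      rw [hD, inf_relIndex_right]
      exact (relIndex_eq_one_or P.isPGroup' (hrel x)).resolve_left (fun h1 => hx (relIndex_eq_one.1 h1))
    have hDn : (P : Subgroup G) ≤ normalizer (D : Set G) :=
      H2.le_normalizer_of_relIndex_prime P.isPGroup'.isNilpotent inf_le_right (by rw [hDi]; exact hp.out)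
    set X := zpowers x with hX
    have hcopX : (Nat.card X).Coprime (Nat.card (P : Subgroup G)) :=
      Nat.Coprime.coprime_dvd_left (card_dvd_of_le (zpowers_le.2 hxH)) hcop
    have hDX : ⁅D, X⁆ = ⊥ := by
      rw [commutator_eq_bot_iff_le_centralizer]
      exact inf_le_left.trans (le_centralizer_iff.1 (zpowers_le.2 (le_cent_iff.1 le_rfl)))
    have h1 : ⁅⁅(P : Subgroup G), X⁆, D⁆ = ⊥ := by
      apply commutator_commutator_eq_bot_of_rotate
      · rw [commutator_comm X D, hDX, commutator_bot_left]
      · rw [eq_bot_iff, ← hDX]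
        exact commutator_mono (H1.commutator_le_left_of_le_normalizer hDn) le_rfl
    obtain ⟨y, hy, hyD⟩ : ∃ y ∈ ⁅(P : Subgroup G), X⁆, y ∉ D := by
      by_contra hcon
      push Not at hcon
      apply hx
      have h2 : ⁅⁅(P : Subgroup G), X⁆, X⁆ = ⊥ := by
        rw [eq_bot_iff, ← hDX]; exact commutator_mono hcon le_rfl
      have h3 := H1.commutator_eq_bot_of_commutator_commutator_eq_bot (hn X) hcopX h2
      rw [commutator_eq_bot_iff_le_centralizer] at h3
      exact h3.trans (centralizer_le (by simp [hX]))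
    have hyP : y ∈ (P : Subgroup G) := H1.commutator_le_left_of_le_normalizer (hn X) hy
    have hyc : y ∈ centralizer (D : Set G) := commutator_eq_bot_iff_le_centralizer.1 h1 hy
    have hDc : IsMulCommutative D := by
      apply H2.isMulCommutative_of_forall
      intro d hd e he
      obtain ⟨k, hk⟩ := exists_orderOf_of_mem P.isPGroup' hd.2
      have h2 : (orderOf d).Coprime (orderOf x) := by
        rw [← Nat.card_zpowers x]
        exact (Nat.Coprime.coprime_dvd_right (Subgroup.orderOf_dvd_natCard _ hd.2) hcopX).symm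
      have h3 := cent_mul_of_coprime (mem_cent.1 hd.1) h2
      have h4 := (relIndex_eq_one_or P.isPGroup' (hrel (d * x))).symm
      rw [← inf_relIndex_right] at h4
      have h5 := eq_of_le_of_relIndex_prime h4 hDi inf_le_right inf_le_right
        (by rw [h3]; exact inf_le_inf_right _ inf_le_right)
      rw [← h5, h3] at he
      exact (mem_cent.1 he.1.1).symm
    have h6 := H3.isMulCommutative_sup_zpowers hDc hyc
    rw [H2.sup_zpowers_eq_of_relIndex_prime inf_le_right (by rw [hDi]; exact hp.out) hyP hyD] at h6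
    exact H3.isMulCommutative_iff_mem.1 h6
  have h1 := commutator_le_of_sup_eq_top (N := ⁅(P : Subgroup G), (P : Subgroup G)⁆) hsup le_rfl
    (by rw [hPH]; exact bot_le) (by rw [hHH]; exact bot_le)
  refine (card_le_of_le h1).trans ?_
  rw [← map_subtype_commutator, card_map_of_injective (subtype_injective _)]
  exact knoche P.isPGroup' fun x => by rw [index_cent_subgroup]; exact hrel x

omit hp in
theorem IsMinNormal_card_prime {N : Subgroup G} (hN : H2.IsMinNormal N) (hs : Group.IsSolvable N)
    (h : ∀ p : ℕ, p.Prime → ∀ x : G, ¬ p ^ 2 ∣ (centralizer ({x} : Set G)).index) : IsCyclic N := by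
  obtain ⟨hc, p, hp, hNp⟩ := hN.exists_isPGroup hs
  haveI := Fact.mk hp
  haveI := hN.normal
  have hle : Nat.card N ≤ p → IsCyclic N := by
    intro h1
    have h2 := mul_card_le_of_lt hNp (bot_lt_iff_ne_bot.2 hN.ne_bot)
    rw [card_bot, mul_one] at h2
    exact isCyclic_of_prime_card (le_antisymm h1 h2)
  by_cases hz : N ≤ center G
  · obtain ⟨K, hK, hK'⟩ := H2.exists_le_card_prime hN.ne_bot
    rw [← hN.eq_of_le (H2.normal_of_le_center (hK.trans hz)) hK (H2.ne_bot_of_card_prime hK')]
    exact H2.isCyclic_of_card_prime' hK'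
  rcases refl_dichotomy N hNp (H3.isMulCommutative_iff_mem.1 hc)
    (fun x h3 => h p hp x (h3.trans (relIndex_dvd_index_of_normal_right _ _))) with h1 | h1
  · rcases hN.inf_eq_bot_or_le (center G) with h2 | h2
    · rw [h2, relIndex_bot_left] at h1; exact hle h1
    · exact absurd h2 hz
  · rw [hN.eq_of_le inferInstance (commutator_le_left N ⊤) (fun h0 => hz (by
      rw [commutator_eq_bot_iff_le_centralizer, coe_top, centralizer_univ] at h0; exact h0))] at h1
    exact hle h1

theorem isSupersolvable_of_sqfree (G : Type u) [Group G] [Finite G] (hs : Group.IsSolvable G)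
    (h : ∀ p : ℕ, p.Prime → ∀ x : G, ¬ p ^ 2 ∣ (centralizer ({x} : Set G)).index) : IsSupersolvable G := by
  revert hs h
  refine H2.card_induction (P := fun G _ _ => Group.IsSolvable G →
    (∀ p : ℕ, p.Prime → ∀ x : G, ¬ p ^ 2 ∣ (centralizer ({x} : Set G)).index) → IsSupersolvable G) ?_ G
  intro G _ _ ih hs h
  rcases subsingleton_or_nontrivial G with h0 | h0
  · exact H2.isSupersolvable_of_subsingleton
  obtain ⟨N, hN⟩ := H2.exists_isMinNormal (G := G)
  haveI := hN.normal
  haveI := IsMinNormal_card_prime hN inferInstance h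
  refine H2.isSupersolvable_of_isCyclic_normal N (ih _ (H1.card_quotient_lt hN.ne_bot) inferInstance ?_)
  intro p hp x hx
  obtain ⟨x, rfl⟩ := QuotientGroup.mk'_surjective N x
  exact h p hp x (hx.trans (index_cent_map_dvd (QuotientGroup.mk'_surjective N) x))

theorem not_sq_dvd_card_commutator (hn : HasNormalPComplement p (_root_.commutator G))
    (h : ∀ x : G, ¬ p ^ 2 ∣ (centralizer ({x} : Set G)).index) : ¬ p ^ 2 ∣ Nat.card (_root_.commutator G) := by
  set N := (pResidual p (_root_.commutator G)).map (_root_.commutator G).subtype with hN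
  haveI : N.Normal := ConjAct.normal_of_characteristic_of_normal
  have hf := QuotientGroup.mk'_surjective N
  have hc : _root_.commutator (G ⧸ N) = (_root_.commutator G).map (QuotientGroup.mk' N) := by
    rw [_root_.commutator_def, _root_.commutator_def, map_commutator, map_top_of_surjective _ hf]
  have hNc : Nat.card N = Nat.card (pResidual p (_root_.commutator G)) := card_map_of_injective (subtype_injective _)
  have hcard : Nat.card (_root_.commutator (G ⧸ N)) = (pResidual p (_root_.commutator G)).index := by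
    rw [hc, ← relIndex_ker, QuotientGroup.ker_mk', relIndex, hN, subgroupOf, comap_map_eq_self_of_injective
      (subtype_injective _)]
  obtain ⟨n, hn'⟩ := H3.exists_index_pResidual (p := p) (G := _root_.commutator G)
  have h1 := card_commutator_le_of_isPGroup (G := G ⧸ N) (IsPGroup.of_card (hcard.trans hn')) (by
    intro x hx
    obtain ⟨x, rfl⟩ := hf x
    exact h x (hx.trans (index_cent_map_dvd hf x)))
  rw [hcard, hn'] at h1
  intro h2
  rw [← (pResidual p (_root_.commutator G)).card_mul_index, hn'] at h2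
  have h3 := (Nat.Coprime.pow_left 2 ((Nat.Prime.coprime_iff_not_dvd hp.out).2
    (H3.hasNormalPComplement_iff_not_dvd.1 hn))).dvd_of_dvd_mul_left h2
  have h4 := Nat.le_of_dvd (by have := hp.out.pos; positivity) h3
  have := hp.out.one_lt
  nlinarith

end Cfsg.Agent.H26
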