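import Cfsg.Agent.H26.U33b
import Cfsg.Agent.H12.SBridge
import Cfsg.Agent.H12.Transport
import Cfsg.Agent.H8.Deg1

/-! Irreducible characters of `SU₃(3)` of degrees 6, 21 and 28. -/

set_option maxRecDepth 100000

namespace Cfsg.Agent.H26.U33

open Matrix Cfsg Cfsg.Agent.H4 Cfsg.Agent.H5
open scoped ComplexConjugate

abbrev G := SU 3 K 3

theorem card_G : Nat.card G = 6048 := by
  have := H12.card_SU (q := 3) (n := 3) card_K (by norm_num)
  rw [show H12.guOrd 3 3 = (3 + 1) * 6048 by decide] at this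
  exact Nat.eq_of_mul_eq_mul_left (by norm_num) this

instance : Finite G := Nat.finite_of_card_ne_zero (by rw [card_G]; norm_num)
noncomputable instance : Fintype G := Fintype.ofFinite G

theorem mv_eq (A : M) (u : E) : mv A u = A *ᵥ u := by
  ext i; simp [mv, mulVec, dotProduct, Fin.sum_univ_three]

theorem col_eq (A : M) (j : Fin 3) : col A j = A *ᵥ ee j := by
  ext i; fin_cases j <;> simp [col, ee, mulVec, dotProduct, Fin.sum_univ_three]

theorem exists_of_isSU {A : M} (h : isSU A = true) : ∃ g : G, g.1.1 = A := by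
  simp only [isSU, Bool.and_eq_true, decide_eq_true_eq] at h
  simp only [un] at h
  obtain ⟨⟨⟨⟨⟨⟨⟨⟨⟨hd, h00⟩, h01⟩, h02⟩, h10⟩, h11⟩, h12⟩, h20⟩, h21⟩, h22⟩ := h
  refine ⟨⟨⟨A, by rw [det_fin_three, ← hd]; ring⟩, fun u v => ?_⟩, rfl⟩
  show hermForm 3 K 3 (A *ᵥ u) (A *ᵥ v) = hermForm 3 K 3 u v
  simp only [hermForm, pow3, mulVec, dotProduct, Fin.sum_univ_three, fr_add, fr_mul]
  linear_combination u 0 * fr (v 0) * h00 + u 0 * fr (v 1) * h01 + u 0 * fr (v 2) * h02 +
    u 1 * fr (v 0) * h10 + u 1 * fr (v 1) * h11 + u 1 * fr (v 2) * h12 +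
    u 2 * fr (v 0) * h20 + u 2 * fr (v 1) * h21 + u 2 * fr (v 2) * h22

open Classical in
noncomputable def el (A : M) : G := if h : ∃ g : G, g.1.1 = A then h.choose else 1

theorem el_val {A : M} (h : ∃ g : G, g.1.1 = A) : (el A).1.1 = A := by
  rw [el, dif_pos h]; exact h.choose_spec

theorem ext_G {g h : G} (e : g.1.1 = h.1.1) : g = h := Subtype.ext (Subtype.ext e)

noncomputable def rep (i : ℕ) : G := el (rm i)

theorem rep_val {i : ℕ} (hi : i < 14) : (rep i).1.1 = rm i :=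
  el_val (exists_of_isSU (List.all_eq_true.1 chk_rep i (List.mem_range.2 hi)))

theorem rm_zero : rm 0 = 1 := by
  have : ∀ i j : Fin 3, rm 0 i j = if i = j then 1 else 0 := by
    simp only [Fin.forall_fin_succ]; decide +kernel
  ext i j; rw [this, one_apply]

theorem rep_zero : rep 0 = 1 := ext_G (by rw [rep_val (by norm_num), rm_zero]; rfl)

theorem cm_spec {X R g : M} (h : cm X R g = true) : X * R = g * X := by
  simp only [cm, Bool.and_eq_true, decide_eq_true_eq] at h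
  simp only [pr] at h
  ext i j
  fin_cases i <;> fin_cases j <;> simp [mul_apply, Fin.sum_univ_three, h]

theorem ok_spec {t : ℕ} (ht : t ∈ LL.flatten) : t >>> 72 < 14 ∧ (el (mt t 0)).1.1 = mt t 0 ∧
    ∃ x : G, el (mt t 0) = x * rep (t >>> 72) * x⁻¹ := by
  obtain ⟨l, hl, ht⟩ := List.mem_flatten.1 ht
  have h := List.all_eq_true.1 (List.all_eq_true.1 chk_ok l hl) t ht
  simp only [okT, Bool.and_eq_true, Nat.blt_eq, force_eq] at h
  obtain ⟨⟨h1, h2⟩, h3⟩ := h
  obtain ⟨x, hx⟩ := exists_of_isSU h2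
  have h4 := cm_spec h3
  have h5 : (x * rep (t >>> 72) * x⁻¹).1.1 = mt t 0 := by
    have e1 : (x * rep (t >>> 72) * x⁻¹).1.1 = x.1.1 * (rep (t >>> 72)).1.1 * (x⁻¹).1.1 := rfl
    have e2 : x.1.1 * (x⁻¹).1.1 = (x * x⁻¹).1.1 := rfl
    rw [e1, rep_val h1, rm, hx, h4, ← hx, Matrix.mul_assoc, e2, mul_inv_cancel]
    simp
  have h6 := el_val ⟨_, h5⟩
  exact ⟨h1, h6, x, ext_G (h6.trans h5.symm)⟩

theorem incr_spec (p : ℕ) (l : List ℕ) (h : incr p l = true) :
    (∀ t ∈ l, p < cod (mt t 0)) ∧ (l.map (fun t => cod (mt t 0))).Pairwise (· < ·) := by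
  induction l generalizing p with
  | nil => simp
  | cons t l ih =>
    simp only [incr, force_eq, Bool.and_eq_true, Nat.blt_eq] at h
    obtain ⟨h1, h2⟩ := ih _ h.2
    refine ⟨fun s hs => ?_, ?_⟩
    · rcases List.mem_cons.1 hs with rfl | hs
      · exact h.1
      · exact h.1.trans (h1 s hs)
    · simp only [List.map_cons, List.pairwise_cons, List.mem_map]
      exact ⟨by rintro _ ⟨s, hs, rfl⟩; exact h1 s hs, h2⟩

theorem sum_G {A : Type*} [AddCommMonoid A] (f : G → A) :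
    ∑ g, f g = (LL.flatten.map (fun t => f (el (mt t 0)))).sum := by
  classical
  have h1 : (LL.flatten.map (fun t => el (mt t 0))).Nodup := by
    have := (incr_spec _ _ chk_incr).2
    rw [List.pairwise_map] at this
    rw [List.Nodup, List.pairwise_map]
    refine List.Pairwise.imp_of_mem ?_ this
    intro s t hs ht hlt e
    have := congrArg (fun g : G => g.1.1) e
    simp only [(ok_spec hs).2.1, (ok_spec ht).2.1] at this
    rw [this] at hlt; exact lt_irrefl _ hlt
  have h2 : (LL.flatten.map (fun t => el (mt t 0))).toFinset = Finset.univ := by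
    apply Finset.eq_univ_of_card
    rw [List.toFinset_card_of_nodup h1, List.length_map, List.length_flatten, chk_len,
      ← Nat.card_eq_fintype_card, card_G]
  rw [← h2, List.sum_toFinset _ h1, List.map_map]; rfl

theorem card_sub (H : Subgroup G) (p : ℕ → Bool)
    (hp : ∀ t ∈ LL.flatten, p t = true ↔ el (mt t 0) ∈ H) : Nat.card H = LL.flatten.countP p := by
  classical
  have h1 : Nat.card H = ∑ g : G, if g ∈ H then 1 else 0 := by
    rw [Finset.sum_boole, Nat.card_eq_fintype_card, Fintype.card_subtype]; simp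
  rw [h1, sum_G]
  generalize LL.flatten = l at hp
  induction l with
  | nil => simp
  | cons t l ih =>
    rw [List.map_cons, List.sum_cons, ih (fun s hs => hp s (by simp [hs])), List.countP_cons,
      add_comm]
    simp only [hp t (by simp)]

theorem sum_class {f : G → ℂ} (hf : IsClassFunction G f) :
    ∑ g, f g = ((List.range 14).map (fun i => (SZ.getD i 0 : ℂ) * f (rep i))).sum := by
  have h1 : ∀ l : List ℕ, (∀ t ∈ l, t >>> 72 < 14) → (l.map (fun t => f (rep (t >>> 72)))).sum =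
      ∑ i ∈ Finset.range 14, (l.countP (fun t => Nat.beq (t >>> 72) i) : ℂ) * f (rep i) := by
    intro l hl
    induction l with
    | nil => simp
    | cons t l ih =>
      rw [List.map_cons, List.sum_cons, ih (fun s hs => hl s (by simp [hs]))]
      simp only [List.countP_cons, Nat.beq_eq, Nat.cast_add, add_mul, Finset.sum_add_distrib]
      rw [add_comm]
      congr 1
      rw [Finset.sum_eq_single (t >>> 72) (fun b _ hb => by simp [hb.symm])
        (fun h => absurd (Finset.mem_range.2 (hl t (by simp))) h)]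
      simp
  rw [sum_G, List.map_congr_left (g := fun t => f (rep (t >>> 72))), h1 _ (fun t ht => (ok_spec ht).1),
    ← List.sum_toFinset _ List.nodup_range, List.toFinset_range]
  · refine Finset.sum_congr rfl (fun i hi => ?_)
    have := List.all_eq_true.1 chk_K i (by simpa using hi)
    rw [beq_iff_eq] at this
    rw [this]
  · intro t ht
    obtain ⟨x, hx⟩ := (ok_spec ht).2.2
    rw [hx, hf]

theorem ind_trans' {Γ : Type*} [Group Γ] [Fintype Γ] (H : Subgroup Γ) {θ : H → ℂ}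
    (hθ : IsClassFunction H θ) (T : List ℕ) (f : ℕ → Γ) (hc : T.length * Nat.card H = Nat.card Γ)
    (hp : T.Pairwise (fun s t => (f s)⁻¹ * f t ∉ H)) (g : Γ) :
    indFun H θ g = (T.map (fun t => extendByZero H θ ((f t)⁻¹ * g * f t))).sum := by
  classical
  have := Fintype.ofFinite (Γ ⧸ H)
  have h1 : (T.map (fun t => (f t : Γ ⧸ H))).Nodup := by
    rw [List.Nodup, List.pairwise_map]
    exact hp.imp (fun h e => h (QuotientGroup.eq.1 e))
  have h2 : (T.map (fun t => (f t : Γ ⧸ H))).toFinset = Finset.univ := by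
    apply Finset.eq_univ_of_card
    rw [List.toFinset_card_of_nodup h1, List.length_map, ← Nat.card_eq_fintype_card]
    have := Subgroup.card_eq_card_quotient_mul_card_subgroup H
    rw [← hc] at this
    exact Nat.eq_of_mul_eq_mul_right Nat.card_pos this
  rw [indFun_eq_sum_quotient H hθ, ← h2, List.sum_toFinset _ h1, List.map_map]
  congr 1
  refine List.map_congr_left (fun t _ => ?_)
  obtain ⟨h, e⟩ := QuotientGroup.mk_out_eq_mul H (f t)
  simp only [Function.comp, e]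
  rw [← extendByZero_conj_mem H hθ h.2]
  congr 1; group

theorem ind_trans (H : Subgroup G) {θ : H → ℂ} (hθ : IsClassFunction H θ) (T : List ℕ)
    (hc : T.length * Nat.card H = 6048)
    (hp : T.Pairwise (fun s t => (el (mt s 0))⁻¹ * el (mt t 0) ∉ H)) (g : G) :
    indFun H θ g = (T.map (fun t => extendByZero H θ ((el (mt t 0))⁻¹ * g * el (mt t 0)))).sum :=
  ind_trans' H hθ T (fun t => el (mt t 0)) (hc.trans card_G.symm) hp g

theorem act_mul (g h : G) (u : E) : (g * h).1.1 *ᵥ u = g.1.1 *ᵥ (h.1.1 *ᵥ u) := by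
  rw [mulVec_mulVec]; rfl

theorem act_one (u : E) : (1 : G).1.1 *ᵥ u = u := by simp

theorem act_iff (x y : G) (v w : E) : (x⁻¹ * y).1.1 *ᵥ v = w ↔ y.1.1 *ᵥ v = x.1.1 *ᵥ w := by
  constructor
  · rintro rfl; rw [← act_mul, mul_inv_cancel_left]
  · intro h; rw [act_mul, h, ← act_mul, inv_mul_cancel, act_one]

theorem act_ne {v : E} (hv : v ≠ 0) (x : G) : x.1.1 *ᵥ v ≠ 0 := by
  intro h
  apply hv
  rw [← act_one v, ← inv_mul_cancel x, act_mul, h, mulVec_zero]

theorem eig_smul {u : E} (hu : u ≠ 0) (c : K) : eigV u (c • u) = lg c + 1 := by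
  simp only [eigV, eig, Pi.smul_apply, smul_eq_mul]
  split_ifs with h0 h1
  · simp [chk3, mul_assoc, mul_inv_cancel₀ h0]
  · simp [chk3, mul_assoc, mul_inv_cancel₀ h1]
  · have h2 : u 2 ≠ 0 := by
      intro h2; apply hu; ext i; fin_cases i
      · simpa using h0
      · simpa using h1
      · exact h2
    simp [chk3, mul_assoc, mul_inv_cancel₀ h2]

theorem eig_ne {u w : E} (h : eigV u w ≠ 0) : ∃ c : K, w = c • u := by
  have key : ∀ c, chk3 c (u 0) (u 1) (u 2) (w 0) (w 1) (w 2) ≠ 0 → w = c • u := by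
    intro c hc
    simp only [chk3, ne_eq, ite_eq_right_iff, not_forall] at hc
    obtain ⟨⟨a, b, d⟩, -⟩ := hc
    ext i; fin_cases i
    · exact a
    · exact b
    · exact d
  simp only [eigV, eig] at h
  split_ifs at h <;> exact ⟨_, key _ h⟩

theorem eig_iff {u w : E} (hu : u ≠ 0) : eigV u w ≠ 0 ↔ ∃ c : K, w = c • u :=
  ⟨eig_ne, by rintro ⟨c, rfl⟩; rw [eig_smul hu]; omega⟩

def sub (S : Submonoid G) : Subgroup G where
  toSubmonoid := S
  inv_mem' := fun {g} hg => by
    have : g⁻¹ = g ^ (orderOf g - 1) := by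
      rw [inv_eq_iff_mul_eq_one, ← pow_succ', Nat.sub_add_cancel (orderOf_pos g), pow_orderOf_eq_one]
    rw [this]; exact S.pow_mem hg _

def HL (v : E) : Subgroup G := sub
  { carrier := {g | ∃ c : K, g.1.1 *ᵥ v = c • v}
    one_mem' := ⟨1, by simp⟩
    mul_mem' := by
      rintro g h ⟨c, hc⟩ ⟨d, hd⟩
      exact ⟨d * c, by rw [act_mul, hd, mulVec_smul, hc, smul_smul]⟩ }

theorem mem_HL {v : E} {g : G} : g ∈ HL v ↔ ∃ c : K, g.1.1 *ᵥ v = c • v := Iff.rfl

def HF : Subgroup G := sub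
  { carrier := {g | ∀ j, ∃ i, ∃ c : K, g.1.1 *ᵥ ee j = c • ee i}
    one_mem' := fun j => ⟨j, 1, by simp⟩
    mul_mem' := by
      intro g h hg hh j
      obtain ⟨i, d, hd⟩ := hh j
      obtain ⟨l, c, hc⟩ := hg i
      exact ⟨l, d * c, by rw [act_mul, hd, mulVec_smul, hc, smul_smul]⟩ }

theorem mem_HF {g : G} : g ∈ HF ↔ ∀ j, ∃ i, ∃ c : K, g.1.1 *ᵥ ee j = c • ee i := Iff.rfl

theorem ee_ne (i : Fin 3) : ee i ≠ 0 := fun h => by simpa [ee] using congrFun h i
theorem vI_ne : vI ≠ 0 := fun h => by simpa [vI] using congrFun h 0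

theorem mem_HL' {v : E} (hv : v ≠ 0) (x y : G) :
    x⁻¹ * y ∈ HL v ↔ eigV (x.1.1 *ᵥ v) (y.1.1 *ᵥ v) ≠ 0 := by
  simp only [mem_HL, act_iff, eig_iff (act_ne hv x), mulVec_smul]

theorem mem_HF' (x y : G) : x⁻¹ * y ∈ HF ↔ qF x.1.1 (fun j => y.1.1 *ᵥ ee j) = true := by
  simp only [mem_HF, act_iff, qF, par, col_eq, Bool.and_eq_true, Bool.or_eq_true, bne_iff_ne,
    eig_iff (act_ne (ee_ne _) x), mulVec_smul, Fin.forall_fin_succ, Fin.exists_fin_succ]
  simp [and_assoc, or_assoc]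

section zeta
variable {ζ : ℂ} (hζ : ζ ^ 4 = -1)

def ev (ζ : ℂ) (x : Z8) : ℂ := x.a + x.b * ζ + x.c * ζ ^ 2 + x.d * ζ ^ 3

theorem ev_zero : ev ζ 0 = 0 := by show ev ζ ⟨0, 0, 0, 0⟩ = 0; simp [ev]
theorem ev_cst (n : ℤ) : ev ζ (cst n) = n := by simp [ev, cst]
theorem ev_add (x y : Z8) : ev ζ (x + y) = ev ζ x + ev ζ y := by
  show ev ζ ⟨_, _, _, _⟩ = _
  simp only [ev]; push_cast; ring
theorem ev_sum (l : List Z8) : ev ζ l.sum = (l.map (ev ζ)).sum := by
  induction l with
  | nil => exact ev_zero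
  | cons a l ih => rw [List.sum_cons, ev_add, ih]; rfl
include hζ
theorem ev_mul (x y : Z8) : ev ζ (x * y) = ev ζ x * ev ζ y := by
  show ev ζ ⟨_, _, _, _⟩ = _
  simp only [ev]; push_cast
  linear_combination (-(x.b * y.d + x.c * y.c + x.d * y.b) - (x.c * y.d + x.d * y.c) * ζ -
    x.d * y.d * ζ ^ 2 : ℂ) * hζ
theorem conj_zeta : conj ζ = -ζ ^ 3 := by
  have h1 : ‖ζ‖ ^ 4 = 1 := by rw [← norm_pow, hζ]; simp
  have h2 : ‖ζ‖ = 1 := (pow_eq_one_iff_of_nonneg (norm_nonneg _) (by norm_num)).1 h1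
  have h3 : ζ * conj ζ = 1 := by rw [Complex.mul_conj, Complex.normSq_eq_norm_sq, h2]; simp
  linear_combination conj ζ * hζ - ζ ^ 3 * h3
theorem ev_bar (x : Z8) : ev ζ (bar x) = conj (ev ζ x) := by
  simp only [ev, bar, map_add, map_mul, map_pow, map_intCast, conj_zeta hζ]; push_cast
  linear_combination (-(x.c * ζ ^ 2) + x.d * ζ * (ζ ^ 4 - 1) : ℂ) * hζ
theorem zeta8 : ζ ^ 8 = 1 := by linear_combination (ζ ^ 4 - 1) * hζ
theorem ev_zq (n : ℕ) : ev ζ (zq (n % 8)) = ζ ^ n := by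
  rw [pow_eq_pow_mod n (zeta8 hζ)]
  have := Nat.mod_lt n (show 0 < 8 by norm_num)
  generalize n % 8 = m at this
  interval_cases m <;> simp [ev, zq]
  · linear_combination -hζ
  · linear_combination -ζ * hζ
  · linear_combination -ζ ^ 2 * hζ
  · linear_combination -ζ ^ 3 * hζ

omit hζ in
noncomputable def lam (hζ : ζ ^ 4 = -1) {v : E} (hv : v ≠ 0) (j : ℕ) : HL v →* ℂˣ :=
  MonoidHom.toHomUnits
  { toFun := fun g => ζ ^ (j * (eigV v (g.1.1.1 *ᵥ v) - 1))
    map_one' := by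
      have := eig_smul hv 1
      simp only [one_smul, lg_one] at this
      simp [this]
    map_mul' := by
      rintro ⟨g, c, hc⟩ ⟨h, d, hd⟩
      have hc0 : c ≠ 0 := by rintro rfl; exact act_ne hv g (by simpa using hc)
      have hd0 : d ≠ 0 := by rintro rfl; exact act_ne hv h (by simpa using hd)
      show ζ ^ (j * (eigV v ((g * h).1.1 *ᵥ v) - 1)) =
        ζ ^ (j * (eigV v (g.1.1 *ᵥ v) - 1)) * ζ ^ (j * (eigV v (h.1.1 *ᵥ v) - 1))
      rw [act_mul, hd, mulVec_smul, hc, smul_smul, eig_smul hv, eig_smul hv, eig_smul hv,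
        lg_mul _ _ hd0 hc0]
      simp only [Nat.add_sub_cancel]
      rw [mul_comm j, mul_comm j, mul_comm j, pow_mul, pow_mul, pow_mul, ← mul_pow, ← pow_add,
        ← pow_eq_pow_mod _ (zeta8 hζ), add_comm] }

theorem ext_lam {v : E} (hv : v ≠ 0) (j : ℕ) (x y : G) :
    extendByZero (HL v) (fun h => (lam hζ hv j h : ℂ)) (x⁻¹ * y) =
      ev ζ (ph j (eigV (x.1.1 *ᵥ v) (y.1.1 *ᵥ v))) := by
  by_cases h : x⁻¹ * y ∈ HL v
  · rw [extendByZero_mem _ _ h, ph, if_neg ((mem_HL' hv x y).1 h), ev_zq hζ]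
    obtain ⟨c, hc⟩ := h
    have hc' := (act_iff _ _ _ _).1 hc
    rw [mulVec_smul] at hc'
    show ζ ^ (j * (eigV v ((x⁻¹ * y).1.1 *ᵥ v) - 1)) = _
    rw [hc, hc', eig_smul hv, eig_smul (act_ne hv x)]
  · rw [extendByZero_not_mem _ _ h, ph, if_pos (by simpa using _root_.mt (mem_HL' hv x y).2 h), ev_zero]

/-- a generalized character with known values -/
def Val (ζ : ℂ) (v : ℕ → Z8) : Prop :=
  ∃ θ : G → ℂ, IsGeneralizedCharacter G θ ∧ ∀ i < 14, θ (rep i) = ev ζ (v i)

omit hζ in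
theorem Val.add {v w : ℕ → Z8} (h : Val ζ v) (h' : Val ζ w) : Val ζ (fun i => v i + w i) := by
  obtain ⟨θ, h1, h2⟩ := h
  obtain ⟨η, h3, h4⟩ := h'
  exact ⟨θ + η, h1.add h3, fun i hi => by rw [ev_add, Pi.add_apply, h2 i hi, h4 i hi]⟩

theorem Val.mul {v w : ℕ → Z8} (h : Val ζ v) (h' : Val ζ w) : Val ζ (fun i => v i * w i) := by
  obtain ⟨θ, h1, h2⟩ := h
  obtain ⟨η, h3, h4⟩ := h'
  exact ⟨θ * η, h1.mul h3, fun i hi => by rw [ev_mul hζ, Pi.mul_apply, h2 i hi, h4 i hi]⟩

omit hζ in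
theorem val_cst (n : ℤ) : Val ζ (fun _ => cst n) :=
  ⟨n • (fun _ => 1), isGen_one.zsmul n, fun i _ => by simp [ev_cst]⟩

theorem val_L {v : E} (hv : v ≠ 0) (T : List ℕ) (hT : T.all (fun t => isSU (mt t 0)) = true)
    (hc : T.length * Nat.card (HL v) = 6048)
    (hp : T.Pairwise (fun s t => eigV (mv (mt s 0) v) (mv (mt t 0) v) = 0)) (j : ℕ) (V : List Z8)
    (hV : ∀ i < 14, valL v T j i = V.getD i 0) : Val ζ (fun i => V.getD i 0) := by
  have hT' : ∀ t ∈ T, (el (mt t 0)).1.1 = mt t 0 :=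
    fun t ht => el_val (exists_of_isSU (List.all_eq_true.1 hT t ht))
  have hl := isCharacter_linear (lam hζ hv j)
  refine ⟨_, (isCharacter_indFun _ hl).isGen, fun i hi => ?_⟩
  beta_reduce
  rw [ind_trans _ hl.isClassFunction T hc, ← hV i hi, valL, ev_sum, List.map_map]
  · congr 1
    refine List.map_congr_left (fun t ht => ?_)
    rw [mul_assoc, ext_lam, act_mul, hT' t ht, rep_val hi]
    simp only [Function.comp, mv_eq]
  · refine List.Pairwise.imp_of_mem ?_ hp
    intro s t hs ht h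
    rw [mem_HL' hv, hT' s hs, hT' t ht, ← mv_eq, ← mv_eq, h]; simp

omit hζ in
theorem card_HN : Nat.card (HL (ee 0)) = 96 := by
  rw [← chk_HN]
  refine card_sub _ _ (fun t ht => ?_)
  have := mem_HL' (ee_ne 0) 1 (el (mt t 0))
  rw [inv_one, one_mul, act_one, (ok_spec ht).2.1, ← col_eq] at this
  rw [this]; simp

omit hζ in
theorem card_HI : Nat.card (HL vI) = 216 := by
  rw [← chk_HI]
  refine card_sub _ _ (fun t ht => ?_)
  have := mem_HL' vI_ne 1 (el (mt t 0))
  rw [inv_one, one_mul, act_one, (ok_spec ht).2.1, ← mv_eq] at this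
  rw [this]; simp

omit hζ in
theorem card_HF : Nat.card HF = 96 := by
  rw [← chk_HF]
  refine card_sub _ _ (fun t ht => ?_)
  have := mem_HF' 1 (el (mt t 0))
  rw [inv_one, one_mul, (ok_spec ht).2.1] at this
  rw [this, rm_zero, funext (col_eq _)]
  rfl

omit hζ in
theorem val_F : Val ζ (fun i => VF.getD i 0) := by
  have hT' : ∀ t ∈ TF, (el (mt t 0)).1.1 = mt t 0 :=
    fun t ht => el_val (exists_of_isSU (List.all_eq_true.1 suF t ht))
  have hl : IsCharacter HF (fun _ => 1) := isCharacter_one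
  refine ⟨_, (isCharacter_indFun _ hl).isGen, fun i hi => ?_⟩
  beta_reduce
  rw [ind_trans _ hl.isClassFunction TF (by rw [card_HF]; rfl), ← vF i hi, valF, ev_sum,
    List.map_map]
  · congr 1
    refine List.map_congr_left (fun t ht => ?_)
    have := mem_HF' (el (mt t 0)) (rep i * el (mt t 0))
    simp only [act_mul, hT' t ht, rep_val hi] at this
    simp only [Function.comp, mv_eq, col_eq, mul_assoc]
    split_ifs with h
    · rw [extendByZero_mem _ _ (this.2 h), ev_cst]; simp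
    · rw [extendByZero_not_mem _ _ (_root_.mt this.1 h), ev_zero]
  · refine List.Pairwise.imp_of_mem ?_ pwF
    intro s t hs ht h
    rw [mem_HF', hT' s hs, hT' t ht, ← funext (col_eq _), h]; simp

theorem Val.deg {v : ℕ → Z8} (h : Val ζ v) {d : ℕ} (hn : nrm v = cst 6048 ∧ v 0 = cst d) :
    d ∈ charDegrees G := by
  obtain ⟨θ, h1, h2⟩ := h
  have h0 : θ 1 = d := by rw [← rep_zero, h2 0 (by norm_num), hn.2, ev_cst]; simp
  refine H8.mem_cd_of (h1.isIrr_of_pos ?_ (by rw [h0]; simp)) h0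
  have hc : IsClassFunction G (fun g => θ g * conj (θ g)) := fun g h => by
    simp only [h1.isClassFunction g h]
  have := congrArg (ev ζ) hn.1
  rw [nrm, ev_sum, List.map_map, ev_cst] at this
  rw [classInner, sum_class hc, card_G, List.map_congr_left (g := ev ζ ∘ fun i =>
    cst (SZ.getD i 0) * (v i * bar (v i))), this]
  · norm_num
  · intro i hi
    simp only [Function.comp, ev_mul hζ, ev_cst, ev_bar hζ, h2 i (List.mem_range.1 hi)]
    simp

end zeta

theorem degs : 6 ∈ charDegrees G ∧ 21 ∈ charDegrees G ∧ 28 ∈ charDegrees G := by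
  obtain ⟨ζ, hζ⟩ := IsAlgClosed.exists_pow_nat_eq (-1 : ℂ) (show 0 < 4 by norm_num)
  have cI : TI.length * Nat.card (HL vI) = 6048 := by rw [card_HI]; rfl
  have cN : TN.length * Nat.card (HL (ee 0)) = 6048 := by rw [card_HN]; rfl
  have i1 := val_L hζ vI_ne TI suI cI pwI 1 _ vI1
  have i2 := val_L hζ vI_ne TI suI cI pwI 2 _ vI2
  have i3 := val_L hζ vI_ne TI suI cI pwI 3 _ vI3
  have i6 := val_L hζ vI_ne TI suI cI pwI 6 _ vI6
  have n0 := val_L hζ (ee_ne 0) TN suN cN pwN 0 _ vN0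
  have n1 := val_L hζ (ee_ne 0) TN suN cN pwN 1 _ vN1
  have f : Val ζ _ := val_F
  have c := fun n => val_cst (ζ := ζ) n
  refine ⟨Val.deg hζ (v := w6) ?_ n6, Val.deg hζ (v := w21) ?_ n21, i1.deg hζ n28⟩
  · exact ((((((((c 9).mul hζ (i3.mul hζ i3)).add ((c (-2)).mul hζ f)).add
      ((c (-4)).mul hζ i6)).add ((c 3).mul hζ n0)).add ((c (-4)).mul hζ (i2.mul hζ n0))).add
      i1).add i3).add (c (-1))
  · exact ((((n0.add ((c (-1)).mul hζ f)).add i2).add ((c (-1)).mul hζ n1)).add i6).add i1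

theorem psu_equiv {F : Type*} [Field F] [Fintype F] (hF : Fintype.card F = 9) :
    Nonempty (PSU 3 F 3 ≃* G) := by
  obtain ⟨e⟩ := H12.nonempty_ringEquiv_of_natCard_eq (F := F) (K := K)
    (by rw [Nat.card_eq_fintype_card, Nat.card_eq_fintype_card, hF, card_K]; norm_num)
  have hz : Subgroup.center G = ⊥ :=
    Subgroup.eq_bot_of_card_eq _ (H12.card_center_SU (q := 3) (n := 3) card_K (by norm_num))
  exact ⟨(H12.psuCongr 3 3 e).trans
    ((QuotientGroup.quotientMulEquivOfEq hz).trans QuotientGroup.quotientBot)⟩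

end Cfsg.Agent.H26.U33
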