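import Cfsg.Agent.H26.U34a

set_option maxRecDepth 100000

namespace Cfsg.Agent.H26.U34

open Matrix Cfsg

abbrev X := {v : E // Iso v}

theorem h_act (g : G) (u v : E) : h (g.1.1 *ᵥ u) (g.1.1 *ᵥ v) = h u v := by
  rw [← herm_eq, ← herm_eq]; exact g.2 u v

theorem iso_act (g : G) {v : E} (hv : Iso v) : Iso (g.1.1 *ᵥ v) := by
  refine iso_of (by rw [h_act, hv.1]) (fun e => ne_zero_of_iso hv ?_)
  have : (g⁻¹).1.1 *ᵥ (g.1.1 *ᵥ v) = v := by
    rw [mulVec_mulVec]
    have : (g⁻¹).1.1 * g.1.1 = (g⁻¹ * g).1.1 := rfl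
    rw [this, inv_mul_cancel]; simp
  rw [← this, e, mulVec_zero]

instance : SMul G X := ⟨fun g v => ⟨g.1.1 *ᵥ v.1, iso_act g v.2⟩⟩

theorem smul_val (g : G) (v : X) : (g • v).1 = g.1.1 *ᵥ v.1 := rfl

instance : MulAction G X where
  one_smul v := Subtype.ext (by rw [smul_val]; simp)
  mul_smul g g' v := Subtype.ext (by simp only [smul_val, mulVec_mulVec]; rfl)

/-- the module -/
def V : AddSubgroup (X → X → ZMod 5) where
  carrier := {F | (∀ u v w, F u v + F v w = F u w) ∧ (∀ (u v : X) (c : K), u.1 = c • v.1 → F u v = 0) ∧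
    ∀ v w x y z : X, h v.1 w.1 ^ 3 = 1 → x.1 = v.1 + w.1 → y.1 = v.1 + k 6 • w.1 →
      z.1 = v.1 + k 7 • w.1 → F v w + F x w + F y w + F z w = 0}
  zero_mem' := by simp
  add_mem' := by
    rintro F F' ⟨a1, a2, a3⟩ ⟨b1, b2, b3⟩
    refine ⟨fun u v w => ?_, fun u v c e => ?_, fun v w x y z e1 e2 e3 e4 => ?_⟩
    · simp only [Pi.add_apply]; linear_combination a1 u v w + b1 u v w
    · simp [a2 u v c e, b2 u v c e]
    · simp only [Pi.add_apply]
      linear_combination a3 v w x y z e1 e2 e3 e4 + b3 v w x y z e1 e2 e3 e4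
  neg_mem' := by
    rintro F ⟨a1, a2, a3⟩
    refine ⟨fun u v w => ?_, fun u v c e => ?_, fun v w x y z e1 e2 e3 e4 => ?_⟩
    · simp only [Pi.neg_apply]; linear_combination - a1 u v w
    · simp [a2 u v c e]
    · simp only [Pi.neg_apply]
      linear_combination - a3 v w x y z e1 e2 e3 e4

instance : SMul G V where
  smul g F := ⟨fun u v => F.1 (g⁻¹ • u) (g⁻¹ • v), fun u v w => F.2.1 _ _ _,
    fun u v c e => F.2.2.1 _ _ c (by rw [smul_val, smul_val, e, mulVec_smul]),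
    fun v w x y z e1 e2 e3 e4 => F.2.2.2 _ _ _ _ _ (by rw [smul_val, smul_val, h_act, e1])
      (by simp only [smul_val, e2, mulVec_add]) (by simp only [smul_val, e3, mulVec_add, mulVec_smul])
      (by simp only [smul_val, e4, mulVec_add, mulVec_smul])⟩

theorem smul_apply (g : G) (F : V) (u v : X) : (g • F).1 u v = F.1 (g⁻¹ • u) (g⁻¹ • v) := rfl

instance : DistribMulAction G V where
  one_smul F := by ext u v; simp [smul_apply]
  mul_smul g g' F := by ext u v; simp [smul_apply, mul_smul]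
  smul_zero g := rfl
  smul_add g F F' := rfl

theorem five (F : V) : 5 • F = 0 := by
  ext u v
  simp only [AddSubgroupClass.coe_nsmul, Pi.smul_apply, nsmul_eq_mul]
  exact mul_eq_zero_of_left (by decide) _

def F0 : V := ⟨fun u v => (tv TF u.1 : ZMod 5) - tv TF v.1, fun u v w => by ring,
  fun u v c e => by
    have hc : c ≠ 0 := by rintro rfl; exact ne_zero_of_iso u.2 (by simpa using e)
    show ((tv TF u.1 : ℕ) : ZMod 5) - (tv TF v.1 : ℕ) = 0
    rw [e, tv_smul hc v.2, sub_self],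
  fun v w x y z e1 e2 e3 e4 => by
    have := block v.2 w.2 e1 (e2 ▸ x.2) (e3 ▸ y.2) (e4 ▸ z.2)
    rw [← e2, ← e3, ← e4] at this
    have h0 := (ZMod.natCast_eq_zero_iff _ 5).2 (Nat.dvd_of_mod_eq_zero this)
    push_cast at h0
    have h5 : (5 : ZMod 5) = 0 := by decide
    linear_combination h0 - (tv TF w.1 : ZMod 5) * h5⟩

instance : Nontrivial V := ⟨F0, 0, fun e => by
  have := congrFun (congrFun (congrArg Subtype.val e) ⟨![k 0, k 1, k 1], by decide +kernel⟩)
    ⟨![k 1, k 0, k 1], by decide +kernel⟩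
  revert this
  show ¬ (((tv TF ![k 0, k 1, k 1] : ℕ) : ZMod 5) - (tv TF ![k 1, k 0, k 1] : ℕ) = 0)
  decide +kernel⟩

theorem pres (A : Matrix (Fin 3) (Fin 3) K)
    (hA : ∀ i j : Fin 3, A 0 i * fr (A 0 j) + A 1 i * fr (A 1 j) + A 2 i * fr (A 2 j) =
      if i = j then 1 else 0) (u v : E) :
    hermForm 3 K 4 (A *ᵥ u) (A *ᵥ v) = hermForm 3 K 4 u v := by
  have h00 := hA 0 0; have h01 := hA 0 1; have h02 := hA 0 2
  have h10 := hA 1 0; have h11 := hA 1 1; have h12 := hA 1 2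
  have h20 := hA 2 0; have h21 := hA 2 1; have h22 := hA 2 2
  simp only [herm_eq, h, mulVec, dotProduct, Fin.sum_univ_three, fr_add, fr_mul]
  simp only [if_true, Fin.reduceEq, if_false] at *
  linear_combination u 0 * fr (v 0) * h00 + u 0 * fr (v 1) * h01 + u 0 * fr (v 2) * h02 +
    u 1 * fr (v 0) * h10 + u 1 * fr (v 1) * h11 + u 1 * fr (v 2) * h12 +
    u 2 * fr (v 0) * h20 + u 2 * fr (v 1) * h21 + u 2 * fr (v 2) * h22

def mkG (A : Matrix (Fin 3) (Fin 3) K) (hd : A.det = 1)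
    (hA : ∀ i j : Fin 3, A 0 i * fr (A 0 j) + A 1 i * fr (A 1 j) + A 2 i * fr (A 2 j) =
      if i = j then 1 else 0) : G := ⟨⟨A, hd⟩, pres A hA⟩

def mm (A B : Matrix (Fin 3) (Fin 3) K) : Matrix (Fin 3) (Fin 3) K :=
  !![A 0 0 * B 0 0 + A 0 1 * B 1 0 + A 0 2 * B 2 0, A 0 0 * B 0 1 + A 0 1 * B 1 1 + A 0 2 * B 2 1,
      A 0 0 * B 0 2 + A 0 1 * B 1 2 + A 0 2 * B 2 2;
    A 1 0 * B 0 0 + A 1 1 * B 1 0 + A 1 2 * B 2 0, A 1 0 * B 0 1 + A 1 1 * B 1 1 + A 1 2 * B 2 1,
      A 1 0 * B 0 2 + A 1 1 * B 1 2 + A 1 2 * B 2 2;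
    A 2 0 * B 0 0 + A 2 1 * B 1 0 + A 2 2 * B 2 0, A 2 0 * B 0 1 + A 2 1 * B 1 1 + A 2 2 * B 2 1,
      A 2 0 * B 0 2 + A 2 1 * B 1 2 + A 2 2 * B 2 2]

theorem mm_eq (A B : Matrix (Fin 3) (Fin 3) K) : mm A B = A * B := by
  ext i j; fin_cases i <;> fin_cases j <;> simp [mm, mul_apply, Fin.sum_univ_three]

def pm (A : Matrix (Fin 3) (Fin 3) K) : ℕ → Matrix (Fin 3) (Fin 3) K
  | 0 => 1
  | n + 1 => mm (pm A n) A

theorem pm_eq (A : Matrix (Fin 3) (Fin 3) K) (n : ℕ) : pm A n = A ^ n := by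
  induction n with
  | zero => simp [pm]
  | succ n ih => rw [pm, mm_eq, ih, pow_succ]

def isOne (A : Matrix (Fin 3) (Fin 3) K) : Bool :=
  A 0 0 = 1 && A 0 1 = 0 && A 0 2 = 0 && A 1 0 = 0 && A 1 1 = 1 && A 1 2 = 0 && A 2 0 = 0 &&
    A 2 1 = 0 && A 2 2 = 1

theorem isOne_iff (A : Matrix (Fin 3) (Fin 3) K) : isOne A = true ↔ A = 1 := by
  constructor
  · intro h
    simp only [isOne, Bool.and_eq_true, decide_eq_true_eq] at h
    ext i j; fin_cases i <;> fin_cases j <;> simp [h]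
  · rintro rfl; simp [isOne]

theorem pow_eq_one_iff' (g : G) (n : ℕ) : g ^ n = 1 ↔ isOne (pm g.1.1 n) = true := by
  rw [pm_eq, isOne_iff]
  constructor
  · intro h
    have := congrArg (fun x : G => x.1.1) h
    simpa using this
  · intro h
    apply Subtype.ext; apply Subtype.ext
    simpa using h

def g13 : G := mkG !![k 7, k 10, k 7; k 13, k 7, k 1; k 10, k 3, k 11] (by rw [det_fin_three]; decide +kernel) (by decide +kernel)
def g10 : G := mkG !![k 1, k 10, k 8; k 15, k 9, k 4; k 12, k 4, k 4] (by rw [det_fin_three]; decide +kernel) (by decide +kernel)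
def g15 : G := mkG !![k 15, k 11, k 13; k 2, k 1, k 3; k 2, k 13, k 12] (by rw [det_fin_three]; decide +kernel) (by decide +kernel)

theorem ord13 : orderOf g13 = 13 := by
  have : Fact (Nat.Prime 13) := ⟨by norm_num⟩
  refine orderOf_eq_prime ((pow_eq_one_iff' _ _).2 (by decide +kernel)) ?_
  rw [← pow_one g13, Ne, pow_eq_one_iff']; decide +kernel

theorem ord10 : orderOf g10 = 5 * 2 := by
  rw [orderOf_eq_iff (by norm_num)]
  simp only [Ne, pow_eq_one_iff']
  decide +kernel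

theorem ord15 : orderOf g15 = 5 * 3 := by
  rw [orderOf_eq_iff (by norm_num)]
  simp only [Ne, pow_eq_one_iff']
  decide +kernel

def p (j : ℕ) : X := ⟨pv j, iso_pv j⟩

theorem tv_g13 (T : ℕ) (v : X) : tv T (g13 • v).1 =
    tb T (k 7 * v.1 0 + k 10 * v.1 1 + k 7 * v.1 2) (k 13 * v.1 0 + k 7 * v.1 1 + k 1 * v.1 2)
      (k 10 * v.1 0 + k 3 * v.1 1 + k 11 * v.1 2) := by
  simp [tv, smul_val, g13, mkG, mulVec, dotProduct, Fin.sum_univ_three]

theorem fpf13 (F : V) (hF : g13 • F = F) : F = 0 := by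
  obtain ⟨a1, a2, a3⟩ := F.2
  have hinv : ∀ u v, F.1 (g13 • u) (g13 • v) = F.1 u v := by
    intro u v
    conv_lhs => rw [← hF, smul_apply]
    simp
  have hself : ∀ u, F.1 u u = 0 := fun u => a2 u u 1 (by simp)
  have hinv' : ∀ (n : ℕ) u v, F.1 (g13 ^ n • u) (g13 ^ n • v) = F.1 u v := by
    intro n u v
    induction n with
    | zero => simp
    | succ n ih => rw [pow_succ', mul_smul, mul_smul, hinv, ih]
  have hpow : ∀ (n : ℕ) u, F.1 (g13 ^ n • u) u = n * F.1 (g13 • u) u := by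
    intro n u
    induction n with
    | zero => simp [hself]
    | succ n ih =>
      rw [← a1 _ (g13 ^ n • u), ih, pow_succ, mul_smul, hinv']; push_cast; ring
  have hc : ∀ u, F.1 (g13 • u) u = 0 := by
    intro u
    have := hpow 13 u
    rw [← ord13, pow_orderOf_eq_one, one_smul, hself, ord13] at this
    have h5 : (5 : ZMod 5) = 0 := by decide
    push_cast at this
    linear_combination (-2) * this - 5 * F.1 (g13 • u) u * h5
  have hd : ∀ (d : ℕ) (v : X), tv TD v.1 = d → F.1 v (p (tv TL v.1)) = 0 := by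
    intro d
    induction d with
    | zero =>
      intro v hv
      obtain ⟨l, e0, e1, e2⟩ := (chkD _ _ _ ((iso_iff _).1 v.2)).2.1 hv
      refine a2 _ _ l ?_
      ext i; fin_cases i
      · exact e0
      · exact e1
      · exact e2
    | succ d ih =>
      intro v hv
      obtain ⟨e1, e2⟩ := (chkD _ _ _ ((iso_iff _).1 v.2)).2.2 (by rw [← tv, hv]; omega)
      rw [← tv_g13, ← tv] at e1 e2
      have := ih (g13 • v) (by omega)
      rw [e2] at this
      linear_combination this - hc v + a1 (g13 • v) v (p (tv TL v.1))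
  have ha : ∀ v : X, F.1 v (p 1) = F.1 (p (tv TL v.1)) (p 1) := by
    intro v
    rw [← a1 v (p (tv TL v.1)), hd _ v rfl, zero_add]
  have hb : ∀ (v w x y z : X) (i j l m n : ℕ), h v.1 w.1 ^ 3 = 1 → (∀ i, x.1 i = v.1 i + w.1 i) →
      (∀ i, y.1 i = v.1 i + k 6 * w.1 i) → (∀ i, z.1 i = v.1 i + k 7 * w.1 i) →
      (tv TL v.1 = i ∧ tv TL w.1 = j ∧ tv TL x.1 = l ∧ tv TL y.1 = m ∧ tv TL z.1 = n) →
      F.1 (p i) (p 1) + F.1 (p j) (p 1) + F.1 (p l) (p 1) + F.1 (p m) (p 1) + F.1 (p n) (p 1) = 0 := by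
    rintro v w x y z i j l m n e1 e2 e3 e4 ⟨rfl, rfl, rfl, rfl, rfl⟩
    have := a3 v w x y z e1 (funext e2) (funext e3) (funext e4)
    have h5 : (5 : ZMod 5) = 0 := by decide
    rw [← ha, ← ha, ← ha, ← ha, ← ha]
    linear_combination this - a1 v w (p 1) - a1 x w (p 1) - a1 y w (p 1) - a1 z w (p 1) +
      F.1 w (p 1) * h5
  have e0 := hb ⟨![k 0, k 1, k 1], by decide +kernel⟩ ⟨![k 0, k 2, k 3], by decide +kernel⟩ ⟨![k 0, k 3, k 2], by decide +kernel⟩
    ⟨![k 0, k 13, k 11], by decide +kernel⟩ ⟨![k 0, k 15, k 8], by decide +kernel⟩ 1 2 3 2 3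
    (by decide +kernel) (by decide +kernel) (by decide +kernel) (by decide +kernel) (by decide +kernel)
  have e1 := hb ⟨![k 0, k 1, k 1], by decide +kernel⟩ ⟨![k 1, k 0, k 1], by decide +kernel⟩ ⟨![k 1, k 1, k 0], by decide +kernel⟩
    ⟨![k 6, k 1, k 7], by decide +kernel⟩ ⟨![k 7, k 1, k 6], by decide +kernel⟩ 1 2 2 1 3
    (by decide +kernel) (by decide +kernel) (by decide +kernel) (by decide +kernel) (by decide +kernel)
  have e2 := hb ⟨![k 0, k 1, k 1], by decide +kernel⟩ ⟨![k 1, k 2, k 4], by decide +kernel⟩ ⟨![k 1, k 3, k 5], by decide +kernel⟩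
    ⟨![k 6, k 13, k 10], by decide +kernel⟩ ⟨![k 7, k 15, k 14], by decide +kernel⟩ 1 4 3 4 1
    (by decide +kernel) (by decide +kernel) (by decide +kernel) (by decide +kernel) (by decide +kernel)
  have e3 := hb ⟨![k 0, k 1, k 1], by decide +kernel⟩ ⟨![k 1, k 2, k 5], by decide +kernel⟩ ⟨![k 1, k 3, k 4], by decide +kernel⟩
    ⟨![k 6, k 13, k 12], by decide +kernel⟩ ⟨![k 7, k 15, k 9], by decide +kernel⟩ 1 5 2 1 2
    (by decide +kernel) (by decide +kernel) (by decide +kernel) (by decide +kernel) (by decide +kernel)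
  rw [hself] at e0 e1 e2 e3
  have hz : F.1 (p 2) (p 1) = 0 ∧ F.1 (p 3) (p 1) = 0 ∧ F.1 (p 4) (p 1) = 0 ∧ F.1 (p 5) (p 1) = 0 := by
    revert e0 e1 e2 e3
    generalize F.1 (p 2) (p 1) = a
    generalize F.1 (p 3) (p 1) = b
    generalize F.1 (p 4) (p 1) = c
    generalize F.1 (p 5) (p 1) = d
    revert a b c d
    decide +kernel
  have h1 : ∀ v : X, F.1 v (p 1) = 0 := by
    intro v
    rw [ha]
    have h0 := (iso_iff _).1 v.2
    have h5 : tv TL v.1 ≤ 5 := (chkD _ _ _ h0).1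
    generalize tv TL v.1 = j at h0 h5
    interval_cases j
    · exact absurd rfl h0
    · exact hself _
    · exact hz.1
    · exact hz.2.1
    · exact hz.2.2.1
    · exact hz.2.2.2
  ext u v
  have := a1 u v (p 1)
  rw [h1, h1] at this
  simpa using this

theorem card_G : Nat.card G = 62400 := by
  have := H12.card_SU (q := 4) (n := 3) card_K (by norm_num)
  rw [show H12.guOrd 4 3 = (4 + 1) * 62400 by decide] at this
  exact Nat.eq_of_mul_eq_mul_left (by norm_num) this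

instance : Finite G := Nat.finite_of_card_ne_zero (by rw [card_G]; norm_num)

theorem fpf (g : G) (hg : orderOf g = 13) (F : V) (hF : g • F = F) : F = 0 := by
  have : Fact (Nat.Prime 13) := ⟨by norm_num⟩
  have hs : ∀ x : G, orderOf x = 13 → ∃ P : Sylow 13 G, (P : Subgroup G) = Subgroup.zpowers x := by
    intro x hx
    refine ⟨Sylow.ofCard (Subgroup.zpowers x) ?_, rfl⟩
    rw [Nat.card_zpowers, hx, card_G, show 62400 = 13 ^ 1 * 4800 by norm_num,
      Nat.factorization_mul (by norm_num) (by norm_num)]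
    simp [Nat.factorization_eq_zero_of_not_dvd (show ¬ 13 ∣ 4800 by norm_num),
      Nat.Prime.factorization_self (show Nat.Prime 13 by norm_num)]
  obtain ⟨P, hP⟩ := hs g hg
  obtain ⟨Q, hQ⟩ := hs g13 ord13
  obtain ⟨x, rfl⟩ := MulAction.exists_smul_eq G Q P
  have : x * g13 * x⁻¹ ∈ Subgroup.zpowers g := by
    rw [← hP, Sylow.coe_subgroup_smul, Subgroup.mem_pointwise_smul_iff_inv_smul_mem, hQ]
    simp [mul_assoc]
  have h2 : (x * g13 * x⁻¹) • F = F :=
    (Subgroup.zpowers_le_of_mem (G := G) (H := MulAction.stabilizer G F) hF) this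
  have h3 : g13 • (x⁻¹ • F) = x⁻¹ • F := by
    conv_rhs => rw [← h2]
    simp [mul_smul]
  have := congrArg (fun y => x • y) (fpf13 _ h3)
  simpa using this

theorem main (N : ℕ) : ∃ (H : Type) (_ : Group H) (_ : Fintype H), N < Fintype.card H ∧
    H19.SameGraph G H := by
  refine H19.exists_large_sameGraph_aff (V := V) (r := 5) (by norm_num) five
    (by rw [card_G]; norm_num) (fun s g v hs h5 hg hv hfix => ?_) N
  have hd : s ∣ 2 ^ 6 * 3 * 5 ^ 2 * 13 := by
    have := orderOf_dvd_natCard g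
    rwa [hg, card_G] at this
  have : s = 2 ∨ s = 3 ∨ s = 13 := by
    simp only [hs.dvd_mul] at hd
    rcases hd with ((h | h) | h) | h
    · exact .inl ((Nat.prime_dvd_prime_iff_eq hs (by norm_num)).1 (hs.dvd_of_dvd_pow h))
    · exact .inr (.inl ((Nat.prime_dvd_prime_iff_eq hs (by norm_num)).1 h))
    · exact absurd ((Nat.prime_dvd_prime_iff_eq hs (by norm_num)).1 (hs.dvd_of_dvd_pow h)) h5
    · exact .inr (.inr ((Nat.prime_dvd_prime_iff_eq hs (by norm_num)).1 h))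
  rcases this with rfl | rfl | rfl
  · exact ⟨_, ord10⟩
  · exact ⟨_, ord15⟩
  · exact absurd (fpf g hg v hfix) hv

theorem psu_equiv {F : Type*} [Field F] [Fintype F] (hF : Fintype.card F = 16) :
    Nonempty (PSU 3 F 4 ≃* G) := by
  obtain ⟨e⟩ := H12.nonempty_ringEquiv_of_natCard_eq (F := F) (K := K)
    (by rw [Nat.card_eq_fintype_card, Nat.card_eq_fintype_card, hF, card_K]; norm_num)
  have hz : Subgroup.center G = ⊥ :=
    Subgroup.eq_bot_of_card_eq _ (H12.card_center_SU (q := 4) (n := 3) card_K (by norm_num))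
  exact ⟨(H12.psuCongr 3 4 e).trans
    ((QuotientGroup.quotientMulEquivOfEq hz).trans QuotientGroup.quotientBot)⟩

end Cfsg.Agent.H26.U34
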