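import Mathlib
import Cfsg.Agent.H26.MS1

/-! Eigenspaces of one-parameter groups; representations of symplectic groups of rank one. -/

set_option autoImplicit false
set_option linter.unusedSectionVars false

namespace Cfsg.Agent.H26.WC

open Module H12 MS Finset
open MD (psi eq_zero_of_psi exists_psi)
open scoped Classical

variable {F : Type*} [Field F] [Fintype F] {M : Type*} [AddCommGroup M] [Module ℂ M]

local notation "q" => Fintype.card F
local notation "ψ" => psi F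

theorem psi_ne : ψ ≠ 1 := AddChar.ne_one_iff.2 ⟨1, exists_psi.choose_spec⟩
theorem q_ne : (q : ℂ) ≠ 0 := Nat.cast_ne_zero.2 Fintype.card_ne_zero
theorem sum_psi (b : F) : ∑ c, ψ (c * b) = if b = 0 then (q : ℂ) else 0 := by
  simpa using AddChar.sum_mulShift b (AddChar.IsPrimitive.of_ne_one psi_ne)

noncomputable def Es (f : F → End ℂ M) (a : F) : Submodule ℂ M := ⨅ c, (f c).eigenspace (ψ (c * a))
noncomputable def Pr (f : F → End ℂ M) (a : F) : End ℂ M := (q : ℂ)⁻¹ • ∑ c, ψ (-(c * a)) • f c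
structure Ad (f : F → End ℂ M) : Prop where
  zero : f 0 = 1
  add : ∀ c d, f (c + d) = f c * f d

section
variable {f : F → End ℂ M} {a b : F} {m : M} {K : Submodule ℂ M}

theorem mem_Es : m ∈ Es f a ↔ ∀ c, f c m = ψ (c * a) • m := by simp [Es]

theorem pr_eig (hm : m ∈ Es f b) (a : F) : Pr f a m = if b = a then m else 0 := by
  simp only [Pr, LinearMap.smul_apply, LinearMap.sum_apply, mem_Es.1 hm, smul_smul, ← sum_smul,
    ← AddChar.map_add_eq_mul, neg_add_eq_sub, ← mul_sub, sum_psi, sub_eq_zero]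
  split_ifs <;> simp [q_ne]

theorem pr_inv (hK : ∀ c, ∀ m ∈ K, f c m ∈ K) (hm : m ∈ K) : Pr f a m ∈ K := by
  simp only [Pr, LinearMap.smul_apply, LinearMap.sum_apply]
  exact K.smul_mem _ (K.sum_mem fun c _ => K.smul_mem _ (hK c m hm))

theorem Es_inv {T : End ℂ M} (hT : ∀ c, Commute T (f c)) (hm : m ∈ Es f a) : T m ∈ Es f a :=
  mem_Es.2 fun c => by rw [← End.mul_apply, ← (hT c).eq, End.mul_apply, mem_Es.1 hm, map_smul]

theorem Es_uniq (h : m ∈ Es f a) (h' : m ∈ Es f b) (h0 : m ≠ 0) : a = b := by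
  have := pr_eig h a
  rw [pr_eig h', if_pos rfl] at this
  by_contra e; rw [if_neg (Ne.symm e)] at this; exact h0 this.symm

variable (h : Ad f)
include h

theorem Ad.pr_mem (m : M) : Pr f a m ∈ Es f a := mem_Es.2 fun d => by
  simp only [Pr, LinearMap.smul_apply, LinearMap.sum_apply, map_smul, map_sum, smul_comm (ψ (d * a))]
  congr 1
  rw [smul_sum]
  refine Fintype.sum_equiv (Equiv.addLeft d) _ _ fun c => ?_
  rw [Equiv.coe_addLeft, h.add, smul_smul, ← AddChar.map_add_eq_mul, End.mul_apply]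
  congr 2; ring

theorem Ad.sum_pr (m : M) : ∑ a, Pr f a m = m := by
  simp only [Pr, LinearMap.smul_apply, LinearMap.sum_apply, ← smul_sum]
  rw [sum_comm]
  simp only [← sum_smul, show ∀ c a : F, -(c * a) = a * -c from fun _ _ => by ring, sum_psi, neg_eq_zero,
    ite_smul, zero_smul, sum_ite_eq']
  simp [h.zero, q_ne]

theorem Ad.inv (c : F) (m : M) (hm : m ∈ Es f a) : f c m ∈ Es f a :=
  Es_inv (fun d => by rw [Commute, SemiconjBy, ← h.add, ← h.add, add_comm]) hm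

theorem Ad.dec {N : Submodule ℂ M} (hK : ∀ c, ∀ m ∈ K, f c m ∈ K) (H : ∀ a, ∀ m ∈ K, m ∈ Es f a → m ∈ N)
    (hm : m ∈ K) : m ∈ N :=
  h.sum_pr m ▸ N.sum_mem fun a _ => H a _ (pr_inv hK hm) (h.pr_mem m)

theorem Ad.ext {X Y : End ℂ M} (H : ∀ a, ∀ m ∈ Es f a, X m = Y m) : X = Y :=
  LinearMap.ext fun m => h.dec (K := ⊤) (N := LinearMap.eqLocus X Y) (fun _ _ _ => trivial)
    (fun a m _ => H a m) trivial

theorem Ad.ex (hK : ∀ c, ∀ m ∈ K, f c m ∈ K) (hm : m ∈ K) (h0 : m ≠ 0) :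
    ∃ a, ∃ m ∈ K, m ∈ Es f a ∧ m ≠ 0 := by
  by_contra! H
  exact h0 (h.dec (N := ⊥) hK H hm)
end

variable {V : Type*} [AddCommGroup V] [Module F V] [FiniteDimensional F V]
  [Finite V] {B : V →ₛₗ[RingHom.id F] V →ₗ[F] F} [hC : SC B] (ρ : UG B →* End ℂ M)

noncomputable def tt (p : V) (c : F) : End ℂ M := ρ (tv B p c)
noncomputable def hh (p w : V) (c : F) : End ℂ M := ρ (rho B p (c • w) 0)
/-- the operator corresponding to `ω(v) + ω(-v)` -/
noncomputable def SO (κ : F) (v : V) : End ℂ M := ∑ f, ψ (2 * κ * f) • Pr (tt ρ v) (κ * f ^ 2) + Pr (tt ρ v) 0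
def R1 : Prop := ∀ u v, B u v = 0 → ∀ α β γ m, m ∈ Es (tt ρ u) α → m ∈ Es (tt ρ v) γ → m ∈ Es (hh ρ u v) β →
  m ≠ 0 → β ^ 2 = 4 * α * γ
def Ty (κ : F) : Prop := ∀ p a m, m ∈ Es (tt ρ p) a → m ≠ 0 → ∃ f, a = κ * f ^ 2
def NF : Prop := ∀ m, (∀ g, ρ g m = m) → m = 0

variable {ρ} {p u v w x y : V} {κ a : F} {m : M}

theorem ad_t (p : V) : Ad (tt ρ p) :=
  ⟨by rw [tt, tv_zero hC.sd, map_one], fun c d => by rw [tt, ← t_mul, map_mul]; rfl⟩
theorem ad_h (h : B p w = 0) : Ad (hh ρ p w) := ⟨by rw [hh, zero_smul, rho_zero hC.sd, map_one], fun c d => by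
  rw [hh, hh, hh, ← map_mul, MS.R_mul (by simp [h]) (by simp [h]), add_smul]; simp⟩

theorem comm_t {g : UG B} (h : g • p = p) (c : F) : Commute (ρ g) (tt ρ p c) := by
  rw [Commute, SemiconjBy, tt, ← map_mul, ← map_mul, mul_inv_eq_iff_eq_mul.1 (conj_t g p c), h]
theorem inv_t {g : UG B} (h : g • p = p) (hm : m ∈ Es (tt ρ p) a) : ρ g m ∈ Es (tt ρ p) a :=
  Es_inv (comm_t h) hm
theorem g_mem (g : UG B) (hm : m ∈ Es (tt ρ p) a) : ρ g m ∈ Es (tt ρ (g • p)) a := mem_Es.2 fun c => by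
  rw [tt, ← conj_t, ← End.mul_apply, ← map_mul, inv_mul_cancel_right, map_mul, End.mul_apply,
    show ρ (tv B p c) m = _ from mem_Es.1 hm c, map_smul]
theorem smul_mem (t : F) (hm : m ∈ Es (tt ρ p) a) : m ∈ Es (tt ρ (t • p)) (t ^ 2 * a) := mem_Es.2 fun c => by
  rw [tt, t_smul, show ρ (tv B p _) m = _ from mem_Es.1 hm _]; congr 2; ring
theorem t_add (h : B u v = 0) (c : F) : tv B (u + v) c = tv B u c * tv B v c * rho B u (c • v) 0 :=
  UG_ext fun x => by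
    change tv B (u + v) c • x = (tv B u c * tv B v c * rho B u (c • v) 0) • x
    simp only [mul_smul, t_apply, R_apply (show B u (c • v) = 0 by simp [h]), map_add, map_smul, h, c0 h, Bss,
      LinearMap.add_apply, LinearMap.smul_apply, smul_eq_mul, RingHom.id_apply]
    module
theorem add_mem (h : B u v = 0) {α β γ : F} (h1 : m ∈ Es (tt ρ u) α) (h2 : m ∈ Es (tt ρ v) γ)
    (h3 : m ∈ Es (hh ρ u v) β) : m ∈ Es (tt ρ (u + v)) (α + β + γ) := mem_Es.2 fun c => by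
  rw [tt, t_add h, map_mul, map_mul, End.mul_apply, End.mul_apply, show ρ (rho B u _ _) m = _ from mem_Es.1 h3 c,
    map_smul, show ρ (tv B v _) m = _ from mem_Es.1 h2 c, map_smul, map_smul,
    show ρ (tv B u _) m = _ from mem_Es.1 h1 c]
  simp only [smul_smul, ← AddChar.map_add_eq_mul]; congr 2; ring
theorem inv_h (h : B u v = 0) {α γ : F} (c : F) (m : M) (hm : m ∈ Es (tt ρ u) α ⊓ Es (tt ρ v) γ) :
    hh ρ u v c m ∈ Es (tt ρ u) α ⊓ Es (tt ρ v) γ :=
  ⟨inv_t (R_self _ _ _) hm.1, inv_t (R_fix _ h (by simp)) hm.2⟩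

theorem SO_eig (h2 : (2 : F) ≠ 0) (hκ : κ ≠ 0) {g : F} (hm : m ∈ Es (tt ρ v) (κ * g ^ 2)) :
    SO ρ κ v m = (ψ (2 * κ * g) + ψ (-(2 * κ * g))) • m := by
  simp only [SO, LinearMap.add_apply, LinearMap.sum_apply, LinearMap.smul_apply, pr_eig hm, mul_eq_zero, hκ,
    mul_right_inj' hκ, sq_eq_sq_iff_eq_or_eq_neg, false_or, pow_eq_zero_iff two_ne_zero]
  by_cases hg : g = 0
  · simp [hg, eq_comm, add_smul]
  · rw [if_neg hg, add_zero, Fintype.sum_eq_add g (-g) (fun e => hg (by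
      rwa [eq_neg_iff_add_eq_zero, ← two_mul, mul_eq_zero, or_iff_right h2] at e)) fun c hc => by
      rw [if_neg (by rintro (rfl | rfl) <;> simp at hc), smul_zero]]
    simp [add_smul]

theorem SO_fix (h2 : (2 : F) ≠ 0) (hκ : κ ≠ 0) (hm : m ∈ Es (tt ρ v) 0) : SO ρ κ v m = (2 : ℂ) • m := by
  rw [SO_eig h2 hκ (g := 0) (by simpa)]; norm_num

theorem SO_neg (v : V) : SO ρ κ (-v) = SO ρ κ v := by
  rw [SO, SO, show tt ρ (-v) = tt ρ v from funext fun c => by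
    rw [tt, tt, ← neg_one_smul F v, t_smul]; simp]

theorem SO_zero (h2 : (2 : F) ≠ 0) (hκ : κ ≠ 0) : SO ρ κ 0 = (2 : ℂ) • 1 := LinearMap.ext fun m =>
  SO_fix h2 hκ (mem_Es.2 fun c => by simp [tt, tv_zero_left hC.sd])

theorem avg (R : End ℂ M) (P : V → Prop) (h1 : ∀ r, P r → ∀ a ≠ 0, ∀ m ∈ Es (tt ρ r) a, R m = 0)
    (h2 : ∀ m, (∀ r, P r → m ∈ Es (tt ρ r) 0) → R m = 0) : R = 0 := by
  let H : Subgroup (UG B) :=
    { carrier := {g | R * ρ g = R}
      one_mem' := by simp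
      mul_mem' := fun {g h} hg hh => by
        simp only [Set.mem_setOf_eq] at *; rw [map_mul, ← mul_assoc, hg, hh]
      inv_mem' := fun {g} hg => by
        simp only [Set.mem_setOf_eq] at *; conv_lhs => rw [← hg, mul_assoc, ← map_mul]
        simp }
  have := Fintype.ofFinite H
  refine LinearMap.ext fun m => smul_right_injective _ (Nat.cast_ne_zero.2 (Fintype.card_ne_zero (α := H)) :
    (_ : ℂ) ≠ 0) ?_
  have e := h2 (∑ g : H, ρ g m) fun r hr => mem_Es.2 fun c => by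
    have : tv B r c ∈ H := (ad_t (ρ := ρ) r).ext fun a m hm => by
      rw [End.mul_apply, show ρ (tv B r c) m = _ from mem_Es.1 hm c, map_smul]
      by_cases ha : a = 0 <;> simp [ha, h1 r hr a, hm]
    simp only [map_sum, mul_zero, AddChar.map_zero_eq_one, one_smul]
    exact Fintype.sum_equiv (Equiv.mulLeft ⟨_, this⟩) _ _ fun g => by simp [tt]
  rw [map_sum, sum_congr rfl fun (g : H) _ => show R (ρ g m) = R m from LinearMap.congr_fun g.2 m] at e
  simpa [← Nat.cast_smul_eq_nsmul ℂ] using e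

section
variable (h2 : (2 : F) ≠ 0) (hR : R1 ρ)
include h2 hR

theorem hS (hκ : κ ≠ 0) {f : F} (hf : f ≠ 0) (h : B p w = 0) (hm : m ∈ Es (tt ρ p) (κ * f ^ 2)) :
    SO ρ κ (f • w) m = ρ (rho B p w 0) m + ρ (rho B p (-w) 0) m :=
  (ad_t w).dec (N := LinearMap.eqLocus (SO ρ κ (f • w)) (ρ (rho B p w 0) + ρ (rho B p (-w) 0)))
    (fun _ _ => inv_t (t_fix _ (c0 h))) (fun γ m h1 h3 => (ad_h h).dec (inv_h h) (fun β m h1 h3 => by
      by_cases h0 : m = 0
      · simp [h0]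
      have e := hR p w h _ β γ m h1.1 h1.2 h3 h0
      have := smul_mem f h1.2
      rw [show f ^ 2 * γ = κ * (β / (2 * κ)) ^ 2 by field_simp; linear_combination -e] at this
      have e1 := mem_Es.1 h3 1
      have e2 := mem_Es.1 h3 (-1)
      simp only [hh, one_smul, neg_smul, one_mul, neg_mul] at e1 e2
      rw [LinearMap.mem_eqLocus, SO_eig h2 hκ this, LinearMap.add_apply, e1, e2, add_smul,
        mul_div_cancel₀ _ (mul_ne_zero h2 hκ)]) ⟨h1, h3⟩) hm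

theorem mulS0 (hκ : κ ≠ 0) {f : F} (hf : f ≠ 0) (hx : B p x = 0) (hy : B p y = 0)
    (hm : m ∈ Es (tt ρ p) (κ * f ^ 2)) : SO ρ κ x (SO ρ κ y m) =
      ψ (κ * B x y) • SO ρ κ (x + y) m + ψ (-(κ * B x y)) • SO ρ κ (x - y) m := by
  obtain ⟨x, rfl⟩ : ∃ z, x = f • z := ⟨f⁻¹ • x, by simp [hf]⟩
  obtain ⟨y, rfl⟩ : ∃ z, y = f • z := ⟨f⁻¹ • y, by simp [hf]⟩
  simp only [map_smul, smul_eq_mul, mul_eq_zero, hf, false_or] at hx hy
  have k : ∀ {u v}, B p u = 0 → B p v = 0 → ρ (rho B p u 0) (ρ (rho B p v 0) m) =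
      ψ (B u v * (κ * f ^ 2)) • ρ (rho B p (u + v) 0) m := fun hu hv => by
    rw [← End.mul_apply, ← map_mul, MS.R_mul hu hv, zero_add, ← R_t (by simp [hu, hv]), map_mul, End.mul_apply,
      show ρ (tv B p _) m = _ from mem_Es.1 hm _, map_smul]
  rw [hS h2 hR hκ hf hy hm, map_add, hS h2 hR hκ hf hx (inv_t (R_self _ _ _) hm),
    hS h2 hR hκ hf hx (inv_t (R_self _ _ _) hm), ← smul_add, ← smul_sub,
    hS h2 hR hκ hf (by simp [hx, hy]) hm, hS h2 hR hκ hf (by simp [hx, hy]) hm, k hx hy, k (by simpa) hy,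
    k hx (by simpa), k (by simpa) (by simpa)]
  simp only [map_neg, LinearMap.neg_apply, neg_neg, map_smul, LinearMap.smul_apply, smul_eq_mul, neg_mul,
    RingHom.id_apply, neg_add, neg_sub, sub_eq_add_neg, show κ * (f * (f * B x y)) = B x y * (κ * f ^ 2) by ring]
  module

theorem fix0 (hF : NF ρ) (h : B x y ≠ 0) (hm : ∀ r, B x r = 0 → B y r = 0 → m ∈ Es (tt ρ r) 0) : m = 0 := by
  have hd : Disjoint (Submodule.span F {x, y}) (spp B x y) := Submodule.disjoint_def.2 fun z hz hz' => by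
    obtain ⟨s, t, rfl⟩ := Submodule.mem_span_pair.1 hz
    obtain ⟨h1, h3⟩ := mem_sperp_pair.1 hz'
    simp only [map_add, map_smul, Bss, smul_eq_mul, mul_zero, zero_add, add_zero, mul_eq_zero, h, n0 h,
      or_false] at h1 h3
    simp [h1, h3]
  obtain ⟨p, hp, hp0⟩ : ∃ p ∈ spp B x y, p ≠ 0 := Submodule.exists_mem_ne_zero_of_ne_bot fun e => by
    have := finrank_spp (B := B) (e := x) (x := y) (by rintro rfl; simp at h) (notMem_of_B (Bss x) h)
    have := hC.four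
    rw [e, finrank_bot] at *; omega
  obtain ⟨p', hp', hb⟩ : ∃ p' ∈ spp B x y, B p p' ≠ 0 := by
    by_contra! H; exact hp0 (hC.sd.disjoint_iff.1 (hC.sd.disjoint_sperp hd) p hp H)
  let K : Submodule ℂ M := ⨅ r : spp B x y, Es (tt ρ r) 0
  have mK : ∀ {m}, m ∈ K ↔ ∀ r ∈ spp B x y, m ∈ Es (tt ρ r) 0 := by simp [K]
  have k1 : ∀ u ∈ Submodule.span F {x, y}, m ∈ Es (tt ρ u) 0 := fun u hu =>
    (ad_t u).dec (K := K) (fun _ _ h => mK.2 fun r hr => inv_t (t_fix _ (hr u hu)) (mK.1 h r hr))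
      (fun a m h1 h3 => by
        by_cases ha : a = 0
        · rwa [ha] at h3
        by_cases h0 : m = 0
        · simp [h0]
        refine absurd (eq_zero_of_psi fun s => ?_) ha
        have h4 := Submodule.smul_mem _ (s / B p p') hp'
        have e := mulS0 h2 hR ha one_ne_zero (hp u hu) (h4 u hu) (by simpa using h3)
        rw [SO_fix h2 ha (mK.1 h1 _ h4), map_smul, SO_fix h2 ha (mK.1 h1 _ hp),
          SO_fix h2 ha (mK.1 h1 _ (Submodule.add_mem _ hp h4)), SO_fix h2 ha (mK.1 h1 _ (sub_mem hp h4)),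
          show a * B p ((s / B p p') • p') = s * a by
            rw [map_smul, smul_eq_mul, div_mul_cancel₀ _ hb, mul_comm], smul_smul, smul_smul, smul_smul,
          ← add_smul] at e
        have e1 := smul_left_injective ℂ h0 e
        have e2 : ψ (s * a) * ψ (-(s * a)) = 1 := by rw [← AddChar.map_add_eq_mul]; simp
        exact sub_eq_zero.1 (pow_eq_zero_iff two_ne_zero |>.1 (by
          linear_combination (-ψ (s * a) / 2) * e1 - e2)))
      (mK.2 fun r hr => hm r (mem_sperp_pair.1 hr).1 (mem_sperp_pair.1 hr).2)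
  have k2 : ∀ p, m ∈ Es (tt ρ p) 0 := fun p => by
    obtain ⟨u, hu, w, hw, rfl⟩ := Submodule.mem_sup.1 ((hC.sd.isCompl hd).sup_eq_top ▸ Submodule.mem_top (x := p))
    exact (ad_h (hw u hu)).dec (inv_h (hw u hu)) (fun β m h1 h3 => by
      by_cases h0 : m = 0
      · simp [h0]
      have := add_mem (hw u hu) h1.1 h1.2 h3
      rwa [pow_eq_zero_iff two_ne_zero |>.1 ((hR u w (hw u hu) _ _ _ m h1.1 h1.2 h3 h0).trans (by simp)),
        add_zero, add_zero] at this) ⟨k1 u hu, hm w (mem_sperp_pair.1 hw).1 (mem_sperp_pair.1 hw).2⟩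
  refine hF m fun g => Subgroup.closure_induction (p := fun g _ => ρ g m = m) ?_ (by simp)
    (fun g h _ _ e1 e2 => by rw [map_mul, End.mul_apply, e2, e1])
    (fun g _ e => by conv_lhs => rw [← e, ← End.mul_apply, ← map_mul]
                     simp) (show g ∈ TG B by rw [hC.sd.TG_eq_top rfl]; trivial)
  rintro _ ⟨v, c, rfl⟩
  simpa [tt] using mem_Es.1 (k2 v) c

theorem mulS (hF : NF ρ) (hκ : κ ≠ 0) (hT : Ty ρ κ) (x y : V) : SO ρ κ x * SO ρ κ y =
    ψ (κ * B x y) • SO ρ κ (x + y) + ψ (-(κ * B x y)) • SO ρ κ (x - y) := by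
  refine sub_eq_zero.1 (avg (ρ := ρ) _ (fun r => B x r = 0 ∧ B y r = 0) (fun r hr a ha m hm => ?_) fun m hm => ?_)
  · by_cases h0 : m = 0
    · simp [h0]
    obtain ⟨f, rfl⟩ := hT r a m hm h0
    exact sub_eq_zero.2 (mulS0 h2 hR hκ (by rintro rfl; simp at ha) (c0 hr.1) (c0 hr.2) hm)
  by_cases h : B x y = 0
  · simp only [LinearMap.sub_apply, LinearMap.add_apply, LinearMap.smul_apply, End.mul_apply, h]
    rw [SO_fix h2 hκ (hm y (by simp [h])), map_smul, SO_fix h2 hκ (hm x (by simp [c0 h])),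
      SO_fix h2 hκ (hm _ (by simp [h, c0 h])), SO_fix h2 hκ (hm _ (by simp [h, c0 h]))]
    simp; module
  · simp [fix0 h2 hR hF h fun r h1 h3 => hm r ⟨h1, h3⟩]

omit h2 in
theorem sq_of (h : B u v = 0) {α γ : F} (h1 : m ∈ Es (tt ρ u) α) (h3 : m ∈ Es (tt ρ v) γ) (h0 : m ≠ 0) :
    ∃ β, β ^ 2 = 4 * α * γ := by
  obtain ⟨β, m, h4, h5, h6⟩ := (ad_h h).ex (inv_h h) ⟨h1, h3⟩ h0
  exact ⟨β, hR u v h _ _ _ m h4.1 h4.2 h5 h6⟩

theorem orth (hF : NF ρ) (hκ : κ ≠ 0) (ha : ¬ ∃ f, a = κ * f ^ 2) (p p' : V) :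
    Pr (tt ρ p) a * Pr (tt ρ p') κ = 0 := by
  refine avg (ρ := ρ) _ (fun r => B p r = 0 ∧ B p' r = 0) (fun r hr b hb m hm => ?_) fun m hm => ?_
  · by_contra h0
    have k1 := pr_inv (a := κ) (f := tt ρ p') (fun _ _ => inv_t (t_fix _ hr.2)) hm
    obtain ⟨β, h1⟩ := sq_of hR hr.2 ((ad_t p').pr_mem m) k1 fun e => h0 (by rw [End.mul_apply, e, map_zero])
    obtain ⟨γ, h3⟩ := sq_of hR hr.1 ((ad_t p).pr_mem _)
      (pr_inv (f := tt ρ p) (fun _ _ => inv_t (t_fix _ hr.1)) k1) h0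
    have h4 : (4 : F) ≠ 0 := by rw [show (4 : F) = 2 * 2 by norm_num]; exact mul_ne_zero h2 h2
    have h5 : β ≠ 0 := by rintro rfl; simp [h4, hκ, hb] at h1
    exact ha ⟨γ / β, by rw [div_pow, h1, h3]; field_simp⟩
  by_cases h : B p p' = 0
  · rw [End.mul_apply, pr_eig (hm p' (by simp [h])), if_neg hκ.symm, map_zero]
  · simp [fix0 h2 hR hF h fun r h1 h3 => hm r ⟨h1, h3⟩]
end

theorem tv_eq (h2 : (2 : F) ≠ 0) (hκ : κ ≠ 0) (hT : Ty ρ κ) (v : V) (c : F) : ρ (tv B v c) =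
    ∑ a, ((2 * q : ℂ)⁻¹ * ∑ g, ψ (c * (κ * g ^ 2) - 2 * κ * (a * g))) • SO ρ κ (a • v) := by
  refine (ad_t (ρ := ρ) v).ext fun b m hm => ?_
  by_cases h0 : m = 0
  · simp [h0]
  obtain ⟨f, rfl⟩ := hT v b m hm h0
  have k : ∀ f : F, ∑ a, (∑ g, ψ (c * (κ * g ^ 2) - 2 * κ * (a * g))) * ψ (2 * κ * (a * f)) =
      q * ψ (c * (κ * f ^ 2)) := fun f => by
    simp only [sum_mul, ← AddChar.map_add_eq_mul]
    rw [sum_comm, sum_congr rfl fun g _ => by
      rw [sum_congr rfl fun a _ => by rw [show c * (κ * g ^ 2) - 2 * κ * (a * g) + 2 * κ * (a * f) =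
        a * (2 * κ * (f - g)) + c * (κ * g ^ 2) by ring, AddChar.map_add_eq_mul], ← sum_mul, sum_psi]]
    simp [h2, hκ, sub_eq_zero]
  rw [LinearMap.sum_apply, show ρ (tv B v c) m = _ from mem_Es.1 hm c, sum_congr rfl fun a _ => by
    rw [LinearMap.smul_apply, SO_eig h2 hκ (g := a * f) (by convert smul_mem a hm using 2; ring), smul_smul,
      mul_assoc, mul_add, ← mul_neg, ← mul_neg], ← sum_smul, ← mul_sum, sum_add_distrib, k, k]
  congr 1
  field_simp [q_ne (F := F)]; ring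

end Cfsg.Agent.H26.WC
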