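import Mathlib

/-! Counting symmetric bilinear forms of rank at least two in one orbit. -/

set_option autoImplicit false
set_option linter.unusedSectionVars false

namespace Cfsg.Agent.H26.WC

open Module Finset
open scoped Classical

variable {F L : Type*} [Field F] [Fintype F] [AddCommGroup L] [Module F L] [FiniteDimensional F L]

local notation "q" => Fintype.card F

def Ph {r : ℕ} (κ : Fin r → F) (f : Fin r → Dual F L) (x y : L) : F := ∑ i, κ i * (f i x * f i y)

theorem exists_dvec {ι : Type*} {f : ι → Dual F L} (h : LinearIndependent F f) (c : ι → F) :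
    ∃ x, ∀ i, f i x = c i := by
  obtain ⟨φ, hφ⟩ := LinearMap.exists_extend
    ((Basis.span h).constr F c : Submodule.span F (Set.range f) →ₗ[F] F)
  refine ⟨(evalEquiv F L).symm φ, fun i => ?_⟩
  have h1 := LinearMap.congr_fun hφ (Basis.span h i)
  rw [Basis.constr_basis] at h1
  rw [apply_evalEquiv_symm_apply, ← h1]; simp

theorem exists_A {ι : Type*} [Finite ι] {f g : ι → Dual F L} (hf : LinearIndependent F f)
    (hg : LinearIndependent F g) : ∃ A : L ≃ₗ[F] L, ∀ i x, f i (A x) = g i x := by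
  obtain ⟨Θ, h⟩ := Submodule.exists_linearEquiv_restrict_eq ((Basis.span hf).equiv (Basis.span hg) (Equiv.refl _))
  refine ⟨evalEquiv F L ≪≫ₗ Θ.dualMap ≪≫ₗ (evalEquiv F L).symm, fun i x => ?_⟩
  have := h (Basis.span hf i)
  rw [Basis.equiv_apply] at this
  simp only [Basis.coe_span_apply, Equiv.refl_apply] at this
  simp [← this]

theorem card_sq (a : F) {k : F} (hk : k ≠ 0) : #{x : F | k * x ^ 2 = a} ≤ 2 := by
  rcases (univ.filter fun x : F => k * x ^ 2 = a).eq_empty_or_nonempty with h | ⟨y, hy⟩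
  · simp [h]
  refine (card_le_card (t := {y, -y}) fun x hx => ?_).trans card_le_two
  simpa [← sq_eq_sq_iff_eq_or_eq_neg] using
    mul_left_cancel₀ hk ((mem_filter.1 hx).2.trans (mem_filter.1 hy).2.symm)

def NN (k s : ℕ) : ℕ := if s = 1 then k + 1 else 2 * k ^ s

theorem card_sol2 (h2 : (2 : F) ≠ 0) (κ : Fin 2 → F) (hκ : ∀ i, κ i ≠ 0) :
    #{a : Fin 2 → F | ∑ i, κ i * a i ^ 2 = κ 0} ≤ q + 1 := by
  rw [← card_filter_add_card_filter_not (fun a => a 1 = 0)]
  have h1 : #{a ∈ univ.filter fun a : Fin 2 → F => ∑ i, κ i * a i ^ 2 = κ 0 | a 1 = 0} ≤ 2 :=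
    (card_le_card_of_injOn (· 0) (fun a ha => by
      simp only [coe_filter, mem_filter, mem_univ, true_and, Fin.sum_univ_two, Set.mem_setOf_eq] at ha ⊢
      simpa [ha.2] using ha.1) fun a ha b hb e => by
      ext i; fin_cases i
      exacts [e, (mem_filter.1 ha).2.trans (mem_filter.1 hb).2.symm]).trans (card_sq (κ 0) (hκ 0))
  have h3 : #{a ∈ univ.filter fun a : Fin 2 → F => ∑ i, κ i * a i ^ 2 = κ 0 | ¬ a 1 = 0} ≤
      #(univ.erase (0 : F)) := by
    have k : ∀ a ∈ {a ∈ univ.filter fun a : Fin 2 → F => ∑ i, κ i * a i ^ 2 = κ 0 | ¬ a 1 = 0},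
        a 0 = 1 + (a 0 - 1) / a 1 * a 1 ∧ a 1 * (κ 1 + κ 0 * ((a 0 - 1) / a 1) ^ 2) =
          -2 * κ 0 * ((a 0 - 1) / a 1) ∧ a 1 ≠ 0 := fun a ha => by
      simp only [mem_filter, mem_univ, true_and, Fin.sum_univ_two] at ha
      have := ha.2
      exact ⟨by field_simp; ring, by field_simp; linear_combination ha.1, this⟩
    have k2 : ∀ a ∈ {a ∈ univ.filter fun a : Fin 2 → F => ∑ i, κ i * a i ^ 2 = κ 0 | ¬ a 1 = 0},
        (a 0 - 1) / a 1 ≠ 0 := fun a ha e => by
      obtain ⟨-, h1, h3⟩ := k a ha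
      simp [e, h3, hκ] at h1
    refine card_le_card_of_injOn (fun a => (a 0 - 1) / a 1) (fun a ha => by simpa using k2 a ha)
      fun a ha b hb e => ?_
    obtain ⟨a1, a2, -⟩ := k a ha
    obtain ⟨b1, b2, -⟩ := k b hb
    have a3 := k2 a ha
    simp only at e
    rw [← e] at b1 b2
    have e1 : a 1 = b 1 := mul_right_cancel₀ (fun h => by simp [h, h2, hκ, a3] at a2)
      (a2.trans b2.symm)
    ext i; fin_cases i
    exacts [by simp only [Fin.zero_eta]; rw [a1, b1, e1], e1]
  rw [card_erase_of_mem (mem_univ _), card_univ] at h3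
  have := Fintype.card_pos (α := F)
  omega

theorem card_sol (h2 : (2 : F) ≠ 0) {s : ℕ} (κ : Fin (s + 1) → F) (hκ : ∀ i, κ i ≠ 0) :
    #{a : Fin (s + 1) → F | ∑ i, κ i * a i ^ 2 = κ 0} ≤ NN q s := by
  rw [NN]
  split_ifs with h
  · subst h; exact card_sol2 h2 κ hκ
  · refine (card_le_mul_card_image_of_maps_to (f := Fin.tail) (t := univ) (fun _ _ => mem_univ _) 2
      fun b _ => ?_).trans_eq (by simp)
    refine (card_le_card_of_injOn (· 0) (fun a ha => ?_) fun a ha a' ha' e => ?_).trans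
      (card_sq (κ 0 - ∑ i : Fin s, κ i.succ * b i ^ 2) (hκ 0))
    · simp only [coe_filter, mem_filter, mem_univ, true_and, Fin.sum_univ_succ, Set.mem_setOf_eq] at ha ⊢
      rw [← ha.2]; exact eq_sub_of_add_eq ha.1
    · rw [← Fin.cons_self_tail a, ← Fin.cons_self_tail a', (mem_filter.1 ha).2, (mem_filter.1 ha').2,
        show a 0 = a' 0 from e]

variable [Fintype (Dual F L)]

theorem card_fib (h2 : (2 : F) ≠ 0) (s : ℕ) (κ : Fin s → F) (hκ : ∀ i, κ i ≠ 0) (b : L → L → F) :
    #{f : Fin s → Dual F L | LinearIndependent F f ∧ Ph κ f = b} ≤ ∏ i ∈ range s, NN q i := by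
  induction s generalizing b with
  | zero => exact (card_le_univ _).trans (by simp)
  | succ s ih =>
    rcases (univ.filter fun f : Fin (s + 1) → Dual F L => LinearIndependent F f ∧ Ph κ f = b).eq_empty_or_nonempty
      with h | ⟨f0, h0⟩
    · simp [h]
    rw [prod_range_succ]
    refine (card_le_mul_card_image_of_maps_to (f := (· 0)) (t := image (fun a : Fin (s + 1) → F =>
      (κ 0)⁻¹ • ∑ i, (κ i * a i) • f0 i) {a | ∑ i, κ i * a i ^ 2 = κ 0}) (fun f hf => ?_) _ fun g _ => ?_).trans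
      (Nat.mul_le_mul_left _ (card_image_le.trans (card_sol h2 κ hκ)))
    · obtain ⟨h1, h3⟩ := (mem_filter.1 hf).2
      obtain ⟨x, hx⟩ := exists_dvec h1 (Pi.single 0 1)
      have e : ∀ y, Ph κ f0 x y = κ 0 * f 0 y := fun y => by
        rw [(mem_filter.1 h0).2.2, ← h3]; simp [Ph, hx, Fin.sum_univ_succ]
      refine mem_image.2 ⟨fun i => f0 i x, by simpa [Ph, hx, sq] using e x, LinearMap.ext fun y => ?_⟩
      simpa [Ph, inv_mul_eq_iff_eq_mul₀ (hκ 0), mul_assoc] using e y
    · refine (card_le_card_of_injOn Fin.tail (fun f hf => ?_) fun a ha a' ha' e => ?_).trans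
        (ih (Fin.tail κ) (fun i => hκ _) fun x y => b x y - κ 0 * (g x * g y))
      · simp only [coe_filter, mem_filter, mem_univ, true_and, Set.mem_setOf_eq] at hf ⊢
        exact ⟨hf.1.1.comp _ (Fin.succ_injective _), by
          ext x y; rw [← hf.1.2, ← hf.2]; simp [Ph, Fin.sum_univ_succ, Fin.tail]⟩
      · rw [← Fin.cons_self_tail a, ← Fin.cons_self_tail a', (mem_filter.1 ha).2, (mem_filter.1 ha').2, e]

theorem prod_le {k n : ℕ} (hq : 3 ≤ k) (s : ℕ) (hs : s + 2 ≤ n) :
    (k ^ n - 1) * (k ^ n - k) * ∏ i ∈ range (s + 2), NN k i ≤ 2 * (k + 1) * ∏ i ∈ range (s + 2), (k ^ n - k ^ i) := by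
  induction s with
  | zero => simp [prod_range_succ, NN, mul_comm]
  | succ s ih =>
    rw [prod_range_succ, prod_range_succ _ (s + 2), ← mul_assoc, ← mul_assoc]
    refine Nat.mul_le_mul (ih (by omega)) ?_
    have := Nat.pow_le_pow_right (show 0 < k by omega) (show s + 2 + 1 ≤ n from hs)
    have := Nat.mul_le_mul_left (k ^ (s + 2)) hq
    rw [NN, if_neg (by omega)]
    rw [pow_succ k (s + 2)] at *; omega

theorem card_orb (h2 : (2 : F) ≠ 0) {s : ℕ} (hs : s + 2 ≤ finrank F L) (κ : Fin (s + 2) → F) (hκ : ∀ i, κ i ≠ 0)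
    (Ω : Finset (L → L → F)) (hΩ : ∀ f, LinearIndependent F f → Ph κ f ∈ Ω) :
    (q ^ finrank F L - 1) * (q ^ finrank F L - q) ≤ 2 * (q + 1) * #Ω := by
  have hq : 3 ≤ q := by
    by_contra h
    have h1 := Fintype.one_lt_card (α := F)
    exact h2 (by simpa [show q = 2 by omega] using FiniteField.cast_card_eq_zero F)
  have h1 := card_le_mul_card_image_of_maps_to (f := Ph (L := L) κ) (s := {f | LinearIndependent F f})
    (fun f hf => hΩ f (mem_filter.1 hf).2) _ fun b _ => by rw [filter_filter]; exact card_fib h2 _ κ hκ b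
  have h3 := card_linearIndependent (K := F) (V := Dual F L) (k := s + 2) (by rwa [Subspace.dual_finrank_eq])
  rw [Nat.card_eq_fintype_card, Fintype.card_subtype, Subspace.dual_finrank_eq,
    Fin.prod_univ_eq_prod_range fun i => q ^ finrank F L - q ^ i] at h3
  have h4 := (prod_le hq s hs).trans (Nat.mul_le_mul_left _ (h3 ▸ h1))
  rw [mul_left_comm, mul_comm] at h4
  exact Nat.le_of_mul_le_mul_left h4 (prod_pos fun i _ => by rw [NN]; split_ifs <;> positivity)

end Cfsg.Agent.H26.WC
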