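import Mathlib
import Cfsg.Agent.H26.WC1
import Cfsg.Agent.H26.WC2
import Cfsg.Agent.H7.Weil

/-! Rank at least two forces a large degree; rank one representations are Weil representations. -/

set_option autoImplicit false
set_option linter.unusedSectionVars false

namespace Cfsg.Agent.H26.WC

open Module H12 MS Finset H7.LS
open MD (psi eq_zero_of_psi)
open scoped Classical

variable {F : Type*} [Field F] [Fintype F] {M : Type*} [AddCommGroup M] [Module ℂ M]

local notation "q" => Fintype.card F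
local notation "ψ" => psi F

section
variable {V : Type*} [AddCommGroup V] [Module F V] [FiniteDimensional F V]
  [Finite V] {B : V →ₛₗ[RingHom.id F] V →ₗ[F] F} [hC : SC B] {ρ : UG B →* End ℂ M} {m : M}

theorem gen_ind {P : UG B → Prop} (h1 : P 1) (hm : ∀ g h, P g → P h → P (g * h)) (ht : ∀ v c, P (tv B v c))
    (g : UG B) : P g :=
  Subgroup.closure_induction'' (p := fun g _ => P g) (by rintro _ ⟨v, c, rfl⟩; exact ht v c)
    (by rintro _ ⟨v, c, rfl⟩; rw [tv_inv hC.sd]; exact ht v _) h1 (fun g h _ _ => hm g h)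
    (show g ∈ TG B by rw [hC.sd.TG_eq_top rfl]; trivial)

variable (ρ) in
def Irr : Prop := ∀ N : Submodule ℂ M, (∀ g, ∀ m ∈ N, ρ g m ∈ N) → N = ⊥ ∨ N = ⊤

theorem Irr.nf (h : Irr ρ) (h1 : finrank ℂ M ≠ 1) : NF ρ := fun m hm => by
  by_contra h0
  rcases h (ℂ ∙ m) (fun g x hx => by
    obtain ⟨c, rfl⟩ := Submodule.mem_span_singleton.1 hx
    rw [map_smul, hm]; exact hx) with e | e
  · exact h0 (Submodule.span_singleton_eq_bot.1 e)
  · exact h1 (by rw [← finrank_top, ← e, finrank_span_singleton h0])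

theorem NF.ex (hF : NF ρ) [Nontrivial M] : ∃ p a m, a ≠ 0 ∧ m ∈ Es (tt ρ p) a ∧ m ≠ 0 := by
  by_contra! H
  obtain ⟨m, h0⟩ := exists_ne (0 : M)
  refine h0 (hF m (gen_ind (by simp) (fun g h e1 e2 => by rw [map_mul, End.mul_apply, e2, e1]) fun p c => ?_))
  simpa [tt] using mem_Es.1 ((ad_t (ρ := ρ) p).dec (K := ⊤) (N := Es (tt ρ p) 0) (fun _ _ _ => trivial)
    (fun a m _ h => by by_cases ha : a = 0 <;> simp_all [H p a m]) trivial) c

theorem exists_ty (h2 : (2 : F) ≠ 0) (hR : R1 ρ) (hF : NF ρ) (hI : Irr ρ) [Nontrivial M] :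
    ∃ κ ≠ 0, Ty ρ κ := by
  obtain ⟨p, κ, m, hκ, hm, h0⟩ := hF.ex
  refine ⟨κ, hκ, fun r a x hx x0 => by_contra fun ha => x0 ?_⟩
  rcases hI (⨆ p, Es (tt ρ p) κ) (fun g x hx => Submodule.iSup_induction _ (motive := fun x => ρ g x ∈ _) hx
    (fun p x hx => Submodule.mem_iSup_of_mem _ (g_mem g hx)) (by simp)
    fun x y h h' => by rw [map_add]; exact Submodule.add_mem _ h h') with e | e
  · exact absurd (e.le (Submodule.mem_iSup_of_mem p hm)) h0
  have : (⨆ p, Es (tt ρ p) κ) ≤ LinearMap.ker (Pr (tt ρ r) a) := iSup_le fun p y hy => by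
    simpa [pr_eig hy] using LinearMap.congr_fun (orth h2 hR hF hκ ha r p) y
  have := LinearMap.mem_ker.1 (this (e.ge (Submodule.mem_top (x := x))))
  rwa [pr_eig hx, if_pos rfl] at this

theorem Ty.mul {κ t : F} (h : Ty ρ (κ * t ^ 2)) : Ty ρ κ := fun p a m h1 h0 =>
  let ⟨f, e⟩ := h p a m h1 h0; ⟨t * f, by rw [e]; ring⟩

theorem hh_g (g : UG B) {u v : V} {a : F} (hm : m ∈ Es (hh ρ u v) a) : ρ g m ∈ Es (hh ρ (g • u) (g • v)) a :=
  mem_Es.2 fun c => by
    rw [hh, ← g_smul, ← conj_R, ← End.mul_apply, ← map_mul, inv_mul_cancel_right, map_mul, End.mul_apply,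
      show ρ (rho B u _ 0) m = _ from mem_Es.1 hm c, map_smul]

theorem hh_self {u : V} {a : F} (t : F) (hm : m ∈ Es (tt ρ u) a) : m ∈ Es (hh ρ u (t • u)) (2 * t * a) :=
  mem_Es.2 fun c => by
    rw [hh, smul_smul, ← zero_add ((c * t) • u), R_add (by simp), ← t_def,
      show ρ (tv B u _) m = _ from mem_Es.1 hm _]
    congr 2; ring
end

variable {l : Type} [Fintype l] [DecidableEq l] [hC : SC (spB l F)] {ρ : UG (spB l F) →* End ℂ M}

local notation "B" => spB l F
local notation "n" => Fintype.card l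

/-- the standard Lagrangian -/
def io (l F : Type*) [Field F] : (l → F) →ₗ[F] (l ⊕ l → F) where
  toFun x := Sum.elim x 0
  map_add' x y := by ext (i | i) <;> simp
  map_smul' c x := by ext (i | i) <;> simp

@[simp] theorem B_io (x y : l → F) : B (io l F x) (io l F y) = 0 := by simp [spB_apply', io]
theorem io_inj : Function.Injective (io l F) := fun x y h => funext fun i => congrFun h (.inl i)

theorem exists_lift (A : (l → F) ≃ₗ[F] (l → F)) : ∃ g : UG B, ∀ x, g • io l F x = io l F (A x) := by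
  have h := (Pi.basisFun F l).linearIndependent
  obtain ⟨g, hg⟩ := hC.sd.witt (h.map' _ (LinearMap.ker_eq_bot.2 io_inj))
    ((h.map' A.toLinearMap A.ker).map' _ (LinearMap.ker_eq_bot.2 io_inj)) fun i j => by simp
  exact ⟨g, LinearMap.congr_fun ((Pi.basisFun F l).ext hg : g.1.toLinearMap ∘ₗ io l F = io l F ∘ₗ A.toLinearMap)⟩

variable (ρ) in
def Su (b : (l → F) → (l → F) → F) : Prop := ∃ m ≠ 0, ∀ x y, m ∈ Es (hh ρ (io l F x) (io l F y)) (b x y)

theorem exists_su {m : M} (h0 : m ≠ 0) (s : Finset ((l → F) × (l → F))) {K : Submodule ℂ M} (hm : m ∈ K)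
    (hK : ∀ x y c, ∀ m ∈ K, hh ρ (io l F x) (io l F y) c m ∈ K) : ∃ b : (l → F) → (l → F) → F, ∃ m ∈ K,
      m ≠ 0 ∧ ∀ t ∈ s, m ∈ Es (hh ρ (io l F t.1) (io l F t.2)) (b t.1 t.2) := by
  induction s using Finset.induction_on generalizing K m with
  | empty => exact ⟨0, m, hm, h0, by simp⟩
  | insert t s ht ih =>
    obtain ⟨a, m, h1, h3, h4⟩ := (ad_h (B_io t.1 t.2)).ex (hK t.1 t.2) hm h0
    obtain ⟨b, m, h5, h6, h7⟩ := ih h4 (K := K ⊓ Es _ a) ⟨h1, h3⟩ fun x y c m hm => ⟨hK x y c m hm.1, by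
      simpa [hh, R_fix] using hh_g (rho B (io l F x) (c • io l F y) 0) hm.2⟩
    refine ⟨fun x y => if (x, y) = t then a else b x y, m, h5.1, h6, fun u hu => ?_⟩
    by_cases e : u = t
    · simpa [e] using h5.2
    · simpa [e] using h7 u ((mem_insert.1 hu).resolve_left e)

theorem bound [FiniteDimensional ℂ M] (h2 : (2 : F) ≠ 0) (hR : ¬ R1 ρ) :
    (q ^ n - 1) * (q ^ n - q) ≤ 2 * (q + 1) * finrank ℂ M := by
  simp only [R1, not_forall] at hR
  obtain ⟨u, v, huv, α, β, γ, m, h1, h3, h4, h0, hne⟩ := hR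
  have u0 : u ≠ 0 := by
    rintro rfl
    rw [Es_uniq h1 (b := 0) (mem_Es.2 fun c => by simp [tt, tv_zero_left hC.sd]) h0,
      Es_uniq h4 (b := 0) (mem_Es.2 fun c => by
        rw [hh, ← R_swap (by simp), rho_zero hC.sd]; simp) h0] at hne
    simp at hne
  have v0 : v ∉ F ∙ u := fun h => by
    obtain ⟨t, rfl⟩ := Submodule.mem_span_singleton.1 h
    rw [Es_uniq h3 (smul_mem t h1) h0, Es_uniq h4 (hh_self t h1) h0] at hne
    exact hne (by ring)
  have h4l := hC.four
  rw [finrank_sp] at h4l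
  obtain ⟨i, j, hij⟩ := Fintype.exists_pair_of_one_lt_card (show 1 < n by omega)
  obtain ⟨g, g1, g2⟩ := trans2 u0 v0 (x' := io l F (Pi.single i 1)) (y' := io l F (Pi.single j 1))
    (fun h => by simpa [io] using congrFun h (.inl i)) (fun h => by
      obtain ⟨c, h⟩ := Submodule.mem_span_singleton.1 h
      simpa [io, hij.symm] using congrFun h (.inl j)) (by rw [B_io, huv])
  obtain ⟨b, m, ⟨k1, k2, k3⟩, k0, hb⟩ := exists_su (ρ := ρ) (m := ρ g m)
    (fun h => h0 (by simpa [← End.mul_apply, ← map_mul] using congrArg (ρ g⁻¹) h)) univ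
    (K := Es (tt ρ (g • u)) α ⊓ (Es (tt ρ (g • v)) γ ⊓ Es (hh ρ (g • u) (g • v)) β))
    ⟨g_mem g h1, g_mem g h3, hh_g g h4⟩ fun x y c m hm => by
      rw [g1, g2] at hm ⊢
      exact ⟨inv_t (R_fix _ (by simp) (by simp)) hm.1, inv_t (R_fix _ (by simp) (by simp)) hm.2.1, by
        simpa [hh, R_fix] using hh_g (rho B (io l F x) (c • io l F y) 0) hm.2.2⟩
  rw [g1, g2] at *
  replace hb : ∀ x y, m ∈ Es (hh ρ (io l F x) (io l F y)) (b x y) := fun x y => hb (x, y) (mem_univ _)
  have e : ∀ x y c, ρ (rho B (io l F x) (c • io l F y) 0) m = ψ (c * b x y) • m := fun x y => mem_Es.1 (hb x y)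
  have bs : ∀ x y, b x y = b y x := fun x y => Es_uniq (hb x y) (mem_Es.2 fun c => by
    rw [hh, ← R_swap (by simp), R_smul (by simp), zero_mul, e]) k0
  have ba : ∀ x y z, b x (y + z) = b x y + b x z := fun x y z => Es_uniq (hb _ _) (mem_Es.2 fun c => by
    have := MS.R_mul (hC := hC) (e := io l F x) (u := c • io l F y) (v := c • io l F z) (by simp) (by simp) 0 0
    simp only [map_smul, LinearMap.smul_apply, B_io, smul_zero, add_zero] at this
    rw [hh, map_add, smul_add, ← this, map_mul, End.mul_apply, e, map_smul, e, smul_smul,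
      ← AddChar.map_add_eq_mul, mul_add, add_comm]) k0
  have bm : ∀ t x y, b x (t • y) = t • b x y := fun t x y => Es_uniq (hb _ _) (mem_Es.2 fun c => by
    rw [hh, map_smul, smul_smul, e, mul_assoc, smul_eq_mul]) k0
  have := invertibleOfNonzero h2
  let b' : LinearMap.BilinForm F (l → F) := LinearMap.mk₂ F b
    (fun x y z => by simp only [bs _ z, ba]) (fun t x y => by simp only [bs _ y, bm]) ba bm
  obtain ⟨w, hw⟩ := LinearMap.BilinForm.exists_orthogonal_basis (V := l → F)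
    (show LinearMap.IsSymm b' from ⟨fun x y => bs x y⟩)
  let I := {i // b (w i) (w i) ≠ 0}
  have hI : ∀ x y, b x y = ∑ i : I, b (w i) (w i) * (w.coord i x * w.coord i y) := fun x y => by
    have := b'.sum_repr_mul_repr_mul w x y
    rw [Finsupp.sum_fintype _ _ (by simp), sum_congr rfl fun i _ => by
      rw [Finsupp.sum_fintype _ _ (by simp), sum_eq_single i (fun j _ h => by rw [hw h.symm]; simp) (by simp)]]
      at this
    rw [← sum_subtype (univ.filter fun i => b (w i) (w i) ≠ 0) (by simp)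
      fun i => b (w i) (w i) * (w.coord i x * w.coord i y), sum_filter_of_ne fun i _ => left_ne_zero_of_mul]
    simpa [b', mul_comm, mul_assoc] using this.symm
  obtain ⟨s, hs⟩ : ∃ s, Fintype.card I = s + 2 := ⟨Fintype.card I - 2, by
    by_contra h
    have : Subsingleton I := Fintype.card_le_one_iff_subsingleton.1 (by omega)
    have e1 := Es_uniq (hb _ _) (one_smul F (io l F (Pi.single i 1)) ▸ hh_self 1 k1) k0
    have e2 := Es_uniq (hb _ _) (one_smul F (io l F (Pi.single j 1)) ▸ hh_self 1 k2) k0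
    rw [← Es_uniq (hb _ _) k3 k0, show 4 * α * γ = 2 * 1 * α * (2 * 1 * γ) by ring, ← e1, ← e2, hI, hI, hI] at hne
    rcases isEmpty_or_nonempty I with h | ⟨⟨k⟩⟩
    · simp at hne
    · simp only [Fintype.sum_subsingleton _ k] at hne; exact hne (by ring)⟩
  let ε := Fintype.equivFinOfCardEq hs
  have : Fintype (Dual F (l → F)) := Fintype.ofInjective _ DFunLike.coe_injective
  refine (le_of_eq_of_le (by simp) (card_orb (L := l → F) h2 (s := s)
    (hs ▸ (Fintype.card_subtype_le _).trans (by simp)) (fun k => b (w (ε.symm k)) (w (ε.symm k)))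
    (fun k => (ε.symm k).2) (univ.filter (Su ρ)) fun f hf => mem_filter.2 ⟨mem_univ _, ?_⟩)).trans
    (Nat.mul_le_mul_left _ ?_)
  · obtain ⟨A, hA⟩ := exists_A (f := fun k => w.coord (ε.symm k)) (by
      simpa [Function.comp_def] using w.dualBasis.linearIndependent.comp _
        (Subtype.val_injective.comp ε.symm.injective)) hf
    obtain ⟨g, hg⟩ := exists_lift A
    refine ⟨ρ g⁻¹ m, fun h => k0 (by simpa [← End.mul_apply, ← map_mul] using congrArg (ρ g) h), fun x y => ?_⟩
    have := hh_g g⁻¹ (hb (A x) (A y))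
    rwa [← hg, ← hg, inv_smul_smul, inv_smul_smul, hI, ← ε.symm.sum_comp, sum_congr rfl fun k _ => by
      rw [hA, hA]] at this
  rw [← Fintype.card_subtype]
  choose v v0 hv using fun c : {c // Su ρ c} => c.2
  exact card_le_finrank (fun t : (l → F) × (l → F) × F => hh ρ (io l F t.1) (io l F t.2.1) t.2.2)
    (l := fun c t => ψ (t.2.2 * c.1 t.1 t.2.1)) (fun c d h => Subtype.ext (funext₂ fun x y =>
      eq_of_char psi_ne fun t => congrFun h (x, y, t))) v v0 fun c t => mem_Es.1 (hv c _ _) _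

end Cfsg.Agent.H26.WC
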