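import Mathlib
import Cfsg.Agent.H26.WC3
import Cfsg.Agent.H26.RD1

/-! Rank one representations of symplectic groups are Weil representations. -/

set_option autoImplicit false
set_option linter.unusedSectionVars false

namespace Cfsg.Agent.H26.WC

open Module H12 MS Finset H7.LS
open MD (psi eq_zero_of_psi)
open scoped Classical

variable {F : Type*} [Field F] [Fintype F] {M M' : Type*} [AddCommGroup M] [Module ℂ M] [AddCommGroup M']
  [Module ℂ M'] {l : Type} [Fintype l] [DecidableEq l] [hC : SC (spB l F)] {ρ : UG (spB l F) →* End ℂ M}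
  {ρ' : UG (spB l F) →* End ℂ M'} {κ : F}

local notation "q" => Fintype.card F
local notation "ψ" => psi F
local notation "B" => spB l F
local notation "n" => Fintype.card l
local notation "W" => (l → F) → ℂ
local notation "π" => par l F

theorem shift_ne (hκ : κ ≠ 0) : (psi F).mulShift (-κ) ≠ 1 :=
  AddChar.IsPrimitive.of_ne_one psi_ne (neg_ne_zero.2 hκ)

theorem om_ind {χ : AddChar F ℂ} (hχ : χ ≠ 1) (h2 : (2 : F) ≠ 0) {N : Type*} [AddCommGroup N] [Module ℂ N]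
    {X Y : End ℂ W →ₗ[ℂ] N} (h : ∀ v, X (om χ v) = Y (om χ v)) : X = Y := by
  obtain ⟨b, hb⟩ := exists_basis_om (l := l) hχ h2
  exact b.ext fun v => by rw [hb, h]

variable (ρ κ) in
structure WT : Prop where
  ne : κ ≠ 0
  r1 : R1 ρ
  nf : NF ρ
  ty : Ty ρ κ
  irr : Irr ρ
  nt : Nontrivial M

variable (ρ κ) in
def Fi (Φ : End ℂ W →ₗ[ℂ] End ℂ M) : Prop :=
  ∀ v, Φ (om ((psi F).mulShift (-κ)) v) = (2 : ℂ)⁻¹ • SO ρ κ v

variable (h2 : (2 : F) ≠ 0) {Φ : End ℂ ((l → F) → ℂ) →ₗ[ℂ] End ℂ M} {Φ' : End ℂ ((l → F) → ℂ) →ₗ[ℂ] End ℂ M'}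
include h2

theorem WT.fi (h : WT ρ κ) : ∃ Φ, Fi ρ κ Φ := by
  obtain ⟨b, hb⟩ := exists_basis_om (l := l) (shift_ne h.ne) h2
  exact ⟨b.constr ℂ fun v => (2 : ℂ)⁻¹ • SO ρ κ v, fun v => by rw [← hb, Basis.constr_basis]⟩

theorem WT.mul (h : WT ρ κ) (hΦ : Fi ρ κ Φ) {a : End ℂ W} (ha : π * a = a * π) (x : End ℂ W) :
    Φ (a * x) = Φ a * Φ x := by
  have k : ∀ u, Φ ∘ₗ LinearMap.mulLeft ℂ (om ((psi F).mulShift (-κ)) u + om ((psi F).mulShift (-κ)) (-u)) =
      LinearMap.mulLeft ℂ (SO ρ κ u) ∘ₗ Φ := fun u => om_ind (shift_ne h.ne) h2 fun v => by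
    simp only [LinearMap.comp_apply, LinearMap.mulLeft_apply, add_mul, om_mul, map_add, map_smul, hΦ _,
      mul_smul_comm, mulS h2 h.r1 h.nf h.ne h.ty, AddChar.mulShift_apply, Bc u v, map_neg, LinearMap.neg_apply,
      show SO ρ κ (-u + v) = SO ρ κ (u - v) by rw [← SO_neg, neg_add', neg_neg], neg_mul, mul_neg, neg_neg]
    module
  have k2 : Φ ∘ₗ LinearMap.mulRight ℂ x ∘ₗ (LinearMap.id + LinearMap.mulLeftRight ℂ (π, π)) =
      LinearMap.mulRight ℂ (Φ x) ∘ₗ ((2 : ℂ) • Φ) := om_ind (shift_ne h.ne) h2 fun u => by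
    simpa [hΦ _, par_mul_om, mul_assoc, par_mul_par] using LinearMap.congr_fun (k u) x
  have := LinearMap.congr_fun k2 a
  simp only [LinearMap.comp_apply, LinearMap.add_apply, LinearMap.id_apply, LinearMap.mulLeftRight_apply, ha,
    mul_assoc, par_mul_par, mul_one, ← two_smul ℂ a, map_smul, LinearMap.smul_apply,
    LinearMap.mulRight_apply] at this
  exact smul_right_injective _ two_ne_zero this

theorem WT.one (h : WT ρ κ) (hΦ : Fi ρ κ Φ) : Φ 1 = 1 := by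
  rw [← om_zero ((psi F).mulShift (-κ)), hΦ, SO_zero h2 h.ne, smul_smul]; simp

theorem WT.ex (h : WT ρ κ) (hΦ : Fi ρ κ Φ) (h' : WT ρ' κ) (hΦ' : Fi ρ' κ Φ') (g : UG B) :
    ∃ a, π * a = a * π ∧ Φ a = ρ g ∧ Φ' a = ρ' g := by
  refine gen_ind (P := fun g => ∃ a, π * a = a * π ∧ Φ a = ρ g ∧ Φ' a = ρ' g)
    ⟨1, by simp, by simp [h.one h2 hΦ], by simp [h'.one h2 hΦ']⟩
    (fun g k ⟨a, a1, a2, a3⟩ ⟨b, b1, b2, b3⟩ => ⟨a * b, by rw [← mul_assoc, a1, mul_assoc, b1, mul_assoc],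
      by rw [h.mul h2 hΦ a1, a2, b2, map_mul], by rw [h'.mul h2 hΦ' a1, a3, b3, map_mul]⟩)
    (fun v c => ⟨∑ a, ((2 * q : ℂ)⁻¹ * ∑ g, ψ (c * (κ * g ^ 2) - 2 * κ * (a * g))) •
      (om ((psi F).mulShift (-κ)) (a • v) + om ((psi F).mulShift (-κ)) (-(a • v))), ?_, ?_, ?_⟩) g
  · simp only [mul_sum, sum_mul, mul_smul_comm, smul_mul_assoc, mul_add, add_mul, par_mul_om, neg_neg, add_comm]
  · simp only [tv_eq h2 h.ne h.ty, map_sum, map_smul, map_add, hΦ _, SO_neg, ← add_smul]; norm_num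
  · simp only [tv_eq h2 h.ne h'.ty, map_sum, map_smul, map_add, hΦ' _, SO_neg, ← add_smul]; norm_num

theorem WT.iso (h : WT ρ κ) (hΦ : Fi ρ κ Φ) : ∃ ε : ℂ, ε * ε = 1 ∧ ∃ J : (π).eigenspace ε ≃ₗ[ℂ] M,
    ∀ a, π * a = a * π → ∀ x y : (π).eigenspace ε, a x = y → J y = Φ a (J x) := by
  obtain ⟨b, ε, hb, hε⟩ := H4.exists_eigenbasis π two_ne_zero (by rw [sq]; exact par_mul_par)
  have hc : ∀ i x, b.coord i (π x) = ε i * b.coord i x := fun i => LinearMap.congr_fun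
    (b.ext fun j => by by_cases e : j = i <;> simp [hb, e] : b.coord i ∘ₗ π = ε i • b.coord i)
  have cm : ∀ i, ∀ x ∈ (π).eigenspace (ε i), π * (b.coord i).smulRight x = (b.coord i).smulRight x * π :=
    fun i x hx => LinearMap.ext fun y => by
      simp only [End.mul_apply, LinearMap.smulRight_apply, map_smul, hc, End.mem_eigenspace_iff.1 hx, smul_smul,
        mul_comm]
  have := h.nt
  obtain ⟨i, hi⟩ : ∃ i, Φ ((b.coord i).smulRight (b i)) ≠ 0 := by
    by_contra! H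
    have : (1 : End ℂ W) = ∑ i, (b.coord i).smulRight (b i) := LinearMap.ext fun x => by simp
    exact one_ne_zero (by rw [← h.one h2 hΦ, this, map_sum, sum_eq_zero fun i _ => H i])
  obtain ⟨m, hm⟩ := DFunLike.ne_iff.1 hi
  have bi : b i ∈ (π).eigenspace (ε i) := End.mem_eigenspace_iff.2 (hb i)
  let J : (π).eigenspace (ε i) →ₗ[ℂ] M := LinearMap.applyₗ m ∘ₗ Φ ∘ₗ LinearMap.smulRightₗ (b.coord i) ∘ₗ
    Submodule.subtype _
  have hJ : ∀ a, π * a = a * π → ∀ x y : (π).eigenspace (ε i), a x = y → J y = Φ a (J x) := fun a ha x y e => by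
    change Φ ((b.coord i).smulRight y.1) m = (Φ a * Φ ((b.coord i).smulRight x.1)) m
    rw [← h.mul h2 hΦ ha, ← e]; congr 2; exact LinearMap.ext fun _ => by simp
  refine ⟨ε i, by rw [← sq, hε], LinearEquiv.ofBijective J ⟨(injective_iff_map_eq_zero _).2 fun x hx => ?_,
    LinearMap.range_eq_top.1 ((h.irr _ ?_).resolve_left fun e => hm (e.le ⟨⟨_, bi⟩, rfl⟩))⟩, hJ⟩
  · refine Subtype.ext (b.forall_coord_eq_zero_iff.1 fun j => by_contra fun hj => hm ?_)
    have e : ε j = ε i := mul_right_cancel₀ hj (by rw [← hc, End.mem_eigenspace_iff.1 x.2]; simp)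
    have := hJ _ (cm j (b i) (e ▸ bi)) x (b.coord j x • ⟨_, bi⟩) rfl
    rw [hx, map_zero, map_smul] at this
    exact (smul_eq_zero.1 this).resolve_left hj
  · rintro g _ ⟨x, rfl⟩
    obtain ⟨a, a1, a2, -⟩ := h.ex h2 hΦ h hΦ g
    exact ⟨⟨a x, End.mem_eigenspace_iff.2 (by
      rw [← End.mul_apply, a1, End.mul_apply, End.mem_eigenspace_iff.1 x.2, map_smul])⟩, a2 ▸ hJ a a1 x _ rfl⟩

theorem WT.dim (h : WT ρ κ) : 2 * finrank ℂ M = q ^ n + 1 ∨ 2 * finrank ℂ M + 1 = q ^ n := by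
  obtain ⟨Φ, hΦ⟩ := h.fi h2
  obtain ⟨ε, hε, J, -⟩ := h.iso h2 hΦ
  have := finrank_par (l := l) h2 ε hε
  rw [J.finrank_eq] at this
  rcases mul_self_eq_one_iff.1 hε with rfl | rfl
  · exact .inl (by exact_mod_cast this)
  · exact .inr (by exact_mod_cast eq_add_neg_iff_add_eq.1 this)

theorem WT.tr_eq (h : WT ρ κ) (h' : WT ρ' κ) (e : finrank ℂ M = finrank ℂ M') (g : UG B) :
    LinearMap.trace ℂ M (ρ g) = LinearMap.trace ℂ M' (ρ' g) := by
  obtain ⟨Φ, hΦ⟩ := h.fi h2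
  obtain ⟨Φ', hΦ'⟩ := h'.fi h2
  obtain ⟨ε, hε, J, hJ⟩ := h.iso h2 hΦ
  obtain ⟨ε', hε', J', hJ'⟩ := h'.iso h2 hΦ'
  obtain rfl : ε = ε' := by
    have e1 := finrank_par (l := l) h2 ε hε
    have e2 := finrank_par (l := l) h2 ε' hε'
    rw [J.finrank_eq, e] at e1; rw [J'.finrank_eq] at e2
    linear_combination e2 - e1
  obtain ⟨a, a1, a2, a3⟩ := h.ex h2 hΦ h' hΦ' g
  rw [← LinearMap.trace_conj' _ (J.symm ≪≫ₗ J')]
  congr 1
  refine LinearMap.ext fun x => ?_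
  obtain ⟨x, rfl⟩ := J'.surjective x
  have hx : a x ∈ (π).eigenspace ε := End.mem_eigenspace_iff.2 (by
    rw [← End.mul_apply, a1, End.mul_apply, End.mem_eigenspace_iff.1 x.2, map_smul])
  simp [LinearEquiv.conj_apply_apply, ← a2, ← a3, ← hJ a a1 x ⟨_, hx⟩ rfl, ← hJ' a a1 x ⟨_, hx⟩ rfl]

omit h2 in
theorem WT.sq [FiniteDimensional ℂ M] {κ' : F} (h : WT ρ κ) (h' : WT ρ' κ')
    (e : ∀ g, LinearMap.trace ℂ M (ρ g) = LinearMap.trace ℂ M' (ρ' g)) : ∃ f, κ' = κ * f ^ 2 := by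
  have := h.nt
  obtain ⟨p, a, m, ha, hm, h0⟩ := h.nf.ex
  obtain ⟨f, rfl⟩ := h.ty p a m hm h0
  obtain ⟨x, hx⟩ : ∃ x, Pr (tt ρ' p) (κ * f ^ 2) x ≠ 0 := by
    by_contra! H
    have := RD.eq_zero_of_tr (P := Pr (tt ρ p) (κ * f ^ 2))
      (LinearMap.ext fun x => by rw [End.mul_apply, pr_eig ((ad_t p).pr_mem x), if_pos rfl]) (by
        rw [← map_zero (LinearMap.trace ℂ M'), ← show Pr (tt ρ' p) (κ * f ^ 2) = 0 from LinearMap.ext H]
        simp only [Pr, map_smul, map_sum, tt, e])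
    exact h0 (by rw [← if_pos (c := κ * f ^ 2 = κ * f ^ 2) rfl (t := m), ← pr_eig hm, this]; rfl)
  obtain ⟨f', e⟩ := h'.ty p _ _ ((ad_t p).pr_mem x) hx
  have : f' ≠ 0 := by rintro rfl; exact ha (by simpa using e)
  exact ⟨f / f', by field_simp; linear_combination -e⟩

theorem classify [FiniteDimensional ℂ M] [Nontrivial M] (hI : Irr ρ) (h1 : finrank ℂ M ≠ 1)
    (h : 2 * (q + 1) * finrank ℂ M < (q ^ n - 1) * (q ^ n - q)) : ∃ κ, WT ρ κ := by
  have hR : R1 ρ := by_contra fun hR => h.not_ge (bound h2 hR)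
  obtain ⟨κ, h3, h4⟩ := exists_ty h2 hR (hI.nf h1) hI
  exact ⟨κ, h3, hR, hI.nf h1, h4, hI, ‹_›⟩

theorem exists_irr (ε : ℂ) : ∃ ρ : UG B →* End ℂ ((π).eigenspace ε), Irr ρ := by
  obtain ⟨ω, h3, h4⟩ := exists_weil (l := l) psi_ne h2
  obtain ⟨b, hb⟩ := exists_basis_om (l := l) psi_ne h2
  have := hC.four
  have : Nontrivial (l ⊕ l → F) := Module.nontrivial_of_finrank_pos (R := F) (by omega)
  obtain ⟨v0, hv0⟩ := exists_ne (0 : l ⊕ l → F)
  have key : ∀ T : End ℂ W, (∀ g, T * ω g = ω g * T) → ∃ s t : ℂ, T = s • 1 + t • ∑ v, om ψ v := fun T hT => by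
    have k : ∀ (g : UG B) v, b.repr T (g • v) = b.repr T v := fun g v => by
      have e : T = ∑ v, b.repr T v • b (g • v) := ((Group.isUnit g).map ω).mul_right_cancel (by
        rw [hT]; conv_lhs => rw [← b.sum_repr T]
        simp only [mul_sum, sum_mul, hb, mul_smul_comm, smul_mul_assoc, h3, g_def])
      conv_lhs => rw [e]
      simp [Finsupp.single_apply]
    refine ⟨b.repr T 0 - b.repr T v0, b.repr T v0, b.repr.injective (Finsupp.ext fun v => ?_)⟩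
    rw [← om_zero ψ]
    simp only [← hb, map_add, map_smul, map_sum, Basis.repr_self]
    by_cases hv : v = 0
    · simp [hv, Finsupp.single_apply]
    · obtain ⟨g, rfl⟩ := trans1 (hC := hC) hv0 hv
      simp [k, Finsupp.single_apply, Ne.symm hv]
  obtain ⟨s, t, e⟩ := key π h4
  have ht : t ≠ 0 := by
    rintro rfl
    have e1 := par_mul_om ψ v0
    rw [← mul_one (om ψ v0), ← par_mul_par (l := l), e] at e1
    have e2 : om ψ v0 = om ψ (-v0) := by
      have := par_mul_par (l := l) (F := F)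
      have e3 := par_mul_om ψ v0
      rw [e, zero_smul, add_zero] at this e3
      rw [smul_mul_assoc, mul_smul_comm, one_mul, mul_one] at e3
      exact smul_right_injective _ (by rintro rfl; simp at this) e3
    rw [← hb, ← hb, b.injective.eq_iff, eq_neg_iff_add_eq_zero, ← two_smul F] at e2
    exact hv0 ((smul_eq_zero.1 e2).resolve_left h2)
  let U : Subrepresentation ω := ⟨(π).eigenspace ε, fun g x hx => by
    rw [End.mem_eigenspace_iff] at hx ⊢
    rw [← End.mul_apply, h4, End.mul_apply, hx, map_smul]⟩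
  refine ⟨U.toRepresentation, fun N hN => or_iff_not_imp_left.2 fun h0 => eq_top_iff.2 fun y _ => ?_⟩
  obtain ⟨x, hx, x0⟩ := Submodule.exists_mem_ne_zero_of_ne_bot h0
  obtain ⟨P, hP⟩ := LinearMap.exists_leftInverse_of_injective (V := N) (((π).eigenspace ε).subtype ∘ₗ N.subtype)
    (LinearMap.ker_eq_bot.2 fun _ _ h => by exact Subtype.ext (Subtype.ext h))
  have := Fintype.ofFinite (UG B)
  obtain ⟨s', t', e'⟩ := key (∑ g, ω g * (((π).eigenspace ε).subtype ∘ₗ N.subtype ∘ₗ P) * ω g⁻¹) fun k => by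
    rw [sum_mul, mul_sum]
    exact (Fintype.sum_equiv (Equiv.mulLeft k) _ _ fun g => by
      rw [Equiv.coe_mulLeft, mul_assoc _ _ (ω k), ← map_mul]; simp [mul_assoc]).symm
  have e1 : ∀ z : (π).eigenspace ε, ∑ g, U.toRepresentation g (P (ω g⁻¹ z)) = (s' + t' / t * (ε - s)) • z :=
    fun z => Subtype.ext (by
      have k1 := LinearMap.congr_fun e' z
      have k2 := LinearMap.congr_fun e z
      rw [End.mem_eigenspace_iff.1 z.2] at k2
      simp only [LinearMap.sum_apply, LinearMap.add_apply, LinearMap.smul_apply, End.one_apply] at k1 k2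
      rw [Submodule.coe_sum, Submodule.coe_smul, add_smul, mul_smul, sub_smul, k2, add_sub_cancel_left, smul_smul,
        div_mul_cancel₀ _ ht, ← k1]
      rfl)
  have e2 := e1 x
  rw [sum_congr rfl fun g _ => show _ = x by
    rw [show P (ω g⁻¹ x) = _ from LinearMap.congr_fun hP ⟨_, hN g⁻¹ x hx⟩]
    change (U.toRepresentation g * U.toRepresentation g⁻¹) x = x
    rw [← map_mul]; simp, sum_const, ← Nat.cast_smul_eq_nsmul ℂ] at e2
  rw [← N.smul_mem_iff (show (s' + t' / t * (ε - s)) ≠ 0 by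
    rw [← smul_left_injective ℂ x0 e2]; simp), ← e1]
  exact N.sum_mem fun g _ => hN g _ (P _).2

omit h2 in
theorem exists_twist {ν : F} (hν : ν ≠ 0) : ∃ φ : UG B ≃* UG B, ∀ {M : Type} [AddCommGroup M] [Module ℂ M]
    (ρ : UG B →* End ℂ M) (κ : F), Ty ρ κ → Ty (ρ.comp φ.toMonoidHom) (κ * ν) := by
  let δ : (l ⊕ l → F) ≃ₗ[F] (l ⊕ l → F) := LinearEquiv.piCongrRight fun i =>
    LinearEquiv.smulOfNeZero F F (Sum.elim (fun _ => ν) (fun _ => 1) i) (by cases i <;> simp [hν])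
  have hδ : ∀ x y, B (δ x) (δ y) = ν * B x y := fun x y => by
    simp only [spB_apply', mul_sum]
    exact sum_congr rfl fun i _ => by simp [δ]; ring
  refine ⟨UGcongr δ hν hδ, fun ρ κ h p a m hm h0 => ?_⟩
  obtain ⟨f, e⟩ := h (δ p) (ν * a) m (mem_Es.2 fun c => by
    rw [← mul_assoc, ← mem_Es.1 hm, tt, tt]
    refine congrArg (fun g => ρ g m) (UG_ext fun x => ?_)
    obtain ⟨x, rfl⟩ := δ.surjective x
    change tv B (δ p) c • δ x = δ (tv B p (c * ν) • δ.symm (δ x))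
    simp [t_apply, hδ, mul_assoc]) h0
  exact ⟨f / ν, by field_simp; linear_combination e⟩

end Cfsg.Agent.H26.WC
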