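import Mathlib
import Cfsg.Agent.H26.WC4
import Cfsg.Agent.H4.Rep1

/-! The Weil characters of symplectic groups. -/

set_option autoImplicit false
set_option linter.unusedSectionVars false

namespace Cfsg.Agent.H26.WC

open Module H12 MS Finset H7.LS

variable {F : Type*} [Field F] [Fintype F] {M : Type*} [AddCommGroup M] [Module ℂ M]
  {l : Type} [Fintype l] [DecidableEq l] [hC : SC (spB l F)] {ρ : UG (spB l F) →* End ℂ M}
  {G : Type*} [Group G] (e : G ≃* UG (spB l F))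

local notation "q" => Fintype.card F
local notation "B" => spB l F
local notation "n" => Fintype.card l

theorem model (χ : IrrCharacter G) : ∃ (m : ℕ) (ρ : UG B →* End ℂ (Fin m → ℂ)), Irr ρ ∧
    Nontrivial (Fin m → ℂ) ∧ χ.1 1 = m ∧ ∀ g, χ.1 g = LinearMap.trace ℂ _ (ρ (e g)) := by
  obtain ⟨_, m, σ, hσ, rfl⟩ := χ
  refine ⟨m, σ.comp e.symm.toMonoidHom, fun N hN => ?_, H4.nontrivial_of_isIrreducible σ, by simp,
    fun g => by simp [Representation.character]⟩
  exact (eq_bot_or_eq_top (⟨N, fun g x hx => by simpa using hN (e g) x hx⟩ : Subrepresentation σ)).imp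
    (congrArg Subrepresentation.toSubmodule) (congrArg Subrepresentation.toSubmodule)

theorem back [FiniteDimensional ℂ M] [Nontrivial M] (h : Irr ρ) :
    ∃ χ : IrrCharacter G, ∀ g, χ.1 g = LinearMap.trace ℂ _ (ρ (e g)) := by
  let σ : Representation ℂ G M := ρ.comp e.toMonoidHom
  have : Nontrivial (Subrepresentation σ) := ⟨⊥, ⊤, fun h => bot_ne_top (congrArg (·.toSubmodule) h)⟩
  have : σ.IsIrreducible := ⟨fun N => (h N.toSubmodule fun g x hx => by
    simpa [σ] using N.apply_mem_toSubmodule (e.symm g) hx).imp (fun h => Subrepresentation.toSubmodule_injective h)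
      fun h => Subrepresentation.toSubmodule_injective h⟩
  exact ⟨⟨_, H4.isIrrCharacter_character σ⟩, fun _ => rfl⟩

include e in
theorem two (h2 : (2 : F) ≠ 0) (hq : 3 ≤ q) (hn : 2 ≤ n) {ε : ℂ} (hε : ε * ε = 1) :
    Nat.card {χ : IrrCharacter G // χ.1 1 = (q ^ n + ε) / 2} = 2 := by
  have cl : ∀ {m : ℕ} [Nontrivial (Fin m → ℂ)] {ρ : UG B →* End ℂ (Fin m → ℂ)}, Irr ρ → (m : ℂ) = (q ^ n + ε) / 2 →
      ∃ κ, WT ρ κ := fun {m} _ ρ hI hm => by
    have : 2 * m = q ^ n + 1 ∨ 2 * m + 1 = q ^ n := (mul_self_eq_one_iff.1 hε).imp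
      (fun h => by rw [h] at hm; exact_mod_cast (by linear_combination 2 * hm : (2 * m : ℂ) = q ^ n + 1))
      (fun h => by rw [h] at hm; exact_mod_cast (by linear_combination 2 * hm : (2 * m + 1 : ℂ) = q ^ n))
    have h3 : q * q ≤ q ^ n := by rw [← sq]; exact Nat.pow_le_pow_right (by omega) hn
    have h4 : 3 * q ≤ q * q := Nat.mul_le_mul_right _ hq
    refine classify h2 hI (by simp; omega) ?_
    rw [finrank_fin_fun]
    obtain ⟨k, hk⟩ : ∃ k, q ^ n = k + q := ⟨q ^ n - q, by omega⟩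
    obtain ⟨j, hj⟩ : ∃ j, q = j + 1 := ⟨q - 1, by omega⟩
    rw [hk, Nat.add_sub_cancel, hj, ← add_assoc, Nat.add_sub_cancel]
    rw [hk, hj] at this h3
    have : 2 * m ≤ k + j + 2 := by omega
    have : 2 ≤ j := by omega
    have : j + 4 ≤ k := by nlinarith
    nlinarith [Nat.mul_le_mul_left (j + 2) ‹2 * m ≤ _›, Nat.mul_le_mul_left (k + j) this]
  obtain ⟨ρ0, h0⟩ := exists_irr (l := l) h2 ε
  have d0 := finrank_par (l := l) h2 ε hε
  have : Nontrivial ((par l F).eigenspace ε) := Module.nontrivial_of_finrank_pos (R := ℂ)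
    (Nat.pos_of_ne_zero fun h => by
      have : 1 < q ^ n := Nat.one_lt_pow (by omega) (by omega)
      rw [h] at d0
      have e : ((q ^ n * q ^ n : ℕ) : ℂ) = (1 : ℕ) := by
        push_cast; linear_combination hε - (q ^ n - ε : ℂ) * d0
      nlinarith [Nat.cast_injective e])
  obtain ⟨χ0, c0⟩ := back e h0
  have d1 : χ0.1 1 = (q ^ n + ε) / 2 := by rw [c0, ← d0]; simp
  obtain ⟨m, ρ, hI, _, hm, c1⟩ := model e χ0
  obtain ⟨κ, hκ⟩ := cl hI (hm ▸ d1)
  obtain ⟨ν, hν⟩ := FiniteField.exists_nonsquare (F := F) fun h => h2 (by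
    exact_mod_cast h ▸ ringChar.Nat.cast_ringChar (R := F))
  have ν0 : ν ≠ 0 := by rintro rfl; simp at hν
  obtain ⟨φ, hφ⟩ := exists_twist (l := l) ν0
  have hI' : Irr (ρ.comp φ.toMonoidHom) := fun N hN => hI N fun g x hx => by simpa using hN (φ.symm g) x hx
  obtain ⟨κ', hκ'⟩ := cl hI' (hm ▸ d1)
  have hW : WT (ρ.comp φ.toMonoidHom) (κ * ν) := { hκ' with ne := mul_ne_zero hκ.ne ν0, ty := hφ ρ κ hκ.ty }
  obtain ⟨χ1, c2⟩ := back e hI'
  refine Nat.card_eq_two_iff.2 ⟨⟨χ0, d1⟩, ⟨χ1, by rw [c2, ← d1, c1]; simp⟩, fun h => hν ?_,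
    Set.eq_univ_of_forall fun ⟨χ, d⟩ => ?_⟩
  · obtain ⟨f, hf⟩ := hκ.sq hW fun g => by
      rw [← e.apply_symm_apply g, ← c1, ← c2, Subtype.mk.inj h]
    exact ⟨f, by rw [← sq, mul_left_cancel₀ hκ.ne hf]⟩
  · obtain ⟨m', ρ', hJ, _, hm', c3⟩ := model e χ
    obtain ⟨κ', hκ'⟩ := cl hJ (hm' ▸ d)
    have em : finrank ℂ (Fin m' → ℂ) = finrank ℂ (Fin m → ℂ) := by
      rw [finrank_fin_fun, finrank_fin_fun]; exact_mod_cast hm'.symm.trans (d.trans (d1.symm.trans hm))
    simp only [Set.mem_insert_iff, Set.mem_singleton_iff, Subtype.ext_iff]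
    by_cases hs : IsSquare (κ' / κ)
    · obtain ⟨t, ht⟩ := hs
      have : WT ρ' κ := { hκ' with
        ne := hκ.ne, ty := Ty.mul (t := t) (by rw [sq, ← ht, mul_div_cancel₀ _ hκ.ne]; exact hκ'.ty) }
      exact .inl (funext fun g => by rw [c3, c1, this.tr_eq h2 hκ em])
    · obtain ⟨t, ht⟩ : IsSquare (κ' / κ / ν) := by
        classical
        rw [← quadraticChar_one_iff_isSquare (by simp [hκ.ne, hκ'.ne, ν0]), div_eq_mul_inv _ ν, map_mul,
          quadraticChar_neg_one_iff_not_isSquare.2 hs, quadraticChar_neg_one_iff_not_isSquare.2 (by simpa)]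
        simp
      have : WT ρ' (κ * ν) := { hκ' with
        ne := hW.ne, ty := Ty.mul (t := t) (by rw [sq, ← ht, div_div, mul_div_cancel₀ _ hW.ne]; exact hκ'.ty) }
      exact .inr (funext fun g => by rw [c3, c2, this.tr_eq h2 hW em])

end Cfsg.Agent.H26.WC
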